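import Mathlib
import Cfsg.Prelude.Def_Solvable
import Cfsg.Agent.Solv.Core
import Cfsg.Agent.H97.Gal

set_option autoImplicit false

/-!
Groups all of whose subgroups have at most m conjugacy classes.
-/

namespace Cfsg.Agent.H97.KR

open Cfsg

/-- all subgroups of `Q` have at most `m` conjugacy classes -/
def KB (Q : Type) [Group Q] (m : ℕ) : Prop := ∀ X : Subgroup Q, Nat.card (ConjClasses X) ≤ m

theorem kc_surj {X Y : Type} [Group X] [Group Y] [Finite X] (f : X →* Y) (hf : Function.Surjective f) :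
    Nat.card (ConjClasses Y) ≤ Nat.card (ConjClasses X) := by
  have : Finite (ConjClasses X) := Finite.of_surjective ConjClasses.mk ConjClasses.mk_surjective
  refine Nat.card_le_card_of_surjective (ConjClasses.map f) ?_
  intro c
  obtain ⟨y, rfl⟩ := ConjClasses.mk_surjective c
  obtain ⟨x, rfl⟩ := hf y
  exact ⟨ConjClasses.mk x, rfl⟩

theorem kc_equiv {X Y : Type} [Group X] [Group Y] [Finite X] (e : X ≃* Y) :
    Nat.card (ConjClasses Y) = Nat.card (ConjClasses X) := by
  have : Finite Y := Finite.of_equiv X e.toEquiv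
  exact le_antisymm (kc_surj e.toMonoidHom e.surjective) (kc_surj e.symm.toMonoidHom e.symm.surjective)

theorem kc_le_card {X : Type} [Group X] [Finite X] : Nat.card (ConjClasses X) ≤ Nat.card X :=
  Nat.card_le_card_of_surjective ConjClasses.mk ConjClasses.mk_surjective

theorem KB.mono {Q : Type} [Group Q] {m n : ℕ} (h : KB Q m) (hmn : m ≤ n) : KB Q n := fun X => (h X).trans hmn

theorem KB.of_card {Q : Type} [Group Q] [Finite Q] {m : ℕ} (h : Nat.card Q ≤ m) : KB Q m := fun X =>
  (kc_le_card (X := X)).trans ((Subgroup.card_le_card_group X).trans h)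

theorem KB.of_injective {Q R : Type} [Group Q] [Group R] [Finite Q] (f : Q →* R) (hf : Function.Injective f) {m : ℕ}
    (h : KB R m) : KB Q m := by
  intro X
  rw [← kc_equiv (X.equivMapOfInjective f hf)]
  exact h _

theorem KB.of_surjective {Q R : Type} [Group Q] [Group R] [Finite Q] (f : Q →* R) (hf : Function.Surjective f) {m : ℕ}
    (h : KB Q m) : KB R m := by
  intro X
  refine le_trans (kc_surj (X := X.comap f) (f.subgroupComap X) ?_) (h _)
  rintro ⟨y, hy⟩
  obtain ⟨x, rfl⟩ := hf y
  exact ⟨⟨x, hy⟩, rfl⟩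

theorem KB.of_ker {Q R : Type} [Group Q] [Group R] [Finite Q] (f : Q →* R) {a b : ℕ} (h1 : KB f.ker a)
    (h2 : KB R b) : KB Q (a * b) := by
  intro X
  have hle := Cfsg.Agent.H97.Gal.result (f.comp X.subtype).ker
  refine hle.trans (Nat.mul_le_mul ?_ ?_)
  · let g : ↥(f.comp X.subtype).ker →* ↥f.ker :=
      { toFun := fun x => ⟨((x : X) : Q), by
          have := x.2
          rw [MonoidHom.mem_ker] at this ⊢
          exact this⟩
        map_one' := rfl
        map_mul' := fun _ _ => rfl }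
    have hg : Function.Injective g := by
      intro x y hxy
      have : ((x : X) : Q) = ((y : X) : Q) := congrArg (fun z : ↥f.ker => (z : Q)) hxy
      exact Subtype.ext (Subtype.ext this)
    have h3 := KB.of_injective g hg h1 ⊤
    rw [← kc_equiv (Subgroup.topEquiv (G := ↥(f.comp X.subtype).ker))] at h3
    exact h3
  · have h3 := KB.of_injective (QuotientGroup.kerLift (f.comp X.subtype)) (QuotientGroup.kerLift_injective _) h2 ⊤
    rw [← kc_equiv (Subgroup.topEquiv (G := ↥X ⧸ (f.comp X.subtype).ker))] at h3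
    exact h3

theorem KB.self {Q : Type} [Group Q] [Finite Q] {m : ℕ} (h : KB Q m) : Nat.card (ConjClasses Q) ≤ m := by
  have h3 := h ⊤
  rwa [← kc_equiv (Subgroup.topEquiv (G := Q))] at h3

theorem KB.of_normal {Q : Type} [Group Q] [Finite Q] (N : Subgroup Q) [N.Normal] {a b : ℕ} (h1 : KB N a)
    (h2 : KB (Q ⧸ N) b) : KB Q (a * b) := by
  refine KB.of_ker (QuotientGroup.mk' N) ?_ h2
  rw [QuotientGroup.ker_mk']
  exact h1

theorem KB.subgroup {Q : Type} [Group Q] [Finite Q] (X : Subgroup Q) {m : ℕ} (h : KB Q m) : KB X m :=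
  KB.of_injective X.subtype X.subtype_injective h

theorem KB.prod {Q R : Type} [Group Q] [Group R] [Finite Q] [Finite R] {a b : ℕ} (h1 : KB Q a) (h2 : KB R b) :
    KB (Q × R) (a * b) := by
  refine KB.of_ker (MonoidHom.snd Q R) ?_ h2
  refine KB.of_injective ((MonoidHom.fst Q R).comp (MonoidHom.snd Q R).ker.subtype) ?_ h1
  rintro ⟨⟨x, y⟩, hxy⟩ ⟨⟨x', y'⟩, hxy'⟩ h
  have h1 : y = 1 := hxy
  have h2 : y' = 1 := hxy'
  have h3 : x = x' := h
  exact Subtype.ext (Prod.ext h3 (h1.trans h2.symm))

theorem KB.pi {n : ℕ} : ∀ {Q : Fin n → Type} [∀ i, Group (Q i)] [∀ i, Finite (Q i)] {m : Fin n → ℕ}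
    (_ : ∀ i, KB (Q i) (m i)), KB (∀ i, Q i) (∏ i, m i) := by
  induction n with
  | zero =>
    intro Q _ _ m h
    exact KB.of_card (by simp)
  | succ n ih =>
    intro Q _ _ m h
    rw [Fin.prod_univ_succ]
    have h1 := KB.prod (h 0) (ih (Q := fun i => Q i.succ) (m := fun i => m i.succ) (fun i => h i.succ))
    refine KB.of_injective (R := Q 0 × (∀ i : Fin n, Q i.succ))
      { toFun := fun x => (x 0, fun i => x i.succ), map_one' := rfl, map_mul' := fun _ _ => rfl } ?_ h1
    intro x y hxy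
    simp only [MonoidHom.coe_mk, OneHom.coe_mk, Prod.mk.injEq] at hxy
    funext i
    refine Fin.cases hxy.1 (fun i => congrFun hxy.2 i) i

end Cfsg.Agent.H97.KR
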