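import Cfsg.Agent.H97.KRDef

/-!
# S4265 piece A (owner: helper57)
-/

set_option autoImplicit false

namespace Cfsg.Agent.H97.KR

open Cfsg

namespace PA

variable {G : Type} [Group G] [Finite G] {V : Type} [AddCommGroup V] [Module ℂ V] [FiniteDimensional ℂ V]

theorem ss (ρ : G →* (V →ₗ[ℂ] V)) (g : G) : Module.End.IsSemisimple (ρ g) := by
  have hn : ((Nat.card G : ℕ) : ℂ) ≠ 0 := by exact_mod_cast Nat.card_pos.ne'
  refine Module.End.isSemisimple_of_squarefree_aeval_eq_zero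
    (p := Polynomial.X ^ Nat.card G - 1) ?_ ?_
  · exact (Polynomial.X_pow_sub_one_separable_iff.mpr hn).squarefree
  · rw [map_sub, map_pow, Polynomial.aeval_X, map_one, sub_eq_zero]
    have h := map_pow ρ g (Nat.card G)
    rw [pow_card_eq_one', map_one] at h
    exact h.symm

/-- simultaneous eigenspaces -/
noncomputable def E (ρ : G →* (V →ₗ[ℂ] V)) (A : Subgroup G) (χ : A → ℂ) : Submodule ℂ V :=
  ⨅ a : A, Module.End.maxGenEigenspace (ρ a) (χ a)

theorem mem_E (ρ : G →* (V →ₗ[ℂ] V)) (A : Subgroup G) (χ : A → ℂ) (v : V) :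
    v ∈ E ρ A χ ↔ ∀ a : A, ρ a v = χ a • v := by
  rw [E, Submodule.mem_iInf]
  refine forall_congr' fun a => ?_
  rw [(Module.End.IsSemisimple.isFinitelySemisimple (ss ρ a)).maxGenEigenspace_eq_eigenspace,
    Module.End.mem_eigenspace_iff]

theorem commute (ρ : G →* (V →ₗ[ℂ] V)) (A : Subgroup G) (hA : ∀ a ∈ A, ∀ b ∈ A, a * b = b * a) (a b : A) :
    Commute (ρ a) (ρ b) := by
  show ρ a * ρ b = ρ b * ρ a
  rw [← map_mul, ← map_mul, hA a a.2 b b.2]

theorem top (ρ : G →* (V →ₗ[ℂ] V)) (A : Subgroup G) (hA : ∀ a ∈ A, ∀ b ∈ A, a * b = b * a) :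
    ⨆ χ, E ρ A χ = ⊤ :=
  Module.End.iSup_iInf_maxGenEigenspace_eq_top_of_iSup_maxGenEigenspace_eq_top_of_commute
    (fun a : A => ρ a) (fun a b _ => commute ρ A hA a b)
    (fun a => Module.End.iSup_maxGenEigenspace_eq_top _)

theorem indep (ρ : G →* (V →ₗ[ℂ] V)) (A : Subgroup G) (hA : ∀ a ∈ A, ∀ b ∈ A, a * b = b * a) :
    iSupIndep (E ρ A) :=
  Module.End.independent_iInf_maxGenEigenspace_of_forall_mapsTo
    (fun a : A => ρ a) (fun a b φ => Module.End.mapsTo_maxGenEigenspace_of_comm (commute ρ A hA b a) φ)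

theorem inv_apply (ρ : G →* (V →ₗ[ℂ] V)) (g : G) (v : V) : ρ g (ρ g⁻¹ v) = v := by
  have h : (ρ g * ρ g⁻¹) v = v := by rw [← map_mul, mul_inv_cancel, map_one]; rfl
  exact h

theorem map_E (ρ : G →* (V →ₗ[ℂ] V)) (A : Subgroup G) [hAn : A.Normal] (χ : A → ℂ) (g : G) :
    (E ρ A χ).map (ρ g) = E ρ A (fun a => χ ⟨g⁻¹ * a * g, by
      have := hAn.conj_mem a a.2 g⁻¹
      rwa [inv_inv] at this⟩) := by
  ext v
  rw [Submodule.mem_map, mem_E]
  constructor
  · rintro ⟨w, hw, rfl⟩ a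
    rw [mem_E] at hw
    have h1 := hw ⟨g⁻¹ * a * g, by
      have := hAn.conj_mem a a.2 g⁻¹
      rwa [inv_inv] at this⟩
    have h2 : ρ a (ρ g w) = ρ g (ρ (g⁻¹ * a * g) w) := by
      have h3 : (ρ a * ρ g) w = (ρ g * ρ (g⁻¹ * a * g)) w := by
        rw [← map_mul, ← map_mul]
        congr 2
        group
      exact h3
    rw [h2]
    have h4 : ρ (g⁻¹ * (a : G) * g) w = χ ⟨g⁻¹ * a * g, _⟩ • w := h1
    rw [h4, map_smul]
  · intro hv
    refine ⟨ρ g⁻¹ v, ?_, inv_apply ρ g v⟩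
    rw [mem_E]
    intro a
    have h1 := hv ⟨g * a * g⁻¹, hAn.conj_mem a a.2 g⟩
    have h2 : ρ a (ρ g⁻¹ v) = ρ g⁻¹ (ρ (g * a * g⁻¹) v) := by
      have h3 : (ρ a * ρ g⁻¹) v = (ρ g⁻¹ * ρ (g * a * g⁻¹)) v := by
        rw [← map_mul, ← map_mul]
        congr 2
        group
      exact h3
    rw [h2]
    have h4 : ρ (g * (a : G) * g⁻¹) v = χ a • v := by
      have h5 : ρ (g * (a : G) * g⁻¹) v = χ ⟨g⁻¹ * (g * a * g⁻¹) * g, _⟩ • v := h1
      rw [h5]
      congr 2
      apply Subtype.ext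
      show g⁻¹ * (g * a * g⁻¹) * g = (a : G)
      group
    rw [h4, map_smul]

end PA

theorem abelian_scalar {G : Type} [Group G] [Finite G] {V : Type}
    [AddCommGroup V] [Module ℂ V] [FiniteDimensional ℂ V] (ρ : G →* (V →ₗ[ℂ] V)) (h : ¬ Imprim ρ)
    (A : Subgroup G) [A.Normal] (hA : ∀ a ∈ A, ∀ b ∈ A, a * b = b * a) (a : G) (ha : a ∈ A) :
    ∃ c : ℂ, ρ a = c • LinearMap.id := by
  classical
  let I := {χ : A → ℂ // PA.E ρ A χ ≠ ⊥}
  have hfin : Finite I := (WellFoundedGT.finite_ne_bot_of_iSupIndep (PA.indep ρ A hA)).to_subtype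
  by_cases hk : 2 ≤ Nat.card I
  · exfalso
    apply h
    let e : Fin (Nat.card I) ≃ I := (Finite.equivFin I).symm
    have hint : DirectSum.IsInternal (PA.E ρ A) :=
      DirectSum.isInternal_submodule_of_iSupIndep_of_iSup_eq_top (PA.indep ρ A hA) (PA.top ρ A hA)
    have hint2 : DirectSum.IsInternal (fun i : I => PA.E ρ A i) := DirectSum.isInternal_ne_bot_iff.mpr hint
    refine ⟨Nat.card I, fun i => PA.E ρ A (e i), hk, ?_, fun i => (e i).2, ?_⟩
    · apply DirectSum.isInternal_submodule_of_iSupIndep_of_iSup_eq_top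
      · exact hint2.submodule_iSupIndep.comp e.injective
      · rw [← hint2.submodule_iSup_eq_top]
        exact e.surjective.iSup_comp (fun i : I => PA.E ρ A i)
    · intro g i
      have h1 := PA.map_E ρ A (e i : A → ℂ) g
      have h2 : (PA.E ρ A (e i)).map (ρ g) ≠ ⊥ := by
        intro h3
        apply (e i).2
        rw [eq_bot_iff]
        intro v hv
        have h4 : ρ g v ∈ (PA.E ρ A (e i)).map (ρ g) := ⟨v, hv, rfl⟩
        rw [h3, Submodule.mem_bot] at h4
        have h5 : ρ g⁻¹ (ρ g v) = v := by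
          have := PA.inv_apply ρ g⁻¹ v
          rwa [inv_inv] at this
        rw [Submodule.mem_bot, ← h5, h4, map_zero]
      rw [h1] at h2
      refine ⟨e.symm ⟨_, h2⟩, ?_⟩
      beta_reduce
      rw [Equiv.apply_symm_apply]
      exact h1
  · -- at most one eigenspace
    push Not at hk
    by_cases hne : Nonempty I
    · obtain ⟨χ⟩ := hne
      have hsub : ∀ ψ : I, ψ = χ := by
        intro ψ
        have h1 : Nat.card I ≤ 1 := by omega
        haveI := (Finite.card_le_one_iff_subsingleton (α := I)).mp h1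
        exact Subsingleton.elim _ _
      have htop : PA.E ρ A χ = ⊤ := by
        rw [eq_top_iff, ← PA.top ρ A hA]
        apply iSup_le
        intro ψ
        by_cases h2 : PA.E ρ A ψ = ⊥
        · rw [h2]; exact bot_le
        · have := hsub ⟨ψ, h2⟩
          rw [← this]
      refine ⟨χ.1 ⟨a, ha⟩, ?_⟩
      ext v
      have h3 : v ∈ PA.E ρ A χ := by rw [htop]; trivial
      rw [PA.mem_E] at h3
      exact h3 ⟨a, ha⟩
    · refine ⟨0, ?_⟩
      have htop : (⊤ : Submodule ℂ V) = ⊥ := by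
        rw [eq_bot_iff, ← PA.top ρ A hA]
        apply iSup_le
        intro ψ
        by_contra h2
        exact hne ⟨⟨ψ, fun h3 => h2 (by rw [h3])⟩⟩
      ext v
      have h3 : v ∈ (⊥ : Submodule ℂ V) := by rw [← htop]; trivial
      rw [Submodule.mem_bot] at h3
      rw [h3, map_zero, map_zero]

end Cfsg.Agent.H97.KR
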