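import Cfsg.Agent.H97.KRDef

set_option autoImplicit false

/-!
Pieces C1, C2 for S4265.
-/

namespace Cfsg.Agent.H97.KR

open Cfsg

theorem exists_crit {G : Type} [Group G] [Finite G] [Group.IsSolvable G]
    (hab : ∀ A : Subgroup G, A.Normal → (∀ a ∈ A, ∀ b ∈ A, a * b = b * a) → A ≤ Subgroup.center G) :
    fittingSubgroup G = ⊤ ∨ ∃ (E : Subgroup G) (p : ℕ), Crit E p := by
  classical
  by_cases hZ : Subgroup.center G = ⊤
  · left
    rw [eq_top_iff]
    refine Solv.le_fitting (N := (⊤ : Subgroup G)) inferInstance ?_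
    have hcomm : ∀ a b : (⊤ : Subgroup G), a * b = b * a := by
      intro a b
      have hb : (b : G) ∈ Subgroup.center G := by rw [hZ]; trivial
      exact Subtype.ext (Subgroup.mem_center_iff.1 hb a)
    letI : CommGroup (⊤ : Subgroup G) := { (inferInstance : Group (⊤ : Subgroup G)) with mul_comm := hcomm }
    exact CommGroup.isNilpotent
  · right
    set S : Set (Subgroup G) := {N | N.Normal ∧ Subgroup.center G ≤ N ∧ N ≠ Subgroup.center G} with hS
    obtain ⟨N, ⟨hNn, hZN, hne⟩, hmin⟩ := wellFounded_lt.has_min S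
      ⟨⊤, inferInstance, le_top, fun h => hZ h.symm⟩
    have hmin' : ∀ M : Subgroup G, M.Normal → Subgroup.center G ≤ M → M ≤ N →
        M = Subgroup.center G ∨ M = N := by
      intro M hM hZM hMN
      by_contra hcon
      push Not at hcon
      exact hmin M ⟨hM, hZM, hcon.1⟩ (lt_of_le_of_ne hMN hcon.2)
    set π := QuotientGroup.mk' (Subgroup.center G) with hπ
    have hπs : Function.Surjective π := QuotientGroup.mk'_surjective _
    have hker : π.ker = Subgroup.center G := QuotientGroup.ker_mk' _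
    haveI : (N.map π).Normal := hNn.map π hπs
    have hcomap : (N.map π).comap π = N := by
      rw [Subgroup.comap_map_eq, hker, sup_eq_left.2 hZN]
    have hN1 : N.map π ≠ ⊥ := by
      intro h
      rw [h, MonoidHom.comap_bot, hker] at hcomap
      exact hne hcomap.symm
    have hm : ∀ M : Subgroup (G ⧸ Subgroup.center G), M.Normal → M ≤ N.map π → M = ⊥ ∨ M = N.map π := by
      intro M hM hMN
      have h1 : Subgroup.center G ≤ M.comap π := hker.ge.trans (Subgroup.ker_le_comap _ _)
      have h2 : M.comap π ≤ N := by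
        rw [← hcomap]; exact Subgroup.comap_mono hMN
      rcases hmin' _ (hM.comap π) h1 h2 with h | h
      · left
        rw [← Subgroup.map_comap_eq_self_of_surjective hπs M, h]
        exact (Subgroup.map_eq_bot_iff _).2 hker.ge
      · right
        rw [← Subgroup.map_comap_eq_self_of_surjective hπs M, h]
    obtain ⟨hcomm, p, hp, hpow⟩ := Solv.minimal_normal_of_solvable (N.map π) inferInstance hN1 hm
    refine ⟨N, p, hp, hNn, hZN, fun h => hne (le_antisymm h hZN), ?_, ?_, ?_, hmin'⟩
    · intro x hx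
      have := hpow (π x) (Subgroup.mem_map_of_mem π hx)
      rw [← map_pow] at this
      exact (QuotientGroup.eq_one_iff _).1 this
    · intro x hx y hy
      have := Solv.comm_of_isMulCommutative hcomm (Subgroup.mem_map_of_mem π hx) (Subgroup.mem_map_of_mem π hy)
      have h2 : π (x * y * x⁻¹ * y⁻¹) = 1 := by
        rw [map_mul, map_mul, map_mul, this, map_inv, map_inv]
        group
      exact (QuotientGroup.eq_one_iff _).1 h2
    · intro x hx hxc
      have hA := hab (N ⊓ Subgroup.centralizer (N : Set G)) inferInstance (by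
        intro a ha b hb
        exact (Subgroup.mem_centralizer_iff.1 ha.2 b hb.1).symm)
      refine hA ⟨hx, Subgroup.mem_centralizer_iff.2 fun y hy => (hxc y hy).symm⟩

/-- the commutator homomorphism `x ↦ g x g⁻¹ x⁻¹` -/
noncomputable def C12.cm {G : Type} [Group G] (E : Subgroup G) (g : G)
    (hg : ∀ x ∈ E, g * x * g⁻¹ * x⁻¹ ∈ Subgroup.center G) : ↥E →* ↥(Subgroup.center G) where
  toFun x := ⟨g * x * g⁻¹ * (x : G)⁻¹, hg x x.2⟩
  map_one' := by ext; simp
  map_mul' x y := by
    ext
    have hy := Subgroup.mem_center_iff.1 (hg y y.2)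
    simp only [Subgroup.coe_mul]
    have h1 := hy ((x : G)⁻¹)
    calc g * ((x : G) * y) * g⁻¹ * ((x : G) * y)⁻¹
        = (g * x * g⁻¹) * ((g * y * g⁻¹ * (y : G)⁻¹) * (x : G)⁻¹) := by group
      _ = (g * x * g⁻¹) * ((x : G)⁻¹ * (g * y * g⁻¹ * (y : G)⁻¹)) := by rw [h1]
      _ = _ := by group

theorem C12.exists_char (Z : Type) [Group Z] [Finite Z] [IsCyclic Z] : ∃ ι : Z →* ℂˣ, Function.Injective ι := by
  classical
  haveI : NeZero (Nat.card Z) := ⟨Nat.card_pos.ne'⟩
  have hc : Nat.card Z = Nat.card (rootsOfUnity (Nat.card Z) ℂ) :=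
    (Complex.card_rootsOfUnity (Nat.card Z)).symm
  let e := mulEquivOfCyclicCardEq hc
  exact ⟨(rootsOfUnity (Nat.card Z) ℂ).subtype.comp e.toMonoidHom,
    (Subgroup.subtype_injective _).comp e.injective⟩

theorem Crit.sup_eq {G : Type} [Group G] [Finite G] {E : Subgroup G} {p : ℕ} (h : Crit E p)
    (hcyc : IsCyclic (Subgroup.center G)) (g : G) :
    g ∈ Subgroup.centralizer (E : Set G) ⊔ E ↔ ∀ x ∈ E, g * x * g⁻¹ * x⁻¹ ∈ Subgroup.center G := by
  classical
  constructor
  · intro hg
    set π := QuotientGroup.mk' (Subgroup.center G) with hπ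
    have key : ∀ a b : G, π a * π b = π b * π a ↔ a * b * a⁻¹ * b⁻¹ ∈ Subgroup.center G := by
      intro a b
      rw [← QuotientGroup.eq_one_iff, ← QuotientGroup.mk'_apply, ← hπ]
      rw [map_mul, map_mul, map_mul, map_inv, map_inv, mul_inv_eq_one, mul_inv_eq_iff_eq_mul]
    have hle : Subgroup.centralizer (E : Set G) ⊔ E ≤
        (Subgroup.centralizer ((E.map π : Subgroup (G ⧸ Subgroup.center G)) : Set (G ⧸ Subgroup.center G))).comap π := by
      refine sup_le ?_ ?_
      · intro a ha
        rw [Subgroup.mem_comap, Subgroup.mem_centralizer_iff]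
        rintro _ ⟨x, hx, rfl⟩
        rw [← map_mul, ← map_mul, Subgroup.mem_centralizer_iff.1 ha x hx]
      · intro a ha
        rw [Subgroup.mem_comap, Subgroup.mem_centralizer_iff]
        rintro _ ⟨x, hx, rfl⟩
        exact (key x a).2 (h.comm x hx a ha)
    intro x hx
    have h1 := hle hg
    rw [Subgroup.mem_comap, Subgroup.mem_centralizer_iff] at h1
    exact (key g x).1 (h1 (π x) (Subgroup.mem_map_of_mem π hx)).symm
  · intro hg
    obtain ⟨ι, hι⟩ := C12.exists_char (Subgroup.center G)
    let Zs : Subgroup ↥E := (Subgroup.center G).subgroupOf E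
    haveI : Zs.Normal := by
      constructor
      intro n hn y
      have hn' : (n : G) ∈ Subgroup.center G := hn
      change ((y * n * y⁻¹ : ↥E) : G) ∈ Subgroup.center G
      have := Subgroup.mem_center_iff.1 hn' (y : G)
      simp only [Subgroup.coe_mul, Subgroup.coe_inv]
      rw [this, mul_assoc, mul_inv_cancel, mul_one]
      exact hn'
    let Q := ↥E ⧸ Zs
    have hQc : ∀ a b : Q, a * b = b * a := by
      intro a b
      obtain ⟨x, rfl⟩ := QuotientGroup.mk_surjective a
      obtain ⟨y, rfl⟩ := QuotientGroup.mk_surjective b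
      change ((x * y : ↥E) : Q) = ((y * x : ↥E) : Q)
      rw [QuotientGroup.eq]
      change (((x * y)⁻¹ * (y * x) : ↥E) : G) ∈ Subgroup.center G
      have := h.comm (y : G)⁻¹ (E.inv_mem y.2) (x : G)⁻¹ (E.inv_mem x.2)
      simp only [inv_inv] at this
      simpa [mul_inv_rev, mul_assoc] using this
    letI : CommGroup Q := { (inferInstance : Group Q) with mul_comm := hQc }
    have hfin : Finite Q := inferInstance
    have hcard : Nat.card (Q →* ℂˣ) = Nat.card Q :=
      CommGroup.card_monoidHom_of_hasEnoughRootsOfUnity Q ℂ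
    let F : (a : G) → (∀ x ∈ E, a * x * a⁻¹ * x⁻¹ ∈ Subgroup.center G) → (Q →* ℂˣ) := fun a ha =>
      QuotientGroup.lift Zs (ι.comp (C12.cm E a ha)) (by
        intro x hx
        have hx' : (x : G) ∈ Subgroup.center G := hx
        rw [MonoidHom.mem_ker, MonoidHom.comp_apply]
        have : C12.cm E a ha x = 1 := by
          ext
          change a * x * a⁻¹ * (x : G)⁻¹ = 1
          rw [Subgroup.mem_center_iff.1 hx' a]; group
        rw [this, map_one])
    have hF : ∀ a ha b hb, F a ha = F b hb → ∀ x ∈ E, a * x * a⁻¹ = b * x * b⁻¹ := by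
      intro a ha b hb hab x hx
      have h1 := DFunLike.congr_fun hab ((⟨x, hx⟩ : ↥E) : Q)
      have h2 : ι (C12.cm E a ha ⟨x, hx⟩) = ι (C12.cm E b hb ⟨x, hx⟩) := h1
      have h3 := congrArg (fun z : ↥(Subgroup.center G) => (z : G)) (hι h2)
      change a * x * a⁻¹ * x⁻¹ = b * x * b⁻¹ * x⁻¹ at h3
      exact mul_right_cancel h3
    have hE : ∀ e : ↥E, ∀ x ∈ E, (e : G) * x * (e : G)⁻¹ * x⁻¹ ∈ Subgroup.center G := fun e x hx =>
      h.comm e e.2 x hx
    let ψ : Q → (Q →* ℂˣ) := fun q => F (q.out : ↥E) (hE _)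
    have hinj : Function.Injective ψ := by
      intro q q' hqq
      have h1 := hF _ _ _ _ hqq
      have h2 : (q'.out : ↥E)⁻¹ * (q.out : ↥E) ∈ Zs := by
        change (((q'.out : ↥E)⁻¹ * (q.out : ↥E) : ↥E) : G) ∈ Subgroup.center G
        refine h.nondeg _ (Subtype.mem _) ?_
        intro y hy
        have := h1 y hy
        simp only [Subgroup.coe_mul, Subgroup.coe_inv]
        have h5 : ((q.out : ↥E) : G) * y = ((q'.out : ↥E) : G) * y * ((q'.out : ↥E) : G)⁻¹ * ((q.out : ↥E) : G) := by
          rw [← this]; group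
        calc ((q'.out : ↥E) : G)⁻¹ * ((q.out : ↥E) : G) * y
            = ((q'.out : ↥E) : G)⁻¹ * (((q.out : ↥E) : G) * y) := by group
          _ = ((q'.out : ↥E) : G)⁻¹ * (((q'.out : ↥E) : G) * y * ((q'.out : ↥E) : G)⁻¹ * ((q.out : ↥E) : G)) := by rw [h5]
          _ = _ := by group
      have h3 : ((q'.out : ↥E) : Q) = ((q.out : ↥E) : Q) := QuotientGroup.eq.2 h2
      rw [QuotientGroup.out_eq', QuotientGroup.out_eq'] at h3
      exact h3.symm
    haveI : Finite (Q →* ℂˣ) := by
      refine Nat.finite_of_card_ne_zero ?_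
      rw [hcard]; exact Nat.card_pos.ne'
    have hbij := hinj.bijective_of_nat_card_le hcard.le
    obtain ⟨q, hq⟩ := hbij.2 (F g hg)
    have h4 := hF _ _ _ _ hq
    set e : ↥E := (q.out : ↥E) with he
    have h5 : (e : G)⁻¹ * g ∈ Subgroup.centralizer (E : Set G) := by
      rw [Subgroup.mem_centralizer_iff]
      intro y hy
      have := h4 y hy
      have h6 : g * y = (e : G) * y * (e : G)⁻¹ * g := by rw [this]; group
      calc y * ((e : G)⁻¹ * g) = (e : G)⁻¹ * ((e : G) * y * (e : G)⁻¹ * g) := by group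
        _ = (e : G)⁻¹ * (g * y) := by rw [h6]
        _ = _ := by group
    have h7 : g = (e : G) * ((e : G)⁻¹ * g) := by group
    rw [h7]
    exact Subgroup.mul_mem _ (Subgroup.mem_sup_right e.2) (Subgroup.mem_sup_left h5)

end Cfsg.Agent.H97.KR
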