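import Cfsg.Agent.H97.KRDef

set_option autoImplicit false

/-!
# S4265, piece C3: the symplectic space of a critical subgroup (owner: helper27)
-/

namespace Cfsg.Agent.H97.KR

open Cfsg

namespace C3

/-- from multiplicative to additive data -/
theorem mk_Sy₀ {p n : ℕ} [Fact p.Prime] {Q : Type} [CommGroup Q] [Finite Q] [Module (ZMod p) (Additive Q)]
    (F : Q →* (Q →* Multiplicative (ZMod p))) {Y : Type} [Group Y] (a : Y →* Monoid.End Q)
    (halt : ∀ x, F x x = 1) (hnd : ∀ x, (∀ y, F x y = 1) → x = 1) (hinv : ∀ g x y, F (a g x) (a g y) = F x y)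
    (hinj : Function.Injective a) (hcard : Nat.card Q = p ^ (2 * n))
    (hirr : ∀ N : Subgroup Q, (∀ y, ∀ x ∈ N, a y x ∈ N) → N = ⊥ ∨ N = ⊤) :
    ∃ (U : Type) (_ : AddCommGroup U) (_ : Module (ZMod p) U) (_ : Finite U) (B : U →ₗ[ZMod p] U →ₗ[ZMod p] ZMod p)
      (σ : Y →* (U →ₗ[ZMod p] U)), Sy p n B σ ∧ Irr σ := by
  have hadd1 : ∀ u u' v : Additive Q, (F (u + u').toMul v.toMul).toAdd =
      (F u.toMul v.toMul).toAdd + (F u'.toMul v.toMul).toAdd := by
    intro u u' v
    show (F (u.toMul * u'.toMul) v.toMul).toAdd = _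
    rw [map_mul]
    rfl
  have hadd2 : ∀ u v v' : Additive Q, (F u.toMul (v + v').toMul).toAdd =
      (F u.toMul v.toMul).toAdd + (F u.toMul v'.toMul).toAdd := by
    intro u v v'
    show (F u.toMul (v.toMul * v'.toMul)).toAdd = _
    rw [map_mul]
    rfl
  let B : Additive Q →ₗ[ZMod p] Additive Q →ₗ[ZMod p] ZMod p :=
    { toFun := fun u =>
        { toFun := fun v => (F u.toMul v.toMul).toAdd
          map_add' := hadd2 u
          map_smul' := fun c v => ZMod.map_smul (AddMonoidHom.mk' (fun v : Additive Q => (F u.toMul v.toMul).toAdd)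
            fun v v' => hadd2 u v v') c v }
      map_add' := fun u u' => by
        refine LinearMap.ext fun v => ?_
        rw [LinearMap.add_apply]
        exact hadd1 u u' v
      map_smul' := fun c u => by
        refine LinearMap.ext fun v => ?_
        rw [LinearMap.smul_apply]
        exact ZMod.map_smul (AddMonoidHom.mk' (fun u : Additive Q => (F u.toMul v.toMul).toAdd)
          fun u u' => hadd1 u u' v) c u }
  let σ : Y →* (Additive Q →ₗ[ZMod p] Additive Q) :=
    { toFun := fun y => AddMonoidHom.toZModLinearMap p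
        (AddMonoidHom.mk' (fun v => Additive.ofMul (a y v.toMul)) fun v w => by
          show Additive.ofMul (a y (v.toMul * w.toMul)) = _
          rw [map_mul]
          rfl)
      map_one' := by
        ext v
        show Additive.ofMul (a 1 v.toMul) = v
        rw [map_one]
        rfl
      map_mul' := fun y z => by
        ext v
        show Additive.ofMul (a (y * z) v.toMul) = _
        rw [map_mul]
        rfl }
  have hσ : ∀ y (x : Q), σ y (Additive.ofMul x) = Additive.ofMul (a y x) := fun _ _ => rfl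
  refine ⟨Additive Q, inferInstance, inferInstance, inferInstance, B, σ, ⟨?_, ?_, ?_, ?_, ?_⟩, ?_⟩
  · intro y z h
    apply hinj
    ext x
    have h1 := congrArg (fun f : Additive Q →ₗ[ZMod p] Additive Q => (f (Additive.ofMul x)).toMul) h
    exact h1
  · intro v
    show (F v.toMul v.toMul).toAdd = 0
    rw [halt]
    rfl
  · intro v h
    have h1 : v.toMul = 1 := hnd _ fun y => by
      have h2 := h (Additive.ofMul y)
      exact h2
    exact h1
  · intro y v w
    show (F (a y v.toMul) (a y w.toMul)).toAdd = (F v.toMul w.toMul).toAdd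
    rw [hinv]
  · rw [← hcard]
    exact Nat.card_congr Additive.toMul
  · intro W hW
    let N : Subgroup Q :=
      { carrier := {x | Additive.ofMul x ∈ W}
        mul_mem' := fun {x y} hx hy => W.add_mem hx hy
        one_mem' := W.zero_mem
        inv_mem' := fun {x} hx => W.neg_mem hx }
    rcases hirr N fun y x hx => hW y _ hx with h | h
    · left
      rw [eq_bot_iff]
      intro w hw
      have h1 : w.toMul ∈ N := hw
      rw [h, Subgroup.mem_bot] at h1
      exact h1
    · right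
      rw [eq_top_iff]
      intro w _
      have h1 : w.toMul ∈ N := by rw [h]; exact Subgroup.mem_top _
      exact h1

theorem mk_Sy {p n : ℕ} [Fact p.Prime] {Q : Type} [CommGroup Q] [Finite Q] (hp : ∀ x : Q, x ^ p = 1)
    (F : Q →* (Q →* Multiplicative (ZMod p))) {Y : Type} [Group Y] (a : Y →* Monoid.End Q)
    (halt : ∀ x, F x x = 1) (hnd : ∀ x, (∀ y, F x y = 1) → x = 1) (hinv : ∀ g x y, F (a g x) (a g y) = F x y)
    (hinj : Function.Injective a) (hcard : Nat.card Q = p ^ (2 * n))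
    (hirr : ∀ N : Subgroup Q, (∀ y, ∀ x ∈ N, a y x ∈ N) → N = ⊥ ∨ N = ⊤) :
    ∃ (U : Type) (_ : AddCommGroup U) (_ : Module (ZMod p) U) (_ : Finite U) (B : U →ₗ[ZMod p] U →ₗ[ZMod p] ZMod p)
      (σ : Y →* (U →ₗ[ZMod p] U)), Sy p n B σ ∧ Irr σ := by
  have hm : Nonempty (Module (ZMod p) (Additive Q)) := ⟨AddCommGroup.zmodModule (n := p) fun x => by
    show Additive.ofMul (x.toMul ^ p) = 0
    rw [hp]
    rfl⟩
  obtain ⟨hm⟩ := hm
  exact mk_Sy₀ F a halt hnd hinv hinj hcard hirr

end C3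

/-- (C3) the symplectic space of a critical subgroup -/
theorem Crit.exists_Sy {G : Type} [Group G] [Finite G] {E : Subgroup G} {p : ℕ} [Fact p.Prime] (h : Crit E p)
    [E.Normal] (hcyc : IsCyclic (Subgroup.center G))
    (hC : ∀ g, g ∈ Subgroup.centralizer (E : Set G) ⊔ E ↔ ∀ x ∈ E, g * x * g⁻¹ * x⁻¹ ∈ Subgroup.center G)
    {n : ℕ} (hn : Nat.card E = Nat.card (Subgroup.center G) * p ^ (2 * n)) :
    ∃ (U : Type) (_ : AddCommGroup U) (_ : Module (ZMod p) U) (_ : Finite U) (B : U →ₗ[ZMod p] U →ₗ[ZMod p] ZMod p)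
      (σ : (G ⧸ (Subgroup.centralizer (E : Set G) ⊔ E)) →* (U →ₗ[ZMod p] U)), Sy p n B σ ∧ Irr σ := by
  have hp := h.prime
  set Z : Subgroup ↥E := (Subgroup.center G).subgroupOf E with hZ
  have hZn : Z.Normal := inferInstance
  have hcz : ∀ z ∈ Subgroup.center G, ∀ g : G, z * g = g * z := fun z hz g => (Subgroup.mem_center_iff.1 hz g).symm
  -- the quotient
  let iQ : CommGroup (↥E ⧸ Z) :=
    { (inferInstance : Group (↥E ⧸ Z)) with
      mul_comm := by
        intro a b
        induction a using QuotientGroup.induction_on with | _ x => ?_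
        induction b using QuotientGroup.induction_on with | _ y => ?_
        rw [← QuotientGroup.mk_mul, ← QuotientGroup.mk_mul, QuotientGroup.eq, hZ, Subgroup.mem_subgroupOf]
        have h1 := h.comm _ (inv_mem y.2) _ (inv_mem x.2)
        have h2 : (((x * y)⁻¹ * (y * x) : ↥E) : G) = (y : G)⁻¹ * (x : G)⁻¹ * ((y : G)⁻¹)⁻¹ * ((x : G)⁻¹)⁻¹ := by
          push_cast
          group
        rw [h2]
        exact h1 }
  -- the commutator map
  let K : ↥E → (↥E →* ↥(Subgroup.center G)) :=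
    (fun x => MonoidHom.mk' (fun y => ⟨(x : G) * y * (x : G)⁻¹ * (y : G)⁻¹, h.comm _ x.2 _ y.2⟩) fun y y' => by
      apply Subtype.ext
      have h1 := hcz _ (h.comm _ x.2 _ y'.2) (y : G)⁻¹
      show (x : G) * (y * y') * (x : G)⁻¹ * ((y : G) * y')⁻¹ =
        (x : G) * y * (x : G)⁻¹ * (y : G)⁻¹ * ((x : G) * y' * (x : G)⁻¹ * (y' : G)⁻¹)
      calc (x : G) * (y * y') * (x : G)⁻¹ * ((y : G) * y')⁻¹ =
          (x : G) * y * (x : G)⁻¹ * (((x : G) * y' * (x : G)⁻¹ * (y' : G)⁻¹) * (y : G)⁻¹) := by group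
        _ = (x : G) * y * (x : G)⁻¹ * ((y : G)⁻¹ * ((x : G) * y' * (x : G)⁻¹ * (y' : G)⁻¹)) := by rw [h1]
        _ = _ := by group)
  have hKm : ∀ x x' y : ↥E, K (x * x') y = K x y * K x' y := by
      intro x x' y
      apply Subtype.ext
      have h1 := hcz _ (h.comm _ x'.2 _ y.2) ((x : G) * y * (x : G)⁻¹ * (y : G)⁻¹)
      have h2 := hcz _ (h.comm _ x'.2 _ y.2) (x : G)
      show (x * x' : G) * y * (x * x' : G)⁻¹ * (y : G)⁻¹ =
        (x : G) * y * (x : G)⁻¹ * (y : G)⁻¹ * ((x' : G) * y * (x' : G)⁻¹ * (y : G)⁻¹)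
      calc (x * x' : G) * y * (x * x' : G)⁻¹ * (y : G)⁻¹ =
          (x : G) * ((x' : G) * y * (x' : G)⁻¹ * (y : G)⁻¹) * (y * (x : G)⁻¹ * (y : G)⁻¹) := by group
        _ = ((x' : G) * y * (x' : G)⁻¹ * (y : G)⁻¹) * (x : G) * (y * (x : G)⁻¹ * (y : G)⁻¹) := by rw [h2]
        _ = ((x' : G) * y * (x' : G)⁻¹ * (y : G)⁻¹) * ((x : G) * y * (x : G)⁻¹ * (y : G)⁻¹) := by group
        _ = _ := h1
  have hK : ∀ x y : ↥E, ((K x y : ↥(Subgroup.center G)) : G) = (x : G) * y * (x : G)⁻¹ * (y : G)⁻¹ := fun _ _ => rfl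
  have hK1 : ∀ x y : ↥E, x ∈ Z → K x y = 1 := by
    intro x y hx
    apply Subtype.ext
    have hx' : (x : G) ∈ Subgroup.center G := hx
    rw [hK, hcz _ hx']
    show (y : G) * x * (x : G)⁻¹ * (y : G)⁻¹ = 1
    group
  have hK2 : ∀ x y : ↥E, y ∈ Z → K x y = 1 := by
    intro x y hy
    apply Subtype.ext
    have hy' : (y : G) ∈ Subgroup.center G := hy
    rw [hK, ← hcz _ hy']
    show (y : G) * x * (x : G)⁻¹ * (y : G)⁻¹ = 1
    group
  have hKp : ∀ x y : ↥E, K x y ^ p = 1 := by
    intro x y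
    have h1 : K x y ^ p = K x (y ^ p) := (map_pow (K x) y p).symm
    rw [h1]
    exact hK2 _ _ (h.pow _ y.2)
  -- a nontrivial commutator
  obtain ⟨z₀, hz1, hzp⟩ : ∃ z₀ : ↥(Subgroup.center G), z₀ ≠ 1 ∧ z₀ ^ p = 1 := by
    by_contra hcon
    push Not at hcon
    apply h.ne
    intro x hx
    refine h.nondeg x hx fun y hy => ?_
    have h1 : K ⟨x, hx⟩ ⟨y, hy⟩ = 1 := by
      by_contra h2
      exact hcon _ h2 (hKp _ _)
    have h2 := congrArg Subtype.val h1
    rw [hK] at h2
    have h3 : x * y * x⁻¹ = y := mul_inv_eq_one.1 h2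
    exact mul_inv_eq_iff_eq_mul.1 h3
  have hord : orderOf z₀ = p := orderOf_eq_prime hzp hz1
  let T : Subgroup ↥(Subgroup.center G) := Subgroup.zpowers z₀
  have hTc : Nat.card T = p := by rw [Nat.card_zpowers, hord]
  have hT : ∀ z : ↥(Subgroup.center G), z ^ p = 1 → z ∈ T := by
    classical
    have : Fintype ↥(Subgroup.center G) := Fintype.ofFinite _
    have h1 : (T : Set ↥(Subgroup.center G)).toFinset ⊆ Finset.univ.filter fun a : ↥(Subgroup.center G) => a ^ p = 1 := by
      intro a ha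
      rw [Set.mem_toFinset] at ha
      obtain ⟨k, rfl⟩ := Subgroup.mem_zpowers_iff.1 ha
      rw [Finset.mem_filter]
      refine ⟨Finset.mem_univ _, ?_⟩
      rw [← zpow_natCast, ← zpow_mul, mul_comm, zpow_mul, zpow_natCast, hzp, one_zpow]
    have h2 : (Finset.univ.filter fun a : ↥(Subgroup.center G) => a ^ p = 1).card ≤ p :=
      IsCyclic.card_pow_eq_one_le hp.pos
    have h3 : (T : Set ↥(Subgroup.center G)).toFinset.card = p := by
      rw [Set.toFinset_card, ← Nat.card_eq_fintype_card]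
      exact hTc
    have h4 := Finset.eq_of_subset_of_card_le h1 (by rw [h3]; exact h2)
    intro z hz
    have h5 : z ∈ Finset.univ.filter fun a : ↥(Subgroup.center G) => a ^ p = 1 :=
      Finset.mem_filter.2 ⟨Finset.mem_univ _, hz⟩
    rw [← h4, Set.mem_toFinset] at h5
    exact h5
  have hMc : Nat.card (Multiplicative (ZMod p)) = p := by rw [Nat.card_congr Multiplicative.toAdd, Nat.card_zmod]
  let lg : ↥T ≃* Multiplicative (ZMod p) := mulEquivOfPrimeCardEq (p := p) hTc hMc
  let f : ↥E → (↥E ⧸ Z →* Multiplicative (ZMod p)) := fun x =>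
    QuotientGroup.lift Z (lg.toMonoidHom.comp ((K x).codRestrict T fun y => hT _ (hKp x y))) (by
      intro y hy
      show lg ⟨K x y, _⟩ = 1
      rw [map_eq_one_iff lg lg.injective]
      exact Subtype.ext (hK2 x y hy))
  have hf : ∀ x y : ↥E, f x (y : ↥E ⧸ Z) = lg ⟨K x y, hT _ (hKp x y)⟩ := fun _ _ => rfl
  let F : ↥E ⧸ Z →* (↥E ⧸ Z →* Multiplicative (ZMod p)) :=
    QuotientGroup.lift Z (MonoidHom.mk' f (by
      intro x x'
      refine MonoidHom.ext fun b => ?_
      induction b using QuotientGroup.induction_on with | _ y => ?_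
      show lg ⟨K (x * x') y, _⟩ = lg ⟨K x y, _⟩ * lg ⟨K x' y, _⟩
      rw [← map_mul]
      congr 1
      apply Subtype.ext
      exact hKm x x' y)) (by
      intro x hx
      refine MonoidHom.ext fun b => ?_
      induction b using QuotientGroup.induction_on with | _ y => ?_
      show lg ⟨K x y, _⟩ = 1
      rw [map_eq_one_iff lg lg.injective]
      exact Subtype.ext (hK1 x y hx))
  have hF : ∀ x y : ↥E, F (x : ↥E ⧸ Z) (y : ↥E ⧸ Z) = lg ⟨K x y, hT _ (hKp x y)⟩ := fun _ _ => rfl
  -- the action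
  have hle : ∀ g : G, Z ≤ Z.comap (MulAut.conjNormal g : ↥E ≃* ↥E).toMonoidHom := by
    intro g x hx
    rw [Subgroup.mem_comap, hZ, Subgroup.mem_subgroupOf]
    have h1 : (((MulAut.conjNormal g : ↥E ≃* ↥E).toMonoidHom x : ↥E) : G) = g * x * g⁻¹ := rfl
    have hx' : (x : G) ∈ Subgroup.center G := hx
    rw [h1, ← hcz _ hx', mul_inv_cancel_right]
    exact hx
  let a₀ : G →* Monoid.End (↥E ⧸ Z) :=
    { toFun := fun g => QuotientGroup.map Z Z (MulAut.conjNormal g : ↥E ≃* ↥E).toMonoidHom (hle g)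
      map_one' := by
        refine MonoidHom.ext fun b => ?_
        induction b using QuotientGroup.induction_on with | _ y => ?_
        show (((MulAut.conjNormal (1 : G) : ↥E ≃* ↥E) y : ↥E) : ↥E ⧸ Z) = y
        rw [map_one]
        rfl
      map_mul' := fun g g' => by
        refine MonoidHom.ext fun b => ?_
        induction b using QuotientGroup.induction_on with | _ y => ?_
        show (((MulAut.conjNormal (g * g') : ↥E ≃* ↥E) y : ↥E) : ↥E ⧸ Z) = _
        rw [map_mul]
        rfl }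
  have ha₀ : ∀ (g : G) (y : ↥E), a₀ g (y : ↥E ⧸ Z) = ((MulAut.conjNormal g y : ↥E) : ↥E ⧸ Z) := fun _ _ => rfl
  have ha₁ : ∀ g : G, a₀ g = 1 ↔ ∀ x ∈ E, g * x * g⁻¹ * x⁻¹ ∈ Subgroup.center G := by
    intro g
    constructor
    · intro h1 x hx
      have h2 : a₀ g ((⟨x, hx⟩ : ↥E) : ↥E ⧸ Z) = ((⟨x, hx⟩ : ↥E) : ↥E ⧸ Z) := by rw [h1]; rfl
      rw [ha₀] at h2
      have h3 := QuotientGroup.eq.1 h2.symm
      rw [hZ, Subgroup.mem_subgroupOf] at h3
      have h4 : x⁻¹ * (g * x * g⁻¹) ∈ Subgroup.center G := h3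
      have h5 := hcz _ h4 x
      have h6 : g * x * g⁻¹ * x⁻¹ = x⁻¹ * (g * x * g⁻¹) := by
        have h7 : x * (x⁻¹ * (g * x * g⁻¹)) * x⁻¹ = g * x * g⁻¹ * x⁻¹ := by group
        rw [← h7, ← h5, mul_inv_cancel_right]
      rw [h6]
      exact h4
    · intro h1
      refine MonoidHom.ext fun b => ?_
      induction b using QuotientGroup.induction_on with | _ y => ?_
      show ((MulAut.conjNormal g y : ↥E) : ↥E ⧸ Z) = (y : ↥E ⧸ Z)
      symm
      rw [QuotientGroup.eq, hZ, Subgroup.mem_subgroupOf]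
      show (y : G)⁻¹ * (g * y * g⁻¹) ∈ Subgroup.center G
      have h4 := h1 y y.2
      have h5 := hcz _ h4 (y : G)
      have h6 : (y : G)⁻¹ * (g * y * g⁻¹) = g * y * g⁻¹ * (y : G)⁻¹ := by
        have h7 : (y : G)⁻¹ * (g * y * g⁻¹ * (y : G)⁻¹ * y) = (y : G)⁻¹ * (g * y * g⁻¹) := by group
        rw [← h7, h5]
        group
      rw [h6]
      exact h4
  let a : (G ⧸ (Subgroup.centralizer (E : Set G) ⊔ E)) →* Monoid.End (↥E ⧸ Z) :=
    QuotientGroup.lift _ a₀ fun g hg => (ha₁ g).2 ((hC g).1 hg)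
  refine C3.mk_Sy (Q := ↥E ⧸ Z) ?_ F a ?_ ?_ ?_ ?_ ?_ ?_
  · intro b
    induction b using QuotientGroup.induction_on with | _ x => ?_
    show ((x ^ p : ↥E) : ↥E ⧸ Z) = 1
    rw [QuotientGroup.eq_one_iff, hZ, Subgroup.mem_subgroupOf]
    exact h.pow _ x.2
  · intro b
    induction b using QuotientGroup.induction_on with | _ x => ?_
    rw [hF, map_eq_one_iff lg lg.injective]
    apply Subtype.ext
    apply Subtype.ext
    show (x : G) * x * (x : G)⁻¹ * (x : G)⁻¹ = 1
    group
  · intro b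
    induction b using QuotientGroup.induction_on with | _ x => ?_
    intro hb
    rw [QuotientGroup.eq_one_iff, hZ, Subgroup.mem_subgroupOf]
    refine h.nondeg _ x.2 fun y hy => ?_
    have h1 := hb ((⟨y, hy⟩ : ↥E) : ↥E ⧸ Z)
    rw [hF, map_eq_one_iff lg lg.injective] at h1
    have h2 : (x : G) * y * (x : G)⁻¹ * y⁻¹ = 1 := congrArg (fun t : ↥T => ((t : ↥(Subgroup.center G)) : G)) h1
    have h3 : (x : G) * y * (x : G)⁻¹ = y := mul_inv_eq_one.1 h2
    exact mul_inv_eq_iff_eq_mul.1 h3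
  · intro g b c
    induction g using QuotientGroup.induction_on with | _ g => ?_
    induction b using QuotientGroup.induction_on with | _ x => ?_
    induction c using QuotientGroup.induction_on with | _ y => ?_
    show F ((MulAut.conjNormal g x : ↥E) : ↥E ⧸ Z) ((MulAut.conjNormal g y : ↥E) : ↥E ⧸ Z) = F x y
    rw [hF, hF]
    congr 1
    apply Subtype.ext
    apply Subtype.ext
    show (g * x * g⁻¹) * (g * y * g⁻¹) * (g * x * g⁻¹)⁻¹ * (g * y * g⁻¹)⁻¹ = (x : G) * y * (x : G)⁻¹ * (y : G)⁻¹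
    have h1 := hcz _ (h.comm _ x.2 _ y.2) g
    calc (g * x * g⁻¹) * (g * y * g⁻¹) * (g * x * g⁻¹)⁻¹ * (g * y * g⁻¹)⁻¹ =
        g * ((x : G) * y * (x : G)⁻¹ * (y : G)⁻¹) * g⁻¹ := by group
      _ = ((x : G) * y * (x : G)⁻¹ * (y : G)⁻¹) * g * g⁻¹ := by rw [h1]
      _ = _ := by group
  · rw [injective_iff_map_eq_one]
    intro b
    induction b using QuotientGroup.induction_on with | _ g => ?_
    intro hg
    rw [QuotientGroup.eq_one_iff]
    exact (hC g).2 ((ha₁ g).1 hg)
  · have h1 : Nat.card E = Nat.card (↥E ⧸ Z) * Nat.card Z := Subgroup.card_eq_card_quotient_mul_card_subgroup Z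
    have h2 : Nat.card Z = Nat.card (Subgroup.center G) :=
      Nat.card_congr (Subgroup.subgroupOfEquivOfLe h.le).toEquiv
    rw [h2, hn, mul_comm] at h1
    exact (Nat.eq_of_mul_eq_mul_right Nat.card_pos h1).symm
  · intro N hN
    let M : Subgroup G := (N.comap (QuotientGroup.mk' Z)).map E.subtype
    have hM : ∀ x (hx : x ∈ E), x ∈ M ↔ ((⟨x, hx⟩ : ↥E) : ↥E ⧸ Z) ∈ N := by
      intro x hx
      constructor
      · rintro ⟨y, hy, rfl⟩
        exact hy
      · intro h1
        exact ⟨⟨x, hx⟩, h1, rfl⟩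
    have hME : M ≤ E := by
      rintro _ ⟨y, -, rfl⟩
      exact y.2
    have hMn : M.Normal := by
      constructor
      rintro _ ⟨y, hy, rfl⟩ g
      have h1 := hN (g : G ⧸ (Subgroup.centralizer (E : Set G) ⊔ E)) _ hy
      exact ⟨MulAut.conjNormal g y, h1, rfl⟩
    have hZM : Subgroup.center G ≤ M := by
      intro z hz
      rw [hM z (h.le hz)]
      have h1 : ((⟨z, h.le hz⟩ : ↥E) : ↥E ⧸ Z) = 1 := by
        rw [QuotientGroup.eq_one_iff]
        exact hz
      rw [h1]
      exact one_mem _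
    rcases h.min M hMn hZM hME with h1 | h1
    · left
      rw [eq_bot_iff]
      intro b
      induction b using QuotientGroup.induction_on with | _ x => ?_
      intro hx
      rw [Subgroup.mem_bot, QuotientGroup.eq_one_iff]
      have h2 : (x : G) ∈ M := ⟨x, hx, rfl⟩
      rw [h1] at h2
      exact h2
    · right
      rw [eq_top_iff]
      intro b
      induction b using QuotientGroup.induction_on with | _ x => ?_
      intro _
      have h2 : (x : G) ∈ M := by rw [h1]; exact x.2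
      exact (hM _ x.2).1 h2

end Cfsg.Agent.H97.KR
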