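import Cfsg.Agent.H97.KRDef
import Cfsg.Agent.Char.Values
import Mathlib.GroupTheory.FiniteAbelian.Duality

set_option autoImplicit false
set_option maxHeartbeats 1000000

/-!
S4265, piece C4: a critical subgroup splits the space.
-/

namespace Cfsg.Agent.H97.KR.C4

open Module

/-- duality bound -/
theorem pair_le {X Y : Type} [Group X] [Group Y] [Finite X] [Finite Y] (f : X →* (Y →* ℂˣ)) (K : Subgroup Y)
    [K.Normal] (hK : ∀ x, ∀ y ∈ K, f x y = 1) (hcomm : ∀ y y' : Y, y * y' * y⁻¹ * y'⁻¹ ∈ K) :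
    f.ker.index ≤ K.index := by
  classical
  letI : CommGroup (Y ⧸ K) := { (inferInstance : Group (Y ⧸ K)) with
    mul_comm := by
      intro a b
      obtain ⟨a, rfl⟩ := QuotientGroup.mk_surjective a
      obtain ⟨b, rfl⟩ := QuotientGroup.mk_surjective b
      rw [← QuotientGroup.mk_mul, ← QuotientGroup.mk_mul, QuotientGroup.eq]
      have := hcomm b⁻¹ a⁻¹
      simpa [mul_assoc] using this }
  have hcard : Nat.card ((Y ⧸ K) →* ℂˣ) = K.index := by
    rw [CommGroup.card_monoidHom_of_hasEnoughRootsOfUnity]; rfl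
  have hfin : Finite ((Y ⧸ K) →* ℂˣ) := by
    apply Nat.finite_of_card_ne_zero
    rw [hcard]
    exact Subgroup.index_ne_zero_of_finite
  rw [Subgroup.index_ker, ← hcard]
  have key : ∀ φ : f.range, ∀ y ∈ K, (φ : Y →* ℂˣ) y = 1 := by
    rintro ⟨_, x, rfl⟩ y hy
    exact hK x y hy
  refine Nat.card_le_card_of_injective
    (fun φ : f.range => (QuotientGroup.lift K (φ : Y →* ℂˣ) (key φ) : (Y ⧸ K) →* ℂˣ)) ?_
  intro φ ψ h
  apply Subtype.ext
  ext y
  have := congrArg (fun u : (Y ⧸ K) →* ℂˣ => u (QuotientGroup.mk y)) h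
  have h2 : (φ : Y →* ℂˣ) y = (ψ : Y →* ℂˣ) y := this
  rw [h2]

theorem exists_max {E : Type} [Group E] [Finite E] (Z : Subgroup E) (hZ : ∀ z ∈ Z, ∀ x : E, z * x = x * z) :
    ∃ A : Subgroup E, Z ≤ A ∧ (∀ a ∈ A, ∀ b ∈ A, a * b = b * a) ∧ ∀ x : E, (∀ a ∈ A, x * a = a * x) → x ∈ A := by
  obtain ⟨A, hA⟩ := (Set.toFinite {A : Subgroup E | Z ≤ A ∧ ∀ a ∈ A, ∀ b ∈ A, a * b = b * a}).exists_maximal
    ⟨Z, le_rfl, fun a ha b _ => hZ a ha b⟩
  refine ⟨A, hA.prop.1, hA.prop.2, fun x hx => ?_⟩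
  set T : Set E := insert x (A : Set E) with hT
  have h1 : T ⊆ (Subgroup.centralizer T : Set E) := by
    rintro y hy
    rw [SetLike.mem_coe, Subgroup.mem_centralizer_iff]
    rintro w hw
    rcases hy with rfl | hy
    · rcases hw with rfl | hw
      · rfl
      · exact (hx w hw).symm
    · rcases hw with rfl | hw
      · exact hx y hy
      · exact hA.prop.2 w hw y hy
  have h2 : Subgroup.closure T ≤ Subgroup.centralizer T := (Subgroup.closure_le _).2 h1
  have h3 : T ⊆ (Subgroup.centralizer (Subgroup.closure T : Set E) : Set E) := by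
    rintro y hy
    rw [SetLike.mem_coe, Subgroup.mem_centralizer_iff]
    rintro w hw
    exact ((Subgroup.mem_centralizer_iff.1 (h2 hw)) y hy).symm
  have h4 : Subgroup.closure T ≤ Subgroup.centralizer (Subgroup.closure T : Set E) := (Subgroup.closure_le _).2 h3
  have h5 : A ≤ Subgroup.closure T := fun a ha => Subgroup.subset_closure (Set.mem_insert_of_mem _ ha)
  have h6 : Subgroup.closure T ∈ {A : Subgroup E | Z ≤ A ∧ ∀ a ∈ A, ∀ b ∈ A, a * b = b * a} :=
    ⟨hA.prop.1.trans h5, fun a ha b hb => ((Subgroup.mem_centralizer_iff.1 (h4 ha)) b hb).symm⟩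
  exact hA.le_of_ge h6 h5 (Subgroup.subset_closure (Set.mem_insert _ _))

section pair

variable {E : Type} [Group E] (Z : Subgroup E) (hZ : ∀ z ∈ Z, ∀ x : E, z * x = x * z)
  (hc : ∀ x y : E, x * y * x⁻¹ * y⁻¹ ∈ Z) (l : Z →* ℂˣ)

/-- the commutator pairing -/
def bet : E →* (E →* ℂˣ) :=
  MonoidHom.mk' (fun x => MonoidHom.mk' (fun y => l ⟨x * y * x⁻¹ * y⁻¹, hc x y⟩) (by
    intro y y'
    rw [← map_mul]
    congr 1
    apply Subtype.ext
    simp only [Subgroup.coe_mul]
    have h := hZ _ (hc x y') y⁻¹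
    calc x * (y * y') * x⁻¹ * (y * y')⁻¹ = x * y * x⁻¹ * ((x * y' * x⁻¹ * y'⁻¹) * y⁻¹) := by group
      _ = x * y * x⁻¹ * (y⁻¹ * (x * y' * x⁻¹ * y'⁻¹)) := by rw [h]
      _ = x * y * x⁻¹ * y⁻¹ * (x * y' * x⁻¹ * y'⁻¹) := by group)) (by
    intro x x'
    ext y
    simp only [MonoidHom.mk'_apply, MonoidHom.mul_apply]
    rw [← map_mul]
    congr 2
    apply Subtype.ext
    simp only [Subgroup.coe_mul]
    have h := hZ _ (hc x' y) (x * y * x⁻¹ * y⁻¹)
    have h' := hZ _ (hc x' y) x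
    calc (x * x') * y * (x * x')⁻¹ * y⁻¹ = (x * (x' * y * x'⁻¹ * y⁻¹)) * y * x⁻¹ * y⁻¹ := by group
      _ = ((x' * y * x'⁻¹ * y⁻¹) * x) * y * x⁻¹ * y⁻¹ := by rw [h']
      _ = (x' * y * x'⁻¹ * y⁻¹) * (x * y * x⁻¹ * y⁻¹) := by group
      _ = (x * y * x⁻¹ * y⁻¹) * (x' * y * x'⁻¹ * y⁻¹) := h)

theorem bet_apply (x y : E) : bet Z hZ hc l x y = l ⟨x * y * x⁻¹ * y⁻¹, hc x y⟩ := rfl

include hZ hc in
theorem index_eq [Finite E] (hl : Function.Injective l) (A : Subgroup E) (hZA : Z ≤ A)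
    (hab : ∀ a ∈ A, ∀ b ∈ A, a * b = b * a) (hmax : ∀ x : E, (∀ a ∈ A, x * a = a * x) → x ∈ A)
    (hnd : ∀ x : E, (∀ y : E, x * y = y * x) → x ∈ Z) : A.index = (Z.subgroupOf A).index := by
  have hone : ∀ x y : E, bet Z hZ hc l x y = 1 ↔ x * y = y * x := by
    intro x y
    rw [bet_apply, ← map_one l, hl.eq_iff, ← Subtype.coe_inj]
    simp only [Subgroup.coe_one]
    constructor
    · intro h
      have := mul_inv_eq_one.1 h
      exact mul_inv_eq_iff_eq_mul.1 this
    · intro h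
      rw [h]; group
  have hAn : A.Normal := ⟨fun a ha g => by
    have := A.mul_mem (hZA (hc g a)) ha
    simpa using this⟩
  have hZn : (Z.subgroupOf A).Normal := ⟨fun a ha g => by
    rw [Subgroup.mem_subgroupOf] at ha ⊢
    have := hZ _ ha (g : E)
    simp only [Subgroup.coe_mul, Subgroup.coe_inv]
    rw [← this]
    simpa using ha⟩
  refine le_antisymm ?_ ?_
  · let f : E →* (A →* ℂˣ) := (MonoidHom.domRestrictHom A ℂˣ).comp (bet Z hZ hc l)
    have hf : ∀ x (a : A), f x a = bet Z hZ hc l x a := fun _ _ => rfl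
    have hker : f.ker = A := by
      ext x
      rw [MonoidHom.mem_ker]
      constructor
      · intro h
        refine hmax x fun a ha => ?_
        rw [← hone, ← hf x ⟨a, ha⟩, h]; rfl
      · intro h
        ext a
        rw [hf, (hone x a).2 (hab x h a a.2)]; rfl
    have := pair_le f (Z.subgroupOf A) (fun x y hy => by
      rw [hf, hone]
      exact (hZ _ hy x).symm) (fun y y' => hc _ _)
    rwa [hker] at this
  · let f : A →* (E →* ℂˣ) := (bet Z hZ hc l).comp A.subtype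
    have hf : ∀ (a : A) x, f a x = bet Z hZ hc l a x := fun _ _ => rfl
    have hker : f.ker = Z.subgroupOf A := by
      ext x
      rw [MonoidHom.mem_ker, Subgroup.mem_subgroupOf]
      constructor
      · intro h
        refine hnd x fun a => ?_
        rw [← hone, ← hf x a, h]; rfl
      · intro h
        ext a
        rw [hf, (hone x a).2 (hZ _ h a)]; rfl
    have := pair_le f A (fun x y hy => by
      rw [hf, hone]
      exact hab _ x.2 _ hy) (fun y y' => hZA (hc _ _))
    rwa [hker] at this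

end pair

section rep

variable {E : Type} [Group E] {V : Type} [AddCommGroup V] [Module ℂ V]
  (r : E →* (V →ₗ[ℂ] V)) (A : Subgroup E) (l : A →* ℂˣ)

/-- the eigenspace -/
def Wt : Submodule ℂ V where
  carrier := {v | ∀ a : A, r a v = (l a : ℂ) • v}
  add_mem' := by
    intro v w hv hw a
    rw [map_add, hv a, hw a, smul_add]
  zero_mem' := by
    intro a
    rw [map_zero, smul_zero]
  smul_mem' := by
    intro c v hv a
    rw [map_smul, hv a, smul_comm]

/-- the projection -/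
noncomputable def Pj [Fintype A] : V →ₗ[ℂ] V := ((Nat.card A : ℂ)⁻¹) • ∑ a : A, ((l a)⁻¹ : ℂˣ).val • r a

variable [Fintype A]

theorem Pj_mem (v : V) : Pj r A l v ∈ Wt r A l := by
  intro b
  simp only [Pj, LinearMap.smul_apply, LinearMap.sum_apply, map_smul, map_sum]
  rw [smul_comm]
  congr 1
  rw [Finset.smul_sum]
  refine Fintype.sum_equiv (Equiv.mulLeft b) _ _ ?_
  intro a
  simp only [Equiv.coe_mulLeft, map_mul, mul_inv, Subgroup.coe_mul, Units.val_mul]
  rw [Module.End.mul_apply, smul_smul, ← mul_assoc, Units.mul_inv, one_mul]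

theorem Pj_self [Finite E] (v : V) (hv : v ∈ Wt r A l) : Pj r A l v = v := by
  simp only [Pj, LinearMap.smul_apply, LinearMap.sum_apply]
  have : ∀ a : A, ((l a)⁻¹ : ℂˣ).val • r a v = v := by
    intro a
    rw [hv a, smul_smul, Units.inv_mul, one_smul]
  rw [Finset.sum_congr rfl (fun a _ => this a)]
  rw [Finset.sum_const, Finset.card_univ, ← Nat.card_eq_fintype_card, ← Nat.cast_smul_eq_nsmul ℂ, smul_smul,
    inv_mul_cancel₀, one_smul]
  exact_mod_cast Nat.card_pos.ne'

theorem trace_Pj [Finite E] [FiniteDimensional ℂ V] : LinearMap.trace ℂ V (Pj r A l) = finrank ℂ (Wt r A l) := by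
  have h1 : LinearMap.IsProj (Wt r A l) (Pj r A l) := ⟨Pj_mem r A l, Pj_self r A l⟩
  exact h1.trace

theorem trace_comp [Finite E] [FiniteDimensional ℂ V] (Z : Subgroup E) (hZA : Z ≤ A)
    (hsc : ∀ z : A, (z : E) ∈ Z → r z = (l z : ℂ) • LinearMap.id)
    (hne : ∀ z : A, (z : E) ∈ Z → l z = 1 → z = 1)
    (hab : ∀ a ∈ A, a ∉ Z → ∃ e : E, e * a * e⁻¹ * a⁻¹ ∈ Z ∧ e * a * e⁻¹ * a⁻¹ ≠ 1)
    (d : V →ₗ[ℂ] V) (hd : ∀ e : E, d * r e = r e * d) :
    LinearMap.trace ℂ V (d * Pj r A l) * Nat.card A = Nat.card Z * LinearMap.trace ℂ V d := by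
  classical
  have h0 : ∀ a : A, (a : E) ∉ Z → LinearMap.trace ℂ V (d * r a) = 0 := by
    intro a ha
    obtain ⟨e, he, hne1⟩ := hab a a.2 ha
    set z : A := ⟨e * a * e⁻¹ * (a : E)⁻¹, hZA he⟩ with hz
    have h1 : r e * (d * r a) * r e⁻¹ = (l z : ℂ) • (d * r a) := by
      have h2 : r e * r a * r e⁻¹ = r z * r a := by
        rw [← map_mul, ← map_mul, ← map_mul]
        congr 1
        simp [hz]
      calc r e * (d * r a) * r e⁻¹ = (r e * d) * r a * r e⁻¹ := by simp only [mul_assoc]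
        _ = (d * r e) * r a * r e⁻¹ := by rw [hd e]
        _ = d * (r e * r a * r e⁻¹) := by simp only [mul_assoc]
        _ = d * (r z * r a) := by rw [h2]
        _ = (l z : ℂ) • (d * r a) := by
            rw [hsc z he]
            ext v
            simp [Module.End.mul_apply]
    have h3 : LinearMap.trace ℂ V (r e * (d * r a) * r e⁻¹) = LinearMap.trace ℂ V (d * r a) := by
      rw [LinearMap.trace_mul_comm, ← mul_assoc, ← map_mul, inv_mul_cancel, map_one, one_mul]
    rw [h1, map_smul, smul_eq_mul] at h3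
    by_contra h4
    have h5 : (l z : ℂ) = 1 := by
      have : (l z : ℂ) * LinearMap.trace ℂ V (d * r a) = 1 * LinearMap.trace ℂ V (d * r a) := by rw [h3, one_mul]
      exact mul_right_cancel₀ h4 this
    have h6 : z = 1 := hne z he (Units.ext h5)
    exact hne1 (congrArg Subtype.val h6)
  have h1 : ∀ a : A, (a : E) ∈ Z → ((l a)⁻¹ : ℂˣ).val * LinearMap.trace ℂ V (d * r a) = LinearMap.trace ℂ V d := by
    intro a ha
    rw [hsc a ha]
    have : d * ((l a : ℂ) • (LinearMap.id : V →ₗ[ℂ] V)) = (l a : ℂ) • d := by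
      ext v
      simp [Module.End.mul_apply]
    rw [this, map_smul, smul_eq_mul, ← mul_assoc, Units.inv_mul, one_mul]
  have h2 : LinearMap.trace ℂ V (d * Pj r A l) =
      (Nat.card A : ℂ)⁻¹ * ∑ a : A, ((l a)⁻¹ : ℂˣ).val * LinearMap.trace ℂ V (d * r a) := by
    simp only [Pj, mul_smul_comm, Finset.mul_sum, map_smul, map_sum, smul_eq_mul]
  have h3 : ∑ a : A, ((l a)⁻¹ : ℂˣ).val * LinearMap.trace ℂ V (d * r a) = Nat.card Z * LinearMap.trace ℂ V d := by
    have h4 : ∀ a : A, ((l a)⁻¹ : ℂˣ).val * LinearMap.trace ℂ V (d * r a) =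
        if (a : E) ∈ Z then LinearMap.trace ℂ V d else 0 := by
      intro a
      split_ifs with ha
      · exact h1 a ha
      · rw [h0 a ha, mul_zero]
    rw [Finset.sum_congr rfl (fun a _ => h4 a), Finset.sum_ite, Finset.sum_const_zero, add_zero, Finset.sum_const,
      nsmul_eq_mul]
    congr 2
    have h5 : Nat.card Z = Nat.card {a : A // (a : E) ∈ Z} :=
      Nat.card_congr (Subgroup.subgroupOfEquivOfLe hZA).symm.toEquiv
    rw [h5, Nat.card_eq_fintype_card, Fintype.card_subtype]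
  rw [h2, h3, mul_comm, ← mul_assoc, mul_inv_cancel₀, one_mul]
  exact_mod_cast Nat.card_pos.ne'

end rep

end Cfsg.Agent.H97.KR.C4

namespace Cfsg.Agent.H97.KR

open Module C4

theorem Crit.exists_W {G : Type} [Group G] [Finite G] {E : Subgroup G} {p : ℕ} (h : Crit E p) {V : Type}
    [AddCommGroup V] [Module ℂ V] [FiniteDimensional ℂ V] (ρ : G →* (V →ₗ[ℂ] V)) (hρ : Function.Injective ρ)
    (hsc : ∀ z ∈ Subgroup.center G, ∃ c : ℂ, ρ z = c • LinearMap.id) (hV : 1 ≤ Module.finrank ℂ V) :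
    ∃ (n : ℕ) (W : Submodule ℂ V), 1 ≤ n ∧ Nat.card E = Nat.card (Subgroup.center G) * p ^ (2 * n) ∧
      Module.finrank ℂ W * p ^ n = Module.finrank ℂ V ∧
      (∀ d ∈ Subgroup.centralizer (E : Set G), ∀ w ∈ W, ρ d w ∈ W) ∧
      (∀ d ∈ Subgroup.centralizer (E : Set G), (∀ w ∈ W, ρ d w = w) → d = 1) := by
  classical
  have hp := h.prime
  haveI : Fact p.Prime := ⟨hp⟩
  haveI hnt : Nontrivial V := (Module.finrank_pos_iff (R := ℂ) (M := V)).1 hV
  obtain ⟨v0, hv0⟩ := exists_ne (0 : V)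
  -- the scalar character of the center
  choose c hc using hsc
  have hcinj : ∀ a b : ℂ, a • (LinearMap.id : V →ₗ[ℂ] V) = b • LinearMap.id → a = b := by
    intro a b hab
    have := congrArg (fun f : V →ₗ[ℂ] V => f v0) hab
    simp only [LinearMap.smul_apply, LinearMap.id_apply] at this
    exact smul_left_injective ℂ hv0 this
  set Z : Subgroup E := (Subgroup.center G).subgroupOf E with hZdef
  have hZmem : ∀ x : E, x ∈ Z ↔ (x : G) ∈ Subgroup.center G := fun x => Subgroup.mem_subgroupOf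
  let l0 : Z →* ℂ :=
    { toFun := fun z => c _ ((hZmem _).1 z.2)
      map_one' := by
        apply hcinj
        rw [← hc]
        simp only [Subgroup.coe_one, map_one, one_smul]
        rfl
      map_mul' := by
        intro x y
        apply hcinj
        rw [← hc]
        simp only [Subgroup.coe_mul, map_mul]
        rw [hc _ ((hZmem _).1 x.2), hc _ ((hZmem _).1 y.2)]
        ext v
        simp only [Module.End.mul_apply, LinearMap.smul_apply, LinearMap.id_apply, smul_smul] }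
  let l : Z →* ℂˣ := l0.toHomUnits
  have hlv : ∀ z : Z, ((l z : ℂˣ) : ℂ) = l0 z := fun z => rfl
  have hl0 : ∀ z : Z, ρ (z : E) = l0 z • LinearMap.id := fun z => hc _ ((hZmem _).1 z.2)
  have hlinj : Function.Injective l := by
    intro x y hxy
    have h1 : l0 x = l0 y := by rw [← hlv, hxy, hlv]
    have h2 : ρ (x : E) = ρ (y : E) := by rw [hl0, hl0, h1]
    exact Subtype.ext (Subtype.ext (hρ h2))
  have hZc : ∀ z ∈ Z, ∀ x : E, z * x = x * z := by
    intro z hz x
    apply Subtype.ext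
    exact (((Subgroup.mem_center_iff.1 ((hZmem _).1 hz)) x)).symm
  have hcomm : ∀ x y : E, x * y * x⁻¹ * y⁻¹ ∈ Z := by
    intro x y
    rw [hZmem]
    exact h.comm x x.2 y y.2
  have hnd : ∀ x : E, (∀ y : E, x * y = y * x) → x ∈ Z := by
    intro x hx
    rw [hZmem]
    exact h.nondeg x x.2 fun y hy => congrArg Subtype.val (hx ⟨y, hy⟩)
  obtain ⟨A, hZA, hab, hmax⟩ := exists_max Z hZc
  have hidx := index_eq Z hZc hcomm l hlinj A hZA hab hmax hnd
  haveI : Fintype A := Fintype.ofFinite A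
  -- counting
  have hcardZ : Nat.card Z = Nat.card (Subgroup.center G) := Nat.card_congr (Subgroup.subgroupOfEquivOfLe h.le).toEquiv
  have hcardZA : Nat.card (Z.subgroupOf A) = Nat.card Z := Nat.card_congr (Subgroup.subgroupOfEquivOfLe hZA).toEquiv
  have hA1 : Nat.card Z * A.index = Nat.card A := by
    rw [hidx, ← hcardZA, Subgroup.card_mul_index]
  have hE1 : Nat.card A * A.index = Nat.card E := Subgroup.card_mul_index A
  haveI hZn : Z.Normal := ⟨fun a ha g => by
    have := hZc _ ha g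
    rw [← this]
    simpa using ha⟩
  have hpg : IsPGroup p (E ⧸ Z) := by
    intro x
    obtain ⟨x, rfl⟩ := QuotientGroup.mk_surjective x
    refine ⟨1, ?_⟩
    rw [pow_one, ← QuotientGroup.mk_pow, QuotientGroup.eq_one_iff, hZmem]
    exact h.pow x x.2
  obtain ⟨k, hk⟩ := IsPGroup.iff_card.1 hpg
  have hdvd : A.index ∣ p ^ k := by
    rw [← hk]
    exact Subgroup.index_dvd_of_le hZA
  obtain ⟨n, -, hn⟩ := (Nat.dvd_prime_pow hp).1 hdvd
  have hn1 : 1 ≤ n := by
    by_contra h0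
    have h0 : n = 0 := by omega
    rw [h0, pow_zero] at hn
    have h1 : A = ⊤ := Subgroup.index_eq_one.1 hn
    apply h.ne
    intro x hx
    have h2 : (⟨x, hx⟩ : E) ∈ Z := hnd _ fun y => hab _ (by rw [h1]; trivial) _ (by rw [h1]; trivial)
    exact (hZmem _).1 h2
  -- extension of the character
  letI : CommGroup A := { (inferInstance : Group A) with mul_comm := fun a b => Subtype.ext (hab a a.2 b b.2) }
  let l1 : Z.subgroupOf A →* ℂˣ := l.comp (Subgroup.subgroupOfEquivOfLe hZA).toMonoidHom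
  obtain ⟨m, hm⟩ := MonoidHom.domRestrict_surjective (M := ℂ) (Z.subgroupOf A) l1
  have hm' : ∀ z : A, ∀ hz : (z : E) ∈ Z, m z = l ⟨z, hz⟩ := by
    intro z hz
    exact congrArg (fun f : Z.subgroupOf A →* ℂˣ => f ⟨z, hz⟩) hm
  set r : E →* (V →ₗ[ℂ] V) := ρ.comp E.subtype with hr
  have hsc' : ∀ z : A, (z : E) ∈ Z → r z = (m z : ℂ) • LinearMap.id := by
    intro z hz
    rw [hm' z hz, hlv]
    exact hl0 ⟨z, hz⟩
  have hne : ∀ z : A, (z : E) ∈ Z → m z = 1 → z = 1 := by
    intro z hz hz1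
    rw [hm' z hz] at hz1
    have h1 : (⟨(z : E), hz⟩ : Z) = 1 := (map_eq_one_iff l hlinj).1 hz1
    have h2 : (z : E) = 1 := congrArg (fun u : Z => (u : E)) h1
    exact Subtype.ext h2
  have hab' : ∀ a ∈ A, a ∉ Z → ∃ e : E, e * a * e⁻¹ * a⁻¹ ∈ Z ∧ e * a * e⁻¹ * a⁻¹ ≠ 1 := by
    intro a _ ha
    by_contra hcon
    push Not at hcon
    apply ha
    refine hnd a fun y => ?_
    have := hcon y (hcomm _ _)
    rw [mul_inv_eq_one, mul_inv_eq_iff_eq_mul] at this
    exact this.symm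
  have hcA : (Nat.card A : ℂ) ≠ 0 := by exact_mod_cast Nat.card_pos.ne'
  have hcZ : (Nat.card Z : ℂ) ≠ 0 := by exact_mod_cast Nat.card_pos.ne'
  have hdim : finrank ℂ (Wt r A m) * p ^ n = finrank ℂ V := by
    have h1 := trace_comp r A m Z hZA hsc' hne hab' 1 (fun e => by rw [one_mul, mul_one])
    rw [one_mul, trace_Pj, ← hA1, hn] at h1
    have h2 : LinearMap.trace ℂ V 1 = (finrank ℂ V : ℂ) := LinearMap.trace_one ℂ V
    rw [h2] at h1
    have h3 : (Nat.card Z : ℂ) * ((finrank ℂ (Wt r A m) : ℂ) * (p : ℂ) ^ n) = Nat.card Z * finrank ℂ V := by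
      rw [← h1]; push_cast; ring
    have h4 := mul_left_cancel₀ hcZ h3
    exact_mod_cast h4
  have hcm : ∀ d ∈ Subgroup.centralizer (E : Set G), ∀ e : E, ρ d * r e = r e * ρ d := by
    intro d hd e
    have := (Subgroup.mem_centralizer_iff.1 hd) e e.2
    simp only [hr, MonoidHom.comp_apply, Subgroup.coe_subtype]
    rw [← map_mul, ← map_mul, this]
  refine ⟨n, Wt r A m, hn1, ?_, hdim, ?_, ?_⟩
  · rw [← hE1, ← hA1, hn, hcardZ]; ring
  · intro d hd w hw a
    have h1 := congrArg (fun f : V →ₗ[ℂ] V => f w) (hcm d hd a)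
    simp only [Module.End.mul_apply] at h1
    rw [← h1, hw a, map_smul]
  · intro d hd hdw
    have h1 := trace_comp r A m Z hZA hsc' hne hab' (ρ d) (hcm d hd)
    have h2 : ρ d * Pj r A m = Pj r A m := by
      ext v
      rw [Module.End.mul_apply]
      exact hdw _ (Pj_mem r A m v)
    have h3 := trace_comp r A m Z hZA hsc' hne hab' 1 (fun e => by rw [one_mul, mul_one])
    rw [one_mul] at h3
    rw [h2, h3] at h1
    have h4 := mul_left_cancel₀ hcZ h1
    have h5 : LinearMap.trace ℂ V 1 = (finrank ℂ V : ℂ) := LinearMap.trace_one ℂ V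
    rw [h5] at h4
    have h6 : ρ d ^ orderOf d = 1 := by rw [← map_pow, pow_orderOf_eq_one, map_one]
    have h7 := (Cfsg.Agent.Char.endo_trace_eq_finrank_iff (orderOf_pos d).ne' h6).1 h4.symm
    apply hρ
    rw [h7, map_one]
    rfl

end Cfsg.Agent.H97.KR
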