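import Cfsg.Agent.H97.KB
import Cfsg.Agent.Solv.MinNormal

set_option autoImplicit false

/-!
Definitions for S4265.
-/

namespace Cfsg.Agent.H97.KR

open Cfsg

/-- the bound for all solvable linear groups of degree `r` -/
def Bd (r : ℕ) : Prop := ∀ (G : Type) [Group G] [Finite G] [Group.IsSolvable G] (V : Type) [AddCommGroup V] [Module ℂ V]
  [FiniteDimensional ℂ V] (ρ : G →* (V →ₗ[ℂ] V)), Function.Injective ρ → Module.finrank ℂ V = r → 1 ≤ r →
  KB (G ⧸ fittingSubgroup G) (3 ^ (r - 1))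

/-- `G` permutes the summands of a decomposition of `V` into at least two nonzero subspaces -/
def Imprim {G : Type} [Group G] {V : Type} [AddCommGroup V] [Module ℂ V] (ρ : G →* (V →ₗ[ℂ] V)) : Prop :=
  ∃ (k : ℕ) (W : Fin k → Submodule ℂ V), 2 ≤ k ∧ DirectSum.IsInternal W ∧ (∀ i, W i ≠ ⊥) ∧
    ∀ g : G, ∀ i, ∃ j, (W i).map (ρ g) = W j

/-- the critical normal subgroup of a primitive solvable linear group -/
structure Crit {G : Type} [Group G] (E : Subgroup G) (p : ℕ) : Prop where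
  prime : p.Prime
  normal : E.Normal
  le : Subgroup.center G ≤ E
  ne : ¬ E ≤ Subgroup.center G
  pow : ∀ x ∈ E, x ^ p ∈ Subgroup.center G
  comm : ∀ x ∈ E, ∀ y ∈ E, x * y * x⁻¹ * y⁻¹ ∈ Subgroup.center G
  nondeg : ∀ x ∈ E, (∀ y ∈ E, x * y = y * x) → x ∈ Subgroup.center G
  min : ∀ N : Subgroup G, N.Normal → Subgroup.center G ≤ N → N ≤ E → N = Subgroup.center G ∨ N = E

/-- a faithful group of isometries of a symplectic space -/
structure Sy (p n : ℕ) [Fact p.Prime] {U : Type} [AddCommGroup U] [Module (ZMod p) U]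
    (B : U →ₗ[ZMod p] U →ₗ[ZMod p] ZMod p) {Y : Type} [Group Y] (σ : Y →* (U →ₗ[ZMod p] U)) : Prop where
  inj : Function.Injective σ
  alt : ∀ v, B v v = 0
  nd : ∀ v, (∀ w, B v w = 0) → v = 0
  inv : ∀ y v w, B (σ y v) (σ y w) = B v w
  card : Nat.card U = p ^ (2 * n)

/-- irreducibility -/
def Irr {p : ℕ} {U : Type} [AddCommGroup U] [Module (ZMod p) U] {Y : Type} [Group Y] (σ : Y →* (U →ₗ[ZMod p] U)) :
    Prop := ∀ W : Submodule (ZMod p) U, (∀ y, ∀ w ∈ W, σ y w ∈ W) → W = ⊥ ∨ W = ⊤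

/-- `Y` permutes the summands of an orthogonal decomposition into `t` nondegenerate subspaces of
dimension `2 m` -/
def Orth {U : Type} [AddCommGroup U] [Module (ZMod 2) U]
    (B : U →ₗ[ZMod 2] U →ₗ[ZMod 2] ZMod 2) {Y : Type} [Group Y] (σ : Y →* (U →ₗ[ZMod 2] U)) (t m : ℕ) : Prop :=
  ∃ W : Fin t → Submodule (ZMod 2) U, DirectSum.IsInternal W ∧ (∀ i, Nat.card (W i) = 2 ^ (2 * m)) ∧
    (∀ i j, i ≠ j → ∀ v ∈ W i, ∀ w ∈ W j, B v w = 0) ∧ ∀ y : Y, ∀ i, ∃ j, (W i).map (σ y) = W j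

end Cfsg.Agent.H97.KR
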