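import Cfsg.Agent.H97.KRDef

set_option autoImplicit false

/-!
Fitting subgroups and class number bounds.
-/

namespace Cfsg.Agent.H97.KR

open Cfsg Cfsg.Agent.Solv

namespace F

theorem nilp_of_inj {G H : Type} [Group G] [Group H] [Group.IsNilpotent H] (f : G →* H) (hf : Function.Injective f) :
    Group.IsNilpotent G := by
  apply Subgroup.isNilpotent_of_ker_le_center f
  rw [(MonoidHom.ker_eq_bot_iff f).mpr hf]; exact bot_le

end F

theorem KB.fit_pi {G : Type} [Group G] [Finite G] {n : ℕ} {H : Fin n → Type} [∀ i, Group (H i)] [∀ i, Finite (H i)]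
    (f : ∀ i, G →* H i) (hf : ∀ i, Function.Surjective (f i)) (hinj : ∀ g : G, (∀ i, f i g = 1) → g = 1)
    {m : Fin n → ℕ} (h : ∀ i, KB (H i ⧸ fittingSubgroup (H i)) (m i)) :
    KB (G ⧸ fittingSubgroup G) (∏ i, m i) := by
  -- the map to the product
  let Φ : G →* (∀ i, H i ⧸ fittingSubgroup (H i)) := MonoidHom.pi fun i => (QuotientGroup.mk' _).comp (f i)
  have hk : Φ.ker = fittingSubgroup G := by
    apply le_antisymm
    · apply le_fitting inferInstance
      -- nilpotent
      let Ψ : Φ.ker →* (∀ i, fittingSubgroup (H i)) := MonoidHom.pi fun i =>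
        { toFun := fun g => ⟨f i g, by
            have := g.2
            rw [MonoidHom.mem_ker] at this
            have h1 := congrFun this i
            exact (QuotientGroup.eq_one_iff _).mp h1⟩
          map_one' := by ext; simp
          map_mul' := by intro x y; ext; simp }
      have : ∀ i, Group.IsNilpotent (fittingSubgroup (H i)) := fun i => fitting_isNilpotent
      have hΨ : Function.Injective Ψ := by
        rw [injective_iff_map_eq_one]
        intro g hg
        apply Subtype.ext
        apply hinj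
        intro i
        exact congrArg Subtype.val (congrFun hg i)
      have h2 : Group.IsNilpotent (∀ i, fittingSubgroup (H i)) := Group.isNilpotent_pi
      exact F.nilp_of_inj Ψ hΨ
    · intro x hx
      rw [MonoidHom.mem_ker]
      funext i
      exact (QuotientGroup.eq_one_iff _).mpr (map_fitting_le (f i) (hf i) ⟨x, hx, rfl⟩)
  have h3 := KB.pi h
  have h4 := KB.of_injective (QuotientGroup.kerLift Φ) (QuotientGroup.kerLift_injective Φ) h3
  exact KB.of_injective (QuotientGroup.quotientMulEquivOfEq hk.symm).toMonoidHom (MulEquiv.injective _) h4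

theorem KB.fit_normal {G : Type} [Group G] [Finite G] (K : Subgroup G) [K.Normal] {a b : ℕ}
    (h1 : KB (K ⧸ fittingSubgroup K) a) (h2 : KB (G ⧸ K) b) : KB (G ⧸ fittingSubgroup G) (a * b) := by
  -- the normal subgroup `K F(G) / F(G)`
  have hN : (K ⊔ fittingSubgroup G).Normal := inferInstance
  let π : (G ⧸ fittingSubgroup G) →* (G ⧸ (K ⊔ fittingSubgroup G)) :=
    QuotientGroup.map _ _ (MonoidHom.id G) (by intro x hx; exact Subgroup.mem_sup_right hx)
  refine KB.of_ker π ?_ ?_
  · -- the kernel is an image of `K`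
    let ψ : K →* π.ker :=
      { toFun := fun k => ⟨((k : G) : G ⧸ fittingSubgroup G), by
          rw [MonoidHom.mem_ker]
          exact (QuotientGroup.eq_one_iff _).mpr (Subgroup.mem_sup_left k.2)⟩
        map_one' := rfl
        map_mul' := fun _ _ => rfl }
    have hψ : Function.Surjective ψ := by
      rintro ⟨x, hx⟩
      obtain ⟨g, rfl⟩ := QuotientGroup.mk_surjective x
      rw [MonoidHom.mem_ker] at hx
      have h3 : g ∈ K ⊔ fittingSubgroup G := (QuotientGroup.eq_one_iff _).mp hx
      rw [Subgroup.mem_sup_of_normal_right] at h3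
      obtain ⟨k, hk, y, hy, rfl⟩ := h3
      refine ⟨⟨k, hk⟩, Subtype.ext ?_⟩
      show ((k : G) : G ⧸ fittingSubgroup G) = ((k * y : G) : G ⧸ fittingSubgroup G)
      rw [QuotientGroup.eq]
      simpa using hy
    have hker : fittingSubgroup K ≤ ψ.ker := by
      intro k hk
      rw [MonoidHom.mem_ker]
      apply Subtype.ext
      show ((k : G) : G ⧸ fittingSubgroup G) = 1
      rw [QuotientGroup.eq_one_iff]
      exact map_subtype_fitting_le K ⟨k, hk, rfl⟩
    have h4 := KB.of_surjective (QuotientGroup.lift (fittingSubgroup K) ψ hker)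
      (fun x => by
        obtain ⟨k, hk⟩ := hψ x
        exact ⟨k, hk⟩) h1
    exact h4
  · exact KB.of_surjective (QuotientGroup.map K (K ⊔ fittingSubgroup G) (MonoidHom.id G)
      (by intro x hx; exact Subgroup.mem_sup_left hx))
      (fun x => by
        obtain ⟨g, rfl⟩ := QuotientGroup.mk_surjective x
        exact ⟨g, rfl⟩) h2

theorem KB.fit_sup {G : Type} [Group G] [Finite G] (D : Subgroup G) [D.Normal] (hD : D ⊔ fittingSubgroup G = ⊤)
    {a : ℕ} (h : KB (D ⧸ fittingSubgroup D) a) : KB (G ⧸ fittingSubgroup G) a := by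
  let ψ : D →* (G ⧸ fittingSubgroup G) := (QuotientGroup.mk' _).comp D.subtype
  have hψ : Function.Surjective ψ := by
    intro x
    obtain ⟨g, rfl⟩ := QuotientGroup.mk_surjective x
    have h3 : g ∈ D ⊔ fittingSubgroup G := by rw [hD]; trivial
    rw [Subgroup.mem_sup_of_normal_right] at h3
    obtain ⟨k, hk, y, hy, rfl⟩ := h3
    refine ⟨⟨k, hk⟩, ?_⟩
    show ((k : G) : G ⧸ fittingSubgroup G) = ((k * y : G) : G ⧸ fittingSubgroup G)
    rw [QuotientGroup.eq]
    simpa using hy
  have hker : fittingSubgroup D ≤ ψ.ker := by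
    intro k hk
    rw [MonoidHom.mem_ker]
    show ((k : G) : G ⧸ fittingSubgroup G) = 1
    rw [QuotientGroup.eq_one_iff]
    exact map_subtype_fitting_le D ⟨k, hk, rfl⟩
  exact KB.of_surjective (QuotientGroup.lift (fittingSubgroup D) ψ hker)
    (fun x => by
      obtain ⟨k, hk⟩ := hψ x
      exact ⟨k, hk⟩) h

theorem KB.fit_equiv {G H : Type} [Group G] [Group H] [Finite G] (e : G ≃* H) {a : ℕ}
    (h : KB (G ⧸ fittingSubgroup G) a) : KB (H ⧸ fittingSubgroup H) a := by
  have : Finite H := Finite.of_equiv G e.toEquiv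
  refine KB.of_surjective (QuotientGroup.map (fittingSubgroup G) (fittingSubgroup H) e.toMonoidHom ?_) ?_ h
  · intro x hx
    exact map_fitting_le e.toMonoidHom e.surjective ⟨x, hx, rfl⟩
  · intro x
    obtain ⟨y, rfl⟩ := QuotientGroup.mk_surjective x
    obtain ⟨g, rfl⟩ := e.surjective y
    exact ⟨g, rfl⟩

theorem KB.fit_cent {G : Type} [Group G] [Finite G] (E : Subgroup G) [E.Normal] (hE : Group.IsNilpotent E)
    {a b : ℕ} (h1 : KB (Subgroup.centralizer (E : Set G) ⧸ fittingSubgroup (Subgroup.centralizer (E : Set G))) a)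
    (h2 : KB (G ⧸ (Subgroup.centralizer (E : Set G) ⊔ E)) b) : KB (G ⧸ fittingSubgroup G) (a * b) := by
  refine KB.fit_normal (Subgroup.centralizer (E : Set G) ⊔ E) ?_ h2
  set C := Subgroup.centralizer (E : Set G) ⊔ E with hC
  have hDC : Subgroup.centralizer (E : Set G) ≤ C := le_sup_left
  have hEC : E ≤ C := le_sup_right
  have hDn : ((Subgroup.centralizer (E : Set G)).subgroupOf C).Normal := inferInstance
  have hEn : (E.subgroupOf C).Normal := inferInstance
  have hEnil : Group.IsNilpotent (E.subgroupOf C) := by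
    exact Group.nilpotent_of_mulEquiv (Subgroup.subgroupOfEquivOfLe hEC).symm
  refine KB.fit_sup ((Subgroup.centralizer (E : Set G)).subgroupOf C) ?_
    (KB.fit_equiv (Subgroup.subgroupOfEquivOfLe hDC).symm h1)
  rw [eq_top_iff]
  rintro ⟨x, hx⟩ _
  have hx' := hx
  rw [hC, Subgroup.mem_sup_of_normal_right] at hx'
  obtain ⟨d, hd, e, he, rfl⟩ := hx'
  have : (⟨d * e, hx⟩ : C) = ⟨d, hDC hd⟩ * ⟨e, hEC he⟩ := rfl
  rw [this]
  exact mul_mem (Subgroup.mem_sup_left hd) (Subgroup.mem_sup_right (le_fitting hEn hEnil he))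

end Cfsg.Agent.H97.KR
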