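import Cfsg.Agent.H97.KRDef
import Cfsg.Agent.H67.Solv

/-!
# S4265, piece P: a solvable permutation group of degree `k` has order at most `3 ^ (k - 1)`
-/

set_option autoImplicit false
set_option linter.unusedSectionVars false

namespace Cfsg.Agent.H97.KR

open Cfsg

namespace KRP

theorem num1 {L : ℕ} (hL : 6 ≤ L) : (L + 1) ^ 2 + 1 ≤ 2 ^ L := by
  induction L, hL using Nat.le_induction with
  | base => norm_num
  | succ n hn ih =>
    have h2 : (n + 1 + 1) ^ 2 ≤ 2 * (n + 1) ^ 2 + 1 := by nlinarith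
    rw [pow_succ 2 n]
    omega

theorem num2 : ∀ k < 32, ∀ a < 5, 2 ≤ k → 2 ^ a ≤ k → k.descFactorial (a + 1) ≤ 3 ^ (k - 1) := by
  decide +kernel

theorem num3 {L : ℕ} (hL : 5 ≤ L) : 2 ^ ((L + 1) * (L + 1)) ≤ 3 ^ (2 ^ L - 1) := by
  rcases hL.lt_or_eq with h | h
  · have h1 := num1 h
    calc 2 ^ ((L + 1) * (L + 1)) ≤ 2 ^ (2 ^ L - 1) := Nat.pow_le_pow_right (by norm_num) (by
          rw [← sq]; omega)
      _ ≤ 3 ^ (2 ^ L - 1) := Nat.pow_le_pow_left (by norm_num) _
  · subst h
    norm_num

theorem num {k a : ℕ} (hk : 2 ≤ k) (ha : 2 ^ a ≤ k) : k.descFactorial (a + 1) ≤ 3 ^ (k - 1) := by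
  by_cases h : k < 32
  · refine num2 k h a ?_ hk ha
    have h1 : 2 ^ a < 2 ^ 5 := lt_of_le_of_lt ha (by norm_num; exact h)
    exact (Nat.pow_lt_pow_iff_right (by norm_num)).1 h1
  · push Not at h
    have hk0 : k ≠ 0 := by omega
    set L := Nat.log 2 k with hL
    have h1 : 2 ^ L ≤ k := Nat.pow_log_le_self 2 hk0
    have h2 : k < 2 ^ (L + 1) := Nat.lt_pow_succ_log_self (by norm_num) k
    have h3 : 5 ≤ L := by
      by_contra hcon
      have h4 : 2 ^ (L + 1) ≤ 2 ^ 5 := Nat.pow_le_pow_right (by norm_num) (by omega)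
      norm_num at h4
      omega
    have h4 : a ≤ L := by
      by_contra hcon
      have h5 : 2 ^ (L + 1) ≤ 2 ^ a := Nat.pow_le_pow_right (by norm_num) (by omega)
      omega
    calc k.descFactorial (a + 1) ≤ k ^ (a + 1) := Nat.descFactorial_le_pow _ _
      _ ≤ k ^ (L + 1) := Nat.pow_le_pow_right (by omega) (by omega)
      _ ≤ (2 ^ (L + 1)) ^ (L + 1) := Nat.pow_le_pow_left h2.le _
      _ = 2 ^ ((L + 1) * (L + 1)) := by rw [← pow_mul]
      _ ≤ 3 ^ (2 ^ L - 1) := num3 h3
      _ ≤ 3 ^ (k - 1) := Nat.pow_le_pow_right (by norm_num) (by omega)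

theorem exists_gen (N : Type*) [Group N] [Finite N] :
    ∃ S : Finset N, Subgroup.closure (S : Set N) = ⊤ ∧ 2 ^ S.card ≤ Nat.card N := by
  classical
  have := Fintype.ofFinite N
  obtain ⟨S, hS, hmax⟩ := Finset.exists_max_image
    (Finset.univ.filter (fun S : Finset N => 2 ^ S.card ≤ Nat.card (Subgroup.closure (S : Set N))))
    Finset.card ⟨∅, by simp⟩
  rw [Finset.mem_filter] at hS
  refine ⟨S, ?_, hS.2.trans (Subgroup.card_le_card_group _)⟩
  by_contra hne
  obtain ⟨x, hx⟩ : ∃ x, x ∉ Subgroup.closure (S : Set N) := by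
    by_contra h
    push Not at h
    exact hne (by ext y; simp [h y])
  have hxS : x ∉ S := fun h => hx (Subgroup.subset_closure h)
  have h1 : Subgroup.closure (S : Set N) < Subgroup.closure ((insert x S : Finset N) : Set N) := by
    refine lt_of_le_of_ne (Subgroup.closure_mono (by simp)) ?_
    intro h
    apply hx
    rw [h]
    exact Subgroup.subset_closure (by simp)
  obtain ⟨c, hc⟩ : Nat.card (Subgroup.closure (S : Set N)) ∣
      Nat.card (Subgroup.closure ((insert x S : Finset N) : Set N)) := Subgroup.card_dvd_of_le h1.le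
  have h2 : c ≠ 1 := by
    rintro rfl
    exact h1.ne (Subgroup.eq_of_le_of_card_ge h1.le (by rw [hc, mul_one]))
  have h3 : c ≠ 0 := by
    rintro rfl
    rw [mul_zero] at hc
    exact Nat.card_pos.ne' hc
  have h4 : 2 ^ (insert x S : Finset N).card ≤
      Nat.card (Subgroup.closure ((insert x S : Finset N) : Set N)) := by
    rw [hc, Finset.card_insert_of_notMem hxS, pow_succ]
    exact Nat.mul_le_mul hS.2 (by omega)
  have := hmax (insert x S) (by rw [Finset.mem_filter]; exact ⟨Finset.mem_univ _, h4⟩)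
  rw [Finset.card_insert_of_notMem hxS] at this
  omega

section

variable {X : Type} [Group X] {Ω : Type} (f : X →* Equiv.Perm Ω) (A : Subgroup X)

/-- `A` transitive abelian normal -/
theorem card_le_regular [Finite X] [Finite Ω] [hA : A.Normal] (hf : Function.Injective f)
    (hc : ∀ x ∈ A, ∀ y ∈ A, x * y = y * x) (ht : ∀ ω ω' : Ω, ∃ a ∈ A, f a ω = ω') (hk : 2 ≤ Nat.card Ω) :
    Nat.card X ≤ 3 ^ (Nat.card Ω - 1) := by
  classical
  have iΩ : Fintype Ω := Fintype.ofFinite Ω
  have hne : Nonempty Ω := (Nat.card_pos_iff.1 (by omega : 0 < Nat.card Ω)).1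
  obtain ⟨ω⟩ := hne
  have hreg : ∀ a ∈ A, ∀ b ∈ A, f a ω = f b ω → a = b := by
    intro a ha b hb hab
    apply hf
    ext ω'
    obtain ⟨c, hcA, rfl⟩ := ht ω ω'
    have h1 : f a (f c ω) = f c (f a ω) := by
      rw [← Equiv.Perm.mul_apply, ← map_mul, hc a ha c hcA, map_mul, Equiv.Perm.mul_apply]
    have h2 : f b (f c ω) = f c (f b ω) := by
      rw [← Equiv.Perm.mul_apply, ← map_mul, hc b hb c hcA, map_mul, Equiv.Perm.mul_apply]
    rw [h1, h2, hab]
  have hcardA : Nat.card A = Nat.card Ω := by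
    apply Nat.card_congr
    refine Equiv.ofBijective (fun a : A => f a ω) ⟨?_, ?_⟩
    · intro a b hab
      exact Subtype.ext (hreg a a.2 b b.2 hab)
    · intro ω'
      obtain ⟨a, ha, h⟩ := ht ω ω'
      exact ⟨⟨a, ha⟩, h⟩
  obtain ⟨S0, hS0, hS02⟩ := exists_gen A
  set S := S0.erase 1 with hS
  have hScard : 2 ^ S.card ≤ Nat.card Ω := by
    rw [← hcardA]
    exact (Nat.pow_le_pow_right (by norm_num) (Finset.card_le_card (Finset.erase_subset 1 S0))).trans hS02
  have hScl : Subgroup.closure (S : Set A) = ⊤ := by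
    rw [eq_top_iff, ← hS0, Subgroup.closure_le]
    intro x hx
    by_cases h : x = 1
    · rw [h]; exact Subgroup.one_mem _
    · exact Subgroup.subset_closure (Finset.mem_coe.2 (Finset.mem_erase.2 ⟨h, hx⟩))
  -- the injection
  let pt : Option S → Ω := fun o => match o with
    | none => ω
    | some s => f ((s : A) : X) ω
  have hpt : Function.Injective pt := by
    rintro (_ | s) (_ | s') h
    · rfl
    · exfalso
      have h1 : f 1 ω = f (((s' : A) : X)) ω := by rw [map_one]; exact h
      have h2 := hreg 1 A.one_mem _ (s' : A).2 h1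
      exact (Finset.mem_erase.1 s'.2).1 (Subtype.ext h2.symm)
    · exfalso
      have h1 : f 1 ω = f (((s : A) : X)) ω := by rw [map_one]; exact h.symm
      have h2 := hreg 1 A.one_mem _ (s : A).2 h1
      exact (Finset.mem_erase.1 s.2).1 (Subtype.ext h2.symm)
    · have h2 := hreg _ (s : A).2 _ (s' : A).2 h
      exact congrArg some (Subtype.ext (Subtype.ext h2))
  let Φ : X → (Option S ↪ Ω) := fun x => ⟨fun o => f x (pt o), (f x).injective.comp hpt⟩
  have hΦ : Function.Injective Φ := by
    intro x y hxy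
    have hxy' : ∀ o, f x (pt o) = f y (pt o) := fun o => congrArg (fun e : Option S ↪ Ω => e o) hxy
    set z := y⁻¹ * x with hz
    have hz1 : ∀ o, f z (pt o) = pt o := by
      intro o
      rw [hz, map_mul, Equiv.Perm.mul_apply, hxy' o, ← Equiv.Perm.mul_apply, ← map_mul, inv_mul_cancel, map_one]
      rfl
    have hzω : f z ω = ω := hz1 none
    have hzω' : f z⁻¹ ω = ω := by
      rw [map_inv, Equiv.Perm.inv_eq_iff_eq]; exact hzω.symm
    have hzA : ∀ a : A, z * a * z⁻¹ = a := by
      have hcl : (⊤ : Subgroup A) ≤ ((Subgroup.centralizer ({z} : Set X)).subgroupOf A) := by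
        rw [← hScl, Subgroup.closure_le]
        intro s hs
        have h1 : f (z * (s : X) * z⁻¹) ω = f (s : X) ω := by
          rw [map_mul, map_mul, Equiv.Perm.mul_apply, Equiv.Perm.mul_apply, hzω']
          exact hz1 (some ⟨s, hs⟩)
        have h2 := hreg _ (hA.conj_mem _ s.2 z) _ s.2 h1
        show (s : X) ∈ Subgroup.centralizer ({z} : Set X)
        rw [Subgroup.mem_centralizer_singleton_iff]
        calc (s : X) * z = (z * s * z⁻¹) * z := by rw [h2]
          _ = z * s := by group
      intro a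
      have h3 : (a : X) ∈ Subgroup.centralizer ({z} : Set X) := hcl (Subgroup.mem_top a)
      rw [Subgroup.mem_centralizer_singleton_iff] at h3
      rw [← h3]; group
    have hz2 : z = 1 := by
      apply hf
      ext ω'
      obtain ⟨a, ha, rfl⟩ := ht ω ω'
      have h1 : z * a = a * z := by
        calc z * a = (z * a * z⁻¹) * z := by group
          _ = a * z := by rw [hzA ⟨a, ha⟩]
      rw [← Equiv.Perm.mul_apply, ← map_mul, h1, map_mul, Equiv.Perm.mul_apply, hzω, map_one]
      rfl
    rw [hz] at hz2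
    exact (inv_mul_eq_one.1 hz2).symm
  have h1 := Nat.card_le_card_of_injective Φ hΦ
  have h2 : Nat.card (Option S ↪ Ω) = (Nat.card Ω).descFactorial (S.card + 1) := by
    rw [Nat.card_eq_fintype_card, Fintype.card_embedding_eq, Fintype.card_option, Fintype.card_coe,
      Nat.card_eq_fintype_card]
  rw [h2] at h1
  exact h1.trans (num hk hScard)

/-- the orbits of `A` -/
def orb : Setoid Ω where
  r ω ω' := ∃ a ∈ A, f a ω = ω'
  iseqv := ⟨fun ω => ⟨1, A.one_mem, by rw [map_one]; rfl⟩, by
    rintro ω ω' ⟨a, ha, rfl⟩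
    refine ⟨a⁻¹, A.inv_mem ha, ?_⟩
    rw [map_inv]; exact (f a).symm_apply_apply ω, by
    rintro ω ω' ω'' ⟨a, ha, rfl⟩ ⟨b, hb, rfl⟩
    exact ⟨b * a, A.mul_mem hb ha, by rw [map_mul]; rfl⟩⟩

theorem orb_map [hA : A.Normal] (x : X) (ω ω' : Ω) (h : (orb f A).r ω ω') : (orb f A).r (f x ω) (f x ω') := by
  obtain ⟨a, ha, rfl⟩ := h
  refine ⟨x * a * x⁻¹, hA.conj_mem a ha x, ?_⟩
  rw [← Equiv.Perm.mul_apply, ← Equiv.Perm.mul_apply, ← map_mul, ← map_mul]
  congr 2
  group

/-- the action on the orbits -/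
noncomputable def quotHom [A.Normal] : X →* Equiv.Perm (Quotient (orb f A)) where
  toFun x :=
    { toFun := Quotient.map (f x) (orb_map f A x)
      invFun := Quotient.map (f x⁻¹) (orb_map f A x⁻¹)
      left_inv := by
        rintro ⟨ω⟩
        show Quotient.mk _ (f x⁻¹ (f x ω)) = Quotient.mk _ ω
        rw [map_inv]; exact congrArg _ ((f x).symm_apply_apply ω)
      right_inv := by
        rintro ⟨ω⟩
        show Quotient.mk _ (f x (f x⁻¹ ω)) = Quotient.mk _ ω
        rw [map_inv]; exact congrArg _ ((f x).apply_symm_apply ω) }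
  map_one' := by
    ext ⟨ω⟩
    show Quotient.mk _ (f 1 ω) = Quotient.mk _ ω
    rw [map_one]; rfl
  map_mul' x y := by
    ext ⟨ω⟩
    show Quotient.mk _ (f (x * y) ω) = Quotient.mk _ (f x (f y ω))
    rw [map_mul]; rfl

theorem quotHom_mk [A.Normal] (x : X) (ω : Ω) :
    quotHom f A x (Quotient.mk (orb f A) ω) = Quotient.mk (orb f A) (f x ω) := rfl

theorem ker_mk [A.Normal] (x : (quotHom f A).ker) (ω : Ω) :
    Quotient.mk (orb f A) (f (x : X) ω) = Quotient.mk (orb f A) ω := by
  have h1 := x.2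
  rw [MonoidHom.mem_ker] at h1
  rw [← quotHom_mk, h1]; rfl

/-- the action of the kernel on an orbit -/
noncomputable def fibHom [A.Normal] (q : Quotient (orb f A)) :
    (quotHom f A).ker →* Equiv.Perm {ω : Ω // Quotient.mk (orb f A) ω = q} where
  toFun x := (f (x : X)).subtypePerm (fun ω => by rw [ker_mk])
  map_one' := by
    ext ω
    show f ((1 : (quotHom f A).ker) : X) (ω : Ω) = ω
    rw [Subgroup.coe_one, map_one]; rfl
  map_mul' x y := by
    ext ω
    show f ((x * y : (quotHom f A).ker) : X) (ω : Ω) = f x (f y ω)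
    rw [Subgroup.coe_mul, map_mul]; rfl

end

theorem card_le : ∀ (k : ℕ) {X : Type} [Group X] [Finite X] [Group.IsSolvable X] {Ω : Type} [Finite Ω]
    (f : X →* Equiv.Perm Ω), Function.Injective f → Nat.card Ω = k → 1 ≤ k → Nat.card X ≤ 3 ^ (k - 1) := by
  classical
  intro k
  induction k using Nat.strong_induction_on with
  | _ k ih =>
    intro X _ _ _ Ω _ f hf hΩ hk
    by_cases hX : Nontrivial X
    swap
    · rw [not_nontrivial_iff_subsingleton] at hX
      rw [Nat.card_unique]
      exact Nat.one_le_pow _ _ (by norm_num)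
    obtain ⟨A, hAn, hA1, hAc⟩ := Cfsg.Agent.H67.exists_abelian_normal X
    have iQ : Finite (Quotient (orb f A)) := Quotient.finite _
    have iQ' : Fintype (Quotient (orb f A)) := Fintype.ofFinite _
    set b := Nat.card (Quotient (orb f A)) with hb
    obtain ⟨⟨a, haA⟩, ha1⟩ := A.ne_bot_iff_exists_ne_one.1 hA1
    have ha1' : a ≠ 1 := fun h => ha1 (Subtype.ext h)
    obtain ⟨ω0, hω0⟩ : ∃ ω, f a ω ≠ ω := by
      by_contra hcon
      push Not at hcon
      exact ha1' (hf (by ext ω; rw [hcon ω, map_one]; rfl))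
    have hntΩ : Nontrivial Ω := ⟨⟨_, _, hω0⟩⟩
    have hk2 : 2 ≤ k := by
      rw [← hΩ]
      exact Finite.one_lt_card
    have hsurj : Function.Surjective (Quotient.mk (orb f A)) := Quotient.mk_surjective
    have hbk : b < k := by
      rw [hb, ← hΩ]
      refine lt_of_le_of_ne (Nat.card_le_card_of_surjective _ hsurj) ?_
      intro heq
      have hinj := (Nat.bijective_iff_surjective_and_card (Quotient.mk (orb f A))).2 ⟨hsurj, heq.symm⟩
      exact hω0 (hinj.1 (Quotient.sound (⟨a, haA, rfl⟩ : (orb f A).r ω0 (f a ω0)))).symm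
    have hb0 : 1 ≤ b := by
      have : Nonempty (Quotient (orb f A)) := ⟨Quotient.mk _ ω0⟩
      exact Nat.card_pos
    by_cases hb1 : b = 1
    · have hss : Subsingleton (Quotient (orb f A)) := (Nat.card_eq_one_iff_unique.1 hb1).1
      rw [← hΩ]
      refine card_le_regular f A hf hAc ?_ (by rw [hΩ]; exact hk2)
      intro ω ω'
      have h1 : Quotient.mk (orb f A) ω = Quotient.mk (orb f A) ω' := Subsingleton.elim _ _
      exact Quotient.exact h1
    · have hntQ : Nontrivial (Quotient (orb f A)) := by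
        rw [← Finite.one_lt_card_iff_nontrivial]
        omega
      have hsK : Group.IsSolvable (quotHom f A).ker := inferInstance
      have hsR : Group.IsSolvable (quotHom f A).range :=
        Group.isSolvable_of_surjective (f := (quotHom f A).rangeRestrict) (quotHom f A).rangeRestrict_surjective
      have hR : Nat.card (quotHom f A).range ≤ 3 ^ (b - 1) :=
        ih b hbk (quotHom f A).range.subtype (Subgroup.subtype_injective _) rfl hb0
      let m : Quotient (orb f A) → ℕ := fun q => Nat.card {ω : Ω // Quotient.mk (orb f A) ω = q}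
      have hm1 : ∀ q, 1 ≤ m q := by
        intro q
        obtain ⟨ω, hω⟩ := hsurj q
        have : Nonempty {ω : Ω // Quotient.mk (orb f A) ω = q} := ⟨⟨ω, hω⟩⟩
        exact Nat.card_pos
      have hmk : ∀ q, m q < k := by
        intro q
        obtain ⟨q', hq'⟩ := exists_ne q
        obtain ⟨ω, hω⟩ := hsurj q'
        rw [← hΩ]
        exact Finite.card_subtype_lt (x := ω) (by rw [hω]; exact hq')
      have hF : ∀ q, Nat.card (fibHom f A q).range ≤ 3 ^ (m q - 1) := by
        intro q
        have hs : Group.IsSolvable (fibHom f A q).range :=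
          Group.isSolvable_of_surjective (f := (fibHom f A q).rangeRestrict) (fibHom f A q).rangeRestrict_surjective
        exact ih (m q) (hmk q) (fibHom f A q).range.subtype (Subgroup.subtype_injective _) rfl (hm1 q)
      let ψ : (quotHom f A).ker → ∀ q, (fibHom f A q).range := fun x q => ⟨fibHom f A q x, ⟨x, rfl⟩⟩
      have hψ : Function.Injective ψ := by
        intro x y hxy
        apply Subtype.ext
        apply hf
        ext ω
        have h1 : fibHom f A (Quotient.mk _ ω) x = fibHom f A (Quotient.mk _ ω) y :=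
          congrArg Subtype.val (congrFun hxy (Quotient.mk _ ω))
        have h2 := congrArg (fun p : Equiv.Perm {ω' : Ω // Quotient.mk (orb f A) ω' = Quotient.mk _ ω} =>
          ((p ⟨ω, rfl⟩ : {ω' : Ω // Quotient.mk (orb f A) ω' = Quotient.mk _ ω}) : Ω)) h1
        exact h2
      have hK : Nat.card (quotHom f A).ker ≤ ∏ q, 3 ^ (m q - 1) := by
        refine (Nat.card_le_card_of_injective ψ hψ).trans ?_
        rw [Nat.card_pi]
        exact Finset.prod_le_prod' fun q _ => hF q
      have hsum : ∑ q, m q = k := by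
        rw [← hΩ, ← Nat.card_congr (Equiv.sigmaFiberEquiv (Quotient.mk (orb f A))), Nat.card_sigma]
      have hsum2 : ∑ q, (m q - 1) + b = k := by
        rw [hb, Nat.card_eq_fintype_card, ← Finset.card_univ, ← hsum]
        rw [Finset.card_eq_sum_ones, ← Finset.sum_add_distrib]
        exact Finset.sum_congr rfl fun q _ => Nat.sub_add_cancel (hm1 q)
      rw [Finset.prod_pow_eq_pow_sum] at hK
      have h1 := (quotHom f A).ker.card_mul_index
      rw [Subgroup.index_ker] at h1
      rw [← h1]
      calc Nat.card (quotHom f A).ker * Nat.card (quotHom f A).range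
          ≤ 3 ^ (∑ q, (m q - 1)) * 3 ^ (b - 1) := Nat.mul_le_mul hK hR
        _ = 3 ^ (k - 1) := by
          rw [← pow_add]
          congr 1
          omega

end KRP

theorem KB.perm (k : ℕ) (hk : 1 ≤ k) {X : Type} [Group X] [Finite X] [Group.IsSolvable X]
    (f : X →* Equiv.Perm (Fin k)) (hf : Function.Injective f) : KB X (3 ^ (k - 1)) :=
  KB.of_card (KRP.card_le k f hf (by simp) hk)

end Cfsg.Agent.H97.KR
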