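import Cfsg.Agent.H97.KRF
import Cfsg.Agent.H97.KRP

/-!
# S4265 piece I (owner: helper57)
-/

set_option autoImplicit false

namespace Cfsg.Agent.H97.KR

open Cfsg

theorem imprim_bound {r : ℕ} (IH : ∀ s < r, Bd s) {G : Type} [Group G] [Finite G] [Group.IsSolvable G] {V : Type}
    [AddCommGroup V] [Module ℂ V] [FiniteDimensional ℂ V] (ρ : G →* (V →ₗ[ℂ] V)) (hρ : Function.Injective ρ)
    (hr : Module.finrank ℂ V = r) (h : Imprim ρ) : KB (G ⧸ fittingSubgroup G) (3 ^ (r - 1)) := by
  classical
  obtain ⟨k, W, hk, hint, hne, hperm⟩ := h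
  have hinjW : Function.Injective W := by
    intro i j hij
    by_contra hne'
    have h1 : Disjoint (W i) (W j) := hint.submodule_iSupIndep.pairwiseDisjoint hne'
    rw [hij, disjoint_self] at h1
    exact hne j h1
  choose σ hσ using hperm
  have hσ1 : ∀ i, σ 1 i = i := by
    intro i
    apply hinjW
    rw [← hσ, map_one]
    exact Submodule.map_id _
  have hσm : ∀ g h i, σ (g * h) i = σ g (σ h i) := by
    intro g h i
    apply hinjW
    rw [← hσ, ← hσ, ← hσ, map_mul]
    exact Submodule.map_comp _ _ _
  let f0 : G →* Function.End (Fin k) :=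
    { toFun := fun g => σ g
      map_one' := by funext i; exact hσ1 i
      map_mul' := by intro g h; funext i; exact hσm g h i }
  let f : G →* Equiv.Perm (Fin k) := MonoidHom.toHomPerm f0
  have hf : ∀ g i, f g i = σ g i := fun g i => rfl
  have hmem : ∀ g : f.ker, ∀ i, ∀ v ∈ W i, ρ g v ∈ W i := by
    intro g i v hv
    have h1 : f g = 1 := g.2
    have h2 : σ g i = i := by rw [← hf, h1]; rfl
    have h3 := hσ g i
    rw [h2] at h3
    rw [← h3]
    exact ⟨v, hv, rfl⟩
  let τ : ∀ i, f.ker →* (W i →ₗ[ℂ] W i) := fun i =>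
    { toFun := fun g => (ρ g).restrict (hmem g i)
      map_one' := by
        ext v
        show ((ρ ((1 : f.ker) : G)) (v : V)) = v
        rw [Subgroup.coe_one, map_one]; rfl
      map_mul' := by
        intro g h
        ext v
        show ((ρ ((g * h : f.ker) : G)) (v : V)) = ρ g (ρ h v)
        rw [Subgroup.coe_mul, map_mul]; rfl }
  have hτ : ∀ i (g : f.ker) (v : W i), ((τ i g v : W i) : V) = ρ g v := fun i g v => rfl
  -- dimensions
  have hsum : ∑ i, Module.finrank ℂ (W i) = r := by
    rw [← hr, ← Module.finrank_directSum]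
    exact LinearEquiv.finrank_eq (LinearEquiv.ofBijective (DirectSum.coeLinearMap W) hint)
  have hpos : ∀ i, 1 ≤ Module.finrank ℂ (W i) := by
    intro i
    rw [Nat.one_le_iff_ne_zero, Ne, Submodule.finrank_eq_zero]
    exact hne i
  have hlt : ∀ i, Module.finrank ℂ (W i) < r := by
    intro i
    haveI : Nontrivial (Fin k) := Fin.nontrivial_iff_two_le.mpr hk
    obtain ⟨j, hj⟩ := exists_ne i
    have h1 : Module.finrank ℂ (W i) + Module.finrank ℂ (W j) ≤ ∑ i, Module.finrank ℂ (W i) :=
      (Finset.sum_pair (f := fun i => Module.finrank ℂ (W i)) hj.symm).symm.le.trans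
        (Finset.sum_le_sum_of_subset (Finset.subset_univ _))
    have h2 := hpos j
    omega
  have hQ : KB (G ⧸ f.ker) (3 ^ (k - 1)) :=
    KB.perm k (by omega) (QuotientGroup.kerLift f) (QuotientGroup.kerLift_injective f)
  have hK : KB (f.ker ⧸ fittingSubgroup f.ker) (∏ i, 3 ^ (Module.finrank ℂ (W i) - 1)) := by
    refine KB.fit_pi (G := f.ker) (H := fun i => f.ker ⧸ (τ i).ker) (fun i => QuotientGroup.mk' _)
      (fun i => QuotientGroup.mk'_surjective _) ?_ ?_
    · intro g hg
      have h1 : ∀ i, ∀ v ∈ W i, ρ g v = v := by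
        intro i v hv
        have h2 : g ∈ (τ i).ker := (QuotientGroup.eq_one_iff g).mp (hg i)
        have h3 : τ i g = 1 := h2
        have h4 := hτ i g ⟨v, hv⟩
        rw [h3] at h4
        exact h4.symm
      have h2 : ρ (g : G) = ρ 1 := by
        rw [map_one]
        have h3 : LinearMap.eqLocus (ρ (g : G)) (1 : V →ₗ[ℂ] V) = ⊤ := by
          rw [eq_top_iff, ← hint.submodule_iSup_eq_top]
          apply iSup_le
          intro i v hv
          rw [LinearMap.mem_eqLocus]
          exact h1 i v hv
        ext v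
        have h4 : v ∈ LinearMap.eqLocus (ρ (g : G)) (1 : V →ₗ[ℂ] V) := by rw [h3]; trivial
        exact h4
      exact Subtype.ext (hρ h2)
    · intro i
      have hinj : Function.Injective (QuotientGroup.lift (τ i).ker (τ i) le_rfl) := by
        intro a b hab
        induction a using QuotientGroup.induction_on with
        | H a =>
          induction b using QuotientGroup.induction_on with
          | H b =>
            have h1 : τ i a = τ i b := hab
            rw [QuotientGroup.eq]
            show τ i (a⁻¹ * b) = 1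
            rw [map_mul, ← h1, ← map_mul, inv_mul_cancel, map_one]
      exact IH _ (hlt i) _ _ (QuotientGroup.lift (τ i).ker (τ i) le_rfl) hinj rfl (hpos i)
  have hfin := KB.fit_normal f.ker hK hQ
  have hexp : (∏ i, 3 ^ (Module.finrank ℂ (W i) - 1)) * 3 ^ (k - 1) = 3 ^ (r - 1) := by
    rw [Finset.prod_pow_eq_pow_sum, ← pow_add]
    congr 1
    have h1 : ∑ i, (Module.finrank ℂ (W i) - 1) + k = r := by
      have h3 : ∑ i : Fin k, ((Module.finrank ℂ (W i) - 1) + 1) = ∑ i, Module.finrank ℂ (W i) := by
        apply Finset.sum_congr rfl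
        intro i _
        have := hpos i
        omega
      rw [Finset.sum_add_distrib, hsum] at h3
      simpa using h3
    omega
  rw [hexp] at hfin
  exact hfin

end Cfsg.Agent.H97.KR
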