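import Cfsg.Agent.H97.KRDef

set_option autoImplicit false

/-!
Numbers for S4265.
-/

namespace Cfsg.Agent.H97.KR

namespace N

theorem two_aux (n : ℕ) (hn : 6 ≤ n) : n * (2 * n + 1) + 3 ≤ 3 * 2 ^ (n - 1) := by
  induction n, hn using Nat.le_induction with
  | base => norm_num
  | succ n hn ih =>
    have h1 : 2 ^ (n + 1 - 1) = 2 * 2 ^ (n - 1) := by
      rw [← pow_succ']
      congr 1
      omega
    rw [h1]
    have h2 : (n + 1) * (2 * (n + 1) + 1) + 3 ≤ 2 * (n * (2 * n + 1) + 3) := by nlinarith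
    linarith

theorem three_aux (n : ℕ) (hn : 3 ≤ n) : n * (2 * n + 1) + 1 ≤ 3 ^ n := by
  induction n, hn using Nat.le_induction with
  | base => norm_num
  | succ n hn ih =>
    rw [pow_succ]
    nlinarith

theorem five_aux (n : ℕ) (hn : 2 ≤ n) : 2 * (n * (2 * n + 1)) + 1 ≤ 5 ^ n := by
  induction n, hn using Nat.le_induction with
  | base => norm_num
  | succ n hn ih =>
    rw [pow_succ]
    nlinarith

theorem cube_aux (p : ℕ) (hp : 7 ≤ p) : p ^ 3 ≤ 3 ^ (p - 1) := by
  induction p, hp using Nat.le_induction with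
  | base => norm_num
  | succ n hn ih =>
    have h1 : 3 ^ (n + 1 - 1) = 3 * 3 ^ (n - 1) := by
      rw [← pow_succ']
      congr 1
      omega
    rw [h1]
    have h2 : (n + 1) ^ 3 ≤ 3 * n ^ 3 := by
      have : 0 ≤ (n : ℤ) := by positivity
      nlinarith [mul_self_nonneg ((n : ℤ)), Nat.mul_le_mul hn hn, Nat.mul_le_mul hn (Nat.mul_le_mul hn hn),
        Nat.mul_le_mul_left n hn, Nat.mul_le_mul_left (n * n) hn]
    linarith

theorem geom_aux (p n : ℕ) (hp : 7 ≤ p) (hn : 1 ≤ n) :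
    (p - 1) * (n * (2 * n + 1)) ≤ 3 * (p ^ n - 1) := by
  obtain ⟨q, rfl⟩ : ∃ q, p = q + 1 := ⟨p - 1, by omega⟩
  have key : ∀ n : ℕ, 1 ≤ n → q * (n * (2 * n + 1)) + 3 ≤ 3 * (q + 1) ^ n := by
    intro n hn
    induction n, hn using Nat.le_induction with
    | base => norm_num; linarith
    | succ n hn ih =>
      rw [pow_succ]
      have h3 : 3 * ((q + 1) ^ n * (q + 1)) ≥ (q * (n * (2 * n + 1)) + 3) * (q + 1) := by nlinarith
      have h4 : q * ((n + 1) * (2 * (n + 1) + 1)) + 3 ≤ (q * (n * (2 * n + 1)) + 3) * (q + 1) := by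
        have h5 : (n + 1) * (2 * (n + 1) + 1) ≤ (n * (2 * n + 1)) * (q + 1) + 3 := by
          nlinarith [Nat.mul_le_mul (show 6 ≤ q by omega) (Nat.mul_le_mul hn hn),
            Nat.mul_le_mul (show 6 ≤ q by omega) hn]
        nlinarith
      linarith
  have := key n hn
  have h1 : 1 ≤ (q + 1) ^ n := Nat.one_le_pow _ _ (by omega)
  simp only [Nat.add_sub_cancel]
  omega

end N

/-- (N) numbers. -/
theorem num (p n : ℕ) (hp : p.Prime) (hn : 1 ≤ n) : p ^ (n * (2 * n + 1)) ≤ 3 ^ (p ^ n - 1) ∨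
    (p ^ (2 * n) - 1) * p ^ ((n - 1) * (2 * n - 1)) + (if p = 2 then 0 else 1) ≤ 3 ^ (p ^ n - 1) ∨
    (p = 2 ∧ (n = 2 ∨ n = 3 ∨ n = 4)) := by
  by_cases h2 : p = 2
  · subst h2
    rcases Nat.lt_or_ge n 6 with h | h
    · interval_cases n
      · right; left; norm_num
      · right; right; simp
      · right; right; simp
      · right; right; simp
      · right; left; norm_num
    · left
      have h1 := N.two_aux n h
      have h3 : n * (2 * n + 1) ≤ 3 * (2 ^ (n - 1) - 1) := by omega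
      have h4 : 2 * (2 ^ (n - 1) - 1) ≤ 2 ^ n - 1 := by
        have : 2 ^ n = 2 * 2 ^ (n - 1) := by
          rw [← pow_succ']
          congr 1
          omega
        omega
      calc 2 ^ (n * (2 * n + 1)) ≤ 2 ^ (3 * (2 ^ (n - 1) - 1)) := Nat.pow_le_pow_right (by norm_num) h3
        _ = 8 ^ (2 ^ (n - 1) - 1) := by rw [pow_mul]; norm_num
        _ ≤ 9 ^ (2 ^ (n - 1) - 1) := Nat.pow_le_pow_left (by norm_num) _
        _ = 3 ^ (2 * (2 ^ (n - 1) - 1)) := by rw [pow_mul 3 2]; norm_num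
        _ ≤ 3 ^ (2 ^ n - 1) := Nat.pow_le_pow_right (by norm_num) h4
  by_cases h3 : p = 3
  · subst h3
    rcases Nat.lt_or_ge n 3 with h | h
    · interval_cases n
      · right; left; norm_num
      · right; left; norm_num
    · left
      have h1 := N.three_aux n h
      exact Nat.pow_le_pow_right (by norm_num) (by omega)
  by_cases h5 : p = 5
  · subst h5
    rcases Nat.lt_or_ge n 2 with h | h
    · interval_cases n
      right; left; norm_num
    · left
      have h1 := N.five_aux n h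
      calc 5 ^ (n * (2 * n + 1)) ≤ 9 ^ (n * (2 * n + 1)) := Nat.pow_le_pow_left (by norm_num) _
        _ = 3 ^ (2 * (n * (2 * n + 1))) := by rw [pow_mul 3 2]; norm_num
        _ ≤ 3 ^ (5 ^ n - 1) := Nat.pow_le_pow_right (by norm_num) (by omega)
  have h7 : 7 ≤ p := by
    have := hp.two_le
    by_contra hlt
    push Not at hlt
    interval_cases p
    · exact h2 rfl
    · exact h3 rfl
    · exact absurd hp (by norm_num)
    · exact h5 rfl
    · exact absurd hp (by norm_num)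
  left
  have h1 := N.cube_aux p h7
  have h4 := N.geom_aux p n h7 hn
  have h6 : (p ^ (n * (2 * n + 1))) ^ 3 ≤ (3 ^ (p ^ n - 1)) ^ 3 := by
    calc (p ^ (n * (2 * n + 1))) ^ 3 = (p ^ 3) ^ (n * (2 * n + 1)) := by rw [← pow_mul, ← pow_mul, mul_comm]
      _ ≤ (3 ^ (p - 1)) ^ (n * (2 * n + 1)) := Nat.pow_le_pow_left h1 _
      _ = 3 ^ ((p - 1) * (n * (2 * n + 1))) := by rw [← pow_mul]
      _ ≤ 3 ^ (3 * (p ^ n - 1)) := Nat.pow_le_pow_right (by norm_num) h4
      _ = (3 ^ (p ^ n - 1)) ^ 3 := by rw [← pow_mul, mul_comm]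
  exact (Nat.pow_le_pow_iff_left (by norm_num)).1 h6

end Cfsg.Agent.H97.KR
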