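import Cfsg.Agent.H97.KRDef

set_option autoImplicit false

/-!
S4265, pieces S1 and S2: orders of groups of isometries of a symplectic space.
-/

namespace Cfsg.Agent.H97.KR.S1

open Cfsg

section
variable {p n : ℕ} [Fact p.Prime] {U : Type} [AddCommGroup U] [Module (ZMod p) U] [Finite U]
  {B : U →ₗ[ZMod p] U →ₗ[ZMod p] ZMod p} {Y : Type} [Group Y] [Finite Y] {σ : Y →* (U →ₗ[ZMod p] U)}

/-- the stabiliser of a vector in a subgroup -/
def stb (σ : Y →* (U →ₗ[ZMod p] U)) (D : Subgroup Y) (v : U) : Subgroup Y where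
  carrier := {y | y ∈ D ∧ σ y v = v}
  mul_mem' := by
    rintro a b ⟨ha, ha'⟩ ⟨hb, hb'⟩
    refine ⟨D.mul_mem ha hb, ?_⟩
    rw [map_mul]
    change σ a (σ b v) = v
    rw [hb', ha']
  one_mem' := ⟨D.one_mem, by rw [map_one]; rfl⟩
  inv_mem' := by
    rintro a ⟨ha, ha'⟩
    refine ⟨D.inv_mem ha, ?_⟩
    have h1 : σ a⁻¹ (σ a v) = v := by
      change (σ a⁻¹ * σ a) v = v
      rw [← map_mul, inv_mul_cancel, map_one]; rfl
    rw [ha'] at h1
    exact h1

omit [Finite U] in
theorem step (D : Subgroup Y) (v : U) (T : Set U) (hT : T.Finite) (h : ∀ y ∈ D, σ y v ∈ T) :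
    Nat.card D ≤ Nat.card T * Nat.card (stb σ D v) := by
  classical
  haveI := hT.to_subtype
  let f : D → T := fun y => ⟨σ y v, h y y.2⟩
  let r : T → D := fun t => if ht : ∃ y : D, f y = t then ht.choose else 1
  have hr : ∀ y : D, f (r (f y)) = f y := by
    intro y
    have ht : ∃ y' : D, f y' = f y := ⟨y, rfl⟩
    simp only [r, dif_pos ht]
    exact ht.choose_spec
  have hmem : ∀ y : D, ((r (f y))⁻¹ * y : D).1 ∈ stb σ D v := by
    intro y
    refine ⟨((r (f y))⁻¹ * y : D).2, ?_⟩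
    have h1 : σ (r (f y) : Y) v = σ (y : Y) v := by
      have := congrArg Subtype.val (hr y)
      exact this
    change σ (((r (f y)) : Y)⁻¹ * (y : Y)) v = v
    rw [map_mul]
    change σ ((r (f y) : Y))⁻¹ (σ (y : Y) v) = v
    rw [← h1]
    change (σ ((r (f y) : Y))⁻¹ * σ (r (f y) : Y)) v = v
    rw [← map_mul, inv_mul_cancel, map_one]; rfl
  let F : D → T × stb σ D v := fun y => (f y, ⟨((r (f y))⁻¹ * y : D).1, hmem y⟩)
  have hF : Function.Injective F := by
    intro a b hab
    have h1 : f a = f b := congrArg Prod.fst hab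
    have h2 : ((r (f a))⁻¹ * a : D).1 = ((r (f b))⁻¹ * b : D).1 := congrArg (fun q => (q.2 : Y)) hab
    rw [h1] at h2
    have h3 : (r (f b))⁻¹ * a = (r (f b))⁻¹ * b := Subtype.ext h2
    exact mul_left_cancel h3
  calc Nat.card D ≤ Nat.card (T × stb σ D v) := Nat.card_le_card_of_injective F hF
    _ = Nat.card T * Nat.card (stb σ D v) := Nat.card_prod _ _

theorem perp_card (h : Sy p n B σ) (b : Module.Basis (Fin (2 * n)) (ZMod p) U) (k : ℕ) (hk : k ≤ 2 * n) :
    Nat.card {u : U | ∀ i : Fin (2 * n), (i : ℕ) < k → B u (b i) = 0} ≤ p ^ (2 * n - k) := by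
  classical
  let F : {u : U | ∀ i : Fin (2 * n), (i : ℕ) < k → B u (b i) = 0} → (Fin (2 * n - k) → ZMod p) :=
    fun u j => B u.1 (b ⟨k + j, by have := j.2; omega⟩)
  have hF : Function.Injective F := by
    intro u w huw
    apply Subtype.ext
    have h1 : ∀ i : Fin (2 * n), B (u.1 - w.1) (b i) = 0 := by
      intro i
      rw [map_sub, LinearMap.sub_apply]
      rcases Nat.lt_or_ge (i : ℕ) k with hi | hi
      · rw [u.2 i hi, w.2 i hi, sub_zero]
      · have h2 := congrFun huw ⟨(i : ℕ) - k, by have := i.2; omega⟩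
        have h3 : (⟨k + ((i : ℕ) - k), by have := i.2; omega⟩ : Fin (2 * n)) = i := Fin.ext (by simp; omega)
        simp only [F] at h2
        rw [h3] at h2
        rw [h2, sub_self]
    have h2 : B (u.1 - w.1) = 0 := b.ext (fun i => by rw [h1 i]; rfl)
    have h3 := h.nd (u.1 - w.1) (fun x => by rw [h2]; rfl)
    exact sub_eq_zero.1 h3
  have h1 := Nat.card_le_card_of_injective F hF
  refine h1.trans (le_of_eq ?_)
  rw [Nat.card_fun, Nat.card_eq_fintype_card, Nat.card_eq_fintype_card, ZMod.card, Fintype.card_fin]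

theorem coset_card (h : Sy p n B σ) (b : Module.Basis (Fin (2 * n)) (ZMod p) U) (k : ℕ) (hk : k ≤ 2 * n) (v : U) :
    Nat.card {u : U | ∀ i : Fin (2 * n), (i : ℕ) < k → B (u - v) (b i) = 0} ≤ p ^ (2 * n - k) := by
  refine le_trans (le_of_eq ?_) (perp_card h b k hk)
  refine Nat.card_congr ⟨fun u => ⟨u.1 - v, u.2⟩, fun u => ⟨u.1 + v, ?_⟩, ?_, ?_⟩
  · intro i hi
    rw [add_sub_cancel_right]
    exact u.2 i hi
  · intro u
    exact Subtype.ext (sub_add_cancel _ _)
  · intro u
    exact Subtype.ext (add_sub_cancel_right _ _)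

theorem fix_card (h : Sy p n B σ) (b : Module.Basis (Fin (2 * n)) (ZMod p) U) : ∀ j ≤ 2 * n, ∀ D : Subgroup Y,
    (∀ y ∈ D, ∀ i : Fin (2 * n), (i : ℕ) < 2 * n - j → σ y (b i) = b i) →
    Nat.card D ≤ p ^ (j * (j + 1) / 2) := by
  intro j
  induction j with
  | zero =>
    intro _ D hD
    have h1 : D = ⊥ := by
      rw [Subgroup.eq_bot_iff_forall]
      intro y hy
      apply h.inj
      rw [map_one]
      apply b.ext
      intro i
      exact hD y hy i (by have := i.2; omega)
    subst h1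
    simp
  | succ j ih =>
    intro hj D hD
    have hk : 2 * n - (j + 1) < 2 * n := by omega
    set k := 2 * n - (j + 1) with hkd
    let T : Set U := {u : U | ∀ i : Fin (2 * n), (i : ℕ) < k → B (u - b ⟨k, hk⟩) (b i) = 0}
    have hT : ∀ y ∈ D, σ y (b ⟨k, hk⟩) ∈ T := by
      intro y hy i hi
      have h1 := h.inv y (b ⟨k, hk⟩) (b i)
      rw [hD y hy i hi] at h1
      rw [map_sub, LinearMap.sub_apply, h1, sub_self]
    have h1 := step D (b ⟨k, hk⟩) T (Set.toFinite _) hT
    have h2 : Nat.card T ≤ p ^ (j + 1) := by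
      have := coset_card h b k hk.le (b ⟨k, hk⟩)
      have h3 : 2 * n - k = j + 1 := by omega
      rw [h3] at this
      exact this
    have h3 := ih (by omega) (stb σ D (b ⟨k, hk⟩)) (by
      intro y hy i hi
      rcases Nat.lt_or_ge (i : ℕ) k with h4 | h4
      · exact hD y hy.1 i h4
      · have h5 : i = ⟨k, hk⟩ := Fin.ext (by simp only; omega)
        rw [h5]
        exact hy.2)
    refine h1.trans ((Nat.mul_le_mul h2 h3).trans (le_of_eq ?_))
    rw [← pow_add]
    congr 1
    have h6 : (j + 1) * (j + 1 + 1) = j * (j + 1) + (j + 1) * 2 := by ring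
    rw [h6, Nat.add_mul_div_right _ _ (by norm_num)]
    omega

theorem exists_basis (h : Sy p n B σ) : Nonempty (Module.Basis (Fin (2 * n)) (ZMod p) U) := by
  have h1 : Module.finrank (ZMod p) U = 2 * n := by
    have h2 := Module.natCard_eq_pow_finrank (K := ZMod p) (V := U)
    rw [Nat.card_zmod, h.card] at h2
    exact (Nat.pow_right_injective (Fact.out : p.Prime).two_le h2).symm
  exact ⟨Module.finBasisOfFinrankEq (ZMod p) U h1⟩

end

end S1

open Cfsg

section
variable {p n : ℕ} [Fact p.Prime] {U : Type} [AddCommGroup U] [Module (ZMod p) U] [Finite U]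
  {B : U →ₗ[ZMod p] U →ₗ[ZMod p] ZMod p} {Y : Type} [Group Y] [Finite Y] {σ : Y →* (U →ₗ[ZMod p] U)}

theorem Sy.card_le (h : Sy p n B σ) : Nat.card Y ≤ p ^ (n * (2 * n + 1)) := by
  obtain ⟨b⟩ := S1.exists_basis h
  have h1 := S1.fix_card h b (2 * n) le_rfl ⊤ (fun y _ i hi => by omega)
  rw [Nat.card_congr Subgroup.topEquiv.toEquiv] at h1
  refine h1.trans (le_of_eq ?_)
  congr 1
  have : 2 * n * (2 * n + 1) = n * (2 * n + 1) * 2 := by ring
  rw [this, Nat.mul_div_cancel _ (by norm_num)]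

end

end Cfsg.Agent.H97.KR
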