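import Cfsg.Agent.H97.KRS1

set_option autoImplicit false

/-!
S4265, piece S2: the centraliser of an isometry that is not a scalar.
-/

namespace Cfsg.Agent.H97.KR.S2

open Cfsg

/-- a linear map for which every vector is an eigenvector is a scalar -/
theorem scalar_of_eigen {F V : Type*} [Field F] [AddCommGroup V] [Module F V] (f : V →ₗ[F] V)
    (h : ∀ v, ∃ c : F, f v = c • v) : ∃ c : F, f = c • LinearMap.id := by
  classical
  by_cases h0 : ∀ v : V, v = 0
  · exact ⟨0, LinearMap.ext fun v => by rw [h0 v]; simp⟩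
  push Not at h0
  obtain ⟨v, hv⟩ := h0
  obtain ⟨c, hc⟩ := h v
  refine ⟨c, LinearMap.ext fun w => ?_⟩
  rw [LinearMap.smul_apply, LinearMap.id_apply]
  obtain ⟨d, hd⟩ := h w
  obtain ⟨e, he⟩ := h (v + w)
  rw [map_add, hc, hd, smul_add] at he
  -- c v + d w = e v + e w
  by_cases hce : c = e
  · subst hce
    rw [hd]
    exact add_left_cancel he
  · have h1 : (c - e) • v = (e - d) • w := by
      rw [sub_smul, sub_smul, sub_eq_sub_iff_add_eq_add, he]; abel
    have h2 : v = ((c - e)⁻¹ * (e - d)) • w := by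
      rw [mul_smul, ← h1, smul_smul, inv_mul_cancel₀ (sub_ne_zero.2 hce), one_smul]
    have h3 : (c - e)⁻¹ * (e - d) ≠ 0 := by
      intro h4
      rw [h4, zero_smul] at h2
      exact hv h2
    have h4 : w = ((c - e)⁻¹ * (e - d))⁻¹ • v := by
      conv_rhs => rw [h2]
      rw [smul_smul, inv_mul_cancel₀ h3, one_smul]
    rw [h4, map_smul, hc, smul_comm]

theorem sumExtend_inl {K V ι : Type*} [DivisionRing K] [AddCommGroup V] [Module K V] {v : ι → V}
    (hs : LinearIndependent K v) (i : ι) : Module.Basis.sumExtend hs (Sum.inl i) = v i := by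
  classical
  unfold Module.Basis.sumExtend
  simp only [Module.Basis.reindex_apply, Module.Basis.coe_extend]
  rfl

section
variable {p n : ℕ} [Fact p.Prime] {U : Type} [AddCommGroup U] [Module (ZMod p) U] [Finite U]
  {B : U →ₗ[ZMod p] U →ₗ[ZMod p] ZMod p} {Y : Type} [Group Y] [Finite Y] {σ : Y →* (U →ₗ[ZMod p] U)}

theorem exists_basis2 (h : Sy p n B σ) (hn : 1 ≤ n) (v w : U) (hvw : LinearIndependent (ZMod p) ![v, w]) :
    ∃ (b : Module.Basis (Fin (2 * n)) (ZMod p) U), b ⟨0, by omega⟩ = v ∧ b ⟨1, by omega⟩ = w := by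
  classical
  obtain ⟨b0⟩ := S1.exists_basis h
  have hfr : Module.finrank (ZMod p) U = 2 * n := by
    rw [Module.finrank_eq_card_basis b0, Fintype.card_fin]
  let bs := Module.Basis.sumExtend hvw
  haveI : Finite (Module.Basis.sumExtendIndex hvw) := inferInstance
  haveI : Fintype (Module.Basis.sumExtendIndex hvw) := Fintype.ofFinite _
  have h1 : Fintype.card (Module.Basis.sumExtendIndex hvw) = 2 * n - 2 := by
    have h2 := Module.finrank_eq_card_basis bs
    rw [hfr, Fintype.card_sum, Fintype.card_fin] at h2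
    omega
  let e1 : Module.Basis.sumExtendIndex hvw ≃ Fin (2 * n - 2) := Fintype.equivFinOfCardEq h1
  have h3 : 2 + (2 * n - 2) = 2 * n := by omega
  let e : Fin 2 ⊕ Module.Basis.sumExtendIndex hvw ≃ Fin (2 * n) :=
    ((Equiv.sumCongr (Equiv.refl (Fin 2)) e1).trans finSumFinEquiv).trans (finCongr h3)
  have he0 : e (Sum.inl 0) = ⟨0, by omega⟩ := by
    apply Fin.ext
    simp [e]
  have he1 : e (Sum.inl 1) = ⟨1, by omega⟩ := by
    apply Fin.ext
    simp [e]
  refine ⟨bs.reindex e, ?_, ?_⟩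
  · rw [← he0, Module.Basis.reindex_apply, Equiv.symm_apply_apply, sumExtend_inl]
    rfl
  · rw [← he1, Module.Basis.reindex_apply, Equiv.symm_apply_apply, sumExtend_inl]
    rfl

end

end S2

open Cfsg

section
variable {p n : ℕ} [Fact p.Prime] {U : Type} [AddCommGroup U] [Module (ZMod p) U] [Finite U]
  {B : U →ₗ[ZMod p] U →ₗ[ZMod p] ZMod p} {Y : Type} [Group Y] [Finite Y] {σ : Y →* (U →ₗ[ZMod p] U)}

theorem Sy.card_cent_le (h : Sy p n B σ) (hn : 1 ≤ n) (y : Y) (hy : ∀ c : ZMod p, σ y ≠ c • LinearMap.id) :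
    Nat.card (Subgroup.centralizer ({y} : Set Y)) ≤ (p ^ (2 * n) - 1) * p ^ ((n - 1) * (2 * n - 1)) := by
  classical
  obtain ⟨v, hv⟩ : ∃ v, ∀ c : ZMod p, σ y v ≠ c • v := by
    by_contra hcon
    push Not at hcon
    obtain ⟨c, hc⟩ := S2.scalar_of_eigen (σ y) hcon
    exact hy c hc
  have hv0 : v ≠ 0 := by
    rintro rfl
    exact hv 0 (by simp)
  have hli : LinearIndependent (ZMod p) ![v, σ y v] := by
    rw [LinearIndependent.pair_iff' hv0]
    intro a ha
    exact hv a ha.symm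
  obtain ⟨b, hb0, hb1⟩ := S2.exists_basis2 h hn v (σ y v) hli
  have h1 := S1.step (σ := σ) (Subgroup.centralizer ({y} : Set Y)) v {u : U | u ≠ 0} (Set.toFinite _) (by
    intro g _ hg0
    apply hv0
    have h2 : σ g⁻¹ (σ g v) = v := by
      change (σ g⁻¹ * σ g) v = v
      rw [← map_mul, inv_mul_cancel, map_one]; rfl
    rw [← h2, hg0, map_zero])
  have h2 : Nat.card {u : U | u ≠ 0} ≤ p ^ (2 * n) - 1 := by
    have h3 : ({u : U | u ≠ 0} : Set U) = {(0 : U)}ᶜ := by
      ext u
      simp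
    rw [h3, Nat.card_coe_set_eq, Set.ncard_compl, Set.ncard_singleton, h.card]
  have h3 := S1.fix_card h b (2 * n - 2) (by omega) (S1.stb σ (Subgroup.centralizer ({y} : Set Y)) v) (by
    intro g hg i hi
    obtain ⟨hg1, hg2⟩ := hg
    have h4 : g * y = y * g := (Subgroup.mem_centralizer_iff.1 hg1 y rfl).symm
    rcases Nat.lt_or_ge (i : ℕ) 1 with h5 | h5
    · have h6 : i = ⟨0, by omega⟩ := Fin.ext (by simp only; omega)
      rw [h6, hb0]
      exact hg2
    · have h6 : i = ⟨1, by omega⟩ := Fin.ext (by simp only; omega)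
      rw [h6, hb1]
      change (σ g * σ y) v = σ y v
      rw [← map_mul, h4, map_mul]
      change σ y (σ g v) = σ y v
      rw [hg2])
  refine h1.trans (Nat.mul_le_mul h2 (h3.trans (le_of_eq ?_)))
  congr 1
  obtain ⟨m, rfl⟩ : ∃ m, n = m + 1 := ⟨n - 1, by omega⟩
  have h4 : 2 * (m + 1) - 2 = 2 * m := by omega
  have h5 : 2 * (m + 1) - 1 = 2 * m + 1 := by omega
  rw [h4, h5, Nat.add_sub_cancel]
  have : 2 * m * (2 * m + 1) = m * (2 * m + 1) * 2 := by ring
  rw [this, Nat.mul_div_cancel _ (by norm_num)]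

end

end Cfsg.Agent.H97.KR
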