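import Cfsg.Agent.H97.KRS2

set_option autoImplicit false

/-!
Piece S3 for S4265.
-/

namespace Cfsg.Agent.H97.KR.S3

open Cfsg

/-- counting commuting pairs -/
theorem count (X : Type) [Group X] [Finite X] (S : Set X) (s c : ℕ) (hS : Nat.card S = s) (hs1 : 1 ≤ s)
    (hc : 1 ≤ c) (h : ∀ y : X, y ∉ S → Nat.card (Subgroup.centralizer ({y} : Set X)) ≤ c) :
    Nat.card (ConjClasses X) < s + c := by
  classical
  haveI := Fintype.ofFinite X
  have h1 := card_comm_eq_card_conjClasses_mul_card X
  have h2 : Nat.card { p : X × X // Commute p.1 p.2 } = ∑ y : X, Nat.card (Subgroup.centralizer ({y} : Set X)) := by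
    let e : { p : X × X // Commute p.1 p.2 } ≃ Σ y : X, ↥(Subgroup.centralizer ({y} : Set X)) :=
      { toFun := fun q => ⟨q.1.1, ⟨q.1.2, by
          rw [Subgroup.mem_centralizer_singleton_iff]
          exact q.2.eq.symm⟩⟩
        invFun := fun q => ⟨(q.1, (q.2 : X)), by
          have := Subgroup.mem_centralizer_singleton_iff.1 q.2.2
          exact this.symm⟩
        left_inv := fun q => rfl
        right_inv := fun q => rfl }
    rw [Nat.card_congr e, Nat.card_sigma]
  rw [h2] at h1
  set T : Finset X := Finset.univ.filter (fun y => y ∈ S) with hT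
  have hTc : T.card = s := by
    rw [← hS, Nat.card_eq_fintype_card, Fintype.card_subtype]
  have h3 : (∑ y : X, Nat.card (Subgroup.centralizer ({y} : Set X)))
      = ∑ y ∈ T, Nat.card (Subgroup.centralizer ({y} : Set X))
        + ∑ y ∈ Tᶜ, Nat.card (Subgroup.centralizer ({y} : Set X)) := (Finset.sum_add_sum_compl T _).symm
  have h4 : ∑ y ∈ T, Nat.card (Subgroup.centralizer ({y} : Set X)) ≤ s * Nat.card X := by
    rw [← hTc, ← smul_eq_mul]
    exact Finset.sum_le_card_nsmul _ _ _ fun y _ => Subgroup.card_le_card_group _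
  have h5 : ∑ y ∈ Tᶜ, Nat.card (Subgroup.centralizer ({y} : Set X)) ≤ (Tᶜ).card * c := by
    rw [← smul_eq_mul]
    refine Finset.sum_le_card_nsmul _ _ _ fun y hy => h y ?_
    intro hyS
    exact (Finset.mem_compl.1 hy) (Finset.mem_filter.2 ⟨Finset.mem_univ _, hyS⟩)
  have h6 : T.card + (Tᶜ).card = Nat.card X := by
    rw [Finset.card_add_card_compl, Nat.card_eq_fintype_card]
  have hX : 0 < Nat.card X := Nat.card_pos
  have h7 : Nat.card (ConjClasses X) * Nat.card X < (s + c) * Nat.card X := by
    rw [hTc] at h6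
    have h8 : Nat.card (ConjClasses X) * Nat.card X ≤ s * Nat.card X + (Tᶜ).card * c := by
      rw [← h1, h3]; exact Nat.add_le_add h4 h5
    have h9 : s * c + (Tᶜ).card * c = Nat.card X * c := by rw [← h6]; ring
    have h10 : 1 ≤ s * c := Nat.one_le_iff_ne_zero.2 (Nat.mul_ne_zero (by omega) (by omega))
    have h11 : (s + c) * Nat.card X = s * Nat.card X + Nat.card X * c := by ring
    omega
  exact lt_of_mul_lt_mul_right h7 (Nat.zero_le _)

end Cfsg.Agent.H97.KR.S3

namespace Cfsg.Agent.H97.KR

open Cfsg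

section
variable {p n : ℕ} [Fact p.Prime] {U : Type} [AddCommGroup U] [Module (ZMod p) U] [Finite U]
  {B : U →ₗ[ZMod p] U →ₗ[ZMod p] ZMod p} {Y : Type} [Group Y] [Finite Y] {σ : Y →* (U →ₗ[ZMod p] U)}

theorem Sy.kb (h : Sy p n B σ) (hn : 1 ≤ n) :
    KB Y ((p ^ (2 * n) - 1) * p ^ ((n - 1) * (2 * n - 1)) + if p = 2 then 0 else 1) := by
  classical
  intro X
  have hp : p.Prime := Fact.out
  have hp2 : 2 ≤ p := hp.two_le
  have hX : Sy p n B (σ.comp X.subtype) := by
    refine ⟨h.inj.comp X.subtype_injective, h.alt, h.nd, fun y v w => h.inv _ v w, h.card⟩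
  set τ := σ.comp X.subtype with hτ
  set c := (p ^ (2 * n) - 1) * p ^ ((n - 1) * (2 * n - 1)) with hc
  have hpn : 2 ≤ p ^ (2 * n) := by
    calc 2 ≤ p := hp2
      _ = p ^ 1 := (pow_one p).symm
      _ ≤ p ^ (2 * n) := Nat.pow_le_pow_right (by omega) (by omega)
  have hc1 : 1 ≤ c := by
    rw [hc]
    exact Nat.one_le_iff_ne_zero.2 (Nat.mul_ne_zero (by omega) (pow_ne_zero _ (by omega)))
  -- B is not zero
  obtain ⟨v, w, hvw⟩ : ∃ v w, B v w ≠ 0 := by
    by_contra hcon
    push Not at hcon
    have : Subsingleton U := ⟨fun a b => by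
      rw [hX.nd a (hcon a), hX.nd b (hcon b)]⟩
    have h1 := hX.card
    rw [Nat.card_of_subsingleton (0 : U)] at h1
    omega
  let S : Set X := {y | ∃ a : ZMod p, τ y = a • LinearMap.id}
  have hSsc : ∀ y ∈ S, τ y = LinearMap.id ∨ τ y = -LinearMap.id := by
    rintro y ⟨a, ha⟩
    have h1 := hX.inv y v w
    rw [ha] at h1
    simp only [LinearMap.smul_apply, LinearMap.id_apply, map_smul, smul_eq_mul] at h1
    have h2 : (a - 1) * (a + 1) = 0 := by
      have h3 : (a * a - 1) * B v w = 0 := by
        linear_combination h1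
      rcases mul_eq_zero.1 h3 with h4 | h4
      · linear_combination h4
      · exact absurd h4 hvw
    rcases mul_eq_zero.1 h2 with h4 | h4
    · left
      rw [ha, sub_eq_zero.1 h4, one_smul]
    · right
      rw [ha, eq_neg_of_add_eq_zero_left h4, neg_smul, one_smul]
  have h1S : (1 : X) ∈ S := ⟨1, by rw [map_one, one_smul]; rfl⟩
  have hS1 : 1 ≤ Nat.card S := by
    haveI : Nonempty S := ⟨⟨1, h1S⟩⟩
    exact Nat.card_pos
  have hS2 : Nat.card S ≤ 1 + if p = 2 then 0 else 1 := by
    by_cases hz : ∃ z ∈ S, τ z = -LinearMap.id ∧ z ≠ 1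
    · obtain ⟨z, hzS, hz1, hz2⟩ := hz
      have hpne : p ≠ 2 := by
        rintro rfl
        apply hz2
        apply hX.inj
        rw [hz1, map_one]
        ext u
        rw [LinearMap.neg_apply, LinearMap.id_apply]
        change -u = u
        have : u + u = 0 := by
          rw [← two_smul (ZMod 2) u, show (2 : ZMod 2) = 0 from rfl, zero_smul]
        exact (eq_neg_of_add_eq_zero_left this).symm
      rw [if_neg hpne]
      have hsub : S ⊆ {1, z} := by
        intro y hy
        rcases hSsc y hy with h1 | h1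
        · left
          apply hX.inj
          rw [h1, map_one]; rfl
        · right
          apply hX.inj
          rw [h1, hz1]
      calc Nat.card S = S.ncard := rfl
        _ ≤ ({1, z} : Set X).ncard := Set.ncard_le_ncard hsub (Set.toFinite _)
        _ ≤ 1 + 1 := Set.ncard_insert_le _ _ |>.trans (by rw [Set.ncard_singleton])
    · push Not at hz
      have hsub : S ⊆ {1} := by
        intro y hy
        rcases hSsc y hy with h1 | h1
        · apply hX.inj
          rw [h1, map_one]; rfl
        · exact hz y hy h1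
      calc Nat.card S = S.ncard := rfl
        _ ≤ ({1} : Set X).ncard := Set.ncard_le_ncard hsub (Set.toFinite _)
        _ = 1 := Set.ncard_singleton _
        _ ≤ _ := Nat.le_add_right _ _
  have hcount := S3.count X S (Nat.card S) c rfl hS1 hc1 (fun y hy => by
    refine Sy.card_cent_le hX hn y ?_
    intro a ha
    exact hy ⟨a, ha⟩)
  omega

end

end Cfsg.Agent.H97.KR
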