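import Cfsg.Agent.H97.KRDef
import Cfsg.Agent.Asch.Linear

set_option autoImplicit false
set_option linter.style.haveILetI false
set_option linter.unusedSectionVars false

/-!
Minimal normal subgroups of irreducible solvable groups of isometries of a symplectic space over
the field with two elements.
-/

namespace Cfsg.Agent.H97.KR.T1

open Cfsg

section
variable {n : ℕ} {U : Type} [AddCommGroup U] [Module (ZMod 2) U]
  {B : U →ₗ[ZMod 2] U →ₗ[ZMod 2] ZMod 2} {Y : Type} [Group Y] {σ : Y →* (U →ₗ[ZMod 2] U)}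

/-- the fixed space -/
def fx (σ : Y →* (U →ₗ[ZMod 2] U)) (H : Subgroup Y) : Submodule (ZMod 2) U where
  carrier := {v | ∀ b ∈ H, σ b v = v}
  add_mem' := by intro a b ha hb g hg; rw [map_add, ha g hg, hb g hg]
  zero_mem' := by intro g hg; exact map_zero _
  smul_mem' := by intro c x hx g hg; rw [map_smul, hx g hg]

lemma mem_fx {H : Subgroup Y} {v : U} : v ∈ fx σ H ↔ ∀ b ∈ H, σ b v = v := Iff.rfl

lemma fx_anti {H K : Subgroup Y} (h : H ≤ K) : fx σ K ≤ fx σ H := fun _ hv b hb => hv b (h hb)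

lemma s_mul (a b : Y) (v : U) : σ (a * b) v = σ a (σ b v) := by rw [map_mul]; rfl

lemma s_one (v : U) : σ 1 v = v := by rw [map_one]; rfl

lemma s_inv_s (a : Y) (v : U) : σ a⁻¹ (σ a v) = v := by rw [← s_mul, inv_mul_cancel, s_one]

lemma s_s_inv (a : Y) (v : U) : σ a (σ a⁻¹ v) = v := by rw [← s_mul, mul_inv_cancel, s_one]

/-- the stabiliser of a vector -/
def stb (σ : Y →* (U →ₗ[ZMod 2] U)) (v : U) : Subgroup Y where
  carrier := {b | σ b v = v}
  mul_mem' := by
    intro a b ha hb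
    change σ (a * b) v = v
    rw [s_mul, show σ b v = v from hb, show σ a v = v from ha]
  one_mem' := s_one v
  inv_mem' := by
    intro a ha
    change σ a⁻¹ v = v
    have := s_inv_s (σ := σ) a v
    rwa [show σ a v = v from ha] at this

lemma fx_sup {H K : Subgroup Y} {v : U} (h1 : v ∈ fx σ H) (h2 : v ∈ fx σ K) : v ∈ fx σ (H ⊔ K) := by
  have h3 : H ⊔ K ≤ stb σ v := sup_le (fun b hb => h1 b hb) (fun b hb => h2 b hb)
  exact fun b hb => h3 hb

/-- conjugate subgroup -/
def cj (y : Y) (H : Subgroup Y) : Subgroup Y := H.map (MulAut.conj y).toMonoidHom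

lemma mem_cj {y : Y} {H : Subgroup Y} {x : Y} : x ∈ cj y H ↔ ∃ b ∈ H, y * b * y⁻¹ = x := Iff.rfl

lemma cj_mul (y z : Y) (H : Subgroup Y) : cj (y * z) H = cj y (cj z H) := by
  ext x
  simp only [mem_cj]
  constructor
  · rintro ⟨b, hb, rfl⟩
    exact ⟨z * b * z⁻¹, ⟨b, hb, rfl⟩, by group⟩
  · rintro ⟨_, ⟨b, hb, rfl⟩, rfl⟩
    exact ⟨b, hb, by group⟩

lemma map_fx (y : Y) (H : Subgroup Y) : (fx σ H).map (σ y) = fx σ (cj y H) := by
  ext v
  rw [Submodule.mem_map]
  constructor
  · rintro ⟨u, hu, rfl⟩ b' hb'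
    obtain ⟨b, hb, rfl⟩ := mem_cj.mp hb'
    rw [← s_mul, inv_mul_cancel_right, s_mul, hu b hb]
  · intro hv
    refine ⟨σ y⁻¹ v, ?_, s_s_inv y v⟩
    intro b hb
    have h1 := hv (y * b * y⁻¹) (mem_cj.mpr ⟨b, hb, rfl⟩)
    calc σ b (σ y⁻¹ v) = σ y⁻¹ (σ (y * b * y⁻¹) v) := by
          rw [← s_mul, ← s_mul]; congr 2; group
      _ = σ y⁻¹ v := by rw [h1]

lemma odd_nsmul {M : Type} [AddCommGroup M] [Module (ZMod 2) M] {k : ℕ} (hk : Odd k) (v : M) : k • v = v := by
  obtain ⟨j, rfl⟩ := hk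
  rw [← Nat.cast_smul_eq_nsmul (ZMod 2)]
  have : ((2 * j + 1 : ℕ) : ZMod 2) = 1 := by
    push_cast
    rw [show (2 : ZMod 2) = 0 from rfl]
    ring
  rw [this, one_smul]

variable [Finite Y]

open Classical in
/-- the trace -/
noncomputable def tr (σ : Y →* (U →ₗ[ZMod 2] U)) (H : Subgroup Y) : U →ₗ[ZMod 2] U :=
  letI := Fintype.ofFinite H
  ∑ b : H, σ (b : Y)

lemma tr_apply (H : Subgroup Y) [Fintype H] (v : U) : tr σ H v = ∑ b : H, σ (b : Y) v := by
  unfold tr
  rw [LinearMap.sum_apply]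
  congr!

lemma tr_mem (H : Subgroup Y) (v : U) : tr σ H v ∈ fx σ H := by
  classical
  letI := Fintype.ofFinite H
  intro c hc
  rw [tr_apply, map_sum]
  refine Fintype.sum_equiv (Equiv.mulLeft (⟨c, hc⟩ : H)) _ _ ?_
  intro b
  rw [← s_mul]
  rfl

lemma tr_fx {H : Subgroup Y} (ho : Odd (Nat.card H)) {v : U} (hv : v ∈ fx σ H) : tr σ H v = v := by
  classical
  letI := Fintype.ofFinite H
  have h1 : ∀ b ∈ (Finset.univ : Finset H), σ (b : Y) v = v := fun b _ => hv b b.2
  rw [tr_apply, Finset.sum_congr rfl h1, Finset.sum_const, Finset.card_univ,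
    ← Nat.card_eq_fintype_card]
  exact odd_nsmul ho v

lemma tr_comm {H K : Subgroup Y} (hc : ∀ a ∈ H, ∀ b ∈ K, a * b = b * a) {v : U} (hv : v ∈ fx σ K) :
    tr σ H v ∈ fx σ K := by
  classical
  letI := Fintype.ofFinite H
  intro c hcK
  rw [tr_apply, map_sum]
  refine Finset.sum_congr rfl ?_
  intro b _
  rw [← s_mul, ← hc b b.2 c hcK, s_mul, hv c hcK]

lemma B_tr (hinv : ∀ y v w, B (σ y v) (σ y w) = B v w) {H : Subgroup Y} (ho : Odd (Nat.card H)) (v : U) {w : U}
    (hw : w ∈ fx σ H) : B (tr σ H v) w = B v w := by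
  classical
  letI := Fintype.ofFinite H
  rw [tr_apply, map_sum, LinearMap.sum_apply]
  have h1 : ∀ b ∈ (Finset.univ : Finset H), B (σ (b : Y) v) w = B v w := by
    intro b _
    conv_lhs => rw [← hw b b.2]
    exact hinv _ _ _
  rw [Finset.sum_congr rfl h1, Finset.sum_const, Finset.card_univ, ← Nat.card_eq_fintype_card]
  exact odd_nsmul ho _

lemma cyc {q : ℕ} (hq : q.Prime) (hq2 : q ≠ 2) {A : Subgroup Y} (hcomm : ∀ a ∈ A, ∀ b ∈ A, a * b = b * a)
    (hexp : ∀ a ∈ A, a ^ q = 1) (hfpf : ∀ a ∈ A, a ≠ 1 → ∀ v, σ a v = v → v = 0) (hU : ∃ u : U, u ≠ 0)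
    {a1 : Y} (h1 : a1 ∈ A) (h1n : a1 ≠ 1) : A ≤ Subgroup.zpowers a1 := by
  intro a2 h2
  by_contra h2n
  obtain ⟨m, hm⟩ := hU
  apply hm
  have key : ∀ g ∈ A, g ≠ 1 → ∑ k ∈ Finset.range q, σ (g ^ k) m = 0 := by
    intro g hg hg1
    apply hfpf g hg hg1
    rw [map_sum]
    have e1 : ∀ k ∈ Finset.range q, σ g (σ (g ^ k) m) = σ (g ^ (k + 1)) m := by
      intro k _
      rw [← s_mul, pow_succ']
    rw [Finset.sum_congr rfl e1]
    have e2 := Finset.sum_range_succ (fun k => σ (g ^ k) m) q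
    have e3 := Finset.sum_range_succ' (fun k => σ (g ^ k) m) q
    rw [e2] at e3
    simp only [hexp g hg, pow_zero] at e3
    exact (add_right_cancel e3).symm
  have hS : ∑ k ∈ Finset.range q, ∑ j ∈ Finset.range q, σ ((a1 ^ k * a2) ^ j) m = 0 := by
    apply Finset.sum_eq_zero
    intro k _
    apply key _ (A.mul_mem (A.pow_mem h1 k) h2)
    intro he
    apply h2n
    have : a2 = (a1 ^ k)⁻¹ := by
      rw [eq_inv_iff_mul_eq_one, hcomm _ h2 _ (A.pow_mem h1 k)]
      exact he
    rw [this]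
    exact Subgroup.inv_mem _ (Subgroup.pow_mem _ (Subgroup.mem_zpowers a1) k)
  rw [Finset.sum_comm] at hS
  have e4 : ∀ j ∈ Finset.range q, ∑ k ∈ Finset.range q, σ ((a1 ^ k * a2) ^ j) m
      = if j = 0 then m else 0 := by
    intro j hj
    have e5 : ∀ k ∈ Finset.range q, σ ((a1 ^ k * a2) ^ j) m = σ (a2 ^ j) (σ ((a1 ^ j) ^ k) m) := by
      intro k _
      rw [← s_mul]
      have hc : Commute (a1 ^ k) a2 := hcomm _ (A.pow_mem h1 k) _ h2
      rw [hc.mul_pow]
      rw [hcomm _ (A.pow_mem (A.pow_mem h1 k) j) _ (A.pow_mem h2 j), ← pow_mul, ← pow_mul, mul_comm k j]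
    rw [Finset.sum_congr rfl e5, ← map_sum]
    split_ifs with hj0
    · subst hj0
      simp only [pow_zero, one_pow, s_one, Finset.sum_const, Finset.card_range]
      exact odd_nsmul (hq.odd_of_ne_two hq2) m
    · rw [key (a1 ^ j) (A.pow_mem h1 j), map_zero]
      intro he
      apply h1n
      have o1 : orderOf a1 = q := orderOf_eq_prime (hp := ⟨hq⟩) (hexp a1 h1) h1n
      have o2 := orderOf_dvd_of_pow_eq_one he
      rw [o1] at o2
      exact absurd (Nat.le_of_dvd (Nat.pos_of_ne_zero hj0) o2) (not_le.mpr (Finset.mem_range.mp hj))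
  rw [Finset.sum_congr rfl e4, Finset.sum_ite_eq' (Finset.range q) 0] at hS
  rw [if_pos (Finset.mem_range.mpr hq.pos)] at hS
  exact hS

/-- even dimension of nondegenerate subspaces -/
lemma even_dim [Finite U] (halt : ∀ v, B v v = 0) {W : Submodule (ZMod 2) U}
    (hW : ∀ v ∈ W, (∀ w ∈ W, B v w = 0) → v = 0) : Even (Module.finrank (ZMod 2) W) := by
  have : Module.Finite (ZMod 2) U := Module.Finite.of_finite
  set k := Module.finrank (ZMod 2) W with hk
  let b := Module.finBasis (ZMod 2) W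
  let e : (Fin k → ZMod 2) ≃ₗ[ZMod 2] W := b.equivFun.symm
  have hskew : ∀ v w, B v w = - B w v := by
    intro v w
    have h1 := halt (v + w)
    simp only [map_add, LinearMap.add_apply, halt, zero_add, add_zero] at h1
    exact eq_neg_of_add_eq_zero_right h1
  have hg : Cfsg.Geo.IsSymplecticForm (fun x y : Fin k → ZMod 2 => B (e x : U) (e y : U)) := by
    refine ⟨⟨?_, ?_, ?_, ?_⟩, ?_, ?_, ?_⟩
    · intro x y v
      simp only [map_add, Submodule.coe_add, LinearMap.add_apply]
    · intro c x v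
      simp only [map_smul, Submodule.coe_smul, LinearMap.smul_apply, smul_eq_mul]
    · intro v x y
      simp only [map_add, Submodule.coe_add]
    · intro c v x
      simp only [map_smul, Submodule.coe_smul, smul_eq_mul]
    · intro v w
      exact hskew _ _
    · intro v
      exact halt _
    · intro v hv
      have h0 : ((e v : W) : U) ≠ 0 := by
        intro h
        apply hv
        have : e v = 0 := Subtype.ext h
        rwa [LinearEquiv.map_eq_zero_iff] at this
      have h1 : ∃ w ∈ W, B (e v : U) w ≠ 0 := by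
        by_contra hcon
        push Not at hcon
        exact h0 (hW _ (e v).2 hcon)
      obtain ⟨w, hw, hw1⟩ := h1
      refine ⟨⟨e.symm ⟨w, hw⟩, ?_⟩, ⟨e.symm ⟨w, hw⟩, ?_⟩⟩
      · simpa only [LinearEquiv.apply_symm_apply, hskew w, ne_eq, neg_eq_zero] using hw1
      · simpa only [LinearEquiv.apply_symm_apply] using hw1
  have := Asch.even_card_of_isSymplecticForm hg
  rwa [Fintype.card_fin] at this

end

end Cfsg.Agent.H97.KR.T1

namespace Cfsg.Agent.H97.KR

open Cfsg T1

variable {n : ℕ} {U : Type} [AddCommGroup U] [Module (ZMod 2) U] [Finite U]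
  {B : U →ₗ[ZMod 2] U →ₗ[ZMod 2] ZMod 2} {Y : Type} [Group Y] [Finite Y] {σ : Y →* (U →ₗ[ZMod 2] U)}

theorem Sy.dichotomy (h : Sy 2 n B σ) (hn : 1 ≤ n) (hirr : Irr σ) [Group.IsSolvable Y] :
    (∃ t m, 2 ≤ t ∧ 1 ≤ m ∧ t * m = n ∧ Orth B σ t m) ∨ Subsingleton Y ∨
      ∃ (q : ℕ) (a : Y), q.Prime ∧ q ≠ 2 ∧ orderOf a = q ∧ (Subgroup.zpowers a).Normal ∧ ∀ v, σ a v = v → v = 0 := by
  classical
  rcases subsingleton_or_nontrivial Y with hsub | hnt
  · exact Or.inr (Or.inl hsub)
  have hUnt : ∃ u : U, u ≠ 0 := by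
    by_contra hcon
    push Not at hcon
    have : Subsingleton U := ⟨fun a b => by rw [hcon a, hcon b]⟩
    have h1 := h.card
    rw [Nat.card_of_subsingleton (0 : U)] at h1
    have : 2 ^ 1 ≤ 2 ^ (2 * n) := Nat.pow_le_pow_right (by norm_num) (by omega)
    omega
  -- a minimal normal subgroup
  obtain ⟨A, hAmem, hAmin⟩ := (Set.toFinite {N : Subgroup Y | N.Normal ∧ N ≠ ⊥}).exists_minimal
    ⟨⊤, inferInstance, top_ne_bot⟩
  have hAn : A.Normal := hAmem.1
  have hAb : A ≠ ⊥ := hAmem.2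
  have hmin : ∀ M : Subgroup Y, M.Normal → M ≤ A → M = ⊥ ∨ M = A := by
    intro M hM hMA
    by_cases hMb : M = ⊥
    · exact Or.inl hMb
    · exact Or.inr (le_antisymm hMA (hAmin ⟨hM, hMb⟩ hMA))
  obtain ⟨hab, q, hq, hexp⟩ := Solv.minimal_normal_of_solvable A inferInstance hAb hmin
  have hcomm : ∀ a ∈ A, ∀ b ∈ A, a * b = b * a := fun a ha b hb => Solv.comm_of_isMulCommutative hab ha hb
  have hqF : Fact q.Prime := ⟨hq⟩
  have hAp : IsPGroup q A := fun x => ⟨1, by rw [pow_one]; exact Subtype.ext (hexp x x.2)⟩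
  -- normality and fixed spaces
  have hcjA : ∀ y, cj y A = A := by
    intro y
    ext x
    rw [mem_cj]
    constructor
    · rintro ⟨b, hb, rfl⟩
      exact hAn.conj_mem b hb y
    · intro hx
      exact ⟨y⁻¹ * x * y, by simpa using hAn.conj_mem x hx y⁻¹, by group⟩
  have hfixA : fx σ A = ⊥ := by
    rcases hirr (fx σ A) (fun y w hw => by
      have h1 : σ y w ∈ (fx σ A).map (σ y) := Submodule.mem_map_of_mem hw
      rwa [map_fx, hcjA] at h1) with h1 | h1
    · exact h1
    · exfalso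
      apply hAb
      rw [eq_bot_iff]
      intro a ha
      rw [Subgroup.mem_bot]
      apply h.inj
      ext v
      have h2 : v ∈ fx σ A := h1 ▸ Submodule.mem_top
      rw [h2 a ha, map_one]
      rfl
  -- q is odd
  have hq2 : q ≠ 2 := by
    intro hq2
    subst hq2
    letI : MulAction A U :=
      { smul := fun a v => σ (a : Y) v
        one_smul := fun v => s_one v
        mul_smul := fun a b v => s_mul (a : Y) b v }
    have h0 : (0 : U) ∈ MulAction.fixedPoints A U := fun a => map_zero (σ (a : Y))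
    obtain ⟨v, hv, hv0⟩ := hAp.exists_fixed_point_of_prime_dvd_card_of_fixed_point U
      (by rw [h.card]; exact dvd_pow_self 2 (by omega)) h0
    have h1 : v ∈ fx σ A := fun b hb => hv ⟨b, hb⟩
    rw [hfixA, Submodule.mem_bot] at h1
    exact hv0 h1.symm
  have hodd : ∀ H : Subgroup Y, H ≤ A → Odd (Nat.card H) := by
    intro H hH
    obtain ⟨k, hk⟩ := IsPGroup.iff_card.mp (hAp.to_le hH)
    rw [hk]
    exact (hq.odd_of_ne_two hq2).pow
  by_cases hfpf : ∀ a ∈ A, a ≠ 1 → ∀ v, σ a v = v → v = 0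
  · -- cyclic
    right; right
    obtain ⟨a1, ha1, ha1n⟩ : ∃ a ∈ A, a ≠ 1 := by
      by_contra hcon
      push Not at hcon
      apply hAb
      rw [eq_bot_iff]
      intro a ha
      exact Subgroup.mem_bot.mpr (hcon a ha)
    have h1 := cyc hq hq2 hcomm hexp hfpf hUnt ha1 ha1n
    have h2 : Subgroup.zpowers a1 = A := le_antisymm (by rwa [Subgroup.zpowers_le]) h1
    exact ⟨q, a1, hq, hq2, orderOf_eq_prime (hexp a1 ha1) ha1n, by rw [h2]; exact hAn, hfpf a1 ha1 ha1n⟩
  · left
    push Not at hfpf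
    obtain ⟨a0, ha0, ha0n, v0, hv0, hv0n⟩ := hfpf
    -- a maximal subgroup with fixed points
    obtain ⟨B0, hB0le, hB0mem, hB0max⟩ := (Set.toFinite {H : Subgroup Y | H ≤ A ∧ fx σ H ≠ ⊥}).exists_le_maximal
      (a := Subgroup.zpowers a0) ⟨by rwa [Subgroup.zpowers_le], by
        rw [Submodule.ne_bot_iff]
        refine ⟨v0, ?_, hv0n⟩
        have : Subgroup.zpowers a0 ≤ stb σ v0 := by rw [Subgroup.zpowers_le]; exact hv0
        exact fun b hb => this hb⟩
    have hB0A : B0 ≤ A := hB0mem.1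
    have hB0f : fx σ B0 ≠ ⊥ := hB0mem.2
    have hB0b : B0 ≠ ⊥ := by
      intro hb
      rw [hb, le_bot_iff, Subgroup.zpowers_eq_bot] at hB0le
      exact ha0n hB0le
    have hmax : ∀ H : Subgroup Y, H ≤ A → B0 ≤ H → H ≠ B0 → fx σ H = ⊥ := by
      intro H hHA hBH hne
      by_contra hcon
      exact hne (le_antisymm (hB0max ⟨hHA, hcon⟩ hBH) hBH)
    -- the conjugates of `B0`
    let I : Set (Subgroup Y) := Set.range (fun y : Y => cj y B0)
    have hIle : ∀ H ∈ I, H ≤ A := by
      rintro _ ⟨y, rfl⟩ x hx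
      obtain ⟨b, hb, rfl⟩ := mem_cj.mp hx
      exact hAn.conj_mem b (hB0A hb) y
    have hcj1 : ∀ H : Subgroup Y, cj 1 H = H := by
      intro H
      ext x
      rw [mem_cj]
      constructor
      · rintro ⟨b, hb, rfl⟩
        simpa using hb
      · intro hx
        exact ⟨x, hx, by simp⟩
    have hcjI : ∀ y, ∀ H ∈ I, cj y H ∈ I := by
      rintro y _ ⟨z, rfl⟩
      exact ⟨y * z, cj_mul y z B0⟩
    have hbot : ∀ H ∈ I, ∀ K ∈ I, H ≠ K → fx σ (H ⊔ K) = ⊥ := by
      rintro _ ⟨y, rfl⟩ K hK hne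
      have e1 : cj y⁻¹ (cj y B0 ⊔ K) = B0 ⊔ cj y⁻¹ K := by
        show ((cj y B0) ⊔ K).map _ = _
        rw [Subgroup.map_sup]
        congr 1
        show cj y⁻¹ (cj y B0) = B0
        rw [← cj_mul, inv_mul_cancel, hcj1]
      have e2 : fx σ (B0 ⊔ cj y⁻¹ K) = ⊥ := by
        apply hmax
        · exact sup_le hB0A (hIle _ (hcjI _ _ hK))
        · exact le_sup_left
        · intro he
          rw [sup_eq_left] at he
          have hc : Nat.card (cj y⁻¹ K) = Nat.card B0 := by
            obtain ⟨z, rfl⟩ := hK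
            show Nat.card (cj y⁻¹ (cj z B0)) = _
            rw [← cj_mul]
            exact Subgroup.card_map_of_injective (MulAut.conj (y⁻¹ * z)).injective
          have he2 : cj y⁻¹ K = B0 := Subgroup.eq_of_le_of_card_ge he hc.ge
          apply hne
          show cj y B0 = K
          rw [← he2, ← cj_mul, mul_inv_cancel, hcj1]
      have e3 : (fx σ (cj y B0 ⊔ K)).map (σ y⁻¹) = ⊥ := by rw [map_fx, e1, e2]
      rw [eq_bot_iff]
      intro v hv
      have e4 : σ y⁻¹ v ∈ (fx σ (cj y B0 ⊔ K)).map (σ y⁻¹) := Submodule.mem_map_of_mem hv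
      rw [e3, Submodule.mem_bot] at e4
      rw [Submodule.mem_bot, ← s_s_inv (σ := σ) y v, e4, map_zero]
    have htr0 : ∀ H ∈ I, ∀ K ∈ I, H ≠ K → ∀ v ∈ fx σ K, tr σ H v = 0 := by
      intro H hH K hK hne v hv
      have e1 : tr σ H v ∈ fx σ (H ⊔ K) := fx_sup (tr_mem H v)
        (tr_comm (fun a ha b hb => hcomm a (hIle H hH ha) b (hIle K hK hb)) hv)
      rw [hbot H hH K hK hne, Submodule.mem_bot] at e1
      exact e1
    have horth : ∀ H ∈ I, ∀ K ∈ I, H ≠ K → ∀ v ∈ fx σ H, ∀ w ∈ fx σ K, B v w = 0 := by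
      intro H hH K hK hne v hv w hw
      rw [← B_tr h.inv (hodd K (hIle K hK)) v hw, htr0 K hK H hH hne.symm v hv, map_zero, LinearMap.zero_apply]
    let t := Nat.card I
    let e : Fin t ≃ I := (Finite.equivFin I).symm
    let W : Fin t → Submodule (ZMod 2) U := fun i => fx σ (e i : Subgroup Y)
    have hne : ∀ i j, i ≠ j → (e i : Subgroup Y) ≠ e j := fun i j hij h => hij (e.injective (Subtype.ext h))
    have hperm : ∀ y : Y, ∀ i, ∃ j, (W i).map (σ y) = W j := by
      intro y i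
      refine ⟨e.symm ⟨cj y (e i), hcjI y _ (e i).2⟩, ?_⟩
      show (fx σ (e i : Subgroup Y)).map (σ y) = fx σ (e (e.symm _) : Subgroup Y)
      rw [map_fx, Equiv.apply_symm_apply]
    have hind : iSupIndep W := by
      rw [iSupIndep_def]
      intro i
      rw [Submodule.disjoint_def]
      intro v hv hv2
      have e1 : (⨆ (j) (_ : j ≠ i), W j) ≤ LinearMap.ker (tr σ (e i : Subgroup Y)) := by
        refine iSup₂_le ?_
        intro j hj w hw
        exact htr0 _ (e i).2 _ (e j).2 (hne i j hj.symm) w hw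
      have e2 := e1 hv2
      rw [LinearMap.mem_ker, tr_fx (hodd _ (hIle _ (e i).2)) hv] at e2
      exact e2
    have hi0 : ∃ i0 : Fin t, (e i0 : Subgroup Y) = B0 := ⟨e.symm ⟨B0, ⟨1, hcj1 B0⟩⟩, by rw [Equiv.apply_symm_apply]⟩
    obtain ⟨i0, hi0⟩ := hi0
    have htop : ⨆ i, W i = ⊤ := by
      rcases hirr (⨆ i, W i) (by
        intro y w hw
        have e1 : (⨆ i, W i).map (σ y) ≤ ⨆ i, W i := by
          rw [Submodule.map_iSup]
          refine iSup_le ?_
          intro i
          obtain ⟨j, hj⟩ := hperm y i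
          rw [hj]
          exact le_iSup W j
        exact e1 (Submodule.mem_map_of_mem hw)) with h1 | h1
      · exfalso
        apply hB0f
        have e1 : W i0 ≤ ⨆ i, W i := le_iSup W i0
        rw [h1, le_bot_iff] at e1
        rw [← hi0]
        exact e1
      · exact h1
    have hint : DirectSum.IsInternal W :=
      (DirectSum.isInternal_submodule_iff_iSupIndep_and_iSup_eq_top W).mpr ⟨hind, htop⟩
    have hfin : Module.Finite (ZMod 2) U := Module.Finite.of_finite
    -- all summands have the same order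
    have hWi0 : ∀ i, Nat.card (W i) = Nat.card (W i0) := by
      intro i
      obtain ⟨y, hy⟩ := (e i).2
      have hy' : cj y B0 = (e i : Subgroup Y) := hy
      have e1 : (W i0).map (σ y) = W i := by
        show (fx σ (e i0 : Subgroup Y)).map (σ y) = fx σ (e i : Subgroup Y)
        rw [map_fx, hi0, hy']
      rw [← e1]
      refine (Nat.card_congr (Equiv.Set.image (σ y) (W i0 : Set U) ?_)).symm
      intro a b hab
      have := congrArg (σ y⁻¹) hab
      rwa [s_inv_s, s_inv_s] at this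
    have heven : Even (Module.finrank (ZMod 2) (W i0)) := by
      apply even_dim h.alt
      intro v hv hvw
      apply h.nd v
      intro w
      have hw : w ∈ ⨆ i, W i := htop ▸ Submodule.mem_top
      have e1 : (⨆ i, W i) ≤ LinearMap.ker (B v) := by
        refine iSup_le ?_
        intro i w hw
        rw [LinearMap.mem_ker]
        by_cases hi : i = i0
        · subst hi
          exact hvw w hw
        · exact horth _ (e i0).2 _ (e i).2 (hne i0 i (Ne.symm hi)) v hv w hw
      exact e1 hw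
    obtain ⟨m, hm⟩ := heven
    have hcW : ∀ i, Nat.card (W i) = 2 ^ (2 * m) := by
      intro i
      rw [hWi0, Module.natCard_eq_pow_finrank (K := ZMod 2), hm, Nat.card_zmod, two_mul]
    have hm1 : 1 ≤ m := by
      rw [Nat.one_le_iff_ne_zero]
      rintro rfl
      have e1 := hcW i0
      rw [mul_zero, pow_zero, Nat.card_eq_one_iff_unique] at e1
      obtain ⟨e1, -⟩ := e1
      apply hB0f
      rw [← hi0]
      exact (Submodule.subsingleton_iff_eq_bot).mp e1
    have htm : t * m = n := by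
      have e1 : Nat.card U = Nat.card (Π i, W i) := by
        have f1 : (DirectSum (Fin t) fun i => W i) ≃ U := Equiv.ofBijective _ hint
        have f2 : (DirectSum (Fin t) fun i => W i) ≃ (Π i, W i) :=
          (DirectSum.linearEquivFunOnFintype (ZMod 2) (Fin t) (fun i => W i)).toEquiv
        exact Nat.card_congr (f1.symm.trans f2)
      rw [Nat.card_pi, h.card, Finset.prod_congr rfl (fun i _ => hcW i), Finset.prod_const, Finset.card_univ,
        Fintype.card_fin, ← pow_mul] at e1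
      have e2 := Nat.pow_right_injective (le_refl 2) e1
      nlinarith
    have ht2 : 2 ≤ t := by
      by_contra hcon
      have ht1 : t ≤ 1 := by omega
      have : Subsingleton I := by
        have := (Finite.card_le_one_iff_subsingleton (α := I)).mp ht1
        exact this
      have hB0n : B0.Normal := by
        constructor
        intro b hb y
        have e1 : cj y B0 = B0 := by
          have := Subsingleton.elim (⟨cj y B0, ⟨y, rfl⟩⟩ : I) ⟨B0, ⟨1, hcj1 B0⟩⟩
          exact congrArg Subtype.val this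
        rw [← e1]
        exact mem_cj.mpr ⟨b, hb, rfl⟩
      rcases hmin B0 hB0n hB0A with h1 | h1
      · exact hB0b h1
      · rw [h1] at hB0f
        exact hB0f hfixA
    exact ⟨t, m, ht2, hm1, htm, W, hint, hcW,
      fun i j hij v hv w hw => horth _ (e i).2 _ (e j).2 (hne i j hij) v hv w hw, hperm⟩

end Cfsg.Agent.H97.KR
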