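import Cfsg.Agent.H97.KRT2a
import Cfsg.Agent.H97.KRP

set_option autoImplicit false

namespace Cfsg.Agent.H97.KR

open Cfsg

section
variable {n : ℕ} {U : Type} [AddCommGroup U] [Module (ZMod 2) U] [Finite U]
  {B : U →ₗ[ZMod 2] U →ₗ[ZMod 2] ZMod 2} {Y : Type} [Group Y] [Finite Y] {σ : Y →* (U →ₗ[ZMod 2] U)}

/-- (T2) -/
theorem Sy.orth_bound (h : Sy 2 n B σ) [Group.IsSolvable Y] {t m b : ℕ} (ht : 2 ≤ t) (ho : Orth B σ t m)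
    (hb : ∀ (U' : Type) [AddCommGroup U'] [Module (ZMod 2) U'] [Finite U'] (B' : U' →ₗ[ZMod 2] U' →ₗ[ZMod 2] ZMod 2)
      (Y' : Type) [Group Y'] [Finite Y'] (σ' : Y' →* (U' →ₗ[ZMod 2] U')), Sy 2 m B' σ' → KB Y' b) :
    KB Y (b ^ t * 3 ^ (t - 1)) :=
  T2.orth_bound_aux (fun k hk _ _ _ _ f hf => KB.perm k hk f hf) h ht ho hb

end

end Cfsg.Agent.H97.KR
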