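import Cfsg.Agent.H97.KRS1

set_option autoImplicit false

/-!
S4265, piece T3.
-/

namespace Cfsg.Agent.H97.KR.T3

open Cfsg

/-- the index of the centraliser of an element generating a normal subgroup of prime order -/
theorem card_le_of_normal {Y : Type} [Group Y] [Finite Y] {q : ℕ} {a : Y} (hq : q.Prime) (ha : orderOf a = q)
    (han : (Subgroup.zpowers a).Normal) :
    Nat.card Y ≤ (q - 1) * Nat.card (Subgroup.centralizer ({a} : Set Y)) := by
  classical
  have h1 : (Subgroup.centralizer ({a} : Set Y)).index ≤ q - 1 := by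
    let f : Y ⧸ (Subgroup.centralizer ({a} : Set Y)) → {x : Subgroup.zpowers a // x ≠ 1} :=
      Quotient.lift (fun y : Y => (⟨⟨y * a * y⁻¹, han.conj_mem a (Subgroup.mem_zpowers a) y⟩, by
        intro h
        have h2 : y * a * y⁻¹ = 1 := congrArg Subtype.val h
        have h3 : a = 1 := by
          have := congrArg (fun z => y⁻¹ * z * y) h2
          simpa [mul_assoc] using this
        rw [h3, orderOf_one] at ha
        exact hq.one_lt.ne ha⟩ : {x : Subgroup.zpowers a // x ≠ 1})) (by
        intro x y hxy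
        have h2 : x⁻¹ * y ∈ Subgroup.centralizer ({a} : Set Y) := QuotientGroup.leftRel_apply.1 hxy
        have h3 : a * (x⁻¹ * y) = (x⁻¹ * y) * a := Subgroup.mem_centralizer_iff.1 h2 a rfl
        apply Subtype.ext
        apply Subtype.ext
        change x * a * x⁻¹ = y * a * y⁻¹
        have h4 : x * (a * (x⁻¹ * y)) * y⁻¹ = x * ((x⁻¹ * y) * a) * y⁻¹ := by rw [h3]
        simpa [mul_assoc] using h4)
    have hf : Function.Injective f := by
      intro s t
      refine Quotient.inductionOn₂ s t ?_
      intro x y hxy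
      have h2 : x * a * x⁻¹ = y * a * y⁻¹ := congrArg (fun z : {x : Subgroup.zpowers a // x ≠ 1} => ((z : Subgroup.zpowers a) : Y)) hxy
      apply Quotient.sound
      apply QuotientGroup.leftRel_apply.2
      rw [Subgroup.mem_centralizer_iff]
      intro z hz
      rw [Set.mem_singleton_iff.1 hz]
      have h3 : x⁻¹ * (x * a * x⁻¹) * y = x⁻¹ * (y * a * y⁻¹) * y := by rw [h2]
      have h4 : x⁻¹ * (x * a * x⁻¹) * y = a * (x⁻¹ * y) := by group
      have h5 : x⁻¹ * (y * a * y⁻¹) * y = (x⁻¹ * y) * a := by group
      rw [← h4, ← h5, h3]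
    have h2 := Nat.card_le_card_of_injective f hf
    have h3 : Nat.card {x : Subgroup.zpowers a // x ≠ 1} = q - 1 := by
      have h4 : Nat.card {x : Subgroup.zpowers a // x ≠ 1} = ({1}ᶜ : Set (Subgroup.zpowers a)).ncard := by
        rw [← Nat.card_coe_set_eq]
        rfl
      rw [h4, Set.ncard_compl, Set.ncard_singleton, Nat.card_zpowers, ha]
    rw [h3] at h2
    exact h2
  rw [← Subgroup.card_mul_index (Subgroup.centralizer ({a} : Set Y)), mul_comm]
  exact Nat.mul_le_mul_right _ h1

section
variable {n : ℕ} {U : Type} [AddCommGroup U] [Module (ZMod 2) U] [Finite U]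
  {B : U →ₗ[ZMod 2] U →ₗ[ZMod 2] ZMod 2} {Y : Type} [Group Y] [Finite Y] {σ : Y →* (U →ₗ[ZMod 2] U)}

/-- invariant subspaces of a fixed point free element of prime order -/
theorem inv_card {q : ℕ} {a : Y} (hq : q.Prime) (ha : orderOf a = q) (hfix : ∀ v, σ a v = v → v = 0)
    (F : Submodule (ZMod 2) U) (hF : ∀ w ∈ F, σ a w ∈ F) : Nat.card F ≡ 1 [MOD q] := by
  classical
  haveI : Fact q.Prime := ⟨hq⟩
  haveI : Fintype F := Fintype.ofFinite _
  let f : Function.End F := fun w => ⟨σ a w, hF w w.2⟩
  have hpow : ∀ (k : ℕ) (w : F), (((f ^ k : Function.End F) w : F) : U) = σ (a ^ k) w := by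
    intro k
    induction k with
    | zero => intro w; rw [pow_zero, pow_zero, map_one]; rfl
    | succ k ih =>
      intro w
      rw [pow_succ', pow_succ', map_mul]
      change σ a (((f ^ k : Function.End F) w : F) : U) = σ a (σ (a ^ k) w)
      rw [ih w]
  have h1 : f ^ q ^ 1 = 1 := by
    funext w
    apply Subtype.ext
    rw [hpow, pow_one, ← ha, pow_orderOf_eq_one, map_one]
    rfl
  have h2 := Equiv.Perm.card_fixedPoints_modEq h1
  have h3 : Fintype.card (Function.fixedPoints f) = 1 := by
    rw [Fintype.card_eq_one_iff]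
    refine ⟨⟨0, ?_⟩, ?_⟩
    · change f 0 = 0
      apply Subtype.ext
      change σ a 0 = 0
      rw [map_zero]
    · rintro ⟨w, hw⟩
      apply Subtype.ext
      apply Subtype.ext
      have h4 : f w = w := hw
      exact hfix w (congrArg Subtype.val h4)
  rw [h3] at h2
  rw [Nat.card_eq_fintype_card]
  exact h2

/-- the vectors fixed by a subgroup -/
def fx (σ : Y →* (U →ₗ[ZMod 2] U)) (D : Subgroup Y) : Submodule (ZMod 2) U where
  carrier := {v | ∀ y ∈ D, σ y v = v}
  add_mem' := by
    intro v w hv hw y hy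
    rw [map_add, hv y hy, hw y hy]
  zero_mem' := by
    intro y _
    rw [map_zero]
  smul_mem' := by
    intro c v hv y hy
    rw [map_smul, hv y hy]

omit [Finite U] [Finite Y] in
theorem fx_inv {a : Y} {D : Subgroup Y} (hD : D ≤ Subgroup.centralizer ({a} : Set Y)) :
    ∀ w ∈ fx σ D, σ a w ∈ fx σ D := by
  intro w hw y hy
  have h1 : a * y = y * a := Subgroup.mem_centralizer_iff.1 (hD hy) a rfl
  change (σ y * σ a) w = σ a w
  rw [← map_mul, ← h1, map_mul]
  change σ a (σ y w) = σ a w
  rw [hw y hy]

theorem perp_card (h : Sy 2 n B σ) (F : Submodule (ZMod 2) U) (v : U) :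
    Nat.card {u : U | ∀ w ∈ F, B (u - v) w = 0} * Nat.card F = 2 ^ (2 * n) := by
  classical
  have halt : LinearMap.IsAlt B := h.alt
  have hr : LinearMap.BilinForm.IsRefl B := halt.isRefl
  have hB : LinearMap.BilinForm.Nondegenerate B := by
    constructor
    · intro v hv
      exact h.nd v hv
    · intro v hv
      exact h.nd v (fun w => hr _ _ (hv w))
  have h1 := LinearMap.BilinForm.finrank_orthogonal hB F
  have h2 : Nat.card {u : U | ∀ w ∈ F, B (u - v) w = 0} = Nat.card (LinearMap.BilinForm.orthogonal B F) := by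
    refine Nat.card_congr ⟨fun u => ⟨u.1 - v, ?_⟩, fun u => ⟨u.1 + v, ?_⟩, ?_, ?_⟩
    · intro w hw
      exact hr _ _ (u.2 w hw)
    · intro w hw
      rw [add_sub_cancel_right]
      exact hr _ _ (u.2 w hw)
    · intro u
      exact Subtype.ext (sub_add_cancel _ _)
    · intro u
      exact Subtype.ext (add_sub_cancel_right _ _)
  have h3 : Module.finrank (ZMod 2) U = 2 * n := by
    have h4 := Module.natCard_eq_pow_finrank (K := ZMod 2) (V := U)
    rw [Nat.card_zmod, h.card] at h4
    exact (Nat.pow_right_injective le_rfl h4).symm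
  rw [h2, Module.natCard_eq_pow_finrank (K := ZMod 2) (V := LinearMap.BilinForm.orthogonal B F),
    Module.natCard_eq_pow_finrank (K := ZMod 2) (V := F), h1, Nat.card_zmod, ← pow_add, h3]
  congr 1
  have h4 := Submodule.finrank_le F
  omega

theorem cent_card (h : Sy 2 4 B σ) {q : ℕ} {a : Y} (hq : q.Prime) (ha : orderOf a = q)
    (hfix : ∀ v, σ a v = v → v = 0) : ∀ j ≤ 4, ∀ D : Subgroup Y, D ≤ Subgroup.centralizer ({a} : Set Y) →
    2 ^ (8 - 2 * j) ≤ Nat.card (fx σ D) → Nat.card D ≤ 2 ^ (j * (j + 1)) := by
  classical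
  have htriv : ∀ D : Subgroup Y, fx σ D = ⊤ → Nat.card D = 1 := by
    intro D hD
    have h1 : D = ⊥ := by
      rw [Subgroup.eq_bot_iff_forall]
      intro y hy
      apply h.inj
      rw [map_one]
      ext v
      have h2 : v ∈ fx σ D := by rw [hD]; trivial
      exact h2 y hy
    rw [h1]
    simp
  intro j
  induction j with
  | zero =>
    intro _ D hD hc
    have h1 : fx σ D = ⊤ := by
      have h2 : Nat.card U ≤ Nat.card (fx σ D) := by
        rw [h.card]
        exact hc
      rw [Module.natCard_eq_pow_finrank (K := ZMod 2) (V := U),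
        Module.natCard_eq_pow_finrank (K := ZMod 2) (V := fx σ D), Nat.card_zmod] at h2
      have h3 := (Nat.pow_le_pow_iff_right (by norm_num)).1 h2
      exact Submodule.eq_top_of_finrank_eq (le_antisymm (Submodule.finrank_le _) h3)
    rw [htriv D h1]
    norm_num
  | succ j ih =>
    intro hj D hD hc
    by_cases htop : fx σ D = ⊤
    · rw [htriv D htop]
      exact Nat.one_le_two_pow
    obtain ⟨v, hv⟩ : ∃ v, v ∉ fx σ D := by
      by_contra hcon
      push Not at hcon
      exact htop (by rw [eq_top_iff]; intro v _; exact hcon v)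
    have h1 := S1.step (σ := σ) D v {u : U | ∀ w ∈ fx σ D, B (u - v) w = 0} (Set.toFinite _) (by
      intro y hy w hw
      have h2 := h.inv y v w
      rw [hw y hy] at h2
      rw [map_sub, LinearMap.sub_apply, h2, sub_self])
    have h2 := perp_card h (fx σ D) v
    set D' := S1.stb σ D v with hD'
    have hDD : D' ≤ D := fun y hy => hy.1
    have h3 : fx σ D < fx σ D' := by
      refine lt_of_le_of_ne (fun w hw y hy => hw y (hDD hy)) ?_
      intro heq
      apply hv
      rw [heq]
      intro y hy
      exact hy.2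
    have h4 := inv_card hq ha hfix (fx σ D) (fx_inv hD)
    have h5 := inv_card hq ha hfix (fx σ D') (fx_inv (hDD.trans hD))
    obtain ⟨k, hk⟩ : ∃ k, Nat.card (fx σ D) = 2 ^ k := by
      refine ⟨Module.finrank (ZMod 2) (fx σ D), ?_⟩
      rw [Module.natCard_eq_pow_finrank (K := ZMod 2) (V := fx σ D), Nat.card_zmod]
    obtain ⟨k', hk'⟩ : ∃ k, Nat.card (fx σ D') = 2 ^ k := by
      refine ⟨Module.finrank (ZMod 2) (fx σ D'), ?_⟩
      rw [Module.natCard_eq_pow_finrank (K := ZMod 2) (V := fx σ D'), Nat.card_zmod]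
    have h6 : Nat.card (fx σ D) < Nat.card (fx σ D') := by
      have h31 : (fx σ D : Set U).ncard < (fx σ D' : Set U).ncard :=
        Set.ncard_lt_ncard (SetLike.coe_ssubset_coe.2 h3) (Set.toFinite _)
      rw [← Nat.card_coe_set_eq, ← Nat.card_coe_set_eq] at h31
      exact h31
    rw [hk, hk'] at h6
    have h7 : k < k' := (Nat.pow_lt_pow_iff_right (by norm_num)).1 h6
    have h8 : k + 2 ≤ k' := by
      by_contra hcon
      have h9 : k' = k + 1 := by omega
      rw [hk] at h4
      rw [hk', h9, pow_succ] at h5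
      have h10 : 1 * 2 ≡ 1 [MOD q] := (h4.symm.mul_right 2).trans h5
      have h11 := (Nat.modEq_iff_dvd' (by norm_num)).1 h10.symm
      norm_num at h11
      exact hq.one_lt.ne' h11
    rw [hk] at hc h2
    have h12 : 8 - 2 * (j + 1) ≤ k := (Nat.pow_le_pow_iff_right (by norm_num)).1 hc
    have h13 := ih (by omega) D' (hDD.trans hD) (by
      rw [hk']
      exact Nat.pow_le_pow_right (by norm_num) (by omega))
    have h14 : Nat.card {u : U | ∀ w ∈ fx σ D, B (u - v) w = 0} ≤ 2 ^ (2 * (j + 1)) := by
      have h15 : 0 < 2 ^ k := by positivity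
      by_contra hcon
      push Not at hcon
      have h16 : 2 ^ (2 * (j + 1)) * 2 ^ k < 2 ^ (2 * 4) := by
        rw [← h2]
        exact Nat.mul_lt_mul_of_pos_right hcon h15
      rw [← pow_add] at h16
      have h17 := (Nat.pow_lt_pow_iff_right (by norm_num)).1 h16
      omega
    refine h1.trans ((Nat.mul_le_mul h14 h13).trans (le_of_eq ?_))
    rw [← pow_add]
    congr 1
    ring

end

end T3

open Cfsg

section
variable {U : Type} [AddCommGroup U] [Module (ZMod 2) U] [Finite U]
  {B : U →ₗ[ZMod 2] U →ₗ[ZMod 2] ZMod 2} {Y : Type} [Group Y] [Finite Y] {σ : Y →* (U →ₗ[ZMod 2] U)}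

/-- (T3) -/
theorem Sy.card_cyc (h : Sy 2 4 B σ) {q : ℕ} {a : Y} (hq : q.Prime) (hq2 : q ≠ 2) (ha : orderOf a = q)
    (han : (Subgroup.zpowers a).Normal) (hfix : ∀ v, σ a v = v → v = 0) : Nat.card Y ≤ 3 ^ 15 := by
  classical
  have h1 := T3.card_le_of_normal hq ha han
  have h2 := T3.cent_card h hq ha hfix 4 le_rfl (Subgroup.centralizer ({a} : Set Y)) le_rfl (by
    norm_num
    exact Nat.card_pos)
  have h3 := T3.inv_card hq ha hfix (⊤ : Submodule (ZMod 2) U) (fun _ _ => trivial)
  have h4 : Nat.card (⊤ : Submodule (ZMod 2) U) = 256 := by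
    rw [Nat.card_congr (Submodule.topEquiv (R := ZMod 2) (M := U)).toEquiv, h.card]
    norm_num
  rw [h4] at h3
  have h5 : q ∣ 255 := by
    have := (Nat.modEq_iff_dvd' (by norm_num)).1 h3.symm
    simpa using this
  have h6 : q ∈ Nat.primeFactors 255 := Nat.mem_primeFactors.2 ⟨hq, h5, by norm_num⟩
  have h7 : Nat.primeFactors 255 = {3, 5, 17} := by
    have : (255 : ℕ) = 3 * (5 * 17) := by norm_num
    rw [this, Nat.primeFactors_mul (by norm_num) (by norm_num), Nat.primeFactors_mul (by norm_num) (by norm_num),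
      Nat.Prime.primeFactors (by norm_num), Nat.Prime.primeFactors (by norm_num), Nat.Prime.primeFactors (by norm_num)]
    rfl
  rw [h7] at h6
  simp only [Finset.mem_insert, Finset.mem_singleton] at h6
  norm_num at h2
  rcases h6 with rfl | rfl | rfl
  · norm_num at h1 ⊢
    omega
  · norm_num at h1 ⊢
    omega
  · -- q = 17
    have hc : Nat.card (Subgroup.centralizer ({a} : Set Y)) ≤ 256 := by
      have hne : ∃ v : U, v ≠ 0 := by
        by_contra hcon
        push Not at hcon
        have : Nat.card U ≤ 1 := by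
          haveI : Subsingleton U := ⟨fun x y => by rw [hcon x, hcon y]⟩
          exact Finite.card_le_one_iff_subsingleton.2 inferInstance
        rw [h.card] at this
        norm_num at this
      obtain ⟨v, hv⟩ := hne
      have h8 := S1.step (σ := σ) (Subgroup.centralizer ({a} : Set Y)) v Set.univ (Set.toFinite _) (fun _ _ => trivial)
      have h9 : Nat.card (Set.univ : Set U) = 256 := by
        rw [Nat.card_coe_set_eq, Set.ncard_univ, h.card]
        norm_num
      have h10 : Nat.card (S1.stb σ (Subgroup.centralizer ({a} : Set Y)) v) ≤ 1 := by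
        set D := S1.stb σ (Subgroup.centralizer ({a} : Set Y)) v with hD
        have hDD : D ≤ Subgroup.centralizer ({a} : Set Y) := fun y hy => hy.1
        have h11 := T3.inv_card hq ha hfix (T3.fx σ D) (T3.fx_inv hDD)
        have hvD : v ∈ T3.fx σ D := fun y hy => hy.2
        have hcard : Nat.card (T3.fx σ D) = 2 ^ (Module.finrank (ZMod 2) (T3.fx σ D)) := by
          rw [Module.natCard_eq_pow_finrank (K := ZMod 2) (V := T3.fx σ D), Nat.card_zmod]
        have hfr : Module.finrank (ZMod 2) U = 8 := by
          have h4 := Module.natCard_eq_pow_finrank (K := ZMod 2) (V := U)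
          rw [Nat.card_zmod, h.card] at h4
          exact (Nat.pow_right_injective le_rfl h4).symm
        have hle := Submodule.finrank_le (T3.fx σ D)
        rw [hfr] at hle
        have hpos : Module.finrank (ZMod 2) (T3.fx σ D) ≠ 0 := by
          intro h0
          have h12 : T3.fx σ D = ⊥ := Submodule.finrank_eq_zero.1 h0
          rw [h12] at hvD
          exact hv ((Submodule.mem_bot _).1 hvD)
        rw [hcard] at h11
        have h8' : Module.finrank (ZMod 2) (T3.fx σ D) = 8 := by
          generalize Module.finrank (ZMod 2) (T3.fx σ D) = k at h11 hle hpos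
          interval_cases k
          · exact absurd rfl hpos
          all_goals first
            | rfl
            | (exfalso; revert h11; decide)
        have htop : T3.fx σ D = ⊤ := Submodule.eq_top_of_finrank_eq (by rw [h8', hfr])
        have hbot : D = ⊥ := by
          rw [Subgroup.eq_bot_iff_forall]
          intro y hy
          apply h.inj
          rw [map_one]
          ext w
          have h2 : w ∈ T3.fx σ D := by rw [htop]; trivial
          exact h2 y hy
        rw [hbot]
        simp
      rw [h9] at h8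
      calc Nat.card (Subgroup.centralizer ({a} : Set Y)) ≤ 256 * Nat.card (S1.stb σ (Subgroup.centralizer ({a} : Set Y)) v) := h8
        _ ≤ 256 * 1 := Nat.mul_le_mul_left _ h10
        _ = 256 := by norm_num
    norm_num at h1 ⊢
    omega

end

end Cfsg.Agent.H97.KR
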