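import Cfsg.Agent.H97.KRDef

set_option autoImplicit false

/-! S4265 (T4): the number of nonsingular vectors of a quadratic form over `F_2`. -/

namespace Cfsg.Agent.H97.KR

open Cfsg

namespace T4

/-- the nontrivial additive character of `ZMod 2` -/
def ch (x : ZMod 2) : ℤ := if x = 0 then 1 else -1

theorem ch_add (x y : ZMod 2) : ch (x + y) = ch x * ch y := by revert x y; decide

theorem ch_one : ch 1 = -1 := by decide

theorem ch_zero : ch 0 = 1 := by decide

variable {n : ℕ} {U : Type} [AddCommGroup U] [Module (ZMod 2) U]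
  {B : U →ₗ[ZMod 2] U →ₗ[ZMod 2] ZMod 2}

theorem symm_of_alt (ha : ∀ v, B v v = 0) (v w : U) : B v w = B w v := by
  have h1 := ha (v + w)
  simp only [map_add, LinearMap.add_apply, ha, zero_add, add_zero] at h1
  have h2 : B v w = - B w v := by
    rw [eq_neg_iff_add_eq_zero]
    rw [add_comm]
    exact h1
  rw [h2]
  generalize B w v = x
  revert x
  decide

theorem sum_ch [Fintype U] [DecidableEq U] (ha : ∀ v, B v v = 0) (nd : ∀ v, (∀ w, B v w = 0) → v = 0) (u : U) :
    ∑ v : U, ch (B v u) = if u = 0 then (Fintype.card U : ℤ) else 0 := by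
  split_ifs with hu
  · subst hu
    simp [ch_zero]
  · obtain ⟨v0, hv0⟩ : ∃ v0, B v0 u ≠ 0 := by
      by_contra hcon
      push Not at hcon
      exact hu (nd u fun w => by rw [symm_of_alt ha]; exact hcon w)
    have hv1 : B v0 u = 1 := by
      revert hv0
      generalize B v0 u = x
      revert x
      decide
    have h1 : ∑ v : U, ch (B v u) = ∑ v : U, ch (B (v + v0) u) :=
      (Equiv.sum_comp (Equiv.addRight v0) (fun v => ch (B v u))).symm
    have h2 : ∑ v : U, ch (B (v + v0) u) = - ∑ v : U, ch (B v u) := by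
      rw [← Finset.sum_neg_distrib]
      apply Finset.sum_congr rfl
      intro v _
      rw [map_add, LinearMap.add_apply, ch_add, hv1, ch_one]
      ring
    linarith [h1.trans h2]

end T4

/-- (T4) -/
theorem card_quad_le {n : ℕ} {U : Type} [AddCommGroup U] [Module (ZMod 2) U] [Finite U]
    {B : U →ₗ[ZMod 2] U →ₗ[ZMod 2] ZMod 2} {Y : Type} [Group Y] [Finite Y] {σ : Y →* (U →ₗ[ZMod 2] U)}
    (h : Sy 2 n B σ) (Q : U → ZMod 2) (hQ : ∀ v w, Q (v + w) = Q v + Q w + B v w) :
    Nat.card {v : U // Q v = 1} = 2 ^ (2 * n - 1) + 2 ^ (n - 1) ∨ Nat.card {v : U // Q v = 1} = 2 ^ (2 * n - 1) - 2 ^ (n - 1) := by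
  classical
  have : Fintype U := Fintype.ofFinite U
  have hU : Fintype.card U = 2 ^ (2 * n) := by rw [← Nat.card_eq_fintype_card, h.card]
  set S : ℤ := ∑ v : U, T4.ch (Q v) with hS
  have hQ0 : Q 0 = 0 := by
    have h1 := hQ 0 0
    rw [add_zero, map_zero, add_zero] at h1
    generalize Q 0 = x at h1 ⊢
    revert x
    decide
  have hSS : S * S = 2 ^ (2 * n) := by
    calc S * S = ∑ v : U, ∑ w : U, T4.ch (Q v) * T4.ch (Q w) := by
          rw [hS, Finset.sum_mul_sum]
      _ = ∑ v : U, ∑ u : U, T4.ch (Q v) * T4.ch (Q (v + u)) := by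
          apply Finset.sum_congr rfl
          intro v _
          exact (Equiv.sum_comp (Equiv.addLeft v) (fun w => T4.ch (Q v) * T4.ch (Q w))).symm
      _ = ∑ v : U, ∑ u : U, T4.ch (Q u) * T4.ch (B v u) := by
          apply Finset.sum_congr rfl
          intro v _
          apply Finset.sum_congr rfl
          intro u _
          rw [← T4.ch_add, ← T4.ch_add, hQ]
          congr 1
          generalize Q v = x
          generalize Q u = y
          generalize B v u = z
          revert x y z
          decide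
      _ = ∑ u : U, T4.ch (Q u) * ∑ v : U, T4.ch (B v u) := by
          rw [Finset.sum_comm]
          apply Finset.sum_congr rfl
          intro u _
          rw [Finset.mul_sum]
      _ = ∑ u : U, T4.ch (Q u) * (if u = 0 then (Fintype.card U : ℤ) else 0) := by
          apply Finset.sum_congr rfl
          intro u _
          rw [T4.sum_ch h.alt h.nd]
      _ = 2 ^ (2 * n) := by
          simp only [mul_ite, mul_zero]
          rw [Finset.sum_ite_eq' Finset.univ (0 : U)]
          simp [hQ0, T4.ch_zero, hU]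
  have hS2 : S = 2 ^ n ∨ S = -2 ^ n := by
    have : S * S = (2 ^ n : ℤ) * 2 ^ n := by rw [hSS]; ring
    exact mul_self_eq_mul_self_iff.1 this
  have hN : S = (2 : ℤ) ^ (2 * n) - 2 * (Nat.card {v : U // Q v = 1} : ℤ) := by
    have h1 : ∀ v : U, T4.ch (Q v) = 1 - 2 * (if Q v = 1 then 1 else 0) := by
      intro v
      generalize Q v = x
      revert x
      decide
    rw [hS]
    simp only [h1]
    rw [Finset.sum_sub_distrib, ← Finset.mul_sum, Nat.card_eq_fintype_card, Fintype.card_subtype, Finset.sum_boole]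
    simp [hU]
  rcases Nat.eq_zero_or_pos n with rfl | hn
  · right
    have h3 : 2 ^ (2 * 0 - 1) - 2 ^ (0 - 1) = 0 := by norm_num
    rw [h3]
    have hs : Subsingleton U := Fintype.card_le_one_iff_subsingleton.1 (by rw [hU]; norm_num)
    have : IsEmpty {v : U // Q v = 1} := ⟨fun ⟨v, hv⟩ => by
      rw [Subsingleton.elim v 0, hQ0] at hv
      exact zero_ne_one hv⟩
    exact Nat.card_of_isEmpty
  generalize Nat.card {v : U // Q v = 1} = N at hN ⊢
  · obtain ⟨k, rfl⟩ : ∃ k, n = k + 1 := ⟨n - 1, by omega⟩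
    have e1 : 2 * (k + 1) - 1 = 2 * k + 1 := by omega
    have e2 : 2 * (k + 1) = 2 * k + 2 := by ring
    rw [e1, Nat.add_sub_cancel]
    have e3 : (2 : ℤ) ^ (2 * (k + 1)) = 2 * ((2 ^ (2 * k + 1) : ℕ) : ℤ) := by push_cast; ring
    have e4 : (2 : ℤ) ^ (k + 1) = 2 * ((2 ^ k : ℕ) : ℤ) := by push_cast; ring
    rw [e3] at hN
    rw [e4] at hS2
    have h5 : 2 ^ k ≤ 2 ^ (2 * k + 1) := Nat.pow_le_pow_right (by norm_num) (by omega)
    rcases hS2 with h1 | h1
    · right
      rw [h1] at hN
      omega
    · left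
      rw [h1] at hN
      omega

end Cfsg.Agent.H97.KR
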