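import Cfsg.Agent.H97.KRT6
import Cfsg.Agent.H97.KRT4

set_option autoImplicit false

/-! S4265: piece T5 (`Sy.card_three`). -/

namespace Cfsg.Agent.H97.KR.T5

open Subgroup

/-- isometries commuting with a fixed-point-free isometry of order three -/
structure Tri (n : ℕ) {U : Type} [AddCommGroup U] [Module (ZMod 2) U]
    (B : U →ₗ[ZMod 2] U →ₗ[ZMod 2] ZMod 2) (a : U →ₗ[ZMod 2] U) {C : Type} [Group C]
    (σ : C →* (U →ₗ[ZMod 2] U)) : Prop where
  sy : Sy 2 n B σ
  iso : ∀ v w, B (a v) (a w) = B v w
  rel : ∀ v, a (a v) + a v + v = 0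
  com : ∀ c v, σ c (a v) = a (σ c v)

/-- the bound -/
def NN : ℕ → ℕ
  | 0 => 1
  | n + 1 => (2 ^ (2 * n + 1) + 2 ^ n) * NN n

theorem z2 (x y : ZMod 2) (h : x + y = 0) : x = y := by
  revert x y; decide

section

variable {n : ℕ} {U : Type} [AddCommGroup U] [Module (ZMod 2) U] [Finite U]
  {B : U →ₗ[ZMod 2] U →ₗ[ZMod 2] ZMod 2} {a : U →ₗ[ZMod 2] U} {C : Type} [Group C] [Finite C]
  {σ : C →* (U →ₗ[ZMod 2] U)}

theorem Tri.symm (h : Tri n B a σ) (v w : U) : B v w = B w v := T6.Bsymm h.sy v w

theorem Tri.quad (h : Tri n B a σ) (v w : U) :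
    B (v + w) (a (v + w)) = B v (a v) + B w (a w) + B v w := by
  have h1 : B v (a w) + B w (a v) = B v w := by
    have h2 : B w (a v) = B (a (a v)) (a w) := by rw [h.symm, h.iso]
    rw [h2, ← LinearMap.add_apply, ← map_add]
    have h3 : v + a (a v) = a v := by
      have h4 := h.rel v
      have h5 := T6.two_nsmul_eq (a v)
      calc v + a (a v) = (a (a v) + a v + v) + (a v) - (a v + a v) := by abel
        _ = a v := by rw [h4, h5, zero_add, sub_zero]
    rw [h3, h.iso]
  simp only [map_add, LinearMap.add_apply]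
  linear_combination h1

theorem Tri.quad_inv (h : Tri n B a σ) (c : C) (v : U) : B (σ c v) (a (σ c v)) = B v (a v) := by
  rw [← h.com, h.sy.inv]

end

theorem bound : ∀ (n : ℕ) {U : Type} [AddCommGroup U] [Module (ZMod 2) U] [Finite U]
    {B : U →ₗ[ZMod 2] U →ₗ[ZMod 2] ZMod 2} {a : U →ₗ[ZMod 2] U} {C : Type} [Group C] [Finite C]
    {σ : C →* (U →ₗ[ZMod 2] U)}, Tri n B a σ → Nat.card C ≤ NN n := by
  intro n
  induction n with
  | zero =>
    intro U _ _ _ B a C _ _ σ h
    have h1 : Nat.card U = 1 := by rw [h.sy.card]; norm_num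
    have h2 := (Nat.card_eq_one_iff_unique.1 h1).1
    have h3 : Subsingleton C := ⟨fun x y => h.sy.inj (LinearMap.ext fun v => Subsingleton.elim _ _)⟩
    have h4 : Nat.card C ≤ 1 := Finite.card_le_one_iff_subsingleton.2 h3
    exact h4
  | succ n ih =>
    intro U _ _ _ B a C _ _ σ h
    classical
    have hT := card_quad_le h.sy (fun v => B v (a v)) h.quad
    have e1 : 2 * (n + 1) - 1 = 2 * n + 1 := by omega
    have e2 : n + 1 - 1 = n := by omega
    rw [e1, e2] at hT
    have hle : Nat.card {v : U // B v (a v) = 1} ≤ 2 ^ (2 * n + 1) + 2 ^ n := by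
      rcases hT with h1 | h1
      · exact h1.le
      · exact h1.le.trans ((Nat.sub_le _ _).trans (Nat.le_add_right _ _))
    have hpos : 0 < Nat.card {v : U // B v (a v) = 1} := by
      have h1 : 2 ^ n < 2 ^ (2 * n + 1) := Nat.pow_lt_pow_right (by norm_num) (by omega)
      rcases hT with h2 | h2
      · rw [h2]; positivity
      · rw [h2]; exact Nat.sub_pos_of_lt h1
    obtain ⟨⟨v, hv⟩⟩ := (Nat.card_pos_iff.1 hpos).1
    have hvv : B v v = 0 := h.sy.alt v
    have haa : B (a v) (a v) = 0 := h.sy.alt _
    have hav : B (a v) v = 1 := by rw [h.symm]; exact hv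
    -- the stabilizer
    let S : Subgroup C :=
      { carrier := {c | σ c v = v}
        one_mem' := by show σ 1 v = v; rw [map_one]; rfl
        mul_mem' := by
          intro c d hc hd
          show σ (c * d) v = v
          rw [map_mul, Module.End.mul_apply, show σ d v = v from hd, show σ c v = v from hc]
        inv_mem' := by
          intro c hc
          show σ c⁻¹ v = v
          conv_lhs => rw [← show σ c v = v from hc]
          rw [← Module.End.mul_apply, ← map_mul, inv_mul_cancel, map_one]; rfl }
    have hidx : S.index ≤ 2 ^ (2 * n + 1) + 2 ^ n := by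
      refine le_trans ?_ hle
      refine Nat.card_le_card_of_injective (fun x : C ⧸ S =>
        (⟨σ (Quotient.out x) v, by rw [h.quad_inv]; exact hv⟩ : {v : U // B v (a v) = 1})) ?_
      intro x y hxy
      have h3 : σ (Quotient.out x) v = σ (Quotient.out y) v := congrArg Subtype.val hxy
      rw [← QuotientGroup.out_eq' x, ← QuotientGroup.out_eq' y]
      apply QuotientGroup.eq.2
      show σ ((Quotient.out x)⁻¹ * Quotient.out y) v = v
      rw [map_mul, Module.End.mul_apply, ← h3, ← Module.End.mul_apply, ← map_mul, inv_mul_cancel,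
        map_one]
      rfl
    -- the orthogonal complement
    let W : Submodule (ZMod 2) U := LinearMap.ker (B v) ⊓ LinearMap.ker (B (a v))
    have hWm : ∀ w, w ∈ W ↔ B v w = 0 ∧ B (a v) w = 0 := fun w => Iff.rfl
    have hWa : ∀ w ∈ W, a w ∈ W := by
      intro w hw
      rw [hWm] at hw ⊢
      have h1 : B (a v) (a w) = 0 := by rw [h.iso]; exact hw.1
      refine ⟨?_, h1⟩
      have h2 : v = a (a v) + a v := by
        have h4 := h.rel v
        have h5 := T6.two_nsmul_eq v
        calc v = (a (a v) + a v + v) - (v + v) + v := by rw [h4, h5]; abel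
          _ = a (a v) + a v := by abel
      calc B v (a w) = B (a (a v) + a v) (a w) := by rw [← h2]
        _ = B (a v) w + B (a v) (a w) := by rw [map_add, LinearMap.add_apply, h.iso]
        _ = 0 := by rw [hw.2, h1, add_zero]
    have hWS : ∀ c : S, ∀ w ∈ W, σ (c : C) w ∈ W := by
      intro c w hw
      rw [hWm] at hw ⊢
      have hc : σ (c : C) v = v := c.2
      constructor
      · calc B v (σ (c : C) w) = B (σ (c : C) v) (σ (c : C) w) := by rw [hc]
          _ = 0 := by rw [h.sy.inv]; exact hw.1
      · calc B (a v) (σ (c : C) w) = B (σ (c : C) (a v)) (σ (c : C) w) := by rw [h.com, hc]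
          _ = 0 := by rw [h.sy.inv]; exact hw.2
    have hdec : ∀ u : U, ∃ w ∈ W, u = w + (B (a v) u) • v + (B v u) • a v := by
      intro u
      refine ⟨u - (B (a v) u) • v - (B v u) • a v, ?_, by abel⟩
      rw [hWm]
      constructor
      · rw [map_sub, map_sub, map_smul, map_smul, hvv, hv]; simp
      · rw [map_sub, map_sub, map_smul, map_smul, hav, haa]; simp
    let aW : W →ₗ[ZMod 2] W := a.restrict hWa
    let σW : S →* (W →ₗ[ZMod 2] W) :=
      { toFun := fun c => (σ (c : C)).restrict (hWS c)
        map_one' := by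
          ext w
          show σ ((1 : S) : C) (w : U) = w
          rw [Subgroup.coe_one, map_one]; rfl
        map_mul' := by
          intro c d
          ext w
          show σ ((c * d : S) : C) (w : U) = σ (c : C) (σ (d : C) (w : U))
          rw [Subgroup.coe_mul, map_mul]; rfl }
    let BW : W →ₗ[ZMod 2] W →ₗ[ZMod 2] ZMod 2 := B.domRestrict₁₂ W W
    have hBW : ∀ x y : W, BW x y = B (x : U) (y : U) := fun _ _ => rfl
    have hcardW : Nat.card W = 2 ^ (2 * n) := by
      have h1 : Nat.card (W × ZMod 2 × ZMod 2) = Nat.card U := by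
        refine Nat.card_congr (Equiv.ofBijective
          (fun p : W × ZMod 2 × ZMod 2 => (p.1 : U) + p.2.1 • v + p.2.2 • a v) ⟨?_, ?_⟩)
        · rintro ⟨x, α, β⟩ ⟨x', α', β'⟩ hxy
          have h2 : (x : U) + α • v + β • a v = (x' : U) + α' • v + β' • a v := hxy
          have hx := (hWm x).1 x.2
          have hx' := (hWm x').1 x'.2
          have h3 : β = β' := by
            have := congrArg (B v) h2
            simpa [map_add, map_smul, hx.1, hx'.1, hvv, hv] using this
          have h4 : α = α' := by
            have := congrArg (B (a v)) h2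
            simpa [map_add, map_smul, hx.2, hx'.2, hav, haa] using this
          subst h3; subst h4
          have h5 : (x : U) = x' := by
            have h6 := add_right_cancel h2
            exact add_right_cancel h6
          rw [Subtype.ext h5]
        · intro u
          obtain ⟨w, hw, hu⟩ := hdec u
          exact ⟨(⟨w, hw⟩, B (a v) u, B v u), hu.symm⟩
      rw [Nat.card_prod, Nat.card_prod, h.sy.card, Nat.card_zmod] at h1
      have h2 : 2 ^ (2 * (n + 1)) = 2 ^ (2 * n) * (2 * 2) := by
        rw [show 2 * (n + 1) = 2 * n + 2 by ring, pow_add]; norm_num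
      rw [h2] at h1
      exact Nat.eq_of_mul_eq_mul_right (by norm_num) h1
    have htri : Tri n BW aW σW := by
      refine ⟨⟨?_, ?_, ?_, ?_, hcardW⟩, ?_, ?_, ?_⟩
      · intro c d hcd
        have key : ∀ w ∈ W, σ (c : C) w = σ (d : C) w := fun w hw =>
          congrArg Subtype.val (LinearMap.congr_fun hcd ⟨w, hw⟩)
        apply Subtype.ext
        apply h.sy.inj
        ext u
        obtain ⟨w, hw, hu⟩ := hdec u
        have hc : σ (c : C) v = v := c.2
        have hd : σ (d : C) v = v := d.2
        rw [hu]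
        simp only [map_add, map_smul, h.com, hc, hd, key w hw]
      · intro x
        exact h.sy.alt _
      · intro x hx
        apply Subtype.ext
        show (x : U) = 0
        apply h.sy.nd
        intro u
        obtain ⟨w, hw, hu⟩ := hdec u
        have h1 : B (x : U) w = 0 := hx ⟨w, hw⟩
        have hxm := (hWm x).1 x.2
        have h2 : B (x : U) v = 0 := by rw [h.symm]; exact hxm.1
        have h3 : B (x : U) (a v) = 0 := by rw [h.symm]; exact hxm.2
        rw [hu, map_add, map_add, map_smul, map_smul, h1, h2, h3]; simp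
      · intro c x y
        exact h.sy.inv _ _ _
      · intro x y
        exact h.iso _ _
      · intro x
        apply Subtype.ext
        exact h.rel _
      · intro c x
        apply Subtype.ext
        exact h.com _ _
    have hS := ih htri
    have h1 := S.card_mul_index
    show Nat.card C ≤ (2 ^ (2 * n + 1) + 2 ^ n) * NN n
    calc Nat.card C = Nat.card S * S.index := h1.symm
      _ ≤ NN n * (2 ^ (2 * n + 1) + 2 ^ n) := Nat.mul_le_mul hS hidx
      _ = _ := mul_comm _ _

end Cfsg.Agent.H97.KR.T5

namespace Cfsg.Agent.H97.KR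

open Subgroup

variable {n : ℕ} {U : Type} [AddCommGroup U] [Module (ZMod 2) U] [Finite U]
  {B : U →ₗ[ZMod 2] U →ₗ[ZMod 2] ZMod 2} {Y : Type} [Group Y] [Finite Y] {σ : Y →* (U →ₗ[ZMod 2] U)}

theorem Sy.card_three (h : Sy 2 3 B σ) {a : Y} (ha : orderOf a = 3)
    (han : (Subgroup.zpowers a).Normal) (hfix : ∀ v, σ a v = v → v = 0) : Nat.card Y ≤ 3 ^ 7 := by
  have ha1 : a ≠ 1 := by
    rintro rfl
    rw [orderOf_one] at ha
    norm_num at ha
  have ha3 : ∀ v, σ a (σ a (σ a v)) = v := by
    intro v
    rw [← Module.End.mul_apply, ← Module.End.mul_apply, ← map_mul, ← map_mul]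
    have : a * a * a = 1 := by
      have := pow_orderOf_eq_one a
      rw [ha, pow_succ, pow_two] at this
      exact this
    rw [this, map_one]; rfl
  have htri : T5.Tri 3 B (σ a) (σ.comp (centralizer ({a} : Set Y)).subtype) := by
    refine ⟨⟨?_, h.alt, h.nd, fun c => h.inv _, h.card⟩, h.inv a, ?_, ?_⟩
    · intro c d hcd
      exact Subtype.ext (h.inj hcd)
    · intro v
      apply hfix
      rw [map_add, map_add, ha3]; abel
    · intro c v
      have h1 : (c : Y) * a = a * c := mem_centralizer_singleton_iff.1 c.2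
      show σ (c : Y) (σ a v) = σ a (σ (c : Y) v)
      rw [← Module.End.mul_apply, ← Module.End.mul_apply, ← map_mul, ← map_mul, h1]
  have hC := T5.bound 3 htri
  have hN : T5.NN 3 = 1080 := by decide
  rw [hN] at hC
  have hfin := T6.card_le_cent ha ha1 han
  calc Nat.card Y ≤ (3 - 1) * Nat.card (centralizer ({a} : Set Y)) := hfin
    _ ≤ 2 * 1080 := by omega
    _ ≤ 3 ^ 7 := by norm_num

end Cfsg.Agent.H97.KR
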