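import Cfsg.Agent.H97.KRDef

set_option autoImplicit false

/-! S4265: pieces T6 (`Sy.card_seven`). -/

namespace Cfsg.Agent.H97.KR.T6

open Subgroup

/-- a group normalizing `⟨a⟩`: index of the centralizer at most `q - 1` -/
theorem card_le_cent {Y : Type} [Group Y] [Finite Y] {q : ℕ} {a : Y} (ha : orderOf a = q) (ha1 : a ≠ 1)
    (han : (zpowers a).Normal) :
    Nat.card Y ≤ (q - 1) * Nat.card (centralizer ({a} : Set Y)) := by
  classical
  set C := centralizer ({a} : Set Y) with hC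
  have h1 := C.card_mul_index
  have h2 : C.index ≤ q - 1 := by
    let T := {b : Y // b ∈ (↑(zpowers a) \ {1} : Set Y)}
    have hT : Nat.card T = q - 1 := by
      have h3 : (↑(zpowers a) \ {1} : Set Y).ncard = q - 1 := by
        rw [Set.ncard_diff_singleton_of_mem (one_mem (zpowers a))]
        congr 1
        rw [← ha, ← Nat.card_zpowers]
        rfl
      exact h3
    let f : Y → T := fun g => ⟨g * a * g⁻¹, han.conj_mem a (mem_zpowers a) g, by
      rw [Set.mem_singleton_iff]
      intro h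
      apply ha1
      have : a = g⁻¹ * (g * a * g⁻¹) * g := by group
      rw [this, h]; group⟩
    rw [← hT]
    refine Nat.card_le_card_of_injective (fun x : Y ⧸ C => f (Quotient.out x)) ?_
    intro x y hxy
    have h3 : Quotient.out x * a * (Quotient.out x)⁻¹ = Quotient.out y * a * (Quotient.out y)⁻¹ :=
      congrArg Subtype.val hxy
    rw [← QuotientGroup.out_eq' x, ← QuotientGroup.out_eq' y]
    apply QuotientGroup.eq.2
    refine mem_centralizer_singleton_iff.2 ?_
    generalize Quotient.out x = g at h3 ⊢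
    generalize Quotient.out y = k at h3 ⊢
    calc (g⁻¹ * k) * a = g⁻¹ * (k * a * k⁻¹) * k := by group
      _ = g⁻¹ * (g * a * g⁻¹) * k := by rw [h3]
      _ = a * (g⁻¹ * k) := by group
  calc Nat.card Y = Nat.card C * C.index := h1.symm
    _ ≤ Nat.card C * (q - 1) := Nat.mul_le_mul_left _ h2
    _ = _ := mul_comm _ _

section

variable {n : ℕ} {U : Type} [AddCommGroup U] [Module (ZMod 2) U] [Finite U]
  {Y : Type} [Group Y] [Finite Y] {σ : Y →* (U →ₗ[ZMod 2] U)}

/-- invariant subspaces have order `≡ 1 mod q` -/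
theorem card_mod {q : ℕ} {a : Y} (hq : q.Prime) (ha : orderOf a = q)
    (hfix : ∀ v, σ a v = v → v = 0) (W : Submodule (ZMod 2) U) (hW : ∀ v ∈ W, σ a v ∈ W) :
    Nat.card W ≡ 1 [MOD q] := by
  classical
  have : Fact q.Prime := ⟨hq⟩
  have hWp : ∀ g : zpowers a, ∀ v ∈ W, σ (g : Y) v ∈ W := by
    rintro ⟨g, hg⟩ v hv
    obtain ⟨k, hk⟩ := mem_powers_iff_mem_zpowers.2 hg
    show σ g v ∈ W
    rw [← hk]
    clear hk
    show σ (a ^ k) v ∈ W
    induction k with
    | zero => simpa using hv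
    | succ k ih =>
      rw [pow_succ', map_mul]
      exact hW _ ih
  let _ : MulAction (zpowers a) W :=
    { smul := fun g v => ⟨σ (g : Y) v, hWp g v v.2⟩
      one_smul := fun v => by
        apply Subtype.ext
        show σ ((1 : zpowers a) : Y) v = v
        simp
      mul_smul := fun g h v => by
        apply Subtype.ext
        show σ ((g * h : zpowers a) : Y) v = σ (g : Y) (σ (h : Y) v)
        simp }
  have hP : IsPGroup q (zpowers a) := IsPGroup.of_card (n := 1) (by rw [Nat.card_zpowers, ha, pow_one])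
  have h1 := hP.card_modEq_card_fixedPoints W
  have h2 : Nat.card (MulAction.fixedPoints (zpowers a) W) = 1 := by
    rw [Nat.card_eq_one_iff_unique]
    constructor
    · constructor
      have key : ∀ v : MulAction.fixedPoints (zpowers a) W, ((v : W) : U) = 0 := by
        rintro ⟨v, hv⟩
        have h3 := hv ⟨a, mem_zpowers a⟩
        exact hfix _ (congrArg Subtype.val h3)
      intro v w
      apply Subtype.ext
      apply Subtype.ext
      rw [key v, key w]
    · refine ⟨⟨0, fun g => ?_⟩⟩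
      apply Subtype.ext
      show σ (g : Y) ((0 : W) : U) = ((0 : W) : U)
      simp
  rwa [h2] at h1

variable {B : U →ₗ[ZMod 2] U →ₗ[ZMod 2] ZMod 2}

theorem two_nsmul_eq (v : U) : v + v = 0 := by
  have : (2 : ZMod 2) • v = 0 := by
    rw [show (2 : ZMod 2) = 0 from rfl, zero_smul]
  rwa [two_smul] at this

theorem two_end (f : Module.End (ZMod 2) U) : f + f = 0 := by
  ext v; exact two_nsmul_eq _

theorem Bsymm (h : Sy 2 n B σ) (v w : U) : B v w = B w v := by
  have h1 := h.alt (v + w)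
  simp only [map_add, LinearMap.add_apply, h.alt, zero_add, add_zero] at h1
  have h2 : ∀ x y : ZMod 2, x + y = 0 → x = y := by decide
  exact (h2 _ _ h1).symm

/-- the situation `a ^ 7 = 1` -/
theorem adj (h : Sy 2 n B σ) {a : Y} (c : Bool)
    (h1 : ∀ v, σ a (σ a (σ a v)) + (if c then σ a v else σ a (σ a v)) + v = 0) :
    ∀ v, σ a (σ a (σ a v)) + (if c then σ a (σ a v) else σ a v) + v = 0 := by
  intro w
  apply h.nd
  intro v
  rw [Bsymm h]
  have h2 : B (σ a (σ a (σ a v)) + (if c then σ a v else σ a (σ a v)) + v) (σ a (σ a (σ a w))) = 0 := by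
    rw [h1, map_zero]; rfl
  cases c
  · simp only [Bool.false_eq_true, if_false, map_add, LinearMap.add_apply, h.inv] at h2 ⊢
    linear_combination h2
  · simp only [if_true, map_add, LinearMap.add_apply, h.inv] at h2 ⊢
    linear_combination h2

end

end Cfsg.Agent.H97.KR.T6

namespace Cfsg.Agent.H97.KR

open Subgroup

section
variable {n : ℕ} {U : Type} [AddCommGroup U] [Module (ZMod 2) U] [Finite U]
  {B : U →ₗ[ZMod 2] U →ₗ[ZMod 2] ZMod 2} {Y : Type} [Group Y] [Finite Y] {σ : Y →* (U →ₗ[ZMod 2] U)}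

theorem Sy.card_seven (h : Sy 2 3 B σ) {q : ℕ} {a : Y} (hq : q.Prime) (hq2 : q ≠ 2) (hq3 : q ≠ 3)
    (ha : orderOf a = q) (han : (Subgroup.zpowers a).Normal) (hfix : ∀ v, σ a v = v → v = 0) :
    Nat.card Y ≤ 3 ^ 7 := by
  classical
  have hU : Nat.card U = 64 := by rw [h.card]; norm_num
  have hq7 : q = 7 := by
    have h1 := T6.card_mod (σ := σ) hq ha hfix ⊤ (fun _ _ => trivial)
    have h2 : Nat.card (⊤ : Submodule (ZMod 2) U) = 64 := by
      rw [← hU]
      exact Nat.card_congr (Submodule.topEquiv (R := ZMod 2) (M := U)).toEquiv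
    rw [h2] at h1
    have h3 : q ∣ 63 := (Nat.modEq_iff_dvd' (by norm_num)).1 h1.symm
    have h4 : q ∣ 9 * 7 := by simpa using h3
    rcases (Nat.Prime.dvd_mul hq).1 h4 with h5 | h5
    · exfalso
      apply hq3
      have : q ∣ 3 ^ 2 := by simpa using h5
      exact (Nat.prime_dvd_prime_iff_eq hq Nat.prime_three).1 (hq.dvd_of_dvd_pow this)
    · exact (Nat.prime_dvd_prime_iff_eq hq (by norm_num)).1 h5
  subst hq7
  have ha1 : a ≠ 1 := by
    rintro rfl
    rw [orderOf_one] at ha
    norm_num at ha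
  set A : Module.End (ZMod 2) U := σ a with hA
  have hA7 : A ^ 7 = 1 := by rw [hA, ← map_pow, ← ha, pow_orderOf_eq_one, map_one]
  have hAv : ∀ v, A v = σ a v := fun _ => rfl
  have hS : A ^ 6 + A ^ 5 + A ^ 4 + A ^ 3 + A ^ 2 + A + 1 = 0 := by
    ext v
    apply hfix
    have h1 : A * (A ^ 6 + A ^ 5 + A ^ 4 + A ^ 3 + A ^ 2 + A + 1) =
        A ^ 6 + A ^ 5 + A ^ 4 + A ^ 3 + A ^ 2 + A + 1 := by
      calc A * (A ^ 6 + A ^ 5 + A ^ 4 + A ^ 3 + A ^ 2 + A + 1) =
          A ^ 7 + A ^ 6 + A ^ 5 + A ^ 4 + A ^ 3 + A ^ 2 + A := by noncomm_ring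
        _ = _ := by rw [hA7]; abel
    exact LinearMap.congr_fun h1 v
  have h12 : (A ^ 3 + A + 1) * (A ^ 3 + A ^ 2 + 1) = 0 := by
    have h1 := T6.two_end (A ^ 3)
    calc (A ^ 3 + A + 1) * (A ^ 3 + A ^ 2 + 1) =
        (A ^ 6 + A ^ 5 + A ^ 4 + A ^ 3 + A ^ 2 + A + 1) + (A ^ 3 + A ^ 3) := by noncomm_ring
      _ = 0 := by rw [hS, h1, add_zero]
  have h21 : (A ^ 3 + A ^ 2 + 1) * (A ^ 3 + A + 1) = 0 := by
    have h1 := T6.two_end (A ^ 3)
    calc (A ^ 3 + A ^ 2 + 1) * (A ^ 3 + A + 1) =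
        (A ^ 6 + A ^ 5 + A ^ 4 + A ^ 3 + A ^ 2 + A + 1) + (A ^ 3 + A ^ 3) := by noncomm_ring
      _ = 0 := by rw [hS, h1, add_zero]
  set K1 : Submodule (ZMod 2) U := LinearMap.ker (A ^ 3 + A + 1) with hK1
  set K2 : Submodule (ZMod 2) U := LinearMap.ker (A ^ 3 + A ^ 2 + 1) with hK2
  have hm1 : ∀ v, v ∈ K1 ↔ σ a (σ a (σ a v)) + σ a v + v = 0 := fun v => by
    rw [hK1, LinearMap.mem_ker]
    have : (A ^ 3 + A + 1 : Module.End (ZMod 2) U) v = σ a (σ a (σ a v)) + σ a v + v := by
      simp only [pow_succ, pow_zero, one_mul, LinearMap.add_apply, Module.End.mul_apply,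
        Module.End.one_apply, hA]
    rw [this]
  have hm2 : ∀ v, v ∈ K2 ↔ σ a (σ a (σ a v)) + σ a (σ a v) + v = 0 := fun v => by
    rw [hK2, LinearMap.mem_ker]
    have : (A ^ 3 + A ^ 2 + 1 : Module.End (ZMod 2) U) v = σ a (σ a (σ a v)) + σ a (σ a v) + v := by
      simp only [pow_succ, pow_zero, one_mul, LinearMap.add_apply, Module.End.mul_apply,
        Module.End.one_apply, hA]
    rw [this]
  have hz : ∀ v, σ a v = 0 → v = 0 := by
    intro v hv
    apply hfix
    have : A ^ 7 = 1 := hA7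
    have h1 : (A ^ 6) (A v) = v := by
      rw [← Module.End.mul_apply, ← pow_succ, hA7]; rfl
    rw [hAv, hv, map_zero] at h1
    rw [← h1, map_zero]
  -- both cannot vanish
  have hboth : (∀ v, v ∈ K1) → (∀ v, v ∈ K2) → False := by
    intro e1 e2
    have : ∀ v : U, v = 0 := by
      intro v
      apply hz
      apply hfix
      have h1 := (hm1 v).1 (e1 v)
      have h2 := (hm2 v).1 (e2 v)
      have h3 : σ a v - σ a (σ a v) = 0 := by
        calc σ a v - σ a (σ a v) = (σ a (σ a (σ a v)) + σ a v + v) -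
            (σ a (σ a (σ a v)) + σ a (σ a v) + v) := by abel
          _ = 0 := by rw [h1, h2, sub_zero]
      exact (sub_eq_zero.1 h3).symm
    have hsub : Subsingleton U := ⟨fun x y => by rw [this x, this y]⟩
    have := Nat.card_eq_one_iff_unique.2 ⟨hsub, ⟨(0 : U)⟩⟩
    omega
  have hne1 : K1 ≠ ⊥ := by
    intro hb
    have e2 : ∀ v, v ∈ K2 := by
      intro v
      rw [hK2, LinearMap.mem_ker]
      have h1 : (A ^ 3 + A ^ 2 + 1 : Module.End (ZMod 2) U) v ∈ K1 := by
        rw [hK1, LinearMap.mem_ker, ← Module.End.mul_apply, h12]; rfl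
      rw [hb, Submodule.mem_bot] at h1
      exact h1
    refine hboth (fun v => (hm1 v).2 ?_) e2
    have := T6.adj h (a := a) false (fun v => by simpa using (hm2 v).1 (e2 v)) v
    simpa using this
  have hne2 : K2 ≠ ⊥ := by
    intro hb
    have e1 : ∀ v, v ∈ K1 := by
      intro v
      rw [hK1, LinearMap.mem_ker]
      have h1 : (A ^ 3 + A + 1 : Module.End (ZMod 2) U) v ∈ K2 := by
        rw [hK2, LinearMap.mem_ker, ← Module.End.mul_apply, h21]; rfl
      rw [hb, Submodule.mem_bot] at h1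
      exact h1
    refine hboth e1 (fun v => (hm2 v).2 ?_)
    have := T6.adj h (a := a) true (fun v => by simpa using (hm1 v).1 (e1 v)) v
    simpa using this
  -- invariant nonzero subspaces have at least 8 elements
  have hge : ∀ W : Submodule (ZMod 2) U, (∀ v ∈ W, σ a v ∈ W) → W ≠ ⊥ → 8 ≤ Nat.card W := by
    intro W hW hne
    have h1 := T6.card_mod (σ := σ) hq ha hfix W hW
    have h2 : Nat.card W ≠ 1 := by
      intro h3
      apply hne
      have h4 := (Nat.card_eq_one_iff_unique.1 h3).1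
      rw [Submodule.eq_bot_iff]
      intro x hx
      exact congrArg Subtype.val (Subsingleton.elim (⟨x, hx⟩ : W) 0)
    have h3 : Nat.card W ≠ 0 := Nat.card_pos.ne'
    have h4 : Nat.card W % 7 = 1 := h1
    omega
  have hi1 : ∀ v ∈ K1, σ a v ∈ K1 := by
    intro v hv
    rw [hm1] at hv ⊢
    rw [← map_add, ← map_add, hv, map_zero]
  have hi2 : ∀ v ∈ K2, σ a v ∈ K2 := by
    intro v hv
    rw [hm2] at hv ⊢
    rw [← map_add, ← map_add, hv, map_zero]
  have g1 := hge K1 hi1 hne1
  have g2 := hge K2 hi2 hne2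
  have hinj : Function.Injective (fun p : K1 × K2 => (p.1 : U) + (p.2 : U)) := by
    rintro ⟨x, y⟩ ⟨x', y'⟩ hxy
    have h1 : (x : U) + (y : U) = (x' : U) + (y' : U) := hxy
    have h2 : (x : U) - x' = y' - y := by
      rw [sub_eq_sub_iff_add_eq_add]
      rw [h1]; abel
    have h3 : (x : U) - x' ∈ K1 := K1.sub_mem x.2 x'.2
    have h4 : (x : U) - x' ∈ K2 := by rw [h2]; exact K2.sub_mem y'.2 y.2
    have h5 : (x : U) - x' = 0 := by
      apply hz
      apply hfix
      have e1 := (hm1 _).1 h3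
      have e2 := (hm2 _).1 h4
      generalize (x : U) - x' = v at e1 e2 ⊢
      have h6 : σ a v - σ a (σ a v) = 0 := by
        calc σ a v - σ a (σ a v) = (σ a (σ a (σ a v)) + σ a v + v) -
            (σ a (σ a (σ a v)) + σ a (σ a v) + v) := by abel
          _ = 0 := by rw [e1, e2, sub_zero]
      exact (sub_eq_zero.1 h6).symm
    have h6 : (y' : U) - y = 0 := by rw [← h2, h5]
    exact Prod.ext (Subtype.ext (sub_eq_zero.1 h5)) (Subtype.ext (sub_eq_zero.1 h6).symm)
  have hcard : Nat.card K1 * Nat.card K2 ≤ 64 := by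
    rw [← Nat.card_prod, ← hU]
    exact Nat.card_le_card_of_injective _ hinj
  have c1 : Nat.card K1 = 8 := by nlinarith
  have c2 : Nat.card K2 = 8 := by nlinarith
  have hsurj : Function.Surjective (fun p : K1 × K2 => (p.1 : U) + (p.2 : U)) := by
    have h1 : Nat.card (K1 × K2) = Nat.card U := by rw [Nat.card_prod, c1, c2, hU]
    exact ((Nat.bijective_iff_injective_and_card _).2 ⟨hinj, h1⟩).2
  -- nonzero vectors
  obtain ⟨v1, hv1, hv10⟩ := (Submodule.ne_bot_iff _).1 hne1
  obtain ⟨v2, hv2, hv20⟩ := (Submodule.ne_bot_iff _).1 hne2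
  have hcomm : ∀ c ∈ centralizer ({a} : Set Y), ∀ v, σ c (σ a v) = σ a (σ c v) := by
    intro c hc v
    have h1 : c * a = a * c := mem_centralizer_singleton_iff.1 hc
    rw [← Module.End.mul_apply, ← Module.End.mul_apply, ← map_mul, ← map_mul, h1]
  have hC : Nat.card (centralizer ({a} : Set Y)) ≤ 64 := by
    have h1 : Nat.card (K1 × K2) = 64 := by rw [Nat.card_prod, c1, c2]
    rw [← h1]
    have m1 : ∀ c : centralizer ({a} : Set Y), σ (c : Y) v1 ∈ K1 := by
      intro c
      rw [hm1] at hv1 ⊢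
      rw [← hcomm c c.2, ← hcomm c c.2, ← hcomm c c.2, ← map_add, ← map_add, hv1, map_zero]
    have m2 : ∀ c : centralizer ({a} : Set Y), σ (c : Y) v2 ∈ K2 := by
      intro c
      rw [hm2] at hv2 ⊢
      rw [← hcomm c c.2, ← hcomm c c.2, ← hcomm c c.2, ← map_add, ← map_add, hv2, map_zero]
    refine Nat.card_le_card_of_injective
      (fun c : centralizer ({a} : Set Y) => ((⟨σ (c : Y) v1, m1 c⟩, ⟨σ (c : Y) v2, m2 c⟩) : K1 × K2)) ?_
    intro c d hcd
    have e1 : σ (c : Y) v1 = σ (d : Y) v1 := congrArg (fun p : K1 × K2 => (p.1 : U)) hcd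
    have e2 : σ (c : Y) v2 = σ (d : Y) v2 := congrArg (fun p : K1 × K2 => (p.2 : U)) hcd
    have key : ∀ e : Y, e ∈ centralizer ({a} : Set Y) → σ e v1 = v1 → σ e v2 = v2 → e = 1 := by
      intro e he f1 f2
      let E : Submodule (ZMod 2) U := LinearMap.ker (σ e - 1)
      have hE : ∀ v, v ∈ E ↔ σ e v = v := fun v => by
        show (σ e - 1) v = 0 ↔ _
        rw [LinearMap.sub_apply, Module.End.one_apply, sub_eq_zero]
      have hEi : ∀ v ∈ E, σ a v ∈ E := by
        intro v hv
        rw [hE] at hv ⊢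
        rw [hcomm e he, hv]
      have full : ∀ (K : Submodule (ZMod 2) U), (∀ v ∈ K, σ a v ∈ K) → Nat.card K = 8 →
          ∀ w ∈ K, w ≠ 0 → σ e w = w → K ≤ E := by
        intro K hKi hK8 w hw hw0 hew
        have h3 : 8 ≤ Nat.card (E ⊓ K : Submodule (ZMod 2) U) := by
          refine hge _ (fun v hv => ⟨hEi v hv.1, hKi v hv.2⟩) ?_
          rw [Submodule.ne_bot_iff]
          exact ⟨w, ⟨(hE w).2 hew, hw⟩, hw0⟩
        have h4 : (E ⊓ K : Submodule (ZMod 2) U) = K := by
          apply SetLike.coe_injective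
          refine Set.eq_of_subset_of_ncard_le (fun x hx => hx.2) ?_ (Set.toFinite _)
          show Nat.card K ≤ Nat.card (E ⊓ K : Submodule (ZMod 2) U)
          omega
        intro x hx
        rw [← h4] at hx
        exact hx.1
      have k1 := full K1 hi1 c1 v1 hv1 hv10 f1
      have k2 := full K2 hi2 c2 v2 hv2 hv20 f2
      apply h.inj
      rw [map_one]
      ext v
      obtain ⟨⟨x, y⟩, hxy⟩ := hsurj v
      have hxy' : (x : U) + (y : U) = v := hxy
      rw [← hxy', map_add, (hE _).1 (k1 x.2), (hE _).1 (k2 y.2)]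
      rfl
    have h3 := key ((d : Y)⁻¹ * c) (mul_mem (inv_mem d.2) c.2)
      (by rw [map_mul, Module.End.mul_apply, e1, ← Module.End.mul_apply, ← map_mul,
            inv_mul_cancel, map_one]; rfl)
      (by rw [map_mul, Module.End.mul_apply, e2, ← Module.End.mul_apply, ← map_mul,
            inv_mul_cancel, map_one]; rfl)
    exact Subtype.ext (inv_mul_eq_one.1 h3).symm
  have hfin := T6.card_le_cent ha ha1 han
  calc Nat.card Y ≤ (7 - 1) * Nat.card (centralizer ({a} : Set Y)) := hfin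
    _ ≤ 6 * 64 := by omega
    _ ≤ 3 ^ 7 := by norm_num

end

end Cfsg.Agent.H97.KR
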