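import Cfsg.Agent.H97.KRS2
import Cfsg.Agent.H97.KRT6

set_option autoImplicit false

/-!
S4265, piece T7: irreducible solvable subgroups of the symplectic group of degree four over the
field of two elements with a normal subgroup of prime order.
-/

namespace Cfsg.Agent.H97.KR

namespace T7

open Cfsg Subgroup

/-! ### the symmetric group of degree three -/

theorem c3 : Nat.card (ConjClasses (Equiv.Perm (Fin 3))) = 3 := by
  rw [Nat.card_eq_fintype_card]
  decide

theorem KB3 : KB (Equiv.Perm (Fin 3)) 3 := by
  intro X
  by_cases h : X = ⊤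
  · subst h
    rw [kc_equiv (Subgroup.topEquiv (G := Equiv.Perm (Fin 3))).symm, c3]
  · refine kc_le_card.trans ?_
    have h1 : Nat.card X * X.index = 6 := by
      rw [Subgroup.card_mul_index, Nat.card_eq_fintype_card]
      decide
    have h2 : X.index ≠ 1 := fun h3 => h (Subgroup.index_eq_one.1 h3)
    have h3 : X.index ≠ 0 := fun h4 => by rw [h4] at h1; omega
    by_contra h4
    have h5 : 4 ≤ Nat.card X := by omega
    have h6 : 2 ≤ X.index := by omega
    nlinarith

theorem KB3' {Ω : Type} [Finite Ω] (h : Nat.card Ω ≤ 3) : KB (Equiv.Perm Ω) 3 := by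
  haveI : Fintype Ω := Fintype.ofFinite Ω
  rw [Nat.card_eq_fintype_card] at h
  rcases Nat.lt_or_ge (Fintype.card Ω) 3 with h1 | h1
  · refine KB.mono (m := (Fintype.card Ω).factorial) (KB.of_card ?_) ?_
    · haveI := Classical.decEq Ω
      rw [Nat.card_eq_fintype_card, Fintype.card_perm]
    · interval_cases (Fintype.card Ω) <;> decide
  · have e : Ω ≃ Fin 3 := Fintype.equivFinOfCardEq (by omega)
    let F : Equiv.Perm Ω ≃* Equiv.Perm (Fin 3) := e.permCongrHom
    exact KB.of_injective F.toMonoidHom F.injective KB3

section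
variable {U : Type} [AddCommGroup U] [Module (ZMod 2) U] [Finite U]
  {B : U →ₗ[ZMod 2] U →ₗ[ZMod 2] ZMod 2} {Y : Type} [Group Y] [Finite Y] {σ : Y →* (U →ₗ[ZMod 2] U)}

/-! ### the case of order five -/

theorem five (h : Sy 2 2 B σ) {a : Y} (ha : orderOf a = 5)
    (han : (Subgroup.zpowers a).Normal) (hfix : ∀ v, σ a v = v → v = 0) : Nat.card Y ≤ 20 := by
  classical
  have hU : Nat.card U = 16 := by rw [h.card]; norm_num
  have ha1 : a ≠ 1 := by
    rintro rfl
    rw [orderOf_one] at ha
    omega
  have hp5 : Nat.Prime 5 := by norm_num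
  have h1 := T6.card_le_cent ha ha1 han
  set C := centralizer ({a} : Set Y) with hC
  suffices hs : Nat.card C ≤ 5 by
    calc Nat.card Y ≤ (5 - 1) * Nat.card C := h1
      _ ≤ (5 - 1) * 5 := Nat.mul_le_mul_left _ hs
      _ = 20 := by norm_num
  set A := σ a with hA
  have hA5 : ∀ v, A (A (A (A (A v)))) = v := by
    intro v
    have h2 : σ (a ^ 5) v = v := by
      rw [← ha, pow_orderOf_eq_one, map_one]; rfl
    have h3 : σ (a ^ 5) v = A (A (A (A (A v)))) := by
      rw [pow_succ, pow_succ, pow_succ, pow_succ, pow_one, map_mul, map_mul, map_mul, map_mul]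
      rfl
    rw [← h3, h2]
  have hinv : ∀ v w, B (A v) (A w) = B v w := fun v w => h.inv a v w
  have hsum : ∀ v, v + A v + A (A v) + A (A (A v)) + A (A (A (A v))) = 0 := by
    intro v
    apply hfix
    change A _ = _
    rw [map_add, map_add, map_add, map_add, hA5]
    abel
  -- the two invariants
  let s1 : U → ZMod 2 := fun v => B v (A v)
  let s2 : U → ZMod 2 := fun v => B v (A (A v))
  have hs3 : ∀ v, B v (A (A (A v))) = s2 v := by
    intro v
    have h2 : B v (A (A (A v))) = B (A (A v)) (A (A (A (A (A v))))) := by rw [hinv, hinv]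
    rw [h2, hA5, T6.Bsymm h]
  have hs4 : ∀ v, B v (A (A (A (A v)))) = s1 v := by
    intro v
    have h2 : B v (A (A (A (A v)))) = B (A v) (A (A (A (A (A v))))) := by rw [hinv]
    rw [h2, hA5, T6.Bsymm h]
  have hz : ∀ x : ZMod 2, x + x = 0 := by decide
  let N : U → U := fun v => v + A v
  have hN1 : ∀ v, s1 (N v) = s2 v := by
    intro v
    simp only [s1, N, map_add, LinearMap.add_apply]
    have e1 : B (A v) (A v) = 0 := h.alt _
    have e2 : B (A v) (A (A v)) = B v (A v) := hinv _ _
    rw [e1, e2]
    have := hz (B v (A v))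
    linear_combination this
  have hN2 : ∀ v, s2 (N v) = s1 v + s2 v := by
    intro v
    simp only [s2, N, map_add, LinearMap.add_apply]
    have e1 : B (A v) (A (A v)) = B v (A v) := hinv _ _
    have e2 : B (A v) (A (A (A v))) = B v (A (A v)) := hinv _ _
    have e3 : B v (A (A (A v))) = B v (A (A v)) := hs3 v
    rw [e1, e2, e3]
    have := hz (B v (A (A v)))
    linear_combination this
  have hNinj : Function.Injective N := by
    intro v w hvw
    have h2 : A (v - w) = v - w := by
      have h3 : v - w + A (v - w) = 0 := by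
        rw [map_sub]
        have : v + A v = w + A w := hvw
        calc v - w + (A v - A w) = (v + A v) - (w + A w) := by abel
          _ = 0 := by rw [this, sub_self]
      have h4 := T6.two_nsmul_eq (v - w)
      exact (add_left_cancel (h4.trans h3.symm)).symm
    exact sub_eq_zero.1 (hfix _ h2)
  -- a nonzero vector
  obtain ⟨v, hv⟩ : ∃ v : U, v ≠ 0 := by
    by_contra hcon
    push Not at hcon
    haveI : Subsingleton U := ⟨fun x y => by rw [hcon x, hcon y]⟩
    rw [Nat.card_of_subsingleton (0 : U)] at hU
    omega
  -- not both invariants vanish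
  have hspan : ∀ W : Submodule (ZMod 2) U, (∀ x ∈ W, A x ∈ W) → W ≠ ⊥ → W = ⊤ := by
    intro W hW hW0
    have h2 := T6.card_mod (σ := σ) hp5 ha hfix W hW
    have h3 : Nat.card W ∣ 16 := by
      rw [← hU]
      exact AddSubgroup.card_addSubgroup_dvd_card W.toAddSubgroup
    have h4 : Nat.card W ≤ 16 := Nat.le_of_dvd (by norm_num) h3
    have h5 : 1 < Nat.card W := by
      haveI : Nontrivial W := (Submodule.nontrivial_iff_ne_bot).2 hW0
      exact Finite.one_lt_card
    have h6 : Nat.card W = 16 := by
      generalize Nat.card W = m at h2 h3 h4 h5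
      interval_cases m <;> first | rfl | (exfalso; revert h2 h3; decide)
    have h7 : (W : Set U) = Set.univ := by
      apply Set.eq_of_subset_of_ncard_le (Set.subset_univ _)
      rw [Set.ncard_univ, hU, ← h6]
      exact le_of_eq (Nat.card_coe_set_eq _)
    exact (Submodule.eq_top_iff').2 fun x => by
      have : x ∈ (W : Set U) := by rw [h7]; trivial
      exact this
  have hne : ∀ v : U, v ≠ 0 → ¬ (s1 v = 0 ∧ s2 v = 0) := by
    rintro v hv ⟨e1, e2⟩
    apply hv
    apply h.nd
    let W : Submodule (ZMod 2) U :=
      { carrier := {x | ∀ i : Fin 5, B (([v, A v, A (A v), A (A (A v)), A (A (A (A v)))] : List U).get i) x = 0}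
        add_mem' := by
          intro x y hx hy i
          rw [map_add, hx i, hy i, add_zero]
        zero_mem' := by
          intro i
          rw [map_zero]
        smul_mem' := by
          intro c x hx i
          rw [map_smul, hx i, smul_zero] }
    have hW : W = ⊤ := by
      apply hspan
      · intro x hx
        have hx0 := hx 0
        have hx1 := hx 1
        have hx2 := hx 2
        have hx3 := hx 3
        have hx4 := hx 4
        simp only [List.get] at hx0 hx1 hx2 hx3 hx4
        intro i
        fin_cases i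
        · change B v (A x) = 0
          rw [← hA5 v, hinv]
          exact hx4
        · change B (A v) (A x) = 0
          rw [hinv]
          exact hx0
        · change B (A (A v)) (A x) = 0
          rw [hinv]
          exact hx1
        · change B (A (A (A v))) (A x) = 0
          rw [hinv]
          exact hx2
        · change B (A (A (A (A v)))) (A x) = 0
          rw [hinv]
          exact hx3
      · intro hW0
        have h2 : v ∈ W := by
          intro i
          fin_cases i
          · exact h.alt v
          · change B (A v) v = 0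
            rw [T6.Bsymm h]
            exact e1
          · change B (A (A v)) v = 0
            rw [T6.Bsymm h]
            exact e2
          · change B (A (A (A v))) v = 0
            rw [T6.Bsymm h, hs3]
            exact e2
          · change B (A (A (A (A v)))) v = 0
            rw [T6.Bsymm h, hs4]
            exact e1
        rw [hW0, Submodule.mem_bot] at h2
        exact hv h2
    intro w
    have h2 : w ∈ W := by rw [hW]; trivial
    exact h2 0
  -- the fibres
  let T : ZMod 2 → ZMod 2 → Set U := fun x y => {w | w ≠ 0 ∧ s1 w = x ∧ s2 w = y}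
  have hNT : ∀ x y, Nat.card (T x y) ≤ Nat.card (T y (x + y)) := by
    intro x y
    refine Nat.card_le_card_of_injective (fun w => ⟨N w.1, ?_, ?_, ?_⟩) ?_
    · intro h0
      apply w.2.1
      apply hNinj
      rw [h0]
      simp [N]
    · rw [hN1]; exact w.2.2.2
    · rw [hN2, w.2.2.1, w.2.2.2]
    · intro w w' hw
      exact Subtype.ext (hNinj (congrArg Subtype.val hw))
  have hT5 : ∀ x y, ¬ (x = 0 ∧ y = 0) → Nat.card (T x y) ≤ 5 := by
    have k1 := hNT 1 0
    have k2 := hNT 0 1
    have k3 := hNT 1 1
    have e1 : (1 : ZMod 2) + 0 = 1 := by decide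
    have e2 : (0 : ZMod 2) + 1 = 1 := by decide
    have e3 : (1 : ZMod 2) + 1 = 0 := by decide
    rw [e1] at k1
    rw [e2] at k2
    rw [e3] at k3
    have hdisj : Nat.card (T 1 0) + Nat.card (T 0 1) + Nat.card (T 1 1) ≤ 15 := by
      have hd : Nat.card (T 1 0 ⊕ T 0 1 ⊕ T 1 1) ≤ Nat.card {w : U // w ≠ 0} := by
        refine Nat.card_le_card_of_injective (fun w => ⟨Sum.elim (fun z => (z.1 : U))
          (Sum.elim (fun z => (z.1 : U)) (fun z => (z.1 : U))) w, ?_⟩) ?_
        · rcases w with w | w | w
          · exact w.2.1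
          · exact w.2.1
          · exact w.2.1
        · intro w w' hw
          have hw' := congrArg Subtype.val hw
          rcases w with w | w | w <;> rcases w' with w' | w' | w' <;>
            simp only [Sum.elim_inl, Sum.elim_inr] at hw'
          · rw [Subtype.ext hw']
          · exfalso
            have a1 := w.2.2.1
            have a2 := w'.2.2.1
            rw [hw', a2] at a1
            exact absurd a1 (by decide)
          · exfalso
            have a1 := w.2.2.2
            have a2 := w'.2.2.2
            rw [hw', a2] at a1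
            exact absurd a1 (by decide)
          · exfalso
            have a1 := w.2.2.1
            have a2 := w'.2.2.1
            rw [hw', a2] at a1
            exact absurd a1 (by decide)
          · rw [Subtype.ext hw']
          · exfalso
            have a1 := w.2.2.1
            have a2 := w'.2.2.1
            rw [hw', a2] at a1
            exact absurd a1 (by decide)
          · exfalso
            have a1 := w.2.2.2
            have a2 := w'.2.2.2
            rw [hw', a2] at a1
            exact absurd a1 (by decide)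
          · exfalso
            have a1 := w.2.2.1
            have a2 := w'.2.2.1
            rw [hw', a2] at a1
            exact absurd a1 (by decide)
          · rw [Subtype.ext hw']
      rw [Nat.card_sum, Nat.card_sum] at hd
      have h16 : Nat.card {w : U // w ≠ 0} = 15 := by
        have h3 : ({u : U | u ≠ 0} : Set U) = {(0 : U)}ᶜ := by
          ext u
          simp
        have h4 : Nat.card {w : U // w ≠ 0} = ({u : U | u ≠ 0} : Set U).ncard := rfl
        rw [h4, h3, Set.ncard_compl, Set.ncard_singleton, hU]
      omega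
    intro x y hxy
    have hz01 : ∀ x : ZMod 2, x = 0 ∨ x = 1 := by decide
    have hx := hz01 x
    have hy := hz01 y
    rcases hx with rfl | rfl <;> rcases hy with rfl | rfl
    · exact absurd ⟨rfl, rfl⟩ hxy
    · omega
    · omega
    · omega
  have hstep := S1.step (σ := σ) C v (T (s1 v) (s2 v)) (Set.toFinite _) (by
    intro y hy
    have hya : y * a = a * y := (mem_centralizer_iff.1 hy a rfl).symm
    have hyA : ∀ x, σ y (A x) = A (σ y x) := by
      intro x
      change (σ y * σ a) x = (σ a * σ y) x
      rw [← map_mul, ← map_mul, hya]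
    refine ⟨?_, ?_, ?_⟩
    · intro h0
      apply hv
      have h2 : σ y⁻¹ (σ y v) = v := by
        change (σ y⁻¹ * σ y) v = v
        rw [← map_mul, inv_mul_cancel, map_one]; rfl
      rw [← h2, h0, map_zero]
    · change B (σ y v) (A (σ y v)) = B v (A v)
      rw [← hyA, h.inv]
    · change B (σ y v) (A (A (σ y v))) = B v (A (A v))
      rw [← hyA, ← hyA, h.inv])
  have hst : Nat.card (S1.stb σ C v) = 1 := by
    rw [Subgroup.card_eq_one, Subgroup.eq_bot_iff_forall]
    rintro y ⟨hy, hyv⟩
    have hya : y * a = a * y := (mem_centralizer_iff.1 hy a rfl).symm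
    have hyA : ∀ x, σ y (A x) = A (σ y x) := by
      intro x
      change (σ y * σ a) x = (σ a * σ y) x
      rw [← map_mul, ← map_mul, hya]
    let W : Submodule (ZMod 2) U :=
      { carrier := {x | σ y x = x}
        add_mem' := by
          intro x z hx hz
          change σ y (x + z) = x + z
          rw [map_add]
          have hx' : σ y x = x := hx
          have hz' : σ y z = z := hz
          rw [hx', hz']
        zero_mem' := by
          change σ y 0 = 0
          rw [map_zero]
        smul_mem' := by
          intro c x hx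
          change σ y (c • x) = c • x
          have hx' : σ y x = x := hx
          rw [map_smul, hx'] }
    have hW : W = ⊤ := by
      apply hspan
      · intro x hx
        change σ y (A x) = A x
        have hx' : σ y x = x := hx
        rw [hyA, hx']
      · intro hW0
        have h2 : v ∈ W := hyv
        rw [hW0, Submodule.mem_bot] at h2
        exact hv h2
    apply h.inj
    rw [map_one]
    ext w
    have h2 : w ∈ W := by rw [hW]; trivial
    exact h2
  rw [hst, mul_one] at hstep
  exact hstep.trans (hT5 _ _ (hne v hv))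

/-! ### the case of order three -/

/-- the orbits of `a` -/
def R (A : U →ₗ[ZMod 2] U) (v w : U) : Prop := w = v ∨ w = A v ∨ w = A (A v)

theorem three (h : Sy 2 2 B σ) {a : Y} (ha : orderOf a = 3)
    (han : (Subgroup.zpowers a).Normal) (hfix : ∀ v, σ a v = v → v = 0) : KB Y 18 := by
  classical
  have hU : Nat.card U = 16 := by rw [h.card]; norm_num
  have ha1 : a ≠ 1 := by
    rintro rfl
    rw [orderOf_one] at ha
    omega
  have ha3 : a ^ 3 = 1 := by rw [← ha, pow_orderOf_eq_one]
  set A := σ a with hA
  have hA3 : ∀ v, A (A (A v)) = v := by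
    intro v
    have h2 : σ (a ^ 3) v = v := by
      rw [ha3, map_one]; rfl
    have h3 : σ (a ^ 3) v = A (A (A v)) := by
      rw [pow_succ, pow_succ, pow_one, map_mul, map_mul]
      rfl
    rw [← h3, h2]
  have hinv : ∀ v w, B (A v) (A w) = B v w := fun v w => h.inv a v w
  have hsum : ∀ v, v + A v + A (A v) = 0 := by
    intro v
    apply hfix
    change A _ = _
    rw [map_add, map_add, hA3]
    abel
  have hAA : ∀ v, A (A v) = v + A v := by
    intro v
    have h2 := hsum v
    have h3 := T6.two_nsmul_eq (v + A v)
    exact add_left_cancel (h2.trans h3.symm)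
  have hAinj : Function.Injective A := by
    intro v w hvw
    rw [← hA3 v, ← hA3 w, hvw]
  have hz : ∀ x : ZMod 2, x + x = 0 := by decide
  have hz01 : ∀ x : ZMod 2, x = 0 ∨ x = 1 := by decide
  -- equivariance
  have hcom : ∀ y : Y, (∀ v, σ y (A v) = A (σ y v)) ∨ (∀ v, σ y (A v) = A (A (σ y v))) := by
    intro y
    have h2 : y * a * y⁻¹ ∈ zpowers a := han.conj_mem a (mem_zpowers a) y
    rw [mem_zpowers_iff_mem_range_orderOf, ha] at h2
    simp only [Finset.mem_image, Finset.mem_range] at h2
    obtain ⟨i, hi, hi2⟩ := h2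
    interval_cases i
    · exfalso
      rw [pow_zero] at hi2
      apply ha1
      have h3 : y * a * y⁻¹ = 1 := hi2.symm
      rw [mul_inv_eq_one] at h3
      exact mul_left_cancel (h3.trans (mul_one y).symm)
    · left
      intro v
      rw [pow_one] at hi2
      have h3 : y * a = a * y := by
        rw [eq_mul_inv_iff_mul_eq] at hi2
        exact hi2.symm
      change (σ y * σ a) v = (σ a * σ y) v
      rw [← map_mul, ← map_mul, h3]
    · right
      intro v
      have h3 : y * a = a * a * y := by
        rw [eq_mul_inv_iff_mul_eq, pow_two] at hi2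
        exact hi2.symm
      change (σ y * σ a) v = (σ a * (σ a * σ y)) v
      rw [← map_mul, ← map_mul, ← map_mul, h3, mul_assoc]
  have Rrefl : ∀ v, R A v v := fun v => Or.inl rfl
  have Rsymm : ∀ v w, R A v w → R A w v := by
    rintro v w (rfl | rfl | rfl)
    · exact Or.inl rfl
    · exact Or.inr (Or.inr (hA3 _).symm)
    · exact Or.inr (Or.inl (hA3 _).symm)
  have RA : ∀ v w, R A v w → R A v (A w) := by
    rintro v w (rfl | rfl | rfl)
    · exact Or.inr (Or.inl rfl)
    · exact Or.inr (Or.inr rfl)
    · exact Or.inl (hA3 _)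
  have Rtrans : ∀ u v w, R A u v → R A v w → R A u w := by
    rintro u v w huv (rfl | rfl | rfl)
    · exact huv
    · exact RA _ _ huv
    · exact RA _ _ (RA _ _ huv)
  have Requi : ∀ (y : Y) v w, R A v w → R A (σ y v) (σ y w) := by
    rintro y v w (rfl | rfl | rfl)
    · exact Or.inl rfl
    · rcases hcom y with h2 | h2
      · exact Or.inr (Or.inl (h2 v))
      · exact Or.inr (Or.inr (h2 v))
    · rcases hcom y with h2 | h2
      · exact Or.inr (Or.inr (by rw [h2, h2]))
      · refine Or.inr (Or.inl ?_)
        rw [h2, h2, hA3]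
  -- the quadratic form
  have hQy : ∀ (y : Y) v, B (σ y v) (A (σ y v)) = B v (A v) := by
    intro y v
    rcases hcom y with h2 | h2
    · rw [← h2, h.inv]
    · have h3 : A (σ y v) = σ y (A (A v)) := by
        rw [h2, h2, hA3]
      rw [h3, h.inv, ← hinv v (A (A v)), hA3, T6.Bsymm h]
  obtain ⟨v1, hv1⟩ : ∃ v, B v (A v) = 1 := by
    by_contra hcon
    push Not at hcon
    have h0 : ∀ v, B v (A v) = 0 := fun v => (hz01 _).resolve_right (hcon v)
    have h2 : ∀ v w, B v w = 0 := by
      intro v w
      have h3 := h0 (v + w)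
      simp only [map_add, LinearMap.add_apply, h0, zero_add, add_zero] at h3
      -- B w (A v) + B v (A w) = 0
      have h4 : B w (A v) = B v (A (A w)) := by
        rw [← hinv w (A v), ← hinv (A w) (A (A v)), hA3, T6.Bsymm h]
      have h5 : B v (A w) + B v (A (A w)) = B v w := by
        have h6 : A w + A (A w) = w := by
          have h7 := hsum w
          have h8 := T6.two_nsmul_eq w
          rw [add_assoc] at h7
          exact add_left_cancel (h7.trans h8.symm)
        rw [← map_add, h6]
      rw [← h5, ← h4]
      linear_combination h3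
    haveI : Subsingleton U := ⟨fun x y => by
      rw [h.nd x (h2 x), h.nd y (h2 y)]⟩
    rw [Nat.card_of_subsingleton (0 : U)] at hU
    omega
  have hv10 : v1 ≠ 0 := by
    rintro rfl
    rw [map_zero, LinearMap.zero_apply] at hv1
    exact absurd hv1 (by decide)
  have hnA : ∀ v : U, v ≠ 0 → A v ≠ v := fun v hv h2 => hv (hfix v h2)
  have hA0 : ∀ v : U, v ≠ 0 → A v ≠ 0 := fun v hv h2 => hv (hAinj (by rw [h2, map_zero]))
  have hli : LinearIndependent (ZMod 2) ![v1, A v1] := by
    rw [LinearIndependent.pair_iff' hv10]
    intro c hc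
    rcases hz01 c with rfl | rfl
    · rw [zero_smul] at hc
      exact hA0 _ hv10 hc.symm
    · rw [one_smul] at hc
      exact hnA _ hv10 hc.symm
  obtain ⟨b, hb0, hb1⟩ := S2.exists_basis2 h (by norm_num) v1 (A v1) hli
  let P : Set U := {u | B u v1 = 0 ∧ B u (A v1) = 0}
  have hP4 : Nat.card P ≤ 4 := by
    have h2 := S1.perp_card h b 2 (by norm_num)
    have h3 : P = {u : U | ∀ i : Fin (2 * 2), (i : ℕ) < 2 → B u (b i) = 0} := by
      ext u
      constructor
      · rintro ⟨h4, h5⟩ i hi
        rcases Nat.lt_or_ge (i : ℕ) 1 with h6 | h6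
        · have h7 : i = ⟨0, by omega⟩ := Fin.ext (by simp only; omega)
          rw [h7, hb0]
          exact h4
        · have h7 : i = ⟨1, by omega⟩ := Fin.ext (by simp only; omega)
          rw [h7, hb1]
          exact h5
      · intro h4
        refine ⟨?_, ?_⟩
        · have := h4 ⟨0, by omega⟩ (by simp)
          rwa [hb0] at this
        · have := h4 ⟨1, by omega⟩ (by simp)
          rwa [hb1] at this
    rw [h3]
    exact h2
  have hPA : ∀ u ∈ P, A u ∈ P := by
    rintro u ⟨h2, h3⟩
    refine ⟨?_, ?_⟩
    · rw [← hinv (A u) v1, ← hinv (A (A u)) (A v1), hA3, hAA, map_add, h2, h3, add_zero]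
    · rw [hinv]
      exact h2
  have hPadd : ∀ u ∈ P, ∀ w ∈ P, u + w ∈ P := by
    rintro u ⟨h2, h3⟩ w ⟨h4, h5⟩
    refine ⟨?_, ?_⟩
    · rw [map_add, LinearMap.add_apply, h2, h4, add_zero]
    · rw [map_add, LinearMap.add_apply, h3, h5, add_zero]
  obtain ⟨v2, hv2P, hv20⟩ : ∃ v2 ∈ P, v2 ≠ 0 := by
    by_contra hcon
    push Not at hcon
    have h2 : Function.Injective (fun u : U => (B u v1, B u (A v1))) := by
      intro u w huw
      have h3 : B u v1 = B w v1 := congrArg Prod.fst huw
      have h4 : B u (A v1) = B w (A v1) := congrArg Prod.snd huw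
      have h5 := hcon (u - w) ⟨by rw [map_sub, LinearMap.sub_apply, h3, sub_self],
        by rw [map_sub, LinearMap.sub_apply, h4, sub_self]⟩
      exact sub_eq_zero.1 h5
    have h3 := Nat.card_le_card_of_injective _ h2
    rw [hU, Nat.card_prod, Nat.card_zmod] at h3
    omega
  have hP : ∀ u ∈ P, u = 0 ∨ R A v2 u := by
    have hset : ({0, v2, A v2, A (A v2)} : Set U) = P := by
      apply Set.eq_of_subset_of_ncard_le
      · intro x hx
        simp only [Set.mem_insert_iff, Set.mem_singleton_iff] at hx
        rcases hx with rfl | rfl | rfl | rfl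
        · exact ⟨by simp, by simp⟩
        · exact hv2P
        · exact hPA _ hv2P
        · exact hPA _ (hPA _ hv2P)
      · have n1 : A v2 ∉ ({A (A v2)} : Set U) := by
          rw [Set.mem_singleton_iff]
          exact fun h3 => hnA _ (hA0 _ hv20) h3.symm
        have n2 : v2 ∉ ({A v2, A (A v2)} : Set U) := by
          simp only [Set.mem_insert_iff, Set.mem_singleton_iff, not_or]
          refine ⟨fun h3 => hnA _ hv20 h3.symm, fun h3 => ?_⟩
          have h4 : A v2 = v2 := by
            calc A v2 = A (A (A v2)) := by rw [← h3]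
              _ = v2 := hA3 v2
          exact hnA _ hv20 h4
        have n3 : (0 : U) ∉ ({v2, A v2, A (A v2)} : Set U) := by
          simp only [Set.mem_insert_iff, Set.mem_singleton_iff, not_or]
          exact ⟨fun h3 => hv20 h3.symm, fun h3 => hA0 _ hv20 h3.symm, fun h3 => hA0 _ (hA0 _ hv20) h3.symm⟩
        have h2 : ({0, v2, A v2, A (A v2)} : Set U).ncard = 4 := by
          rw [Set.ncard_insert_of_notMem n3 (Set.toFinite _), Set.ncard_insert_of_notMem n2 (Set.toFinite _),
            Set.ncard_insert_of_notMem n1 (Set.toFinite _), Set.ncard_singleton]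
        rw [h2]
        exact hP4
      · exact Set.toFinite _
    intro u hu
    rw [← hset] at hu
    simp only [Set.mem_insert_iff, Set.mem_singleton_iff] at hu
    rcases hu with h2 | h2
    · exact Or.inl h2
    · exact Or.inr h2
  -- decomposition
  have hdec : ∀ x : U, ∃ c d : ZMod 2, x + (c • v1 + d • A v1) ∈ P := by
    intro x
    refine ⟨B x (A v1), B x v1, ?_, ?_⟩
    · rw [map_add, map_add, map_smul, map_smul, LinearMap.add_apply, LinearMap.add_apply, LinearMap.smul_apply,
        LinearMap.smul_apply, h.alt, T6.Bsymm h (A v1) v1, hv1, smul_zero, zero_add, smul_eq_mul, mul_one]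
      exact hz _
    · rw [map_add, map_add, map_smul, map_smul, LinearMap.add_apply, LinearMap.add_apply, LinearMap.smul_apply,
        LinearMap.smul_apply, h.alt, hv1, smul_zero, add_zero, smul_eq_mul, mul_one]
      exact hz _
  have hdec' : ∀ x : U, ∃ w1 p : U, p ∈ P ∧ x = w1 + p ∧ (w1 = 0 ∨ R A v1 w1) := by
    intro x
    obtain ⟨c, d, hcd⟩ := hdec x
    refine ⟨c • v1 + d • A v1, x + (c • v1 + d • A v1), hcd, ?_, ?_⟩
    · rw [add_comm x, ← add_assoc, T6.two_nsmul_eq, zero_add]
    · rcases hz01 c with rfl | rfl <;> rcases hz01 d with rfl | rfl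
      · left; simp
      · right; right; left; simp
      · right; left; simp
      · right; right; right
        rw [one_smul, one_smul, hAA]
  have hR1perp : ∀ w1 p, p ∈ P → R A v1 w1 → B p w1 = 0 := by
    rintro w1 p ⟨h2, h3⟩ (rfl | rfl | rfl)
    · exact h2
    · exact h3
    · rw [hAA, map_add, h2, h3, add_zero]
  have hR1perp' : ∀ w1 p, p ∈ P → (w1 = 0 ∨ R A v1 w1) → B p w1 = 0 := by
    rintro w1 p hp (rfl | h2)
    · rw [map_zero]
    · exact hR1perp _ _ hp h2
  have hQA : ∀ v, B (A v) (A (A v)) = B v (A v) := fun v => hinv _ _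
  have hQR : ∀ v w, R A v w → B w (A w) = B v (A v) := by
    rintro v w (rfl | rfl | rfl)
    · rfl
    · exact hQA _
    · rw [hQA, hQA]
  have hv2Q : B v2 (A v2) = 1 := by
    rcases hz01 (B v2 (A v2)) with h2 | h2
    · exfalso
      apply hv20
      apply h.nd
      intro x
      obtain ⟨w1, p, hp, rfl, hw1⟩ := hdec' x
      rw [map_add, hR1perp' _ _ hv2P hw1, zero_add]
      rcases hP p hp with rfl | (rfl | rfl | rfl)
      · rw [map_zero]
      · exact h.alt _
      · exact h2
      · rw [hAA, map_add, h.alt, h2, add_zero]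
    · exact h2
  have hOm : ∀ x, B x (A x) = 1 → R A v1 x ∨ R A v2 x := by
    intro x hx
    obtain ⟨w1, p, hp, rfl, hw1⟩ := hdec' x
    have hAw1 : A w1 = 0 ∨ R A v1 (A w1) := by
      rcases hw1 with rfl | h2
      · left; rw [map_zero]
      · exact Or.inr (RA _ _ h2)
    have e1 : B p (A w1) = 0 := hR1perp' _ _ hp hAw1
    have e2 : B w1 (A p) = 0 := by
      rw [T6.Bsymm h]
      exact hR1perp' _ _ (hPA _ hp) hw1
    simp only [map_add, LinearMap.add_apply, e1, e2, zero_add, add_zero] at hx
    rcases hw1 with rfl | h2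
    · right
      rw [zero_add]
      rcases hP p hp with rfl | h3
      · exfalso
        simp only [map_zero, LinearMap.zero_apply, add_zero] at hx
        exact absurd hx (by decide)
      · exact h3
    · left
      rcases hP p hp with rfl | h3
      · rw [add_zero]; exact h2
      · exfalso
        rw [hQR _ _ h2, hQR _ _ h3, hv1, hv2Q] at hx
        exact absurd hx (by decide)
  -- the stabiliser of the first orbit
  let K : Subgroup Y :=
    { carrier := {y | R A v1 (σ y v1)}
      mul_mem' := by
        intro x y hx hy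
        change R A v1 (σ (x * y) v1)
        rw [map_mul]
        exact Rtrans _ _ _ hx (Requi x _ _ hy)
      one_mem' := by
        change R A v1 (σ 1 v1)
        rw [map_one]
        exact Rrefl _
      inv_mem' := by
        intro x hx
        change R A v1 (σ x⁻¹ v1)
        have h2 := Requi x⁻¹ _ _ hx
        have h3 : σ x⁻¹ (σ x v1) = v1 := by
          change (σ x⁻¹ * σ x) v1 = v1
          rw [← map_mul, inv_mul_cancel, map_one]; rfl
        rw [h3] at h2
        exact Rsymm _ _ h2 }
  have hKi : K.index ≤ 2 := by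
    have h2 : Function.Injective (fun q : Y ⧸ K => decide (R A v1 (σ q.out v1))) := by
      intro q q' hqq
      have h3 : R A v1 (σ q.out v1) ↔ R A v1 (σ q'.out v1) := by
        simpa using hqq
      have h4 : R A (σ q.out v1) (σ q'.out v1) := by
        by_cases h5 : R A v1 (σ q.out v1)
        · exact Rtrans _ _ _ (Rsymm _ _ h5) (h3.1 h5)
        · have h6 : ¬ R A v1 (σ q'.out v1) := fun h7 => h5 (h3.2 h7)
          have h7 := (hOm _ ((hQy q.out v1).trans hv1)).resolve_left h5
          have h8 := (hOm _ ((hQy q'.out v1).trans hv1)).resolve_left h6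
          exact Rtrans _ _ _ (Rsymm _ _ h7) h8
      have h5 : (q.out)⁻¹ * q'.out ∈ K := by
        change R A v1 (σ ((q.out)⁻¹ * q'.out) v1)
        have h6 := Requi (q.out)⁻¹ _ _ h4
        have h7 : σ (q.out)⁻¹ (σ q.out v1) = v1 := by
          change (σ (q.out)⁻¹ * σ q.out) v1 = v1
          rw [← map_mul, inv_mul_cancel, map_one]; rfl
        rw [h7] at h6
        rw [map_mul]
        exact h6
      have h6 := QuotientGroup.eq.2 h5
      rwa [QuotientGroup.out_eq', QuotientGroup.out_eq'] at h6
    have h3 := Nat.card_le_card_of_injective _ h2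
    rw [Nat.card_eq_fintype_card (α := Bool), Fintype.card_bool] at h3
    exact h3
  have hKi0 : K.index ≠ 0 := Subgroup.FiniteIndex.index_ne_zero
  haveI hKn : K.Normal := by
    rcases (by omega : K.index = 1 ∨ K.index = 2) with h2 | h2
    · rw [Subgroup.index_eq_one] at h2
      rw [h2]
      infer_instance
    · exact Subgroup.normal_of_index_eq_two h2
  -- the action on the first orbit
  let O1 : Type := {x : U // R A v1 x}
  have hO : ∀ v, Nat.card {x : U // R A v x} ≤ 3 := by
    intro v
    have h2 : ({x : U | R A v x} : Set U) = {v, A v, A (A v)} := by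
      ext x
      simp [R]
    have h3 : Nat.card {x : U // R A v x} = ({x : U | R A v x} : Set U).ncard := rfl
    rw [h3, h2]
    refine (Set.ncard_insert_le _ _).trans ?_
    have h4 := Set.ncard_insert_le (A v) ({A (A v)} : Set U)
    rw [Set.ncard_singleton] at h4
    omega
  let φ : ↥K →* Equiv.Perm O1 :=
    { toFun := fun y =>
        { toFun := fun x => ⟨σ (y : Y) x.1, Rtrans _ _ _ y.2 (Requi y.1 _ _ x.2)⟩
          invFun := fun x => ⟨σ (y : Y)⁻¹ x.1, Rtrans _ _ _ (K.inv_mem y.2) (Requi (y.1)⁻¹ _ _ x.2)⟩
          left_inv := by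
            intro x
            apply Subtype.ext
            change (σ (y : Y)⁻¹ * σ (y : Y)) x.1 = x.1
            rw [← map_mul, inv_mul_cancel, map_one]; rfl
          right_inv := by
            intro x
            apply Subtype.ext
            change (σ (y : Y) * σ (y : Y)⁻¹) x.1 = x.1
            rw [← map_mul, mul_inv_cancel, map_one]; rfl }
      map_one' := by
        ext x
        change σ (1 : Y) x.1 = x.1
        rw [map_one]; rfl
      map_mul' := by
        intro y y'
        ext x
        change σ ((y : Y) * (y' : Y)) x.1 = σ (y : Y) (σ (y' : Y) x.1)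
        rw [map_mul]; rfl }
  have hker : KB ↥φ.ker 3 := by
    apply KB.of_card
    refine le_trans ?_ (hO v2)
    have hfix1 : ∀ y : ↥φ.ker, σ ((y : ↥K) : Y) v1 = v1 := by
      intro y
      have h2 : φ (y : ↥K) = 1 := y.2
      have h3 := congrArg (fun e : Equiv.Perm O1 => (e ⟨v1, Rrefl _⟩ : O1).1) h2
      exact h3
    have hfix2 : ∀ y : ↥φ.ker, σ ((y : ↥K) : Y) (A v1) = A v1 := by
      intro y
      have h2 : φ (y : ↥K) = 1 := y.2
      have h3 := congrArg (fun e : Equiv.Perm O1 => (e ⟨A v1, Or.inr (Or.inl rfl)⟩ : O1).1) h2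
      exact h3
    have hcomm : ∀ y : ↥φ.ker, ∀ v, σ ((y : ↥K) : Y) (A v) = A (σ ((y : ↥K) : Y) v) := by
      intro y
      rcases hcom ((y : ↥K) : Y) with h2 | h2
      · exact h2
      · exfalso
        have h3 := h2 v1
        rw [hfix1, hfix2] at h3
        exact hnA _ (hA0 _ hv10) h3.symm
    have hP2 : ∀ y : ↥φ.ker, R A v2 (σ ((y : ↥K) : Y) v2) := by
      intro y
      have h2 : σ ((y : ↥K) : Y) v2 ∈ P := by
        refine ⟨?_, ?_⟩
        · conv_lhs => rw [← hfix1 y]
          rw [h.inv]
          exact hv2P.1
        · conv_lhs => rw [← hfix2 y]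
          rw [h.inv]
          exact hv2P.2
      rcases hP _ h2 with h3 | h3
      · exfalso
        apply hv20
        have h4 : σ ((y : ↥K) : Y)⁻¹ (σ ((y : ↥K) : Y) v2) = v2 := by
          change (σ ((y : ↥K) : Y)⁻¹ * σ ((y : ↥K) : Y)) v2 = v2
          rw [← map_mul, inv_mul_cancel, map_one]; rfl
        rw [← h4, h3, map_zero]
      · exact h3
    refine Nat.card_le_card_of_injective (fun y => ⟨σ ((y : ↥K) : Y) v2, hP2 y⟩) ?_
    intro y y' hyy
    have h2 : σ ((y : ↥K) : Y) v2 = σ ((y' : ↥K) : Y) v2 := congrArg Subtype.val hyy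
    apply Subtype.ext
    apply Subtype.ext
    apply h.inj
    ext x
    obtain ⟨w1, p, hp, rfl, hw1⟩ := hdec' x
    rw [map_add, map_add]
    congr 1
    · rcases hw1 with rfl | (rfl | rfl | rfl)
      · rw [map_zero, map_zero]
      · rw [hfix1, hfix1]
      · rw [hfix2, hfix2]
      · rw [hcomm y, hcomm y', hfix2, hfix2]
    · rcases hP p hp with rfl | (rfl | rfl | rfl)
      · rw [map_zero, map_zero]
      · exact h2
      · rw [hcomm y, hcomm y', h2]
      · rw [hcomm y, hcomm y, hcomm y', hcomm y', h2]
  have hK9 : KB ↥K (3 * 3) := KB.of_ker φ hker (KB3' (hO v1))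
  have h2 : KB (Y ⧸ K) 2 := KB.of_card hKi
  exact KB.mono (KB.of_normal K hK9 h2) (by norm_num)

end

end T7

open Cfsg

section
variable {U : Type} [AddCommGroup U] [Module (ZMod 2) U] [Finite U]
  {B : U →ₗ[ZMod 2] U →ₗ[ZMod 2] ZMod 2} {Y : Type} [Group Y] [Finite Y] {σ : Y →* (U →ₗ[ZMod 2] U)}

theorem Sy.kb_two (h : Sy 2 2 B σ) [Group.IsSolvable Y] (hirr : Irr σ) {q : ℕ} {a : Y} (hq : q.Prime) (hq2 : q ≠ 2)
    (ha : orderOf a = q) (han : (Subgroup.zpowers a).Normal) (hfix : ∀ v, σ a v = v → v = 0) : KB Y 27 := by
  have hU : Nat.card U = 16 := by rw [h.card]; norm_num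
  have h1 := T6.card_mod (σ := σ) hq ha hfix ⊤ (fun _ _ => trivial)
  have h2 : Nat.card (⊤ : Submodule (ZMod 2) U) = 16 := by
    rw [← hU]
    exact Nat.card_congr (Equiv.Set.univ U)
  rw [h2] at h1
  have h3 : q ∣ 15 := by
    have h4 := (Nat.modEq_iff_dvd' (by norm_num : 1 ≤ 16)).1 h1.symm
    exact h4
  have h4 : q ≤ 15 := Nat.le_of_dvd (by norm_num) h3
  have h5 : q = 3 ∨ q = 5 := by
    interval_cases q <;> first | (left; rfl) | (right; rfl) | (exfalso; revert h3; decide) |
      (exfalso; revert hq; decide)
  rcases h5 with rfl | rfl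
  · exact KB.mono (T7.three h ha han hfix) (by norm_num)
  · exact KB.of_card ((T7.five h ha han hfix).trans (by norm_num))

end

end Cfsg.Agent.H97.KR
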