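import Cfsg.Agent.H97.KRF
import Cfsg.Agent.H97.KRP
import Cfsg.Agent.H97.KRI
import Cfsg.Agent.H97.KRA
import Cfsg.Agent.H97.KRC12
import Cfsg.Agent.H97.KRC3
import Cfsg.Agent.H97.KRC4
import Cfsg.Agent.H97.KRS1
import Cfsg.Agent.H97.KRS2
import Cfsg.Agent.H97.KRS3
import Cfsg.Agent.H97.KRN
import Cfsg.Agent.H97.KRT1
import Cfsg.Agent.H97.KRT2
import Cfsg.Agent.H97.KRT3
import Cfsg.Agent.H97.KRT4
import Cfsg.Agent.H97.KRT5
import Cfsg.Agent.H97.KRT6
import Cfsg.Agent.H97.KRT7

set_option autoImplicit false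

/-!
Assembly of the class number bound for solvable linear groups.
-/

namespace Cfsg.Agent.H97.KR

open Cfsg

section
variable {p n : ℕ} [Fact p.Prime] {U : Type} [AddCommGroup U] [Module (ZMod p) U] [Finite U]
  {B : U →ₗ[ZMod p] U →ₗ[ZMod p] ZMod p} {Y : Type} [Group Y] [Finite Y] {σ : Y →* (U →ₗ[ZMod p] U)}

theorem kb_one {U : Type} [AddCommGroup U] [Module (ZMod 2) U] [Finite U]
    (B : U →ₗ[ZMod 2] U →ₗ[ZMod 2] ZMod 2) (Y : Type) [Group Y] [Finite Y] (σ : Y →* (U →ₗ[ZMod 2] U))
    (h : Sy 2 1 B σ) : KB Y 3 := by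
  have := h.kb le_rfl
  simpa using this

theorem kb_two2 {U : Type} [AddCommGroup U] [Module (ZMod 2) U] [Finite U]
    (B : U →ₗ[ZMod 2] U →ₗ[ZMod 2] ZMod 2) (Y : Type) [Group Y] [Finite Y] (σ : Y →* (U →ₗ[ZMod 2] U))
    (h : Sy 2 2 B σ) : KB Y (2 ^ 10) := KB.of_card (by simpa using h.card_le)

theorem Sy.bound_two {n : ℕ} {U : Type} [AddCommGroup U] [Module (ZMod 2) U] [Finite U]
    {B : U →ₗ[ZMod 2] U →ₗ[ZMod 2] ZMod 2} {Y : Type} [Group Y] [Finite Y] {σ : Y →* (U →ₗ[ZMod 2] U)}
    (h : Sy 2 n B σ) (hn : n = 2 ∨ n = 3 ∨ n = 4) (hirr : Irr σ) [Group.IsSolvable Y] :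
    KB Y (3 ^ (2 ^ n - 1)) := by
  rcases h.dichotomy (by omega) hirr with ⟨t, m, ht, hm, htm, ho⟩ | hs | ⟨q, a, hq, hq2, ha, han, hfix⟩
  · -- orthogonal decomposition
    rcases hn with rfl | rfl | rfl
    · have h1 : m = 1 ∧ t = 2 := by
        have : t ≤ 2 := Nat.le_of_dvd (by norm_num) ⟨m, htm.symm⟩
        interval_cases t
        omega
      obtain ⟨rfl, rfl⟩ := h1
      exact (h.orth_bound ht ho (b := 3) (fun U' _ _ _ B' Y' _ _ σ' h' => kb_one B' Y' σ' h')).mono (by norm_num)
    · have h1 : m = 1 ∧ t = 3 := by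
        have : t ≤ 3 := Nat.le_of_dvd (by norm_num) ⟨m, htm.symm⟩
        interval_cases t
        · omega
        · omega
      obtain ⟨rfl, rfl⟩ := h1
      exact (h.orth_bound ht ho (b := 3) (fun U' _ _ _ B' Y' _ _ σ' h' => kb_one B' Y' σ' h')).mono (by norm_num)
    · have h1 : (m = 1 ∧ t = 4) ∨ (m = 2 ∧ t = 2) := by
        have : t ≤ 4 := Nat.le_of_dvd (by norm_num) ⟨m, htm.symm⟩
        interval_cases t
        · right; omega
        · omega
        · left; omega
      rcases h1 with ⟨rfl, rfl⟩ | ⟨rfl, rfl⟩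
      · exact (h.orth_bound ht ho (b := 3) (fun U' _ _ _ B' Y' _ _ σ' h' => kb_one B' Y' σ' h')).mono (by norm_num)
      · exact (h.orth_bound ht ho (b := 2 ^ 10) (fun U' _ _ _ B' Y' _ _ σ' h' => kb_two2 B' Y' σ' h')).mono
          (by norm_num)
  · exact KB.of_card (by
      rw [Nat.card_of_subsingleton (1 : Y)]
      exact Nat.one_le_pow _ _ (by norm_num))
  · rcases hn with rfl | rfl | rfl
    · exact (h.kb_two hirr hq hq2 ha han hfix).mono (by norm_num)
    · by_cases hq3 : q = 3
      · subst hq3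
        exact KB.of_card ((h.card_three ha han hfix).trans (by norm_num))
      · exact KB.of_card ((h.card_seven hq hq2 hq3 ha han hfix).trans (by norm_num))
    · exact KB.of_card ((h.card_cyc hq hq2 ha han hfix).trans (by norm_num))

theorem Sy.bound (h : Sy p n B σ) (hn : 1 ≤ n) (hirr : Irr σ) [Group.IsSolvable Y] :
    KB Y (3 ^ (p ^ n - 1)) := by
  rcases num p n Fact.out hn with h1 | h1 | ⟨h1, h2⟩
  · exact KB.of_card (h.card_le.trans h1)
  · exact (h.kb hn).mono h1
  · subst h1
    exact h.bound_two h2 hirr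

end

theorem subgroup_solvable {G : Type} [Group G] [Group.IsSolvable G] (H : Subgroup G) : Group.IsSolvable H := inferInstance

theorem cyclic_of_scalar {G : Type} [Group G] [Finite G] {V : Type} [AddCommGroup V] [Module ℂ V]
    [FiniteDimensional ℂ V] (ρ : G →* (V →ₗ[ℂ] V)) (hρ : Function.Injective ρ) (hV : 1 ≤ Module.finrank ℂ V)
    (Z : Subgroup G) (hsc : ∀ z ∈ Z, ∃ c : ℂ, ρ z = c • LinearMap.id) : IsCyclic Z := by
  classical
  have hV' : Nontrivial V := Module.nontrivial_of_finrank_pos (R := ℂ) (by omega)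
  obtain ⟨v, hv⟩ := exists_ne (0 : V)
  choose c hc using fun z : Z => hsc z z.2
  have hinj : ∀ a b : ℂ, a • (LinearMap.id : V →ₗ[ℂ] V) = b • LinearMap.id → a = b := by
    intro a b hab
    have := congrArg (fun f : V →ₗ[ℂ] V => f v) hab
    simp only [LinearMap.smul_apply, LinearMap.id_apply] at this
    exact smul_left_injective ℂ hv this
  let f : Z →* ℂ :=
    { toFun := c
      map_one' := by
        apply hinj
        rw [← hc 1]
        simp [Module.End.one_eq_id]
      map_mul' := by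
        intro x y
        apply hinj
        rw [← hc (x * y), Subgroup.coe_mul, map_mul, hc x, hc y]
        ext w
        simp only [LinearMap.smul_apply, LinearMap.id_apply, Module.End.mul_apply, smul_smul] }
  refine isCyclic_of_injective_ringHom f ?_
  intro x y hxy
  apply Subtype.ext
  apply hρ
  rw [hc x, hc y]
  exact congrArg (· • (LinearMap.id : V →ₗ[ℂ] V)) hxy

theorem nilpotent_of {G : Type} [Group G] {E : Subgroup G} {p : ℕ} (h : Crit E p) : Group.IsNilpotent E := by
  refine ⟨⟨2, ?_⟩⟩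
  rw [eq_top_iff]
  intro x _
  rw [Subgroup.mem_upperCentralSeries_succ_iff]
  intro y
  rw [Subgroup.upperCentralSeries_one, Subgroup.mem_center_iff]
  intro z
  have h1 := Subgroup.mem_center_iff.mp (h.comm x x.2 y y.2) (z : G)
  apply Subtype.ext
  simpa [commutatorElement_def] using h1

theorem main_bound : ∀ r : ℕ, Bd r := by
  intro r
  induction r using Nat.strong_induction_on with
  | _ r IH =>
    intro G _ _ _ V _ _ _ ρ hρ hr hr1
    by_cases himp : Imprim ρ
    · exact imprim_bound IH ρ hρ hr himp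
    have hsc : ∀ A : Subgroup G, A.Normal → (∀ a ∈ A, ∀ b ∈ A, a * b = b * a) → ∀ a ∈ A,
        ∃ c : ℂ, ρ a = c • LinearMap.id := by
      intro A hA hab a ha
      exact abelian_scalar ρ himp A hab a ha
    have hcen : ∀ A : Subgroup G, A.Normal → (∀ a ∈ A, ∀ b ∈ A, a * b = b * a) → A ≤ Subgroup.center G := by
      intro A hA hab a ha
      rw [Subgroup.mem_center_iff]
      intro g
      obtain ⟨c, hc⟩ := hsc A hA hab a ha
      apply hρ
      rw [map_mul, map_mul, hc]
      ext v
      simp [Module.End.mul_apply]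
    have hscZ : ∀ z ∈ Subgroup.center G, ∃ c : ℂ, ρ z = c • LinearMap.id :=
      hsc _ inferInstance (fun a ha b _ => (Subgroup.mem_center_iff.mp ha b).symm)
    have hcyc : IsCyclic (Subgroup.center G) := cyclic_of_scalar ρ hρ (hr ▸ hr1) _ hscZ
    rcases exists_crit hcen with htop | ⟨E, p, hE⟩
    · refine KB.of_card ?_
      have : Subsingleton (G ⧸ fittingSubgroup G) := by
        rw [htop]
        exact QuotientGroup.subsingleton_quotient_top
      rw [Nat.card_of_subsingleton (1 : G ⧸ fittingSubgroup G)]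
      exact Nat.one_le_pow _ _ (by norm_num)
    · have hp := hE.prime
      have : Fact p.Prime := ⟨hp⟩
      have := hE.normal
      obtain ⟨n, W, hn, hcard, hfr, hinv, hfaith⟩ := hE.exists_W ρ hρ hscZ (hr ▸ hr1)
      obtain ⟨U, _, _, _, B, σ, hSy, hIrr⟩ := hE.exists_Sy hcyc (fun g => hE.sup_eq hcyc g) hcard
      have hnil : Group.IsNilpotent E := nilpotent_of hE
      have hWpos : 1 ≤ Module.finrank ℂ W := by
        rcases Nat.eq_zero_or_pos (Module.finrank ℂ W) with h0 | h0
        · rw [h0, zero_mul] at hfr; omega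
        · exact h0
      have hpn : 2 ≤ p ^ n := le_trans hp.two_le (Nat.le_self_pow (by omega) p)
      have hlt : Module.finrank ℂ W < r := by
        rw [← hr, ← hfr]
        nlinarith
      -- the representation of the centralizer on `W`
      let ρW : Subgroup.centralizer (E : Set G) →* (W →ₗ[ℂ] W) :=
        { toFun := fun d => (ρ d).restrict (hinv d d.2)
          map_one' := by
            ext w; simp
          map_mul' := by
            intro x y
            ext w; simp [Module.End.mul_apply] }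
      have hρW : Function.Injective ρW := by
        rw [injective_iff_map_eq_one]
        intro d hd
        apply Subtype.ext
        apply hfaith d d.2
        intro w hw
        exact congrArg (fun f : W →ₗ[ℂ] W => ((f ⟨w, hw⟩ : W) : V)) hd
      have h1 := IH _ hlt (Subgroup.centralizer (E : Set G)) W ρW hρW rfl hWpos
      have h2 := hSy.bound hn hIrr
      refine (KB.fit_cent E hnil h1 h2).mono ?_
      rw [← pow_add]
      apply Nat.pow_le_pow_right (by norm_num)
      rw [← hr, ← hfr]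
      obtain ⟨s, hs⟩ : ∃ s, Module.finrank ℂ W = s + 1 := ⟨_, (Nat.sub_add_cancel hWpos).symm⟩
      obtain ⟨m, hm⟩ : ∃ m, p ^ n = m + 1 := ⟨p ^ n - 1, by omega⟩
      rw [hs, hm]
      have : (s + 1) * (m + 1) = s * m + s + m + 1 := by ring
      rw [this]
      have : 0 ≤ s * m := Nat.zero_le _
      omega

theorem final (r : ℕ) (hr : 1 ≤ r) (G : Subgroup (GL (Fin r) ℂ)) [Finite ↥G] (hsolv : Group.IsSolvable ↥G)
    [hF : (Cfsg.fittingSubgroup ↥G).Normal] (H : Subgroup ↥G) :
    Nat.card (ConjClasses (↥H ⧸ (Cfsg.fittingSubgroup ↥G).subgroupOf H)) ≤ 3 ^ (r - 1) := by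
  let ρ : G →* ((Fin r → ℂ) →ₗ[ℂ] (Fin r → ℂ)) :=
    (Matrix.toLinAlgEquiv' : Matrix (Fin r) (Fin r) ℂ ≃ₐ[ℂ] _).toAlgHom.toRingHom.toMonoidHom.comp
      ((Units.coeHom _).comp G.subtype)
  have hρ : Function.Injective ρ := by
    intro x y hxy
    apply Subtype.ext
    apply Units.ext
    exact (Matrix.toLinAlgEquiv' (R := ℂ) (n := Fin r)).injective hxy
  have h := main_bound r G (Fin r → ℂ) ρ hρ (by simp) hr
  -- the quotient embeds in `G ⧸ F(G)`
  let f : ↥H →* ↥G ⧸ fittingSubgroup ↥G := (QuotientGroup.mk' (fittingSubgroup ↥G)).comp H.subtype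
  have hk : f.ker = (fittingSubgroup ↥G).subgroupOf H := by
    ext x
    simp [f, MonoidHom.mem_ker, Subgroup.mem_subgroupOf]
  have h2 := (KB.of_injective (QuotientGroup.kerLift f) (QuotientGroup.kerLift_injective f) h).self
  rw [← kc_equiv (QuotientGroup.quotientMulEquivOfEq hk)] at h2
  exact h2

end Cfsg.Agent.H97.KR
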