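import Cfsg.Agent.H97.KRDef

set_option autoImplicit false

/-!
(T2) modulo (P): the bound for an orthogonal decomposition.
-/

namespace Cfsg.Agent.H97.KR

open Cfsg

namespace T2

section
variable {n : ℕ} {U : Type} [AddCommGroup U] [Module (ZMod 2) U] [Finite U]
  {B : U →ₗ[ZMod 2] U →ₗ[ZMod 2] ZMod 2} {Y : Type} [Group Y] [Finite Y] {σ : Y →* (U →ₗ[ZMod 2] U)}

/-- the bound `b` is at least one -/
theorem one_le {m b : ℕ} (hb : ∀ (U' : Type) [AddCommGroup U'] [Module (ZMod 2) U'] [Finite U']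
      (B' : U' →ₗ[ZMod 2] U' →ₗ[ZMod 2] ZMod 2)
      (Y' : Type) [Group Y'] [Finite Y'] (σ' : Y' →* (U' →ₗ[ZMod 2] U')), Sy 2 m B' σ' → KB Y' b)
    (U' : Type) [AddCommGroup U'] [Module (ZMod 2) U'] [Finite U']
      (B' : U' →ₗ[ZMod 2] U' →ₗ[ZMod 2] ZMod 2)
      (Y' : Type) [Group Y'] [Finite Y'] (σ' : Y' →* (U' →ₗ[ZMod 2] U')) (h : Sy 2 m B' σ') : 1 ≤ b := by
  have := (hb U' B' Y' σ' h).self
  have h2 : 0 < Nat.card (ConjClasses Y') := by
    have : Finite (ConjClasses Y') := Finite.of_surjective ConjClasses.mk ConjClasses.mk_surjective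
    have : Nonempty (ConjClasses Y') := ⟨ConjClasses.mk 1⟩
    exact Nat.card_pos
  omega

/-- restriction of an endomorphism action to an invariant subspace -/
noncomputable def restr (K : Subgroup Y) (W : Submodule (ZMod 2) U) (hW : ∀ y ∈ K, ∀ w ∈ W, σ y w ∈ W) :
    K →* (W →ₗ[ZMod 2] W) where
  toFun y := (σ y).restrict (hW y y.2)
  map_one' := by
    ext w
    simp
  map_mul' x y := by
    ext w
    simp [Module.End.mul_eq_comp]

theorem restr_apply (K : Subgroup Y) (W : Submodule (ZMod 2) U) (hW : ∀ y ∈ K, ∀ w ∈ W, σ y w ∈ W) (y : K) (w : W) :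
    ((restr K W hW y w : W) : U) = σ y w := rfl

theorem mem_of_internal {t : ℕ} (W : Fin t → Submodule (ZMod 2) U) (hint : DirectSum.IsInternal W)
    (P : U → Prop) (h0 : P 0) (hadd : ∀ a b, P a → P b → P (a + b)) (hW : ∀ i, ∀ w ∈ W i, P w) (u : U) : P u := by
  have h1 : (⨆ i, W i) = ⊤ := hint.submodule_iSup_eq_top
  have h2 : u ∈ ⨆ i, W i := by rw [h1]; trivial
  induction h2 using Submodule.iSup_induction' with
  | mem i x hx => exact hW i x hx
  | zero => exact h0
  | add x y _ _ hx hy => exact hadd x y hx hy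

theorem sy_restr (h : Sy 2 n B σ) (K : Subgroup Y) {t m : ℕ} (W : Fin t → Submodule (ZMod 2) U)
    (hint : DirectSum.IsInternal W) (hcard : ∀ i, Nat.card (W i) = 2 ^ (2 * m))
    (horth : ∀ i j, i ≠ j → ∀ v ∈ W i, ∀ w ∈ W j, B v w = 0) (i : Fin t)
    (hW : ∀ y ∈ K, ∀ w ∈ W i, σ y w ∈ W i) :
    ∃ σ' : (K ⧸ (restr K (W i) hW).ker) →* ((W i) →ₗ[ZMod 2] (W i)),
      Sy 2 m ((B.domRestrict (W i)).flip.domRestrict (W i)).flip σ' := by
  refine ⟨QuotientGroup.lift (restr K (W i) hW).ker (restr K (W i) hW) le_rfl, ?_⟩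
  have hB : ∀ v w : W i, ((B.domRestrict (W i)).flip.domRestrict (W i)).flip v w = B (v : U) (w : U) := fun _ _ => rfl
  refine ⟨?_, ?_, ?_, ?_, ?_⟩
  · rw [injective_iff_map_eq_one]
    intro a ha
    obtain ⟨k, rfl⟩ := QuotientGroup.mk_surjective a
    rw [QuotientGroup.lift_mk] at ha
    exact (QuotientGroup.eq_one_iff _).2 ha
  · intro v
    rw [hB]
    exact h.alt _
  · intro v hv
    have h1 : ∀ w : U, B (v : U) w = 0 := by
      intro w
      refine mem_of_internal W hint (fun w => B (v : U) w = 0) (map_zero _) ?_ ?_ w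
      · intro a b ha hb
        rw [map_add, ha, hb, add_zero]
      · intro j w hw
        by_cases hij : i = j
        · subst hij
          have := hv ⟨w, hw⟩
          rw [hB] at this
          exact this
        · exact horth i j hij v v.2 w hw
    exact Subtype.ext (h.nd _ h1)
  · intro y v w
    obtain ⟨k, rfl⟩ := QuotientGroup.mk_surjective y
    rw [hB, hB, QuotientGroup.lift_mk, restr_apply, restr_apply]
    exact h.inv _ _ _
  · exact hcard i

theorem orth_bound_aux (hperm : ∀ (k : ℕ), 1 ≤ k → ∀ {X : Type} [Group X] [Finite X] [Group.IsSolvable X]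
    (f : X →* Equiv.Perm (Fin k)), Function.Injective f → KB X (3 ^ (k - 1)))
    (h : Sy 2 n B σ) [Group.IsSolvable Y] {t m b : ℕ} (ht : 2 ≤ t) (ho : Orth B σ t m)
    (hb : ∀ (U' : Type) [AddCommGroup U'] [Module (ZMod 2) U'] [Finite U'] (B' : U' →ₗ[ZMod 2] U' →ₗ[ZMod 2] ZMod 2)
      (Y' : Type) [Group Y'] [Finite Y'] (σ' : Y' →* (U' →ₗ[ZMod 2] U')), Sy 2 m B' σ' → KB Y' b) :
    KB Y (b ^ t * 3 ^ (t - 1)) := by
  obtain ⟨W, hint, hcard, horth, hperm'⟩ := ho
  have hext : ∀ y : Y, (∀ i, ∀ w ∈ W i, σ y w = w) → y = 1 := by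
    intro y hy
    apply h.inj
    rw [map_one]
    refine LinearMap.ext fun u => ?_
    refine mem_of_internal W hint (fun u => σ y u = (1 : U →ₗ[ZMod 2] U) u) (by simp) ?_ ?_ u
    · intro a b ha hb
      rw [map_add, map_add, ha, hb]
    · intro i w hw
      exact hy i w hw
  by_cases hm : m = 0
  · subst hm
    have hW0 : ∀ i, ∀ w ∈ W i, w = 0 := by
      intro i w hw
      have h1 : Nat.card (W i) = 1 := by rw [hcard i]; norm_num
      have h2 := (Nat.card_eq_one_iff_unique.1 h1).1
      exact congrArg Subtype.val (Subsingleton.elim (⟨w, hw⟩ : W i) 0)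
    have hsub : Subsingleton Y := by
      refine ⟨fun x y => ?_⟩
      have h1 : ∀ y : Y, y = 1 := by
        intro y
        refine hext y fun i w hw => ?_
        rw [hW0 i w hw, map_zero]
      rw [h1 x, h1 y]
    have hc : Nat.card Y ≤ 1 := by
      rw [Nat.card_of_subsingleton (1 : Y)]
    obtain ⟨σ', hσ'⟩ := sy_restr h (⊥ : Subgroup Y) W hint hcard horth ⟨0, by omega⟩ (by
      intro y hy w hw
      rw [Subgroup.mem_bot.1 hy, map_one]
      exact hw)
    have hb1 : 1 ≤ b := one_le hb _ _ _ _ hσ'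
    refine (KB.of_card hc).mono ?_
    exact Nat.one_le_iff_ne_zero.2 (Nat.mul_ne_zero (pow_ne_zero _ (by omega)) (pow_ne_zero _ (by norm_num)))
  · have hne : ∀ i, W i ≠ ⊥ := by
      intro i hi
      have h1 := hcard i
      rw [hi] at h1
      have h2 : Nat.card (⊥ : Submodule (ZMod 2) U) = 1 := by
        simp
      rw [h2] at h1
      have h3 : 1 < 2 ^ (2 * m) := Nat.one_lt_pow (by omega) (by norm_num)
      omega
    have hWinj : Function.Injective W := hint.submodule_iSupIndep.injective hne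
    choose g hg using hperm'
    have g_mul : ∀ x y i, g (x * y) i = g x (g y i) := by
      intro x y i
      apply hWinj
      rw [← hg, ← hg, ← hg, map_mul, Module.End.mul_eq_comp, Submodule.map_comp]
    have g_one : ∀ i, g 1 i = i := by
      intro i
      apply hWinj
      rw [← hg, map_one, Module.End.one_eq_id, Submodule.map_id]
    letI act : MulAction Y (Fin t) :=
      { smul := g
        one_smul := g_one
        mul_smul := g_mul }
    have smul_def : ∀ (y : Y) (i : Fin t), y • i = g y i := fun _ _ => rfl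
    let f : Y →* Equiv.Perm (Fin t) := MulAction.toPermHom Y (Fin t)
    have hK : ∀ i, ∀ y ∈ f.ker, ∀ w ∈ W i, σ y w ∈ W i := by
      intro i y hy w hw
      have h1 : g y i = i := by
        have := congrArg (fun e : Equiv.Perm (Fin t) => e i) (MonoidHom.mem_ker.1 hy)
        exact this
      have h2 := hg y i
      rw [h1] at h2
      rw [← h2]
      exact Submodule.mem_map_of_mem hw
    have hQ : ∀ i, KB (f.ker ⧸ (restr f.ker (W i) (hK i)).ker) b := by
      intro i
      obtain ⟨σ', hσ'⟩ := sy_restr h f.ker W hint hcard horth i (hK i)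
      exact hb _ _ _ _ hσ'
    have h1 := KB.pi hQ
    rw [Finset.prod_const, Finset.card_univ, Fintype.card_fin] at h1
    have h2 : KB f.ker (b ^ t) := by
      refine KB.of_injective (Pi.monoidHom fun i => QuotientGroup.mk' (restr f.ker (W i) (hK i)).ker) ?_ h1
      rw [injective_iff_map_eq_one]
      intro k hk
      have h3 : ∀ i, ∀ w ∈ W i, σ k w = w := by
        intro i w hw
        have h4 : QuotientGroup.mk' (restr f.ker (W i) (hK i)).ker k = 1 := congrFun hk i
        have h5 : k ∈ (restr f.ker (W i) (hK i)).ker := (QuotientGroup.eq_one_iff _).1 h4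
        have h6 := congrArg (fun φ : (W i →ₗ[ZMod 2] W i) => ((φ ⟨w, hw⟩ : W i) : U)) (MonoidHom.mem_ker.1 h5)
        simpa [restr_apply] using h6
      exact Subtype.ext (hext k h3)
    refine KB.of_normal f.ker h2 ?_
    exact hperm t (by omega) (QuotientGroup.kerLift f) (QuotientGroup.kerLift_injective f)

end

end T2

end Cfsg.Agent.H97.KR
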