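import Cfsg.Agent.Char.Gallagher
import Cfsg.Agent.Char.ExtCyclic
import Cfsg.Agent.Char.Values

set_option autoImplicit false

/-!
# The number of characters over an invariant character of a normal subgroup (helper74)
-/

universe u

namespace Cfsg.Agent.H97.SB

open Cfsg Cfsg.Agent.CharBase Cfsg.Agent.Char
open scoped ComplexConjugate

namespace B1

theorem char_mul_of_ker {G : Type u} [Group G] [Finite G] {χ : G → ℂ} (hχ : IsCharacter G χ) {n : G}
    (hn : χ n = χ 1) (g : G) : χ (g * n) = χ g := by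
  obtain ⟨d, ρ, rfl⟩ := hχ
  have h1 : LinearMap.trace ℂ _ (ρ n) = (Module.finrank ℂ (Fin d → ℂ) : ℂ) := by
    have h2 : ρ.character n = ρ.character 1 := hn
    rw [Representation.char_one] at h2
    exact h2
  have h3 : ρ n = 1 := (Cfsg.Agent.Char.endo_trace_eq_finrank_iff (orderOf_pos n).ne'
        (by rw [← map_pow, pow_orderOf_eq_one, map_one])).mp h1
  simp only [Representation.character, map_mul, h3, mul_one]

/-- cyclic case -/
theorem coset_cyclic {H : Type u} [Group H] [Fintype H] (N : Subgroup H) [hN : N.Normal]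
    (hcyc : IsCyclic (H ⧸ N)) {θ : N → ℂ} (hθ : IsIrrCharacter N θ) (hinv : ∀ g : H, cj N g θ = θ) :
    ∃ f : H → ℂ, ∀ χ : H → ℂ, IsCharacter H χ → (∃ c : ℂ, ∀ n : N, χ n = c * θ n) →
      ∀ g : H, ∃ c : ℂ, ∀ n : N, χ (g * n) = c * f (g * n) := by
  classical
  have : Fintype N := Fintype.ofFinite N
  have : Fintype (IrrCharacter H) := Fintype.ofFinite _
  have : Fintype (IrrCharacter N) := Fintype.ofFinite _
  obtain ⟨χ0, hχ0, hext⟩ := exists_extension_of_cyclic N hcyc hθ hinv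
  refine ⟨χ0, fun χ hχ ⟨c, hc⟩ g => ?_⟩
  have hone : IsIrrCharacter N (fun _ : N => (1 : ℂ)) := CharBase.isIrrCharacter_one
  have hmul : (fun _ : N => (1 : ℂ)) * θ = θ := by
    funext n
    simp
  have hgal := gallagher_bijOn N (fun _ : N => (1 : ℂ)) θ hone (fun g => rfl) hinv
    (by rw [hmul]; exact hθ) χ0 hχ0 hext
  rw [hmul] at hgal
  obtain ⟨e, he, hsum⟩ := exists_mult_of_isCharacter hχ
  -- every constituent is of the form `β χ0`
  have hcon : ∀ ψ : IrrCharacter H, e ψ ≠ 0 → ∃ b : ℂ, ∀ n : N, (ψ : H → ℂ) (g * n) = b * χ0 (g * n) := by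
    intro ψ hψ
    have h1 : classInner χ (ψ : H → ℂ) ≠ 0 := by
      rw [he]
      exact_mod_cast hψ
    obtain ⟨η, hη, h2⟩ := exists_constituent_restrict N (irr_isCharacter ψ) (irr_one_ne_zero ψ.2)
    have h3 : classInner (indFun N η) (ψ : H → ℂ) ≠ 0 := by
      rw [frobenius_reciprocity N η _ (irr_isClassFunction ψ)]
      intro h0
      apply h2
      rw [classInner_comm_of_isCharacter (isCharacter_restrict (irr_isCharacter ψ) N)
        (isCharacter_of_isIrr hη)]
      exact h0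
    have h4 : classInner χ (indFun N η) ≠ 0 :=
      classInner_ne_zero_of_common hχ (indFun_isCharacter N η (isCharacter_of_isIrr hη)) ψ.2 h1 h3
    have h5 : classInner (fun n : N => χ n) η ≠ 0 := by
      intro h0
      apply h4
      rw [frobenius_reciprocity' N η χ (isClassFunction_of_isCharacter hχ)]
      exact h0
    have h6 : η = θ := by
      by_contra hne
      apply h5
      have h7 : (fun n : N => χ n) = c • θ := by
        funext n
        rw [hc n]
        rfl
      rw [h7, classInner_smul_left, classInner_eq_zero_of_irr_ne hθ hη (fun h => hne h.symm), mul_zero]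
    subst h6
    obtain ⟨β, ⟨hβ, hβ1⟩, hβ2⟩ := hgal.surjOn ⟨ψ.2, h3⟩
    have h8 : classInner (fun n : N => β n) (fun _ : N => (1 : ℂ)) ≠ 0 := by
      intro h0
      apply hβ1
      rw [frobenius_reciprocity N _ _ (isClassFunction_of_isCharacter (isCharacter_of_isIrr hβ)),
        classInner_comm_of_isCharacter (isCharacter_of_isIrr hone)
          (isCharacter_restrict (isCharacter_of_isIrr hβ) N)]
      exact h0
    have h9 := restrict_eq_smul_of_invariant N hβ hone h8 (fun g => rfl)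
    have h10 : ∀ n : N, β n = β 1 := by
      intro n
      have e1 := congrFun h9 n
      have e2 := congrFun h9 1
      simp only [Pi.smul_apply, OneMemClass.coe_one] at e1 e2
      rw [e1, e2]
    refine ⟨β g, fun n => ?_⟩
    rw [← hβ2]
    change β (g * n) * χ0 (g * n) = _
    rw [char_mul_of_ker (isCharacter_of_isIrr hβ) (h10 n) g]
  choose! b hb using hcon
  refine ⟨∑ ψ : IrrCharacter H, (e ψ : ℂ) * b ψ, fun n => ?_⟩
  have h1 := congrFun hsum (g * n)
  rw [Finset.sum_apply] at h1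
  rw [h1, Finset.sum_mul]
  refine Finset.sum_congr rfl fun ψ _ => ?_
  rw [Pi.smul_apply, nsmul_eq_mul]
  by_cases h0 : e ψ = 0
  · rw [h0]; simp
  · rw [hb ψ h0 n]; ring

theorem cyclic_sup {G : Type u} [Group G] (N : Subgroup G) [hN : N.Normal] (g : G) (H : Subgroup G)
    (hH : H = N ⊔ Subgroup.zpowers g) : IsCyclic (H ⧸ N.subgroupOf H) := by
  have hg : g ∈ H := by
    rw [hH]
    exact (le_sup_right : Subgroup.zpowers g ≤ _) (Subgroup.mem_zpowers g)
  refine ⟨⟨((⟨g, hg⟩ : H) : H ⧸ N.subgroupOf H), fun x => ?_⟩⟩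
  obtain ⟨⟨h, hh⟩, rfl⟩ := QuotientGroup.mk_surjective x
  rw [hH, Subgroup.mem_sup_of_normal_left] at hh
  obtain ⟨n, hn, y, hy, rfl⟩ := hh
  obtain ⟨k, rfl⟩ := Subgroup.mem_zpowers_iff.mp hy
  refine ⟨k, ?_⟩
  change ((⟨g, hg⟩ : H) : H ⧸ N.subgroupOf H) ^ k = _
  rw [← QuotientGroup.mk_zpow, QuotientGroup.eq, Subgroup.mem_subgroupOf]
  have h1 : (((⟨g, hg⟩ : H) ^ k)⁻¹ * ⟨n * g ^ k, hh⟩ : H) = ((g ^ k)⁻¹ * n * (g ^ k)⁻¹⁻¹ : G) := by
    simp [mul_assoc]
  rw [h1]
  exact hN.conj_mem n hn _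

theorem coset_prop {G : Type u} [Group G] [Fintype G] (N : Subgroup G) [hN : N.Normal] [Fintype N]
    {θ : N → ℂ} (hθ : IsIrrCharacter N θ) (hinv : ∀ g : G, cj N g θ = θ) (g : G) :
    ∃ f : N → ℂ, ∀ χ : G → ℂ, IsIrrCharacter G χ → classInner (fun n : N => χ n) θ ≠ 0 →
      ∃ c : ℂ, ∀ n : N, χ (g * n) = c * f n := by
  classical
  obtain ⟨H, hH⟩ : ∃ H : Subgroup G, H = N ⊔ Subgroup.zpowers g := ⟨_, rfl⟩
  have hNH : N ≤ H := hH ▸ le_sup_left
  have hg : g ∈ H := by
    rw [hH]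
    exact (le_sup_right : Subgroup.zpowers g ≤ _) (Subgroup.mem_zpowers g)
  have : Fintype H := Fintype.ofFinite H
  have hN' : (N.subgroupOf H).Normal := Subgroup.normal_subgroupOf
  let e : N.subgroupOf H ≃* N := Subgroup.subgroupOfEquivOfLe hNH
  let θ' : N.subgroupOf H → ℂ := fun n => θ (e n)
  have hθ' : IsIrrCharacter (N.subgroupOf H) θ' :=
    isIrrCharacter_comp_surjective hθ e.toMonoidHom e.surjective
  have hinv' : ∀ t : H, cj (N.subgroupOf H) t θ' = θ' := by
    intro t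
    funext n
    exact congrFun (hinv t) (e n)
  obtain ⟨f, hf⟩ := coset_cyclic (N.subgroupOf H) (cyclic_sup N g H hH) hθ' hinv'
  refine ⟨fun n => f (⟨g, hg⟩ * ⟨n, hNH n.2⟩), fun χ hχ hne => ?_⟩
  have h1 := restrict_eq_smul_of_invariant N hχ hθ hne hinv
  obtain ⟨c, hc⟩ := hf (fun h : H => χ h) (isCharacter_restrict (isCharacter_of_isIrr hχ) H)
    ⟨classInner (fun n : N => χ n) θ, fun n => congrFun h1 (e n)⟩ ⟨g, hg⟩
  refine ⟨c, fun n => ?_⟩
  exact hc ⟨⟨n, hNH n.2⟩, n.2⟩

end B1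

/-- (B1) for g in G the restrictions to the coset g N of the characters over θ are proportional. -/
theorem card_over_le {G : Type u} [Group G] [Fintype G] (N : Subgroup G) [hN : N.Normal] [Fintype N]
    (θ : IrrCharacter N)
    (hinv : ∀ (g : G) (n : N), (θ : N → ℂ) ⟨g * n * g⁻¹, hN.conj_mem n n.2 g⟩ = (θ : N → ℂ) n) :
    Nat.card {χ : IrrCharacter G // classInner (fun n : N => (χ : G → ℂ) n) (θ : N → ℂ) ≠ 0} ≤
      Nat.card (ConjClasses (G ⧸ N)) := by
  classical
  have hinv' : ∀ g : G, cj N g (θ : N → ℂ) = θ := fun g => funext fun n => hinv g n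
  choose f hf using fun g : G => B1.coset_prop N θ.2 hinv' g
  have hrep : ∀ C : ConjClasses (G ⧸ N), ∃ g : G, ConjClasses.mk (g : G ⧸ N) = C := by
    intro C
    obtain ⟨x, rfl⟩ := ConjClasses.exists_rep C
    obtain ⟨g, rfl⟩ := QuotientGroup.mk_surjective x
    exact ⟨g, rfl⟩
  choose r hr using hrep
  have : Fintype (ConjClasses (G ⧸ N)) := Fintype.ofFinite _
  have : Fintype {χ : IrrCharacter G // classInner (fun n : N => (χ : G → ℂ) n) (θ : N → ℂ) ≠ 0} :=
    Fintype.ofFinite _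
  have hc : ∀ (χ : {χ : IrrCharacter G // classInner (fun n : N => (χ : G → ℂ) n) (θ : N → ℂ) ≠ 0})
      (C : ConjClasses (G ⧸ N)), ∃ c : ℂ, ∀ n : N, ((χ : IrrCharacter G) : G → ℂ) (r C * n) = c * f (r C) n :=
    fun χ C => hf (r C) _ χ.1.2 χ.2
  choose c hc using hc
  have hli : LinearIndependent ℂ c := by
    rw [Fintype.linearIndependent_iff]
    intro a ha
    have hirr := (linearIndependent_irr G).comp
      (Subtype.val : {χ : IrrCharacter G // classInner (fun n : N => (χ : G → ℂ) n) (θ : N → ℂ) ≠ 0} →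
        IrrCharacter G) Subtype.val_injective
    rw [Fintype.linearIndependent_iff] at hirr
    apply hirr a
    funext x
    have hx := hr (ConjClasses.mk (x : G ⧸ N))
    rw [ConjClasses.mk_eq_mk_iff_isConj, isConj_iff] at hx
    obtain ⟨q, hq⟩ := hx
    obtain ⟨y, rfl⟩ := QuotientGroup.mk_surjective q
    set C := ConjClasses.mk (x : G ⧸ N) with hC
    obtain ⟨n, hn⟩ : ∃ n : N, (n : G) = (r C)⁻¹ * (y⁻¹ * x * y) := by
      have h1 : (r C)⁻¹ * (y⁻¹ * x * y) ∈ N := by
        rw [← QuotientGroup.eq_one_iff]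
        have h2 : (((r C)⁻¹ * (y⁻¹ * x * y) : G) : G ⧸ N)
            = ((r C : G) : G ⧸ N)⁻¹ * ((y : G ⧸ N)⁻¹ * x * y) := rfl
        rw [h2, ← hq]
        change _ * ((y : G ⧸ N)⁻¹ * ((y : G ⧸ N) * _ * (y : G ⧸ N)⁻¹) * (y : G ⧸ N)) = 1
        group
      exact ⟨⟨_, h1⟩, rfl⟩
    have hx2 : ∀ χ : IrrCharacter G, (χ : G → ℂ) x = (χ : G → ℂ) (r C * n) := by
      intro χ
      have h1 : x = y * (r C * n) * y⁻¹ := by
        rw [hn]
        group
      rw [h1]
      exact irr_isClassFunction χ _ _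
    have h3 := congrFun ha C
    simp only [Finset.sum_apply, Pi.smul_apply, smul_eq_mul, Pi.zero_apply, Function.comp] at h3 ⊢
    calc ∑ χ, a χ * ((χ : IrrCharacter G) : G → ℂ) x
        = ∑ χ, a χ * c χ C * f (r C) n := by
          refine Finset.sum_congr rfl fun χ _ => ?_
          rw [hx2, hc]
          ring
      _ = 0 := by
          rw [← Finset.sum_mul, h3, zero_mul]
  have h := hli.fintype_card_le_finrank
  rw [Module.finrank_fintype_fun_eq_card] at h
  rw [Nat.card_eq_fintype_card, Nat.card_eq_fintype_card]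
  exact h

end Cfsg.Agent.H97.SB
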