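import Cfsg.Agent.H97.SBDef
import Cfsg.Agent.H97.SBB1
import Cfsg.Agent.H79.HeightPS
import Cfsg.Agent.S4492
import Cfsg.Agent.Solv.Core
import Cfsg.Agent.ZJ.SolvFact
import Cfsg.Agent.H75.KGV

set_option autoImplicit false
set_option linter.unusedSectionVars false
set_option linter.style.haveILetI false
set_option linter.unusedVariables false

/-!
Fong reduction: k(B) ≤ k(X), X solvable with O_p'(X) = 1 and |X|_p = p^d (S4990, piece B2)
-/

universe u

namespace Cfsg.Agent.H97.SB

open Cfsg Cfsg.Agent.CharBase Cfsg.Agent.Blk Cfsg.Agent.Char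

theorem exists_type_copy (H : Type u) [Group H] [Finite H] :
    ∃ (X : Type) (_ : Group X) (_ : Finite X), Nonempty (H ≃* X) := by
  classical
  obtain ⟨n, ⟨e⟩⟩ := Finite.exists_equiv_fin H
  exact ⟨Fin n, e.symm.group, inferInstance, ⟨@MulEquiv.mk H (Fin n) _ (e.symm.group).toMul e
    (fun x y => by
      change e (x * y) = e (e.symm (e x) * e.symm (e y))
      rw [e.symm_apply_apply, e.symm_apply_apply])⟩⟩

theorem block_le_of
    (hB1 : ∀ {G : Type u} [Group G] [Fintype G] (N : Subgroup G) [hN : N.Normal] [Fintype N]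
      (θ : IrrCharacter N)
      (_hinv : ∀ (g : G) (n : N), (θ : N → ℂ) ⟨g * n * g⁻¹, hN.conj_mem n n.2 g⟩ = (θ : N → ℂ) n),
      Nat.card {χ : IrrCharacter G // classInner (fun n : N => (χ : G → ℂ) n) (θ : N → ℂ) ≠ 0} ≤
        Nat.card (ConjClasses (G ⧸ N)))
    (p : ℕ) [Fact p.Prime] (M : Ideal AlgInt) (hM : IsPModular p M) (n : ℕ) :
    ∀ {G : Type u} [Group G] [Finite G], Nat.card G = n → Group.IsSolvable G →
    ∀ (B : Set (IrrCharacter G)), IsPBlock M B →
    ∃ (X : Type) (_ : Group X) (_ : Finite X), Group.IsSolvable X ∧ pPrimeCore p X = ⊥ ∧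
      (Nat.card X).factorization p = blockDefect p B ∧ Set.ncard B ≤ Nat.card (ConjClasses X) := by
  classical
  haveI := isPrime_of_isPModular hM
  haveI := charP_kM hM
  have hp : p.Prime := Fact.out
  induction n using Nat.strong_induction_on with
  | _ n ih =>
  intro G _ _ hGn hs B hB
  have := Fintype.ofFinite G
  have hsolv : IsPSolvable p G := ZJ.isPSolvable_of_isSolvable p hs
  obtain ⟨χ, hχ⟩ := isPBlock_nonempty hB
  set N := pPrimeCore p G with hN
  have hNn : N.Normal := inferInstance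
  have hNp : ¬ p ∣ Nat.card N := H79.not_dvd_pPrimeCore
  have := Fintype.ofFinite N
  obtain ⟨θ, hθ⟩ : ∃ θ : IrrCharacter N,
      classInner (fun n : N => (χ : G → ℂ) n) (θ : N → ℂ) ≠ 0 := by
    obtain ⟨θ, h1, h2⟩ := exists_constituent_restrict N (irr_isCharacter χ) (irr_one_ne_zero χ.2)
    exact ⟨⟨θ, h1⟩, h2⟩
  by_cases hinv : ∀ g : G, cj N g (θ : N → ℂ) = θ
  · have hinv' : ∀ (g : G) (n : N), (θ : N → ℂ) ⟨g * n * g⁻¹, hNn.conj_mem n n.2 g⟩ =
        (θ : N → ℂ) n := fun g n => congrFun (hinv g) n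
    obtain ⟨B₁, hB₁, hmem, hSyl, -⟩ := S4492.result p M hM hsolv N hN θ hinv'
    have hBB : B = B₁ := by
      rw [isPBlock_eq_blockOf hB hχ, isPBlock_eq_blockOf hB₁ ((hmem χ).2 hθ)]
    subst hBB
    obtain ⟨X, iX, fX, ⟨e⟩⟩ := exists_type_copy (G ⧸ N)
    have hcard : Nat.card X = Nat.card (G ⧸ N) := (Nat.card_congr e.toEquiv).symm
    have hGX : (Nat.card G).factorization p = (Nat.card X).factorization p := by
      have h1 := Subgroup.card_eq_card_quotient_mul_card_subgroup N
      rw [h1, Nat.factorization_mul Nat.card_pos.ne' Nat.card_pos.ne', Finsupp.add_apply,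
        Nat.factorization_eq_zero_of_not_dvd hNp, add_zero, hcard]
    refine ⟨X, iX, fX, ?_, ?_, ?_, ?_⟩
    · haveI : Group.IsSolvable (G ⧸ N) := inferInstance
      exact Group.isSolvable_of_surjective (f := e.toMonoidHom) e.surjective
    · have h0 : pPrimeCore p (G ⧸ N) = ⊥ := Solv.pPrimeCore_quotient_pPrimeCore p
      rw [← Solv.map_pPrimeCore p e, h0, Subgroup.map_bot]
    · obtain ⟨P⟩ : Nonempty (Sylow p G) := inferInstance
      have h1 := BlkInd.card_defectGroup hM hB (hSyl P)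
      have h2 := P.card_eq_multiplicity
      rw [h1] at h2
      rw [← hGX]
      exact (Nat.pow_right_injective hp.two_le h2).symm
    · have h1 := hB1 N θ hinv'
      have h2 : Set.ncard B = Nat.card {χ : IrrCharacter G //
          classInner (fun n : N => (χ : G → ℂ) n) (θ : N → ℂ) ≠ 0} := by
        rw [← Nat.card_coe_set_eq]
        exact Nat.card_congr (Equiv.subtypeEquivRight hmem)
      rw [h2]
      refine h1.trans (le_of_eq ?_)
      exact H75.card_conjClasses_congr e
  · push Not at hinv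
    obtain ⟨g₀, hg₀⟩ := hinv
    set b : Set (IrrCharacter N) := {θ} with hb
    have hbB : IsPBlock M b := H79.isPBlock_singleton hM hNp θ
    set T := H76.blockStab N b with hT
    have := Fintype.ofFinite T
    have hTG : Nat.card T < Nat.card G := by
      rcases lt_or_eq_of_le (Subgroup.card_le_card_group T) with h1 | h1
      · exact h1
      · exfalso
        have h2 : T = ⊤ := Subgroup.eq_top_of_card_eq T h1
        have h3 : g₀ ∈ T := by rw [h2]; exact Subgroup.mem_top _
        have h4 := h3 θ rfl ⟨cj N g₀ θ, Char.isIrrCharacter_cj N g₀ θ.2⟩ rfl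
        exact hg₀ (congrArg Subtype.val h4)
    have hTm : ∀ g : G, g ∈ T ↔ ∀ θ ∈ b, ∀ θ' : Cfsg.IrrCharacter N,
        (∀ n : N, (θ' : N → ℂ) n = (θ : N → ℂ) ⟨g * n * g⁻¹, hNn.conj_mem n n.2 g⟩) → θ' ∈ b :=
      fun g => H76.mem_blockStab
    obtain ⟨-, -, h3⟩ := Cfsg.Agent.S4435.result p M hM N b hbB T hTm (H76.le_blockStab N b)
    obtain ⟨B', hB', hcov, hind⟩ := h3 B hB ⟨χ, hχ, θ, rfl, hθ⟩
    obtain ⟨h4, -⟩ := Cfsg.Agent.S4436.result p M hM N b hbB T hTm (H76.le_blockStab N b)
      B' hB' hcov B hind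
    obtain ⟨B₁, hB₁, -, -, hmem⟩ := (Cfsg.Agent.S4435.result p M hM N b hbB T hTm
      (H76.le_blockStab N b)).1 B' hB' hcov
    have hBB : B = B₁ := H79.induced_unique hind hB₁
    subst hBB
    obtain ⟨D, hD⟩ := BlkInd.exists_defectGroup hM hB'
    have hDG := h4 D hD
    have hdef : blockDefect p B = blockDefect p B' := by
      have h5 := BlkInd.card_defectGroup hM hB hDG
      have h6 := BlkInd.card_defectGroup hM hB' hD
      rw [Subgroup.card_map_of_injective T.subtype_injective, h6] at h5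
      exact (Nat.pow_right_injective hp.two_le h5).symm
    have hTs : Group.IsSolvable T := inferInstance
    obtain ⟨X, iX, fX, hX1, hX2, hX3, hX4⟩ :=
      ih (Nat.card T) (by rw [← hGn]; exact hTG) (G := T) rfl hTs B' hB'
    refine ⟨X, iX, fX, hX1, hX2, by rw [hX3, hdef], le_trans ?_ hX4⟩
    have hfin : B'.Finite := Set.toFinite _
    have hex : ∀ χ' ∈ B, ∃ ψ ∈ B', (χ' : G → ℂ) = indFun T (ψ : T → ℂ) := fun χ' h => (hmem χ').1 h
    choose f hf1 hf2 using hex
    refine Set.ncard_le_ncard_of_injOn (fun χ' => if h : χ' ∈ B then f χ' h else Classical.choice ⟨f χ hχ⟩)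
      (fun χ' h => ?_) (fun χ₁ h₁ χ₂ h₂ h => ?_) hfin
    · simp only [dif_pos h]; exact hf1 χ' h
    · simp only [dif_pos h₁, dif_pos h₂] at h
      apply Subtype.ext
      rw [hf2 χ₁ h₁, hf2 χ₂ h₂, h]

/-- (B2) Fong reduction -/
theorem block_le {G : Type u} [Group G] [Finite G] (hsolv : Group.IsSolvable G) (p : ℕ) [Fact p.Prime]
    (M : Ideal AlgInt) (hM : IsPModular p M) (B : Set (IrrCharacter G)) (hB : IsPBlock M B) :
    ∃ (X : Type) (_ : Group X) (_ : Finite X), Group.IsSolvable X ∧ pPrimeCore p X = ⊥ ∧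
      (Nat.card X).factorization p = blockDefect p B ∧ Set.ncard B ≤ Nat.card (ConjClasses X) :=
  block_le_of (fun N _ _ θ h => card_over_le N θ h) p M hM (Nat.card G) rfl hsolv B hB

end Cfsg.Agent.H97.SB
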