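import Cfsg.Agent.H97.KRDef

set_option autoImplicit false

/-!
Definitions for S4990.
-/

namespace Cfsg.Agent.H97.SB

open Cfsg

/-- `W` contains a vector `v` such that the stabilizer of `v` in `S` has a self-dual submodule `U ≤ W` on
which it acts as faithfully as on `W` -/
def RealIn {p : ℕ} {V : Type} [AddCommGroup V] [Module (ZMod p) V] {F : Type} [Group F]
    (σ : F →* (V →ₗ[ZMod p] V)) (S : Subgroup F) (W : Submodule (ZMod p) V) : Prop :=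
  ∃ v ∈ W, ∃ U : Submodule (ZMod p) V, U ≤ W ∧ ∃ β : V → V → ZMod p,
    (∀ h ∈ S, σ h v = v → ∀ u ∈ U, σ h u ∈ U) ∧
    (∀ h ∈ S, σ h v = v → (∀ u ∈ U, σ h u = u) → ∀ x ∈ W, σ h x = x) ∧
    (∀ u ∈ U, ∀ u' ∈ U, ∀ w ∈ U, β (u + u') w = β u w + β u' w) ∧
    (∀ u ∈ U, ∀ w ∈ U, ∀ w' ∈ U, β u (w + w') = β u w + β u w') ∧
    (∀ h ∈ S, σ h v = v → ∀ u ∈ U, ∀ w ∈ U, β (σ h u) (σ h w) = β u w) ∧
    (∀ u ∈ U, (∀ w ∈ U, β u w = 0) → u = 0)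

end Cfsg.Agent.H97.SB
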