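import Cfsg.Agent.S4201
import Cfsg.Agent.Solv.Core
import Cfsg.Agent.H76.PSolvable
import Cfsg.Agent.ZJ.SolvFact

set_option autoImplicit false

/-!
(G1) for S4990: bound for the class number of a soluble group without normal p'-subgroup.
-/

namespace Cfsg.Agent.H97.SB

open Cfsg

private theorem core_bound_aux {p : ℕ} [Fact p.Prime]
    (hno : ∀ (X : Type) [Group X] [Finite X] [Group.IsSolvable X] (V : Subgroup X) [V.Normal], IsPGroup p V →
      ¬ p ∣ V.index → Subgroup.centralizer (V : Set X) ≤ V → ∀ m : ℕ, Nat.card V = p ^ m → 1 ≤ m →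
      Nat.card (ConjClasses X) ≤ 3 ^ (m - 1) * p ^ m) :
    ∀ (n : ℕ) (X : Type) [Group X] [Finite X] [Group.IsSolvable X], Nat.card X = n → pPrimeCore p X = ⊥ →
    Nat.card (ConjClasses X) ≤ 3 ^ ((Nat.card X).factorization p - 1) * p ^ ((Nat.card X).factorization p) := by
  intro n
  induction n using Nat.strong_induction_on with
  | _ n ih =>
  intro X _ _ _ hn hcore
  have hp : p.Prime := Fact.out
  rcases subsingleton_or_nontrivial X with hs | hnt
  · have h1 : Nat.card (ConjClasses X) ≤ Nat.card X :=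
      Nat.card_le_card_of_surjective (ConjClasses.mk (α := X)) ConjClasses.mk_surjective
    have h2 : Nat.card X = 1 := Nat.card_unique
    have h3 : 0 < 3 ^ ((Nat.card X).factorization p - 1) * p ^ ((Nat.card X).factorization p) :=
      Nat.mul_pos (pow_pos (by norm_num) _) (pow_pos hp.pos _)
    omega
  -- the normal p-subgroup
  set V : Subgroup X := pCore p X with hV
  have hVp : IsPGroup p V := Solv.pCore_isPGroup p
  have hVc : Subgroup.centralizer (V : Set X) ≤ V :=
    H76.centralizer_pCore_le (ZJ.isPSolvable_of_isSolvable p inferInstance) hcore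
  have hV1 : V ≠ ⊥ := by
    intro h
    rw [h] at hVc
    have h2 : (⊤ : Subgroup X) ≤ ⊥ := by
      refine le_trans ?_ hVc
      intro x _
      rw [Subgroup.mem_centralizer_iff]
      intro y hy
      have : y = 1 := by simpa using hy
      rw [this, one_mul, mul_one]
    have h3 : (⊥ : Subgroup X) = ⊤ := le_antisymm bot_le h2
    obtain ⟨x, hx⟩ := exists_ne (1 : X)
    have : x ∈ (⊥ : Subgroup X) := by rw [h3]; exact Subgroup.mem_top x
    exact hx (Subgroup.mem_bot.mp this)
  set Q : Subgroup (X ⧸ V) := pPrimeCore p (X ⧸ V) with hQ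
  have hQc : (Nat.card Q).Coprime p := Solv.pPrimeCore_card_coprime p
  set N : Subgroup X := Q.comap (QuotientGroup.mk' V) with hN
  have hVN : V ≤ N := by
    intro x hx
    rw [hN, Subgroup.mem_comap]
    have : QuotientGroup.mk' V x = 1 := by
      rw [QuotientGroup.mk'_apply, QuotientGroup.eq_one_iff]; exact hx
    rw [this]; exact Q.one_mem
  have hrel : V.relIndex N = Nat.card Q := by
    have h1 := Subgroup.relIndex_comap (⊥ : Subgroup (X ⧸ V)) (QuotientGroup.mk' V) N
    rw [MonoidHom.comap_bot, QuotientGroup.ker_mk', hN,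
      Subgroup.map_comap_eq_self_of_surjective (QuotientGroup.mk'_surjective V),
      Subgroup.relIndex_bot_left] at h1
    exact h1
  have hidx : ¬ p ∣ (V.subgroupOf N).index := by
    have : (V.subgroupOf N).index = V.relIndex N := rfl
    rw [this, hrel]
    intro h
    have := hp.coprime_iff_not_dvd.mp hQc.symm
    exact this h
  have hcardV : Nat.card (V.subgroupOf N) = Nat.card V :=
    Nat.card_congr (Subgroup.subgroupOfEquivOfLe hVN).toEquiv
  obtain ⟨m, hm⟩ := (IsPGroup.iff_card (p := p)).mp hVp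
  have hm1 : 1 ≤ m := by
    rcases Nat.eq_zero_or_pos m with h0 | h0
    · exfalso
      rw [h0, pow_zero] at hm
      exact hV1 (Subgroup.card_eq_one.mp hm)
    · exact h0
  have hk1 : Nat.card (ConjClasses N) ≤ 3 ^ (m - 1) * p ^ m := by
    refine hno N (V.subgroupOf N) ?_ hidx ?_ m (hcardV.trans hm) hm1
    · exact hVp.comap_subtype
    · intro x hx
      rw [Subgroup.mem_subgroupOf]
      apply hVc
      rw [Subgroup.mem_centralizer_iff] at hx ⊢
      intro y hy
      have := hx ⟨y, hVN hy⟩ (by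
        show (⟨y, hVN hy⟩ : N) ∈ V.subgroupOf N
        rw [Subgroup.mem_subgroupOf]; exact hy)
      exact congrArg Subtype.val this
  -- the quotient
  have hmapN : N.map (QuotientGroup.mk' V) = Q :=
    Subgroup.map_comap_eq_self_of_surjective (QuotientGroup.mk'_surjective V) Q
  have hcoreQ : pPrimeCore p (X ⧸ N) = ⊥ := by
    let e : ((X ⧸ V) ⧸ Q) ≃* (X ⧸ N) :=
      (QuotientGroup.quotientMulEquivOfEq hmapN.symm).trans
        (QuotientGroup.quotientQuotientEquivQuotient V N hVN)
    have h1 := Solv.map_pPrimeCore p e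
    have h2 : pPrimeCore p ((X ⧸ V) ⧸ Q) = ⊥ := Solv.pPrimeCore_quotient_pPrimeCore (G := X ⧸ V) p
    rw [← h1, h2, Subgroup.map_bot]
  have hN1 : N ≠ ⊥ := fun h => hV1 (le_bot_iff.mp (h ▸ hVN))
  have hcardX : Nat.card X = Nat.card (X ⧸ N) * Nat.card N := Subgroup.card_eq_card_quotient_mul_card_subgroup N
  have hlt : Nat.card (X ⧸ N) < n := by
    rw [← hn, hcardX]
    have h1 : 0 < Nat.card (X ⧸ N) := Nat.card_pos
    have h2 : 1 < Nat.card N := (Subgroup.one_lt_card_iff_ne_bot N).mpr hN1
    exact lt_mul_of_one_lt_right h1 h2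
  have hk2 := ih _ hlt (X ⧸ N) rfl hcoreQ
  have hcardN : Nat.card N = p ^ m * Nat.card Q := by
    have h1 := Subgroup.card_mul_index (V.subgroupOf N)
    have h2 : (V.subgroupOf N).index = Nat.card Q := hrel
    rw [hcardV, hm, h2] at h1
    exact h1.symm
  have hfN : (Nat.card N).factorization p = m := by
    rw [hcardN, Nat.factorization_mul (pow_pos hp.pos m).ne' Nat.card_pos.ne', Finsupp.add_apply,
      Nat.Prime.factorization_pow hp, Finsupp.single_eq_same,
      Nat.factorization_eq_zero_of_not_dvd (hp.coprime_iff_not_dvd.mp hQc.symm), add_zero]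
  have hfX : (Nat.card X).factorization p = (Nat.card (X ⧸ N)).factorization p + m := by
    rw [hcardX, Nat.factorization_mul Nat.card_pos.ne' Nat.card_pos.ne', Finsupp.add_apply, hfN]
  have hk := Cfsg.Agent.S4201.result N
  rw [hfX]
  set d := (Nat.card (X ⧸ N)).factorization p with hd
  calc Nat.card (ConjClasses X) ≤ Nat.card (ConjClasses N) * Nat.card (ConjClasses (X ⧸ N)) := hk
    _ ≤ (3 ^ (m - 1) * p ^ m) * (3 ^ (d - 1) * p ^ d) := Nat.mul_le_mul hk1 hk2
    _ = 3 ^ ((m - 1) + (d - 1)) * p ^ (d + m) := by rw [pow_add, pow_add]; ring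
    _ ≤ 3 ^ (d + m - 1) * p ^ (d + m) :=
      Nat.mul_le_mul_right _ (Nat.pow_le_pow_right (by norm_num) (by omega))

/-- (G1) induction on |X|. -/
theorem core_bound {X : Type} [Group X] [Finite X] [Group.IsSolvable X] {p : ℕ} [Fact p.Prime]
    (hno : ∀ (X : Type) [Group X] [Finite X] [Group.IsSolvable X] (V : Subgroup X) [V.Normal], IsPGroup p V →
      ¬ p ∣ V.index → Subgroup.centralizer (V : Set X) ≤ V → ∀ m : ℕ, Nat.card V = p ^ m → 1 ≤ m →
      Nat.card (ConjClasses X) ≤ 3 ^ (m - 1) * p ^ m)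
    (hcore : pPrimeCore p X = ⊥) :
    Nat.card (ConjClasses X) ≤ 3 ^ ((Nat.card X).factorization p - 1) * p ^ ((Nat.card X).factorization p) :=
  core_bound_aux hno _ X rfl hcore

end Cfsg.Agent.H97.SB
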