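import Cfsg.Agent.S4201
import Cfsg.Agent.Solv.Core
import Cfsg.Agent.Solv.Frattini
import Cfsg.Agent.S0029

set_option autoImplicit false

/-!
(G2) for S4990: reduction to elementary abelian normal subgroups.
-/

namespace Cfsg.Agent.H97.SB

open Cfsg
open scoped commutatorElement

/-- elements acting trivially on the Frattini quotient of a self-centralizing normal `p`-subgroup of index
prime to `p` lie in it -/
private theorem mem_of_comm_frattini {X : Type} [Group X] [Finite X] {p : ℕ} [Fact p.Prime]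
    (V : Subgroup X) [V.Normal] (hVp : IsPGroup p V) (hidx : ¬ p ∣ V.index)
    (hself : Subgroup.centralizer (V : Set X) ≤ V) (x : X)
    (hx : ∀ v ∈ V, x * v * x⁻¹ * v⁻¹ ∈ (frattini V).map V.subtype)
    : x ∈ V := by
  classical
  have hp : p.Prime := Fact.out
  have hx0 : orderOf x ≠ 0 := (orderOf_pos x).ne'
  obtain ⟨j, b, hb, hjb⟩ := Nat.exists_eq_pow_mul_and_not_dvd hx0 p hp.ne_one
  set N : Subgroup X := (frattini V).map V.subtype with hNdef
  -- the subgroup of the elements acting trivially on `V/N`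
  let D : Subgroup X :=
    { carrier := {y | ∀ v ∈ V, y * v * y⁻¹ * v⁻¹ ∈ N}
      one_mem' := by
        intro v _
        simp only [one_mul, inv_one, mul_one, mul_inv_cancel]
        exact N.one_mem
      mul_mem' := by
        intro y z hy hz v hv
        have h1 := hy (z * v * z⁻¹) ((inferInstance : V.Normal).conj_mem v hv z)
        have h2 := hz v hv
        have h3 := N.mul_mem h1 h2
        have h4 : y * z * v * (y * z)⁻¹ * v⁻¹
            = y * (z * v * z⁻¹) * y⁻¹ * (z * v * z⁻¹)⁻¹ * (z * v * z⁻¹ * v⁻¹) := by group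
        rw [h4]; exact h3
      inv_mem' := by
        intro y hy v hv
        have h1 := hy (y⁻¹ * v * y) (by
          have := (inferInstance : V.Normal).conj_mem v hv y⁻¹
          rwa [inv_inv] at this)
        have h2 := N.inv_mem h1
        have h4 : y⁻¹ * v * y⁻¹⁻¹ * v⁻¹ = (y * (y⁻¹ * v * y) * y⁻¹ * (y⁻¹ * v * y)⁻¹)⁻¹ := by group
        rw [h4]; exact h2 }
  have hxD : x ∈ D := hx
  set a := x ^ (p ^ j) with ha
  have haD : a ∈ D := D.pow_mem hxD _
  have hoa : orderOf a = b := by
    rw [ha, orderOf_pow_of_dvd (pow_pos hp.pos j).ne' ⟨b, hjb⟩, hjb]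
    exact Nat.mul_div_cancel_left b (pow_pos hp.pos j)
  have hcopb : ∀ k : ℕ, b.Coprime (p ^ k) := fun k =>
    Nat.Coprime.pow_right k ((hp.coprime_iff_not_dvd.mpr hb).symm)
  have haC : a ∈ Subgroup.centralizer (V : Set X) := by
    have hle : Subgroup.zpowers a ≤ Subgroup.centralizer (V : Set X) := by
      apply Cfsg.Agent.S0029.result (Subgroup.zpowers a) V
      · intro y _
        have : Subgroup.normalizer (V : Set X) = ⊤ := Subgroup.normalizer_eq_top V
        rw [this]; exact Subgroup.mem_top y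
      · rw [Nat.card_zpowers, hoa]
        have hfp : IsPGroup p (frattini V) := hVp.to_subgroup _
        obtain ⟨k, hk⟩ := (IsPGroup.iff_card (p := p)).mp hfp
        rw [hk]; exact hcopb k
      · intro y hy v hv
        have hyD : y ∈ D := (Subgroup.zpowers_le.mpr haD) hy
        exact hyD v hv
    exact hle (Subgroup.mem_zpowers a)
  have haV : a ∈ V := hself haC
  obtain ⟨m, hm⟩ := (IsPGroup.iff_card (p := p)).mp hVp
  have hb1 : b = 1 := by
    have h1 : orderOf a ∣ Nat.card V := Subgroup.orderOf_dvd_natCard V haV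
    rw [hoa, hm] at h1
    exact Nat.Coprime.eq_one_of_dvd (hcopb m) h1
  have hx1 : x ^ (p ^ j) = 1 := by
    rw [← ha, ← orderOf_eq_one_iff, hoa, hb1]
  have hcop2 : (p ^ j).Coprime V.index := Nat.Coprime.pow_left j (hp.coprime_iff_not_dvd.mpr hidx)
  have h1 : orderOf (x : X ⧸ V) ∣ p ^ j := by
    apply orderOf_dvd_of_pow_eq_one
    rw [← QuotientGroup.mk_pow, hx1, QuotientGroup.mk_one]
  have h2 : orderOf (x : X ⧸ V) ∣ V.index := orderOf_dvd_natCard _
  have h3 : orderOf (x : X ⧸ V) = 1 := Nat.eq_one_of_dvd_coprimes hcop2 h1 h2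
  rw [orderOf_eq_one_iff] at h3
  exact (QuotientGroup.eq_one_iff x).mp h3

/-- (G2) -/
theorem norm_bound {X : Type} [Group X] [Finite X] [Group.IsSolvable X] {p : ℕ} [Fact p.Prime]
    (hel : ∀ (X : Type) [Group X] [Finite X] [Group.IsSolvable X] (V : Subgroup X) [V.Normal], (∀ v ∈ V, v ^ p = 1) →
      ¬ p ∣ V.index → Subgroup.centralizer (V : Set X) = V → ∀ m : ℕ, Nat.card V = p ^ m → 1 ≤ m →
      Nat.card (ConjClasses X) ≤ 3 ^ (m - 1) * p ^ m)
    (V : Subgroup X) [V.Normal] (hVp : IsPGroup p V) (hidx : ¬ p ∣ V.index)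
    (hself : Subgroup.centralizer (V : Set X) ≤ V) {m : ℕ} (hm : Nat.card V = p ^ m) (hm1 : 1 ≤ m) :
    Nat.card (ConjClasses X) ≤ 3 ^ (m - 1) * p ^ m := by
  classical
  have hp : p.Prime := Fact.out
  set N : Subgroup X := (frattini V).map V.subtype with hNdef
  have hNn : N.Normal := by
    rw [hNdef]; infer_instance
  have hNV : N ≤ V := by
    rw [hNdef]; exact Subgroup.map_subtype_le _
  have hVnt : Nontrivial V := by
    have : 1 < Nat.card V := by
      rw [hm]; exact Nat.one_lt_pow (by omega) hp.one_lt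
    exact Finite.one_lt_card_iff_nontrivial.mp this
  have hNneV : N ≠ V := by
    intro h
    have h1 : frattini V = ⊤ := by
      have h2 : (frattini V).map V.subtype = (⊤ : Subgroup V).map V.subtype := by
        rw [← hNdef, h, ← MonoidHom.range_eq_map, Subgroup.range_subtype]
      exact Subgroup.map_injective V.subtype_injective h2
    have h3 := Solv.prime_dvd_index_frattini (G := V) p hp (by
      rw [hm]; exact dvd_pow_self p (by omega))
    rw [h1, Subgroup.index_top] at h3
    exact hp.one_lt.ne' (Nat.dvd_one.mp h3)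
  set W : Subgroup (X ⧸ N) := V.map (QuotientGroup.mk' N) with hW
  have hWn : W.Normal := Subgroup.Normal.map inferInstance _ (QuotientGroup.mk'_surjective N)
  have hWp : IsPGroup p W := hVp.map _
  obtain ⟨m', hm'⟩ := (IsPGroup.iff_card (p := p)).mp hWp
  -- elements of V
  have hcomm : ∀ a ∈ V, ∀ b ∈ V, a * b * a⁻¹ * b⁻¹ ∈ N := by
    intro a ha b hb
    have h1 : (⁅(⟨a, ha⟩ : V), ⟨b, hb⟩⁆ : V) ∈ frattini V := by
      apply Solv.commutator_le_frattini_of_pGroup hVp
      rw [commutator_def]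
      exact Subgroup.commutator_mem_commutator (Subgroup.mem_top _) (Subgroup.mem_top _)
    exact ⟨_, h1, rfl⟩
  have hpow : ∀ a ∈ V, a ^ p ∈ N := by
    intro a ha
    exact ⟨_, Solv.pow_mem_frattini_of_pGroup hVp (⟨a, ha⟩ : V), rfl⟩
  have hWexp : ∀ v ∈ W, v ^ p = 1 := by
    rintro _ ⟨v, hv, rfl⟩
    rw [← map_pow, QuotientGroup.mk'_apply, QuotientGroup.eq_one_iff]
    exact hpow v hv
  have hWidx : ¬ p ∣ W.index := fun h =>
    hidx (h.trans (Subgroup.index_map_dvd V (QuotientGroup.mk'_surjective N)))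
  have hWself : Subgroup.centralizer (W : Set (X ⧸ N)) = W := by
    apply le_antisymm
    · intro y hy
      obtain ⟨x, rfl⟩ := QuotientGroup.mk'_surjective N y
      rw [Subgroup.mem_centralizer_iff] at hy
      refine ⟨x, ?_, rfl⟩
      refine mem_of_comm_frattini V hVp hidx hself x ?_
      intro v hv
      have h1 := hy (QuotientGroup.mk' N v) ⟨v, hv, rfl⟩
      have h2 : QuotientGroup.mk' N (x * v * x⁻¹ * v⁻¹) = 1 := by
        rw [map_mul, map_mul, map_mul, ← h1, map_inv, map_inv]; group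
      rw [QuotientGroup.mk'_apply, QuotientGroup.eq_one_iff] at h2
      exact h2
    · rintro _ ⟨a, ha, rfl⟩
      rw [Subgroup.mem_centralizer_iff]
      rintro _ ⟨b, hb, rfl⟩
      rw [← map_mul, ← map_mul, QuotientGroup.mk'_apply, QuotientGroup.mk'_apply, QuotientGroup.eq]
      have h1 := hcomm a⁻¹ (V.inv_mem ha) b⁻¹ (V.inv_mem hb)
      have h3 : (b * a)⁻¹ * (a * b) = a⁻¹ * b⁻¹ * a⁻¹⁻¹ * b⁻¹⁻¹ := by group
      rw [h3]; exact h1
  -- orders
  have hcardN : Nat.card V = Nat.card N * Nat.card W := by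
    have h1 := Subgroup.card_mul_index (N.subgroupOf V)
    have h2 : Nat.card (N.subgroupOf V) = Nat.card N :=
      Nat.card_congr (Subgroup.subgroupOfEquivOfLe hNV).toEquiv
    have h3 : (N.subgroupOf V).index = Nat.card W := by
      have h4 := Subgroup.relIndex_comap (⊥ : Subgroup (X ⧸ N)) (QuotientGroup.mk' N) V
      rw [MonoidHom.comap_bot, QuotientGroup.ker_mk', Subgroup.relIndex_bot_left] at h4
      exact h4
    rw [h2, h3] at h1
    exact h1.symm
  have hm'1 : 1 ≤ m' := by
    rcases Nat.eq_zero_or_pos m' with h0 | h0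
    · exfalso
      rw [h0, pow_zero] at hm'
      rw [hm', mul_one] at hcardN
      exact hNneV (Subgroup.eq_of_le_of_card_ge hNV hcardN.le)
    · exact h0
  have hm'm : m' ≤ m := by
    have h1 : p ^ m' ∣ p ^ m := by
      rw [← hm, ← hm', hcardN]; exact Dvd.intro_left _ rfl
    exact (Nat.pow_dvd_pow_iff_le_right hp.one_lt).mp h1
  have hkQ : Nat.card (ConjClasses (X ⧸ N)) ≤ 3 ^ (m' - 1) * p ^ m' :=
    hel (X ⧸ N) W hWexp hWidx hWself m' hm' hm'1
  have hkN : Nat.card (ConjClasses N) ≤ Nat.card N :=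
    Nat.card_le_card_of_surjective (ConjClasses.mk (α := N)) ConjClasses.mk_surjective
  have hk := Cfsg.Agent.S4201.result N
  calc Nat.card (ConjClasses X) ≤ Nat.card (ConjClasses N) * Nat.card (ConjClasses (X ⧸ N)) := hk
    _ ≤ Nat.card N * (3 ^ (m' - 1) * p ^ m') := Nat.mul_le_mul hkN hkQ
    _ = 3 ^ (m' - 1) * (Nat.card N * Nat.card W) := by rw [hm']; ring
    _ = 3 ^ (m' - 1) * p ^ m := by rw [← hcardN, hm]
    _ ≤ 3 ^ (m - 1) * p ^ m :=
      Nat.mul_le_mul_right _ (Nat.pow_le_pow_right (by norm_num) (by omega))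

end Cfsg.Agent.H97.SB
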