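import Cfsg.Agent.H97.SBL
import Cfsg.Agent.H97.SBDef
import Cfsg.Agent.H97.Gal

set_option autoImplicit false

/-!
(G3) for S4990: solvable groups with an elementary abelian normal Sylow subgroup.
-/

namespace Cfsg.Agent.H97.SB

open Cfsg

/-- the complement as a group of matrices -/
theorem G3.exists_GL {X : Type} [Group X] [Finite X] {p : ℕ} [Fact p.Prime] (V : Subgroup X) [hVn : V.Normal]
    {A : Type} [AddCommGroup A] [Module (ZMod p) A] [Finite A] (t : A → X) (ht0 : t 0 = 1)
    (ht : ∀ a b, t (a + b) = t a * t b) (hinj : Function.Injective t) (hV : ∀ x, x ∈ V ↔ ∃ a, t a = x)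
    (H : Subgroup X) (hH : ∀ h ∈ H, (∀ v ∈ V, h * v = v * h) → h = 1) {m : ℕ} (hm : Nat.card V = p ^ m) :
    ∃ ρ : H →* Matrix.GeneralLinearGroup (Fin m) (ZMod p), Function.Injective ρ := by
  classical
  have htV : ∀ a, t a ∈ V := fun a => (hV _).mpr ⟨a, rfl⟩
  have hex : ∀ (h : H) (a : A), ∃ b, t b = (h : X) * t a * (h : X)⁻¹ := fun h a =>
    (hV _).mp (hVn.conj_mem _ (htV a) _)
  choose c hc using hex
  let σ : H →* (A →ₗ[ZMod p] A) :=
    { toFun := fun h => AddMonoidHom.toZModLinearMap p
        { toFun := c h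
          map_zero' := by
            apply hinj
            rw [hc, ht0, mul_one, mul_inv_cancel]
          map_add' := by
            intro x y
            apply hinj
            rw [hc, ht, ht, hc, hc]
            group }
      map_one' := by
        refine LinearMap.ext (fun x => ?_)
        apply hinj
        change t (c 1 x) = t x
        rw [hc, Subgroup.coe_one]
        group
      map_mul' := by
        intro g h
        refine LinearMap.ext (fun x => ?_)
        apply hinj
        change t (c (g * h) x) = t (c g (c h x))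
        rw [hc, hc, hc, Subgroup.coe_mul]
        group }
  have hσ : ∀ (h : H) (x : A), t (σ h x) = (h : X) * t x * (h : X)⁻¹ := fun h x => hc h x
  have hinjσ : Function.Injective σ := by
    intro g h hgh
    have h1 : (g : X)⁻¹ * h = 1 := by
      apply hH _ (H.mul_mem (H.inv_mem g.2) h.2)
      intro v hv
      obtain ⟨a, rfl⟩ := (hV v).mp hv
      have h2 : (g : X) * t a * (g : X)⁻¹ = (h : X) * t a * (h : X)⁻¹ := by rw [← hσ, ← hσ, hgh]
      have h3 : (g : X)⁻¹ * ((g : X) * t a * (g : X)⁻¹) * h = (g : X)⁻¹ * ((h : X) * t a * (h : X)⁻¹) * h := by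
        rw [h2]
      have e1 : (g : X)⁻¹ * ((g : X) * t a * (g : X)⁻¹) * h = t a * ((g : X)⁻¹ * h) := by group
      have e2 : (g : X)⁻¹ * ((h : X) * t a * (h : X)⁻¹) * h = (g : X)⁻¹ * h * t a := by group
      rw [e1, e2] at h3
      exact h3.symm
    exact Subtype.ext (inv_mul_eq_one.mp h1)
  have hcardA : Nat.card A = p ^ m := by
    rw [← hm]
    exact Nat.card_congr (Equiv.ofBijective (fun a => (⟨t a, htV a⟩ : V))
      ⟨fun a b h => hinj (congrArg Subtype.val h), fun v => by
        obtain ⟨a, ha⟩ := (hV v).mp v.2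
        exact ⟨a, Subtype.ext ha⟩⟩)
  have hfin : Module.finrank (ZMod p) A = m := by
    have h1 : Nat.card A = Nat.card (ZMod p) ^ Module.finrank (ZMod p) A := Module.natCard_eq_pow_finrank
    rw [Nat.card_zmod, hcardA] at h1
    exact (Nat.pow_right_injective (Fact.out : p.Prime).two_le h1).symm
  let b : Module.Basis (Fin m) (ZMod p) A := Module.finBasisOfFinrankEq (ZMod p) A hfin
  refine ⟨(Units.map (LinearMap.toMatrixAlgEquiv b).toRingEquiv.toRingHom.toMonoidHom).comp σ.toHomUnits, ?_⟩
  intro g h hgh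
  apply hinjσ
  have h1 := congrArg Units.val hgh
  exact (LinearMap.toMatrixAlgEquiv b).injective h1

theorem G3.exists_GL' {X : Type} [Group X] [Finite X] {p : ℕ} [Fact p.Prime] (V : Subgroup X) [V.Normal]
    (hVc : ∀ a ∈ V, ∀ b ∈ V, a * b = b * a) (hVexp : ∀ v ∈ V, v ^ p = 1)
    (H : Subgroup X) (hH : ∀ h ∈ H, (∀ v ∈ V, h * v = v * h) → h = 1) {m : ℕ} (hm : Nat.card V = p ^ m) :
    ∃ ρ : H →* Matrix.GeneralLinearGroup (Fin m) (ZMod p), Function.Injective ρ := by
  let _ : CommGroup V := { (inferInstance : Group V) with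
    mul_comm := fun a b => Subtype.ext (hVc a a.2 b b.2) }
  let _ : Module (ZMod p) (Additive V) := AddCommGroup.zmodModule (n := p) (fun x => by
    have h : (Additive.toMul x) ^ p = 1 := Subtype.ext (hVexp _ (Additive.toMul x).2)
    exact congrArg Additive.ofMul h)
  exact G3.exists_GL V (A := Additive V) (fun x => ((Additive.toMul x : V) : X)) rfl (fun a b => rfl)
    (fun a b h => Additive.toMul.injective (Subtype.ext h))
    (fun x => ⟨fun hx => ⟨Additive.ofMul ⟨x, hx⟩, rfl⟩, by rintro ⟨a, rfl⟩; exact (Additive.toMul a).2⟩)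
    H hH hm

/-- (G3) -/
theorem elem_bound {X : Type} [Group X] [Finite X] [Group.IsSolvable X] {p : ℕ} [Fact p.Prime]
    (hB : ∀ m, KR.Bd m)
    (hkn : ∀ (X : Type) [Group X] [Finite X] (V : Subgroup X) [V.Normal], (∀ v ∈ V, v ^ p = 1) → ¬ p ∣ V.index →
      Subgroup.centralizer (V : Set X) = V → ∀ G : Subgroup X, Subgroup.IsComplement' V G → Group.IsNilpotent G →
      Nat.card (ConjClasses X) ≤ Nat.card V)
    (V : Subgroup X) [V.Normal]
    (hVexp : ∀ v ∈ V, v ^ p = 1) (hidx : ¬ p ∣ V.index) (hself : Subgroup.centralizer (V : Set X) = V)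
    {m : ℕ} (hm : Nat.card V = p ^ m) (hm1 : 1 ≤ m) :
    Nat.card (ConjClasses X) ≤ 3 ^ (m - 1) * p ^ m := by
  classical
  have hp : p.Prime := Fact.out
  have hVc : ∀ a ∈ V, ∀ b ∈ V, a * b = b * a := by
    intro a ha b hb
    have h1 : b ∈ Subgroup.centralizer (V : Set X) := by rw [hself]; exact hb
    exact Subgroup.mem_centralizer_iff.mp h1 a ha
  have hcop : (Nat.card V).Coprime V.index := by
    rw [hm]
    exact Nat.Coprime.pow_left _ ((Nat.Prime.coprime_iff_not_dvd hp).mpr hidx)
  obtain ⟨H, hH⟩ := Subgroup.exists_right_complement'_of_coprime hcop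
  have hcH : ¬ p ∣ Nat.card H := by
    rw [← hH.symm.index_eq_card]; exact hidx
  have hdisj : ∀ x, x ∈ V → x ∈ H → x = 1 := fun x h1 h2 => Subgroup.disjoint_def.mp hH.disjoint h1 h2
  have hHV : ∀ h ∈ H, (∀ v ∈ V, h * v = v * h) → h = 1 := by
    intro h hh hv
    apply hdisj h ?_ hh
    rw [← hself, Subgroup.mem_centralizer_iff]
    exact fun v hv' => (hv v hv').symm
  -- the class number of `H / F(H)`
  obtain ⟨ρ0, hρ0⟩ := G3.exists_GL' V hVc hVexp H hHV hm
  obtain ⟨ρ1, hρ1⟩ := lift hcH ρ0 hρ0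
  let ρ : H →* ((Fin m → ℂ) →ₗ[ℂ] (Fin m → ℂ)) :=
    (Matrix.toLinAlgEquiv' : Matrix (Fin m) (Fin m) ℂ ≃ₐ[ℂ] _).toAlgHom.toRingHom.toMonoidHom.comp
      ((Units.coeHom _).comp ρ1)
  have hρ : Function.Injective ρ := by
    intro x y hxy
    apply hρ1
    apply Units.ext
    exact (Matrix.toLinAlgEquiv' (R := ℂ) (n := Fin m)).injective hxy
  have hKB : KR.KB (H ⧸ fittingSubgroup H) (3 ^ (m - 1)) := hB m H (Fin m → ℂ) ρ hρ (by simp) hm1
  -- the projection to the complement
  have hmul : ∀ x : X, ∃ h : H, x * (h : X)⁻¹ ∈ V := by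
    intro x
    obtain ⟨⟨v, h⟩, hvh⟩ := hH.2 x
    refine ⟨h, ?_⟩
    simp only at hvh
    rw [← hvh, mul_inv_cancel_right]
    exact v.2
  choose π0 hπ0 using hmul
  have huniq : ∀ (x : X) (h : H), x * (h : X)⁻¹ ∈ V → h = π0 x := by
    intro x h hx
    have h1 := V.mul_mem (V.inv_mem hx) (hπ0 x)
    have e1 : (x * (h : X)⁻¹)⁻¹ * (x * (π0 x : X)⁻¹) = (h : X) * (π0 x : X)⁻¹ := by group
    rw [e1] at h1
    have := hdisj _ h1 (H.mul_mem h.2 (H.inv_mem (π0 x).2))
    exact Subtype.ext (mul_inv_eq_one.mp this)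
  let π : X →* H := MonoidHom.mk' π0 (by
    intro x y
    symm
    apply huniq
    have h1 := hπ0 x
    have h2 := hπ0 y
    have h3 := (inferInstance : V.Normal).conj_mem _ h2 (x : X)
    have h4 := V.mul_mem h3 h1
    have e1 : x * (y * (π0 y : X)⁻¹) * x⁻¹ * (x * (π0 x : X)⁻¹) = x * y * ((π0 x * π0 y : H) : X)⁻¹ := by
      rw [Subgroup.coe_mul]
      group
    rw [← e1]; exact h4)
  have hπ : ∀ x, x * (π x : X)⁻¹ ∈ V := hπ0
  have hπH : ∀ h : H, π h = h := fun h => (huniq _ h (by rw [mul_inv_cancel]; exact V.one_mem)).symm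
  have hπV : ∀ x, π x = 1 ↔ x ∈ V := by
    intro x
    constructor
    · intro h
      have := hπ x
      rwa [h, Subgroup.coe_one, inv_one, mul_one] at this
    · intro h
      exact (huniq x 1 (by rw [Subgroup.coe_one, inv_one, mul_one]; exact h)).symm
  have hFn : (fittingSubgroup H).Normal := inferInstance
  let f : X →* H ⧸ fittingSubgroup H := (QuotientGroup.mk' (fittingSubgroup H)).comp π
  have hf : Function.Surjective f := by
    intro y
    obtain ⟨h, rfl⟩ := QuotientGroup.mk'_surjective _ y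
    exact ⟨h, by show QuotientGroup.mk' _ (π h) = _; rw [hπH]⟩
  have hker : ∀ x, x ∈ f.ker ↔ π x ∈ fittingSubgroup H := by
    intro x
    rw [MonoidHom.mem_ker]
    exact QuotientGroup.eq_one_iff _
  have h1 := Cfsg.Agent.H97.Gal.result f.ker
  have h2 : Nat.card (ConjClasses (X ⧸ f.ker)) ≤ 3 ^ (m - 1) := by
    rw [← KR.kc_equiv (QuotientGroup.quotientKerEquivOfSurjective f hf)]
    exact hKB.self
  -- the class number of the kernel
  let N := f.ker
  have hVN : V ≤ N := by
    intro v hv
    show v ∈ f.ker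
    rw [hker, (hπV v).mpr hv]
    exact Subgroup.one_mem _
  let V' : Subgroup N := V.subgroupOf N
  have hV'n : V'.Normal := Subgroup.normal_subgroupOf
  let G' : Subgroup N := H.subgroupOf N
  have h3 : Nat.card (ConjClasses N) ≤ Nat.card V' := by
    refine hkn N V' ?_ ?_ ?_ G' ?_ ?_
    · intro v hv
      exact Subtype.ext (hVexp v hv)
    · intro h
      apply hidx
      have : V'.index = V.relIndex N := rfl
      rw [this] at h
      exact h.trans ⟨N.index, (Subgroup.relIndex_mul_index hVN).symm⟩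
    · ext x
      rw [Subgroup.mem_centralizer_iff]
      constructor
      · intro hx
        show (x : X) ∈ V
        rw [← hself, Subgroup.mem_centralizer_iff]
        intro v hv
        exact congrArg Subtype.val (hx ⟨v, hVN hv⟩ hv)
      · intro hx v hv
        exact Subtype.ext (hVc v hv x hx)
    · apply Subgroup.isComplement'_of_disjoint_and_mul_eq_univ
      · rw [Subgroup.disjoint_def]
        intro x hx1 hx2
        exact Subtype.ext (hdisj x hx1 hx2)
      · rw [Set.eq_univ_iff_forall]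
        intro x
        have h4 := hπ (x : X)
        have h5 : (π x : X) ∈ N := by
          have : (π x : X) = (x * (π x : X)⁻¹)⁻¹ * x := by group
          rw [this]
          exact N.mul_mem (N.inv_mem (hVN h4)) x.2
        refine Set.mem_mul.mpr ⟨⟨x * (π x : X)⁻¹, hVN h4⟩, h4, ⟨π x, h5⟩, (π x).2, ?_⟩
        apply Subtype.ext
        show (x : X) * (π x : X)⁻¹ * (π x : X) = x
        group
    · let g : G' →* fittingSubgroup H :=
        { toFun := fun x => ⟨π x, (hker _).mp x.1.2⟩
          map_one' := by apply Subtype.ext; show π 1 = 1; exact map_one π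
          map_mul' := fun x y => by apply Subtype.ext; exact map_mul π _ _ }
      have hg : Function.Injective g := by
        rw [injective_iff_map_eq_one]
        intro x hx
        have h4 : π (x : X) = 1 := congrArg Subtype.val hx
        rw [hπV] at h4
        exact Subtype.ext (Subtype.ext (hdisj x h4 x.2))
      have hnil : Group.IsNilpotent (fittingSubgroup H) := Cfsg.Agent.Solv.fitting_isNilpotent
      have hnil2 : Group.IsNilpotent g.range := Subgroup.isNilpotent g.range
      exact (Group.nilpotent_of_mulEquiv (MonoidHom.ofInjective hg).symm)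
  have h6 : Nat.card V' = p ^ m := by
    rw [← hm]
    exact Nat.card_congr (Subgroup.subgroupOfEquivOfLe hVN).toEquiv
  rw [h6] at h3
  calc Nat.card (ConjClasses X) ≤ _ := h1
    _ ≤ p ^ m * 3 ^ (m - 1) := Nat.mul_le_mul h3 h2
    _ = _ := mul_comm _ _

end Cfsg.Agent.H97.SB
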