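import Cfsg.Agent.H97.SBDef

set_option autoImplicit false

/-!
Piece (K1) for S4990.
-/

namespace Cfsg.Agent.H97.SB

open Cfsg

section
variable {p : ℕ} {V : Type} [AddCommGroup V] [Module (ZMod p) V] {F : Type} [Group F]
  {σ : F →* (V →ₗ[ZMod p] V)} {S : Subgroup F}

theorem K1.uniq {W1 W2 : Submodule (ZMod p) V} (hd : Disjoint W1 W2) {a b a' b' : V} (ha : a ∈ W1) (ha' : a' ∈ W1)
    (hb : b ∈ W2) (hb' : b' ∈ W2) (h : a + b = a' + b') : a = a' ∧ b = b' := by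
  have h1 : a - a' = b' - b := by
    have : a - a' = (a + b) - a' - b := by abel
    rw [this, h]; abel
  have h2 : a - a' ∈ W1 := W1.sub_mem ha ha'
  have h3 : a - a' ∈ W2 := by rw [h1]; exact W2.sub_mem hb' hb
  have h4 : a - a' = 0 := by
    have := (Submodule.disjoint_def.1 hd) _ h2 h3
    exact this
  have h5 : a = a' := sub_eq_zero.1 h4
  refine ⟨h5, ?_⟩
  rw [h5] at h
  exact add_left_cancel h

theorem K1.proj {W1 W2 : Submodule (ZMod p) V} (hd : Disjoint W1 W2) :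
    ∃ P Q : V → V, ∀ a ∈ W1, ∀ b ∈ W2, P (a + b) = a ∧ Q (a + b) = b := by
  classical
  refine ⟨fun x => if h : ∃ a ∈ W1, ∃ b ∈ W2, a + b = x then h.choose else 0,
    fun x => if h : ∃ b ∈ W2, ∃ a ∈ W1, a + b = x then h.choose else 0, ?_⟩
  intro a ha b hb
  have h1 : ∃ a' ∈ W1, ∃ b' ∈ W2, a' + b' = a + b := ⟨a, ha, b, hb, rfl⟩
  have h2 : ∃ b' ∈ W2, ∃ a' ∈ W1, a' + b' = a + b := ⟨b, hb, a, ha, rfl⟩
  refine ⟨?_, ?_⟩
  · show (if h : ∃ a' ∈ W1, ∃ b' ∈ W2, a' + b' = a + b then h.choose else 0) = a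
    rw [dif_pos h1]
    obtain ⟨h3, b', hb', h4⟩ := h1.choose_spec
    exact (K1.uniq hd h3 ha hb' hb h4).1
  · show (if h : ∃ b' ∈ W2, ∃ a' ∈ W1, a' + b' = a + b then h.choose else 0) = b
    rw [dif_pos h2]
    obtain ⟨h3, a', ha', h4⟩ := h2.choose_spec
    exact (K1.uniq hd ha' ha h3 hb h4).2

/-- (K1) -/
theorem RealIn.sup {W1 W2 : Submodule (ZMod p) V} (hd : Disjoint W1 W2)
    (hi1 : ∀ h ∈ S, ∀ w ∈ W1, σ h w ∈ W1) (hi2 : ∀ h ∈ S, ∀ w ∈ W2, σ h w ∈ W2)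
    (h1 : RealIn σ S W1) (h2 : RealIn σ S W2) : RealIn σ S (W1 ⊔ W2) := by
  obtain ⟨v1, hv1, U1, hU1, β1, a1, b1, c1, d1, e1, f1⟩ := h1
  obtain ⟨v2, hv2, U2, hU2, β2, a2, b2, c2, d2, e2, f2⟩ := h2
  obtain ⟨P, Q, hPQ⟩ := K1.proj hd
  have hz1 : ∀ u ∈ U1, β1 u 0 = 0 := by
    intro u hu
    have := d1 u hu 0 U1.zero_mem 0 U1.zero_mem
    rw [add_zero] at this
    exact left_eq_add.1 this
  have hz2 : ∀ u ∈ U2, β2 u 0 = 0 := by
    intro u hu
    have := d2 u hu 0 U2.zero_mem 0 U2.zero_mem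
    rw [add_zero] at this
    exact left_eq_add.1 this
  have hP : ∀ a ∈ U1, ∀ b ∈ U2, P (a + b) = a := fun a ha b hb => (hPQ a (hU1 ha) b (hU2 hb)).1
  have hQ : ∀ a ∈ U1, ∀ b ∈ U2, Q (a + b) = b := fun a ha b hb => (hPQ a (hU1 ha) b (hU2 hb)).2
  have hfix : ∀ h ∈ S, σ h (v1 + v2) = v1 + v2 → σ h v1 = v1 ∧ σ h v2 = v2 := by
    intro h hh hv
    rw [map_add] at hv
    exact K1.uniq hd (hi1 h hh v1 hv1) hv1 (hi2 h hh v2 hv2) hv2 hv
  refine ⟨v1 + v2, Submodule.add_mem_sup hv1 hv2, U1 ⊔ U2, sup_le_sup hU1 hU2,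
    fun x y => β1 (P x) (P y) + β2 (Q x) (Q y), ?_, ?_, ?_, ?_, ?_, ?_⟩
  · intro h hh hv u hu
    obtain ⟨x, hx, y, hy, rfl⟩ := Submodule.mem_sup.1 hu
    obtain ⟨g1, g2⟩ := hfix h hh hv
    rw [map_add]
    exact Submodule.add_mem_sup (a1 h hh g1 x hx) (a2 h hh g2 y hy)
  · intro h hh hv hu x0 hx0
    obtain ⟨g1, g2⟩ := hfix h hh hv
    obtain ⟨x, hx, y, hy, rfl⟩ := Submodule.mem_sup.1 hx0
    rw [map_add, b1 h hh g1 (fun u hu' => hu u (Submodule.mem_sup_left hu')) x hx,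
      b2 h hh g2 (fun u hu' => hu u (Submodule.mem_sup_right hu')) y hy]
  · intro u hu u' hu' w hw
    obtain ⟨x, hx, y, hy, rfl⟩ := Submodule.mem_sup.1 hu
    obtain ⟨x', hx', y', hy', rfl⟩ := Submodule.mem_sup.1 hu'
    obtain ⟨z, hz, t, ht, rfl⟩ := Submodule.mem_sup.1 hw
    show β1 (P (x + y + (x' + y'))) (P (z + t)) + β2 (Q (x + y + (x' + y'))) (Q (z + t)) =
      β1 (P (x + y)) (P (z + t)) + β2 (Q (x + y)) (Q (z + t)) +
      (β1 (P (x' + y')) (P (z + t)) + β2 (Q (x' + y')) (Q (z + t)))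
    have e : x + y + (x' + y') = (x + x') + (y + y') := by abel
    rw [e, hP _ (U1.add_mem hx hx') _ (U2.add_mem hy hy'), hQ _ (U1.add_mem hx hx') _ (U2.add_mem hy hy'),
      hP x hx y hy, hQ x hx y hy, hP x' hx' y' hy', hQ x' hx' y' hy', hP z hz t ht, hQ z hz t ht,
      c1 x hx x' hx' z hz, c2 y hy y' hy' t ht]
    ring
  · intro w hw u hu u' hu'
    obtain ⟨x, hx, y, hy, rfl⟩ := Submodule.mem_sup.1 hu
    obtain ⟨x', hx', y', hy', rfl⟩ := Submodule.mem_sup.1 hu'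
    obtain ⟨z, hz, t, ht, rfl⟩ := Submodule.mem_sup.1 hw
    show β1 (P (z + t)) (P (x + y + (x' + y'))) + β2 (Q (z + t)) (Q (x + y + (x' + y'))) =
      β1 (P (z + t)) (P (x + y)) + β2 (Q (z + t)) (Q (x + y)) +
      (β1 (P (z + t)) (P (x' + y')) + β2 (Q (z + t)) (Q (x' + y')))
    have e : x + y + (x' + y') = (x + x') + (y + y') := by abel
    rw [e, hP _ (U1.add_mem hx hx') _ (U2.add_mem hy hy'), hQ _ (U1.add_mem hx hx') _ (U2.add_mem hy hy'),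
      hP x hx y hy, hQ x hx y hy, hP x' hx' y' hy', hQ x' hx' y' hy', hP z hz t ht, hQ z hz t ht,
      d1 z hz x hx x' hx', d2 t ht y hy y' hy']
    ring
  · intro h hh hv u hu w hw
    obtain ⟨g1, g2⟩ := hfix h hh hv
    obtain ⟨x, hx, y, hy, rfl⟩ := Submodule.mem_sup.1 hu
    obtain ⟨z, hz, t, ht, rfl⟩ := Submodule.mem_sup.1 hw
    show β1 (P (σ h (x + y))) (P (σ h (z + t))) + β2 (Q (σ h (x + y))) (Q (σ h (z + t))) =
      β1 (P (x + y)) (P (z + t)) + β2 (Q (x + y)) (Q (z + t))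
    rw [map_add, map_add, hP _ (a1 h hh g1 x hx) _ (a2 h hh g2 y hy), hQ _ (a1 h hh g1 x hx) _ (a2 h hh g2 y hy),
      hP _ (a1 h hh g1 z hz) _ (a2 h hh g2 t ht), hQ _ (a1 h hh g1 z hz) _ (a2 h hh g2 t ht),
      hP x hx y hy, hQ x hx y hy, hP z hz t ht, hQ z hz t ht, e1 h hh g1 x hx z hz, e2 h hh g2 y hy t ht]
  · intro u hu h0
    obtain ⟨x, hx, y, hy, rfl⟩ := Submodule.mem_sup.1 hu
    have hx0 : x = 0 := by
      refine f1 x hx (fun w hw => ?_)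
      have h := h0 w (Submodule.mem_sup_left hw)
      change β1 (P (x + y)) (P w) + β2 (Q (x + y)) (Q w) = 0 at h
      have p1 : P w = w := by simpa using hP w hw 0 U2.zero_mem
      have p2 : Q w = 0 := by simpa using hQ w hw 0 U2.zero_mem
      rw [p1, p2, hP x hx y hy, hQ x hx y hy, hz2 y hy, add_zero] at h
      exact h
    have hy0 : y = 0 := by
      refine f2 y hy (fun w hw => ?_)
      have h := h0 w (Submodule.mem_sup_right hw)
      change β1 (P (x + y)) (P w) + β2 (Q (x + y)) (Q w) = 0 at h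
      have p1 : P w = 0 := by simpa using hP 0 U1.zero_mem w hw
      have p2 : Q w = w := by simpa using hQ 0 U1.zero_mem w hw
      rw [p1, p2, hP x hx y hy, hQ x hx y hy, hz1 x hx, zero_add] at h
      exact h
    rw [hx0, hy0, add_zero]

end

end Cfsg.Agent.H97.SB
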