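import Cfsg.Agent.H97.SBDef

set_option autoImplicit false

/-!
Piece (K2) for S4990.
-/

namespace Cfsg.Agent.H97.SB

open Cfsg

section
variable {p : ℕ} {V : Type} [AddCommGroup V] [Module (ZMod p) V] {F : Type} [Group F]
  {σ : F →* (V →ₗ[ZMod p] V)} {S : Subgroup F}

/-- in a nonzero space the self-dual submodule may be taken to be nonzero -/
theorem K2.nz [Fact p.Prime] {W : Submodule (ZMod p) V} (hW : W ≠ ⊥) (h1 : RealIn σ S W) :
    ∃ v ∈ W, ∃ U : Submodule (ZMod p) V, U ≤ W ∧ U ≠ ⊥ ∧ ∃ β : V → V → ZMod p,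
    (∀ h ∈ S, σ h v = v → ∀ u ∈ U, σ h u ∈ U) ∧
    (∀ h ∈ S, σ h v = v → (∀ u ∈ U, σ h u = u) → ∀ x ∈ W, σ h x = x) ∧
    (∀ u ∈ U, ∀ u' ∈ U, ∀ w ∈ U, β (u + u') w = β u w + β u' w) ∧
    (∀ u ∈ U, ∀ w ∈ U, ∀ w' ∈ U, β u (w + w') = β u w + β u w') ∧
    (∀ h ∈ S, σ h v = v → ∀ u ∈ U, ∀ w ∈ U, β (σ h u) (σ h w) = β u w) ∧
    (∀ u ∈ U, (∀ w ∈ U, β u w = 0) → u = 0) := by
  obtain ⟨v1, hv1, U1, hU1, β1, a1, b1, c1, d1, e1, f1⟩ := h1
  by_cases hU : U1 = ⊥
  · have hfix : ∀ h ∈ S, σ h v1 = v1 → ∀ x ∈ W, σ h x = x := by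
      intro h hh hv x hx
      refine b1 h hh hv (fun u hu => ?_) x hx
      rw [hU, Submodule.mem_bot] at hu
      rw [hu, map_zero]
    obtain ⟨w, hw, hw0⟩ := Submodule.exists_mem_ne_zero_of_ne_bot hW
    obtain ⟨φ, hφ⟩ : ∃ φ : Module.Dual (ZMod p) V, φ w ≠ 0 := by
      by_contra hcon
      push Not at hcon
      exact hw0 ((Module.forall_dual_apply_eq_zero_iff (ZMod p) w).1 hcon)
    have hsp : ∀ u ∈ Submodule.span (ZMod p) {w}, u ∈ W := by
      intro u hu
      obtain ⟨a, rfl⟩ := Submodule.mem_span_singleton.1 hu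
      exact W.smul_mem a hw
    refine ⟨v1, hv1, Submodule.span (ZMod p) {w}, fun u hu => hsp u hu, ?_, fun x y => φ x * φ y, ?_, ?_, ?_, ?_, ?_, ?_⟩
    · intro h
      exact hw0 (Submodule.span_singleton_eq_bot.1 h)
    · intro h hh hv u hu
      rw [hfix h hh hv u (hsp u hu)]; exact hu
    · intro h hh hv _ x hx
      exact hfix h hh hv x hx
    · intro u _ u' _ w' _
      show φ (u + u') * φ w' = φ u * φ w' + φ u' * φ w'
      rw [map_add, add_mul]
    · intro u _ w' _ w'' _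
      show φ u * φ (w' + w'') = φ u * φ w' + φ u * φ w''
      rw [map_add, mul_add]
    · intro h hh hv u hu w' hw'
      show φ (σ h u) * φ (σ h w') = φ u * φ w'
      rw [hfix h hh hv u (hsp u hu), hfix h hh hv w' (hsp w' hw')]
    · intro u hu h0
      obtain ⟨a, rfl⟩ := Submodule.mem_span_singleton.1 hu
      have h := h0 w (Submodule.mem_span_singleton_self w)
      change φ (a • w) * φ w = 0 at h
      rw [map_smul, smul_eq_mul] at h
      have h2 : a = 0 := by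
        rcases mul_eq_zero.1 h with h | h
        · rcases mul_eq_zero.1 h with h | h
          · exact h
          · exact absurd h hφ
        · exact absurd h hφ
      rw [h2, zero_smul]
  · exact ⟨v1, hv1, U1, hU1, hU, β1, a1, b1, c1, d1, e1, f1⟩

theorem K2.inv_apply (g : F) (x : V) : σ g⁻¹ (σ g x) = x := by
  rw [← Module.End.mul_apply, ← map_mul, inv_mul_cancel, map_one]; rfl

theorem K2.apply_inv (g : F) (x : V) : σ g (σ g⁻¹ x) = x := by
  rw [← Module.End.mul_apply, ← map_mul, mul_inv_cancel, map_one]; rfl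

theorem K2.apply_mul (g h : F) (x : V) : σ (g * h) x = σ g (σ h x) := by
  rw [map_mul]; rfl

theorem K2.uniq {k : ℕ} {W : Fin k → Submodule (ZMod p) V} (hint : iSupIndep W) (a b : Fin k → V)
    (ha : ∀ i, a i ∈ W i) (hb : ∀ i, b i ∈ W i) (h : ∑ i, a i = ∑ i, b i) : a = b := by
  have h1 := (iSupIndep_iff_finsetSum_eq_zero_imp_eq_zero W).1 hint Finset.univ (fun i => a i - b i)
    (fun i _ => (W i).sub_mem (ha i) (hb i)) (by rw [Finset.sum_sub_distrib, h, sub_self])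
  funext i
  exact sub_eq_zero.1 (h1 i (Finset.mem_univ i))

/-- (K2) -/
theorem RealIn.ind [Fact p.Prime] {k : ℕ} {W : Fin k → Submodule (ZMod p) V} (hint : iSupIndep W)
    (hperm : ∀ h ∈ S, ∀ i, ∃ j, (W i).map (σ h) = W j) (htrans : ∀ i j, ∃ h ∈ S, (W i).map (σ h) = W j)
    (i0 : Fin k) (hi : W i0 ≠ ⊥) (T : Subgroup F) (hT : ∀ h, h ∈ T ↔ h ∈ S ∧ (W i0).map (σ h) = W i0)
    (h1 : RealIn σ T (W i0)) : RealIn σ S (⨆ i, W i) := by
  classical
  obtain ⟨v1, hv1, U1, hU1, hU1b, β1, a1, b1, c1, d1, e1, f1⟩ := K2.nz hi h1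
  choose t htS htW using fun i => htrans i0 i
  have hmem : ∀ i, ∀ w ∈ W i0, σ (t i) w ∈ W i := by
    intro i w hw
    rw [← htW i]
    exact Submodule.mem_map_of_mem hw
  have hz1 : ∀ u ∈ U1, β1 u 0 = 0 := by
    intro u hu
    have := d1 u hu 0 U1.zero_mem 0 U1.zero_mem
    rw [add_zero] at this
    exact left_eq_add.1 this
  have huniq : ∀ u u' : Fin k → V, (∀ i, u i ∈ W i0) → (∀ i, u' i ∈ W i0) →
      ∑ i, σ (t i) (u i) = ∑ i, σ (t i) (u' i) → u = u' := by
    intro u u' hu hu' h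
    have h2 := K2.uniq hint _ _ (fun i => hmem i _ (hu i)) (fun i => hmem i _ (hu' i)) h
    funext i
    have h3 := congrFun h2 i
    have h4 := congrArg (σ (t i)⁻¹) h3
    rwa [K2.inv_apply, K2.inv_apply] at h4
  obtain ⟨c, hc⟩ : ∃ c : Fin k → V → V, ∀ u : Fin k → V, (∀ i, u i ∈ W i0) → ∀ i, c i (∑ j, σ (t j) (u j)) = u i := by
    refine ⟨fun i x => if h : ∃ u : Fin k → V, (∀ i, u i ∈ W i0) ∧ ∑ j, σ (t j) (u j) = x then h.choose i else 0, ?_⟩
    intro u hu i
    have h2 : ∃ u' : Fin k → V, (∀ i, u' i ∈ W i0) ∧ ∑ j, σ (t j) (u' j) = ∑ j, σ (t j) (u j) := ⟨u, hu, rfl⟩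
    show (if h : ∃ u' : Fin k → V, (∀ i, u' i ∈ W i0) ∧ ∑ j, σ (t j) (u' j) = ∑ j, σ (t j) (u j) then h.choose i
      else 0) = u i
    rw [dif_pos h2]
    exact congrFun (huniq _ _ h2.choose_spec.1 hu h2.choose_spec.2) i
  let U : Submodule (ZMod p) V :=
    { carrier := {x | ∃ u : Fin k → V, (∀ i, u i ∈ U1) ∧ ∑ j, σ (t j) (u j) = x}
      zero_mem' := ⟨fun _ => 0, fun _ => U1.zero_mem, by simp⟩
      add_mem' := by
        rintro x y ⟨u, hu, rfl⟩ ⟨u', hu', rfl⟩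
        refine ⟨fun i => u i + u' i, fun i => U1.add_mem (hu i) (hu' i), ?_⟩
        rw [← Finset.sum_add_distrib]
        exact Finset.sum_congr rfl (fun i _ => map_add _ _ _)
      smul_mem' := by
        rintro a x ⟨u, hu, rfl⟩
        refine ⟨fun i => a • u i, fun i => U1.smul_mem a (hu i), ?_⟩
        rw [Finset.smul_sum]
        exact Finset.sum_congr rfl (fun i _ => map_smul _ _ _) }
  have hUm : ∀ x, x ∈ U ↔ ∃ u : Fin k → V, (∀ i, u i ∈ U1) ∧ ∑ j, σ (t j) (u j) = x := fun x => Iff.rfl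
  have hsingle : ∀ i, ∀ w : V, ∑ j, σ (t j) ((Function.update (fun _ => (0 : V)) i w) j) = σ (t i) w := by
    intro i w
    rw [Finset.sum_eq_single i]
    · rw [Function.update_self]
    · intro j _ hj
      rw [Function.update_of_ne hj, map_zero]
    · intro h; exact absurd (Finset.mem_univ i) h
  have hsU : ∀ i, ∀ w ∈ U1, σ (t i) w ∈ U := by
    intro i w hw
    refine (hUm _).2 ⟨Function.update (fun _ => (0 : V)) i w, fun j => ?_, hsingle i w⟩
    by_cases hj : j = i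
    · subst hj; rw [Function.update_self]; exact hw
    · rw [Function.update_of_ne hj]; exact U1.zero_mem
  have hWne : ∀ i, W i ≠ ⊥ := by
    intro i h
    apply hi
    rw [eq_bot_iff]
    intro w hw
    have h2 := hmem i w hw
    rw [h, Submodule.mem_bot] at h2
    have h3 := congrArg (σ (t i)⁻¹) h2
    rw [K2.inv_apply, map_zero] at h3
    exact (Submodule.mem_bot _).2 h3
  -- two of the spaces meeting nontrivially are equal
  have hdis : ∀ i j, ∀ x, x ∈ W i → x ∈ W j → x ≠ 0 → i = j := by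
    intro i j x hxi hxj hx0
    by_contra hij
    exact hx0 ((Submodule.disjoint_def.1 (hint.pairwiseDisjoint hij)) x hxi hxj)
  -- the permutation
  have key : ∀ h ∈ S, ∃ π : Equiv.Perm (Fin k), ∀ i, (W i).map (σ h) = W (π i) ∧ (t (π i))⁻¹ * h * t i ∈ T := by
    intro h hh
    choose π hπ using hperm h hh
    have hinj : Function.Injective π := by
      intro i j hij
      obtain ⟨x, hx, hx0⟩ := Submodule.exists_mem_ne_zero_of_ne_bot (hWne i)
      have h2 : σ h x ∈ W (π j) := by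
        rw [← hij, ← hπ i]; exact Submodule.mem_map_of_mem hx
      rw [← hπ j] at h2
      obtain ⟨y, hy, hyx⟩ := Submodule.mem_map.1 h2
      have h3 := congrArg (σ h⁻¹) hyx
      rw [K2.inv_apply, K2.inv_apply] at h3
      exact hdis i j x hx (h3 ▸ hy) hx0
    refine ⟨Equiv.ofBijective π (Finite.injective_iff_bijective.1 hinj), fun i => ⟨hπ i, ?_⟩⟩
    show (t (π i))⁻¹ * h * t i ∈ T
    rw [hT]
    refine ⟨S.mul_mem (S.mul_mem (S.inv_mem (htS _)) hh) (htS i), ?_⟩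
    have e : σ ((t (π i))⁻¹ * h * t i) = (σ (t (π i))⁻¹).comp ((σ h).comp (σ (t i))) := by
      rw [map_mul, map_mul]; rfl
    rw [e, Submodule.map_comp, Submodule.map_comp, htW i, hπ i, ← htW (π i), ← Submodule.map_comp]
    have e2 : (σ (t (π i))⁻¹).comp (σ (t (π i))) = LinearMap.id := by
      apply LinearMap.ext
      intro x
      exact K2.inv_apply _ _
    rw [e2, Submodule.map_id]
  have hact : ∀ (h : F) (π : Equiv.Perm (Fin k)) (u : Fin k → V),
      σ h (∑ i, σ (t i) (u i)) = ∑ j, σ (t j) (σ ((t j)⁻¹ * h * t (π.symm j)) (u (π.symm j))) := by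
    intro h π u
    rw [map_sum, ← Equiv.sum_comp π.symm]
    refine Finset.sum_congr rfl (fun j _ => ?_)
    rw [← K2.apply_mul, ← K2.apply_mul]
    congr 2
    group
  have hfix : ∀ h ∈ S, σ h (∑ i, σ (t i) v1) = ∑ i, σ (t i) v1 → ∃ π : Equiv.Perm (Fin k),
      ∀ i, (W i).map (σ h) = W (π i) ∧ (t (π i))⁻¹ * h * t i ∈ T ∧ σ ((t (π i))⁻¹ * h * t i) v1 = v1 := by
    intro h hh hv
    obtain ⟨π, hπ⟩ := key h hh
    refine ⟨π, fun i => ⟨(hπ i).1, (hπ i).2, ?_⟩⟩
    have h2 := hact h π (fun _ => v1)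
    rw [hv] at h2
    have h3 := huniq (fun _ => v1) (fun j => σ ((t j)⁻¹ * h * t (π.symm j)) v1) (fun _ => hv1) (fun j => ?_) h2
    · have h4 := congrFun h3 (π i)
      simp only [Equiv.symm_apply_apply] at h4
      exact h4.symm
    · have h5 := (hπ (π.symm j)).2
      rw [Equiv.apply_symm_apply] at h5
      rw [← ((hT _).1 h5).2]
      exact Submodule.mem_map_of_mem hv1
  refine ⟨∑ i, σ (t i) v1, Submodule.sum_mem _ (fun i _ => Submodule.mem_iSup_of_mem i (hmem i v1 hv1)), U, ?_,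
    fun x y => ∑ i, β1 (c i x) (c i y), ?_, ?_, ?_, ?_, ?_, ?_⟩
  · intro x hx
    obtain ⟨u, hu, rfl⟩ := (hUm x).1 hx
    exact Submodule.sum_mem _ (fun i _ => Submodule.mem_iSup_of_mem i (hmem i _ (hU1 (hu i))))
  · intro h hh hv x hx
    obtain ⟨u, hu, rfl⟩ := (hUm x).1 hx
    obtain ⟨π, hπ⟩ := hfix h hh hv
    rw [hact h π u]
    refine (hUm _).2 ⟨fun j => σ ((t j)⁻¹ * h * t (π.symm j)) (u (π.symm j)), fun j => ?_, rfl⟩
    obtain ⟨_, h5, h6⟩ := hπ (π.symm j)
    rw [Equiv.apply_symm_apply] at h5 h6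
    exact a1 _ h5 h6 _ (hu _)
  · intro h hh hv hU x hx
    obtain ⟨π, hπ⟩ := hfix h hh hv
    have hle : (⨆ i, W i) ≤ LinearMap.eqLocus (σ h) LinearMap.id := by
      refine iSup_le (fun i => ?_)
      obtain ⟨u, hu, hu0⟩ := Submodule.exists_mem_ne_zero_of_ne_bot hU1b
      obtain ⟨h4, h5, h6⟩ := hπ i
      have hii : i = π i := by
        refine hdis i (π i) (σ (t i) u) (hmem i u (hU1 hu)) ?_ ?_
        · rw [← h4, ← hU _ (hsU i u hu)]
          exact Submodule.mem_map_of_mem (hmem i u (hU1 hu))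
        · intro h0
          have h7 := congrArg (σ (t i)⁻¹) h0
          rw [K2.inv_apply, map_zero] at h7
          exact hu0 h7
      rw [← hii] at h5 h6
      intro y hy
      rw [← htW i] at hy
      obtain ⟨w, hw, rfl⟩ := Submodule.mem_map.1 hy
      show σ h (σ (t i) w) = σ (t i) w
      have h8 := b1 _ h5 h6 (fun u hu => ?_) w hw
      · have h9 := congrArg (σ (t i)) h8
        rw [← K2.apply_mul, mul_assoc, mul_inv_cancel_left, K2.apply_mul] at h9
        exact h9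
      · rw [mul_assoc, K2.apply_mul, K2.apply_mul, hU _ (hsU i u hu), K2.inv_apply]
    exact hle hx
  · intro x hx x' hx' y hy
    obtain ⟨u, hu, rfl⟩ := (hUm x).1 hx
    obtain ⟨u', hu', rfl⟩ := (hUm x').1 hx'
    obtain ⟨w, hw, rfl⟩ := (hUm y).1 hy
    show ∑ i, β1 (c i (∑ j, σ (t j) (u j) + ∑ j, σ (t j) (u' j))) (c i (∑ j, σ (t j) (w j))) =
      ∑ i, β1 (c i (∑ j, σ (t j) (u j))) (c i (∑ j, σ (t j) (w j))) +
      ∑ i, β1 (c i (∑ j, σ (t j) (u' j))) (c i (∑ j, σ (t j) (w j)))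
    have e : ∑ j, σ (t j) (u j) + ∑ j, σ (t j) (u' j) = ∑ j, σ (t j) (u j + u' j) := by
      rw [← Finset.sum_add_distrib]
      exact Finset.sum_congr rfl (fun i _ => (map_add _ _ _).symm)
    rw [e, ← Finset.sum_add_distrib]
    refine Finset.sum_congr rfl (fun i _ => ?_)
    rw [hc (fun j => u j + u' j) (fun j => (W i0).add_mem (hU1 (hu j)) (hU1 (hu' j))) i,
      hc u (fun j => hU1 (hu j)) i, hc u' (fun j => hU1 (hu' j)) i, hc w (fun j => hU1 (hw j)) i]
    exact c1 _ (hu i) _ (hu' i) _ (hw i)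
  · intro y hy x hx x' hx'
    obtain ⟨u, hu, rfl⟩ := (hUm x).1 hx
    obtain ⟨u', hu', rfl⟩ := (hUm x').1 hx'
    obtain ⟨w, hw, rfl⟩ := (hUm y).1 hy
    show ∑ i, β1 (c i (∑ j, σ (t j) (w j))) (c i (∑ j, σ (t j) (u j) + ∑ j, σ (t j) (u' j))) =
      ∑ i, β1 (c i (∑ j, σ (t j) (w j))) (c i (∑ j, σ (t j) (u j))) +
      ∑ i, β1 (c i (∑ j, σ (t j) (w j))) (c i (∑ j, σ (t j) (u' j)))
    have e : ∑ j, σ (t j) (u j) + ∑ j, σ (t j) (u' j) = ∑ j, σ (t j) (u j + u' j) := by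
      rw [← Finset.sum_add_distrib]
      exact Finset.sum_congr rfl (fun i _ => (map_add _ _ _).symm)
    rw [e, ← Finset.sum_add_distrib]
    refine Finset.sum_congr rfl (fun i _ => ?_)
    rw [hc (fun j => u j + u' j) (fun j => (W i0).add_mem (hU1 (hu j)) (hU1 (hu' j))) i,
      hc u (fun j => hU1 (hu j)) i, hc u' (fun j => hU1 (hu' j)) i, hc w (fun j => hU1 (hw j)) i]
    exact d1 _ (hw i) _ (hu i) _ (hu' i)
  · intro h hh hv x hx y hy
    obtain ⟨u, hu, rfl⟩ := (hUm x).1 hx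
    obtain ⟨w, hw, rfl⟩ := (hUm y).1 hy
    obtain ⟨π, hπ⟩ := hfix h hh hv
    have hT' : ∀ j, (t j)⁻¹ * h * t (π.symm j) ∈ T := by
      intro j
      have h5 := (hπ (π.symm j)).2.1
      rwa [Equiv.apply_symm_apply] at h5
    have hv' : ∀ j, σ ((t j)⁻¹ * h * t (π.symm j)) v1 = v1 := by
      intro j
      have h5 := (hπ (π.symm j)).2.2
      rwa [Equiv.apply_symm_apply] at h5
    show ∑ i, β1 (c i (σ h (∑ j, σ (t j) (u j)))) (c i (σ h (∑ j, σ (t j) (w j)))) =
      ∑ i, β1 (c i (∑ j, σ (t j) (u j))) (c i (∑ j, σ (t j) (w j)))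
    rw [hact h π u, hact h π w, ← Equiv.sum_comp π.symm (fun i => β1 (c i (∑ j, σ (t j) (u j))) (c i (∑ j, σ (t j) (w j))))]
    refine Finset.sum_congr rfl (fun i _ => ?_)
    rw [hc (fun j => σ ((t j)⁻¹ * h * t (π.symm j)) (u (π.symm j))) (fun j => hU1 (a1 _ (hT' j) (hv' j) _ (hu _))) i,
      hc (fun j => σ ((t j)⁻¹ * h * t (π.symm j)) (w (π.symm j))) (fun j => hU1 (a1 _ (hT' j) (hv' j) _ (hw _))) i,
      hc u (fun j => hU1 (hu j)) _, hc w (fun j => hU1 (hw j)) _]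
    exact e1 _ (hT' i) (hv' i) _ (hu _) _ (hw _)
  · intro x hx h0
    obtain ⟨u, hu, rfl⟩ := (hUm x).1 hx
    have h2 : ∀ i, u i = 0 := by
      intro i
      refine f1 _ (hu i) (fun w hw => ?_)
      have h3 := h0 _ (hsU i w hw)
      change ∑ l, β1 (c l (∑ j, σ (t j) (u j))) (c l (σ (t i) w)) = 0 at h3
      rw [← hsingle i w] at h3
      have h4 : ∀ j, Function.update (fun _ => (0 : V)) i w j ∈ W i0 := by
        intro j
        by_cases hj : j = i
        · subst hj; rw [Function.update_self]; exact hU1 hw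
        · rw [Function.update_of_ne hj]; exact (W i0).zero_mem
      rw [Finset.sum_eq_single i] at h3
      · rw [hc u (fun j => hU1 (hu j)) i, hc _ h4 i, Function.update_self] at h3
        exact h3
      · intro l _ hl
        rw [hc u (fun j => hU1 (hu j)) l, hc _ h4 l, Function.update_of_ne hl]
        exact hz1 _ (hu l)
      · intro h; exact absurd (Finset.mem_univ i) h
    exact Finset.sum_eq_zero (fun i _ => by rw [h2 i, map_zero])

end

end Cfsg.Agent.H97.SB
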