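import Cfsg.Agent.H97.SBDef

/-!
# S4990 piece K3a (owner: helper26)
-/

set_option autoImplicit false

namespace Cfsg.Agent.H97.SB

open Cfsg

namespace K3a

variable {p : ℕ} {V : Type} [AddCommGroup V] [Module (ZMod p) V] {F : Type} [Group F]
  {σ : F →* (V →ₗ[ZMod p] V)}

/-- the enveloping algebra of `A` -/
noncomputable abbrev K (σ : F →* (V →ₗ[ZMod p] V)) (A : Subgroup F) : Subalgebra (ZMod p) (V →ₗ[ZMod p] V) :=
  Algebra.adjoin (ZMod p) (σ '' (A : Set F))

theorem comm {A : Subgroup F} (hA : ∀ a ∈ A, ∀ b ∈ A, a * b = b * a) {y z : V →ₗ[ZMod p] V} (hy : y ∈ K σ A)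
    (hz : z ∈ K σ A) : y * z = z * y := by
  have h1 : ∀ a ∈ A, Commute (σ a) z := by
    intro a ha
    refine Algebra.commute_of_mem_adjoin_of_forall_mem_commute hz ?_
    rintro _ ⟨b, hb, rfl⟩
    show σ a * σ b = σ b * σ a
    rw [← map_mul, ← map_mul, hA a ha b hb]
  have h2 : Commute z y := by
    refine Algebra.commute_of_mem_adjoin_of_forall_mem_commute hy ?_
    rintro _ ⟨b, hb, rfl⟩
    exact (h1 b hb).symm
  exact h2.symm

theorem inv_mul (g : F) : σ g⁻¹ * σ g = 1 := by rw [← map_mul, inv_mul_cancel, map_one]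

theorem mul_inv (g : F) : σ g * σ g⁻¹ = 1 := by rw [← map_mul, mul_inv_cancel, map_one]

/-- conjugation -/
noncomputable def cj (σ : F →* (V →ₗ[ZMod p] V)) (g : F) (y : V →ₗ[ZMod p] V) : V →ₗ[ZMod p] V :=
  σ g * y * σ g⁻¹

theorem cj_mul (g : F) (y z : V →ₗ[ZMod p] V) : cj σ g (y * z) = cj σ g y * cj σ g z := by
  unfold cj
  calc σ g * (y * z) * σ g⁻¹ = σ g * y * 1 * z * σ g⁻¹ := by noncomm_ring
    _ = σ g * y * (σ g⁻¹ * σ g) * z * σ g⁻¹ := by rw [inv_mul]
    _ = _ := by noncomm_ring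

theorem cj_add (g : F) (y z : V →ₗ[ZMod p] V) : cj σ g (y + z) = cj σ g y + cj σ g z := by
  unfold cj
  rw [mul_add, add_mul]

theorem cj_cj (g h : F) (y : V →ₗ[ZMod p] V) : cj σ g (cj σ h y) = cj σ (g * h) y := by
  unfold cj
  rw [map_mul, mul_inv_rev, map_mul]
  simp only [mul_assoc]

theorem cj_one (y : V →ₗ[ZMod p] V) : cj σ 1 y = y := by
  unfold cj
  rw [inv_one, map_one, one_mul, mul_one]

theorem cj_inj (g : F) : Function.Injective (cj σ g) := by
  intro y z h
  have h1 := congrArg (cj σ g⁻¹) h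
  rwa [cj_cj, cj_cj, inv_mul_cancel, cj_one, cj_one] at h1

theorem cj_zero (g : F) : cj σ g 0 = 0 := by
  unfold cj
  rw [mul_zero, zero_mul]

theorem cj_pow (g : F) (y : V →ₗ[ZMod p] V) (n : ℕ) : cj σ g (y ^ n) = (cj σ g y) ^ n := by
  induction n with
  | zero =>
    rw [pow_zero, pow_zero]; unfold cj; rw [mul_one]; exact mul_inv g
  | succ n ih => rw [pow_succ, cj_mul, ih, pow_succ]

theorem cj_mem {A : Subgroup F} [hn : A.Normal] (g : F) {y : V →ₗ[ZMod p] V} (hy : y ∈ K σ A) :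
    cj σ g y ∈ K σ A := by
  induction hy using Algebra.adjoin_induction with
  | mem x hx =>
    obtain ⟨a, ha, rfl⟩ := hx
    apply Algebra.subset_adjoin
    refine ⟨g * a * g⁻¹, hn.conj_mem a ha g, ?_⟩
    unfold cj
    rw [map_mul, map_mul]
  | algebraMap r =>
    have h1 : cj σ g (algebraMap (ZMod p) (V →ₗ[ZMod p] V) r) = algebraMap (ZMod p) (V →ₗ[ZMod p] V) r := by
      unfold cj
      rw [← Algebra.commutes r (σ g), mul_assoc, mul_inv, mul_one]
    rw [h1]
    exact Subalgebra.algebraMap_mem _ r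
  | add x y _ _ hx hy => rw [cj_add]; exact add_mem hx hy
  | mul x y _ _ hx hy => rw [cj_mul]; exact mul_mem hx hy

theorem cj_apply (g : F) (y : V →ₗ[ZMod p] V) (v : V) : cj σ g y (σ g v) = σ g (y v) := by
  have h1 : cj σ g y * σ g = σ g * y := by
    unfold cj
    rw [mul_assoc, inv_mul, mul_one]
  exact LinearMap.congr_fun h1 v

theorem range_cj (g : F) (y : V →ₗ[ZMod p] V) : LinearMap.range (cj σ g y) = (LinearMap.range y).map (σ g) := by
  ext v
  constructor
  · rintro ⟨w, rfl⟩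
    refine ⟨y (σ g⁻¹ w), ⟨_, rfl⟩, ?_⟩
    have h1 := cj_apply (σ := σ) g y (σ g⁻¹ w)
    have h2 : σ g (σ g⁻¹ w) = w := LinearMap.congr_fun (mul_inv (σ := σ) g) w
    rw [h2] at h1
    exact h1.symm
  · rintro ⟨_, ⟨w, rfl⟩, rfl⟩
    exact ⟨σ g w, cj_apply g y w⟩

theorem inj_σ (g : F) : Function.Injective (σ g) := by
  intro v w h
  have h1 := congrArg (σ g⁻¹) h
  have h2 : ∀ u, σ g⁻¹ (σ g u) = u := fun u => LinearMap.congr_fun (inv_mul (σ := σ) g) u
  rwa [h2, h2] at h1

theorem card_range_cj (g : F) (y : V →ₗ[ZMod p] V) :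
    Nat.card (LinearMap.range (cj σ g y)) = Nat.card (LinearMap.range y) := by
  rw [range_cj]
  exact (Nat.card_congr (Submodule.equivMapOfInjective (σ g) (inj_σ g) (LinearMap.range y)).toEquiv).symm

theorem exists_pow_idem {M : Type} [Monoid M] [Finite M] (x : M) : ∃ n, 0 < n ∧ x ^ n * x ^ n = x ^ n := by
  obtain ⟨i, j, hij, h⟩ := Finite.exists_ne_map_eq_of_infinite (fun n : ℕ => x ^ n)
  wlog hlt : i < j generalizing i j
  · exact this j i hij.symm h.symm (by omega)
  obtain ⟨d, rfl⟩ := Nat.exists_eq_add_of_lt hlt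
  have h1 : ∀ n, i ≤ n → x ^ (n + (d + 1)) = x ^ n := by
    intro n hn
    obtain ⟨c, rfl⟩ := Nat.exists_eq_add_of_le hn
    have h2 : x ^ i = x ^ (i + d + 1) := h
    have e : i + c + (d + 1) = (i + d + 1) + c := by ring
    rw [e, pow_add, ← h2, pow_add]
  have h3 : ∀ t n, i ≤ n → x ^ (n + t * (d + 1)) = x ^ n := by
    intro t
    induction t with
    | zero => intro n _; simp
    | succ t ih =>
      intro n hn
      have e : n + (t + 1) * (d + 1) = (n + t * (d + 1)) + (d + 1) := by ring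
      rw [e, h1 _ (by omega), ih n hn]
  refine ⟨(i + 1) * (d + 1), by positivity, ?_⟩
  rw [← pow_add]
  exact h3 (i + 1) _ (by nlinarith)

variable [Finite V]

theorem finite_end : Finite (V →ₗ[ZMod p] V) :=
  Finite.of_injective (fun f : V →ₗ[ZMod p] V => (f : V → V)) DFunLike.coe_injective

/-- minimal idempotent -/
structure Mi (σ : F →* (V →ₗ[ZMod p] V)) (A : Subgroup F) (e : V →ₗ[ZMod p] V) : Prop where
  mem : e ∈ K σ A
  idem : e * e = e
  ne : e ≠ 0
  min : ∀ f ∈ K σ A, f * f = f → f ≠ 0 → Nat.card (LinearMap.range e) ≤ Nat.card (LinearMap.range f)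

theorem Mi.exists (A : Subgroup F) (h1 : (1 : V →ₗ[ZMod p] V) ≠ 0) : ∃ e, Mi σ A e := by
  classical
  have hex : ∃ n, ∃ f ∈ K σ A, f * f = f ∧ f ≠ 0 ∧ Nat.card (LinearMap.range f) = n :=
    ⟨_, 1, one_mem _, one_mul 1, h1, rfl⟩
  obtain ⟨e, he, he1, he2, he3⟩ := Nat.find_spec hex
  refine ⟨e, he, he1, he2, fun f hf hf1 hf2 => ?_⟩
  rw [he3]
  exact Nat.find_min' hex ⟨f, hf, hf1, hf2, rfl⟩

theorem Mi.mul_eq {A : Subgroup F} (hA : ∀ a ∈ A, ∀ b ∈ A, a * b = b * a) {e f : V →ₗ[ZMod p] V} (he : Mi σ A e)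
    (hf : f ∈ K σ A) (hff : f * f = f) (hne : e * f ≠ 0) : e * f = e := by
  have hc := comm hA he.mem hf
  have h1 : (e * f) * (e * f) = e * f := by
    rw [mul_assoc, ← mul_assoc f e f, ← hc, mul_assoc e f f, hff, ← mul_assoc, he.idem]
  have h2 := he.min (e * f) (mul_mem he.mem hf) h1 hne
  have h3 : LinearMap.range (e * f) ≤ LinearMap.range e := by
    rintro _ ⟨v, rfl⟩
    exact ⟨f v, rfl⟩
  have h4 : LinearMap.range (e * f) = LinearMap.range e := by
    apply SetLike.coe_injective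
    exact Set.eq_of_subset_of_ncard_le h3 h2 (Set.toFinite _)
  apply LinearMap.ext
  intro v
  have h5 : e v ∈ LinearMap.range (e * f) := by rw [h4]; exact ⟨v, rfl⟩
  obtain ⟨w, hw⟩ := h5
  have h6 : (e * f) (e v) = e v := by
    rw [← hw]
    exact LinearMap.congr_fun h1 w
  have h7 : (e * f) * e = e * f := by
    rw [mul_assoc, ← hc, ← mul_assoc, he.idem]
  have h8 : (e * f) (e v) = (e * f) v := LinearMap.congr_fun h7 v
  rw [← h8, h6]

theorem Mi.cj {A : Subgroup F} [A.Normal] {e : V →ₗ[ZMod p] V} (he : Mi σ A e) (g : F) : Mi σ A (cj σ g e) where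
  mem := cj_mem g he.mem
  idem := by rw [← cj_mul, he.idem]
  ne := fun h => he.ne (cj_inj g (by rw [h, cj_zero]))
  min := fun f hf hf1 hf2 => by rw [card_range_cj]; exact he.min f hf hf1 hf2

theorem Mi.orth {A : Subgroup F} (hA : ∀ a ∈ A, ∀ b ∈ A, a * b = b * a) {e f : V →ₗ[ZMod p] V} (he : Mi σ A e)
    (hf : Mi σ A f) (hne : e ≠ f) : e * f = 0 := by
  by_contra h
  apply hne
  have h1 := he.mul_eq hA hf.mem hf.idem h
  have hc := comm hA he.mem hf.mem
  have h2 := hf.mul_eq hA he.mem he.idem (by rw [← hc]; exact h)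
  rw [← h1, hc, h2]

end K3a

open K3a in
theorem adjoin_inj {p : ℕ} {V : Type} [AddCommGroup V] [Module (ZMod p) V] {F : Type} [Group F]
    {σ : F →* (V →ₗ[ZMod p] V)} [Fact p.Prime] [Finite V] [Finite F] (_hσ : Function.Injective σ)
    (hirr : KR.Irr σ)
    (hprim : ¬ ∃ (k : ℕ) (W : Fin k → Submodule (ZMod p) V), 2 ≤ k ∧ DirectSum.IsInternal W ∧ (∀ i, W i ≠ ⊥) ∧
      ∀ g : F, ∀ i, ∃ j, (W i).map (σ g) = W j)
    (A : Subgroup F) [A.Normal] (hA : ∀ a ∈ A, ∀ b ∈ A, a * b = b * a)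
    (x : V →ₗ[ZMod p] V) (hx : x ∈ Algebra.adjoin (ZMod p) (σ '' (A : Set F))) (hx0 : x ≠ 0) :
    Function.Injective x := by
  classical
  have hfin : Finite (V →ₗ[ZMod p] V) := finite_end
  have hV1 : (1 : V →ₗ[ZMod p] V) ≠ 0 := by
    intro h
    apply hx0
    rw [← one_mul x, h, zero_mul]
  obtain ⟨e, he⟩ := Mi.exists (σ := σ) A hV1
  -- the conjugates of `e`
  let T : Set (V →ₗ[ZMod p] V) := Set.range (fun g : F => K3a.cj σ g e)
  have hT : T.Finite := Set.toFinite _
  have hTM : ∀ f ∈ T, Mi σ A f := by rintro _ ⟨g, rfl⟩; exact he.cj g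
  have heT : e ∈ T := ⟨1, cj_one e⟩
  have hTcj : ∀ g : F, ∀ f ∈ T, K3a.cj σ g f ∈ T := by
    rintro g _ ⟨h, rfl⟩
    exact ⟨g * h, (cj_cj g h e).symm⟩
  set s : V →ₗ[ZMod p] V := ∑ f ∈ hT.toFinset, f with hs
  have hsf : ∀ f ∈ T, s * f = f := by
    intro f hf
    rw [hs, Finset.sum_mul, Finset.sum_eq_single f]
    · exact (hTM f hf).idem
    · intro g hg hgf
      exact (hTM g (hT.mem_toFinset.1 hg)).orth hA (hTM f hf) hgf
    · intro h
      exact absurd (hT.mem_toFinset.2 hf) h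
  have hcs : ∀ g : F, K3a.cj σ g s = s := by
    intro g
    have h1 : K3a.cj σ g s = ∑ f ∈ hT.toFinset, K3a.cj σ g f := by
      unfold K3a.cj
      rw [hs, Finset.mul_sum, Finset.sum_mul]
    rw [h1]
    refine Finset.sum_bij (fun f _ => K3a.cj σ g f) ?_ ?_ ?_ ?_
    · intro f hf
      exact hT.mem_toFinset.2 (hTcj g f (hT.mem_toFinset.1 hf))
    · intro f _ f' _ h
      exact cj_inj g h
    · intro f hf
      refine ⟨K3a.cj σ g⁻¹ f, hT.mem_toFinset.2 (hTcj g⁻¹ f (hT.mem_toFinset.1 hf)), ?_⟩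
      rw [cj_cj, mul_inv_cancel, cj_one]
    · intro f _
      rfl
  have hrs : LinearMap.range s = ⊤ := by
    refine (hirr (LinearMap.range s) ?_).resolve_left ?_
    · rintro g _ ⟨v, rfl⟩
      refine ⟨σ g v, ?_⟩
      have h1 := cj_apply (σ := σ) g s v
      rw [hcs] at h1
      exact h1
    · intro h
      apply he.ne
      apply LinearMap.ext
      intro v
      have h1 : s (e v) ∈ LinearMap.range s := ⟨_, rfl⟩
      rw [h, Submodule.mem_bot] at h1
      have h2 : s (e v) = e v := LinearMap.congr_fun (hsf e heT) v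
      rw [← h2, h1]; rfl
  have hss : s * s = s := by
    conv_lhs => rw [hs, Finset.mul_sum]
    rw [hs]
    exact Finset.sum_congr rfl (fun f hf => hsf f (hT.mem_toFinset.1 hf))
  have hs1 : ∀ v, s v = v := by
    intro v
    have h1 : v ∈ LinearMap.range s := by rw [hrs]; trivial
    obtain ⟨w, rfl⟩ := h1
    exact LinearMap.congr_fun hss w
  -- only one conjugate
  have hcard : ¬ 2 ≤ Nat.card T := by
    intro h2
    apply hprim
    have hTf : Finite T := hT
    let ε : Fin (Nat.card T) ≃ T := (Finite.equivFin T).symm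
    refine ⟨Nat.card T, fun i => LinearMap.range (ε i : V →ₗ[ZMod p] V), h2, ?_, ?_, ?_⟩
    · apply DirectSum.isInternal_submodule_of_iSupIndep_of_iSup_eq_top
      · intro i
        rw [Submodule.disjoint_def]
        rintro v ⟨w, hw⟩ hv
        have h3 : (⨆ (j : Fin (Nat.card T)) (_ : j ≠ i), LinearMap.range (ε j : V →ₗ[ZMod p] V)) ≤
            LinearMap.ker (ε i : V →ₗ[ZMod p] V) := by
          refine iSup_le fun j => iSup_le fun hj => ?_
          rintro _ ⟨u, rfl⟩
          rw [LinearMap.mem_ker]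
          have h4 : (ε i : V →ₗ[ZMod p] V) * (ε j : V →ₗ[ZMod p] V) = 0 :=
            (hTM _ (ε i).2).orth hA (hTM _ (ε j).2) (fun h => hj (ε.injective (Subtype.ext h)).symm)
          exact LinearMap.congr_fun h4 u
        have h5 := LinearMap.mem_ker.1 (h3 hv)
        have h6 : (ε i : V →ₗ[ZMod p] V) v = v := by
          rw [← hw]
          exact LinearMap.congr_fun (hTM _ (ε i).2).idem w
        rw [← h6, h5]
      · rw [eq_top_iff]
        intro v _
        rw [← hs1 v, hs, LinearMap.sum_apply]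
        refine Submodule.sum_mem _ fun f hf => ?_
        have hf' := hT.mem_toFinset.1 hf
        refine Submodule.mem_iSup_of_mem (ε.symm ⟨f, hf'⟩) ?_
        rw [Equiv.apply_symm_apply]
        exact ⟨v, rfl⟩
    · intro i h
      apply (hTM _ (ε i).2).ne
      exact LinearMap.range_eq_bot.1 h
    · intro g i
      refine ⟨ε.symm ⟨K3a.cj σ g (ε i), hTcj g _ (ε i).2⟩, ?_⟩
      beta_reduce
      rw [Equiv.apply_symm_apply]
      exact (range_cj g _).symm
  have hTe : ∀ f ∈ T, f = e := by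
    intro f hf
    have hTf : Finite T := hT
    have h1 : Nat.card T ≤ 1 := by omega
    have := (Finite.card_le_one_iff_subsingleton (α := T)).mp h1
    exact congrArg Subtype.val (Subsingleton.elim (⟨f, hf⟩ : T) ⟨e, heT⟩)
  have he1 : e = 1 := by
    have h1 : s = e := by
      rw [hs]
      have h2 : hT.toFinset = {e} := by
        ext f
        rw [hT.mem_toFinset, Finset.mem_singleton]
        exact ⟨hTe f, fun h => h ▸ heT⟩
      rw [h2, Finset.sum_singleton]
    rw [← h1]
    exact LinearMap.ext hs1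
  have hidem : ∀ f ∈ K σ A, f * f = f → f ≠ 0 → f = 1 := by
    intro f hf hff hf0
    have h1 := he.mul_eq hA hf hff (by rw [he1, one_mul]; exact hf0)
    rw [he1, one_mul] at h1
    exact h1
  -- no nilpotent elements
  have hnil : ∀ y ∈ K σ A, IsNilpotent y → y = 0 := by
    let U : Submodule (ZMod p) V :=
      { carrier := {v | ∀ y ∈ K σ A, IsNilpotent y → y v = 0}
        add_mem' := by
          intro v w hv hw y hy hn
          rw [map_add, hv y hy hn, hw y hy hn, add_zero]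
        zero_mem' := by
          intro y _ _
          exact map_zero y
        smul_mem' := by
          intro c v hv y hy hn
          rw [map_smul, hv y hy hn, smul_zero] }
    have hex : ∃ n, ∃ W : Submodule (ZMod p) V, W ≠ ⊥ ∧ (∀ y ∈ K σ A, ∀ w ∈ W, y w ∈ W) ∧ Nat.card W = n := by
      refine ⟨_, ⊤, ?_, fun _ _ _ _ => trivial, rfl⟩
      intro h
      apply hV1
      apply LinearMap.ext
      intro v
      have : v ∈ (⊤ : Submodule (ZMod p) V) := trivial
      rw [h, Submodule.mem_bot] at this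
      rw [this]; rfl
    obtain ⟨W, hW0, hWK, hWc⟩ := Nat.find_spec hex
    have hWU : W ≤ U := by
      intro w hw y hy hn
      by_contra hne
      have h1 : W.map y ≤ W := by
        rintro _ ⟨u, hu, rfl⟩
        exact hWK y hy u hu
      have h2 : W.map y ≠ ⊥ := by
        intro h
        have h3 : y w ∈ W.map y := ⟨w, hw, rfl⟩
        rw [h, Submodule.mem_bot] at h3
        exact hne h3
      have h3 : Nat.card W ≤ Nat.card (W.map y) := by
        rw [hWc]
        refine Nat.find_min' hex ⟨W.map y, h2, ?_, rfl⟩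
        rintro z hz _ ⟨u, hu, rfl⟩
        refine ⟨z u, hWK z hz u hu, ?_⟩
        exact LinearMap.congr_fun (comm hA hy hz) u
      have h4 : W.map y = W := by
        apply SetLike.coe_injective
        exact Set.eq_of_subset_of_ncard_le h1 h3 (Set.toFinite _)
      obtain ⟨n, hn⟩ := hn
      have h5 : ∀ m : ℕ, W.map (y ^ m) = W := by
        intro m
        induction m with
        | zero => rw [pow_zero]; exact Submodule.map_id W
        | succ m ih =>
          have h6 : W.map (y ^ (m + 1)) = (W.map y).map (y ^ m) := by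
            rw [pow_succ]; exact Submodule.map_comp _ _ _
          rw [h6, h4, ih]
      have h6 := h5 n
      rw [hn] at h6
      apply hW0
      rw [← h6]
      exact Submodule.map_zero W
    have hUtop : U = ⊤ := by
      refine (hirr U ?_).resolve_left ?_
      · intro g v hv y hy hn
        have h1 := cj_apply (σ := σ) g⁻¹ y (σ g v)
        have h2 : σ g⁻¹ (σ g v) = v := LinearMap.congr_fun (inv_mul (σ := σ) g) v
        rw [h2] at h1
        have h3 : K3a.cj σ g⁻¹ y v = 0 := by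
          apply hv _ (cj_mem g⁻¹ hy)
          obtain ⟨n, hn⟩ := hn
          exact ⟨n, by rw [← cj_pow, hn, cj_zero]⟩
        rw [h3] at h1
        apply inj_σ (σ := σ) g⁻¹
        rw [← h1, map_zero]
      · intro h
        apply hW0
        rw [eq_bot_iff, ← h]
        exact hWU
    intro y hy hn
    apply LinearMap.ext
    intro v
    have h1 : v ∈ U := by rw [hUtop]; trivial
    exact h1 y hy hn
  obtain ⟨n, hn, hxn⟩ := exists_pow_idem x
  by_cases h0 : x ^ n = 0
  · exact absurd (hnil x hx ⟨n, h0⟩) hx0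
  · have h1 := hidem (x ^ n) (pow_mem hx n) hxn h0
    intro v w hvw
    have h2 : ∀ u, (x ^ n) u = u := fun u => by rw [h1]; rfl
    obtain ⟨m, rfl⟩ := Nat.exists_eq_add_of_lt hn
    rw [← h2 v, ← h2 w, zero_add, pow_succ]
    show (x ^ m) (x v) = (x ^ m) (x w)
    rw [hvw]

end Cfsg.Agent.H97.SB
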