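import Cfsg.Agent.H97.SBDef

set_option autoImplicit false

/-!
S4990, piece K3b: a self-centralizing abelian normal subgroup generating a field.
-/

namespace Cfsg.Agent.H97.SB

open Cfsg

namespace K3b

/-- A commutative subalgebra of a finite algebra without zero divisors is the image of a finite field. -/
theorem exists_field {p : ℕ} [Fact p.Prime] {R : Type} [Ring R] [Algebra (ZMod p) R] [Nontrivial R] [Finite R]
    (K0 : Subalgebra (ZMod p) R) (hcomm : ∀ x ∈ K0, ∀ y ∈ K0, x * y = y * x)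
    (hdom : ∀ x ∈ K0, ∀ y ∈ K0, x * y = 0 → x = 0 ∨ y = 0) :
    ∃ (K : Type) (_ : Field K) (_ : Finite K) (_ : Algebra (ZMod p) K) (f : K →ₐ[ZMod p] R),
      Function.Injective f ∧ ∀ x, x ∈ K0 ↔ ∃ y, f y = x := by
  letI : CommRing K0 := { (inferInstance : Ring K0) with
    mul_comm := fun x y => Subtype.ext (hcomm x x.2 y y.2) }
  haveI : NoZeroDivisors K0 := ⟨fun {x y} h => by
    rcases hdom x x.2 y y.2 (congrArg Subtype.val h) with h | h
    · exact Or.inl (Subtype.ext h)
    · exact Or.inr (Subtype.ext h)⟩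
  haveI : Nontrivial K0 := ⟨0, 1, fun h => zero_ne_one (congrArg Subtype.val h)⟩
  haveI : IsDomain K0 := NoZeroDivisors.to_isDomain _
  letI : DecidableEq K0 := Classical.decEq _
  haveI : Finite K0 := Subtype.finite
  letI : Fintype K0 := Fintype.ofFinite _
  letI : Field K0 := Fintype.fieldOfDomain K0
  refine ⟨K0, inferInstance, inferInstance, (inferInstance : Algebra (ZMod p) K0), K0.val, Subtype.val_injective, ?_⟩
  intro x
  constructor
  · intro h; exact ⟨⟨x, h⟩, rfl⟩
  · rintro ⟨y, rfl⟩; exact y.2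

theorem trace_nd {p : ℕ} [Fact p.Prime] {K : Type} [Field K] [Finite K] [Algebra (ZMod p) K] {a : K}
    (h : ∀ b, Algebra.trace (ZMod p) K (a * b) = 0) : a = 0 := by
  by_contra ha
  haveI : FiniteDimensional (ZMod p) K := Module.Finite.of_finite
  have h1 := Algebra.trace_ne_zero (ZMod p) K
  apply h1
  ext z
  have := h (a⁻¹ * z)
  rw [mul_inv_cancel_left₀ ha] at this
  rw [this]; rfl

end K3b

variable {p : ℕ} {V : Type} [AddCommGroup V] [Module (ZMod p) V] {F : Type} [Group F]
  {σ : F →* (V →ₗ[ZMod p] V)} {S : Subgroup F}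

/-- (K3b) -/
theorem realIn_field [Fact p.Prime] [Finite V] [Nontrivial V] [Finite F] (hσ : Function.Injective σ)
    (A : Subgroup F) [A.Normal] (hA : ∀ a ∈ A, ∀ b ∈ A, a * b = b * a)
    (hself : ∀ x, (∀ a ∈ A, a * x = x * a) → x ∈ A)
    (hK : ∀ x ∈ Algebra.adjoin (ZMod p) (σ '' (A : Set F)), x ≠ 0 → Function.Injective x) :
    RealIn σ ⊤ ⊤ := by
  classical
  haveI : Finite (V →ₗ[ZMod p] V) := Finite.of_injective (fun f : V →ₗ[ZMod p] V => (f : V → V)) DFunLike.coe_injective
  haveI : Nontrivial (V →ₗ[ZMod p] V) := inferInstanceAs (Nontrivial (Module.End (ZMod p) V))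
  have hmulσ : ∀ g h v, σ (g * h) v = σ g (σ h v) := fun g h v => by rw [map_mul]; rfl
  have hinv : ∀ g, σ g * σ g⁻¹ = 1 := fun g => by rw [← map_mul, mul_inv_cancel, map_one]
  have hinv' : ∀ g, σ g⁻¹ * σ g = 1 := fun g => by rw [← map_mul, inv_mul_cancel, map_one]
  have hcomm : ∀ x ∈ Algebra.adjoin (ZMod p) (σ '' (A : Set F)), ∀ y ∈ Algebra.adjoin (ZMod p) (σ '' (A : Set F)),
      x * y = y * x := by
    letI := Algebra.adjoinCommRingOfComm (ZMod p) (s := σ '' (A : Set F)) (by
      rintro _ ⟨a, ha, rfl⟩ _ ⟨b, hb, rfl⟩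
      rw [← map_mul, hA a ha b hb, map_mul])
    intro x hx y hy
    exact congrArg Subtype.val (mul_comm (⟨x, hx⟩ : Algebra.adjoin (ZMod p) (σ '' (A : Set F))) ⟨y, hy⟩)
  obtain ⟨K, _, _, _, f, hf, hfK⟩ := K3b.exists_field (Algebra.adjoin (ZMod p) (σ '' (A : Set F))) hcomm (by
    intro x hx y hy hxy
    by_cases h0 : x = 0
    · exact Or.inl h0
    · right
      refine LinearMap.ext fun v => hK x hx h0 ?_
      have := LinearMap.congr_fun hxy v
      simpa using this)
  obtain ⟨v, hv⟩ := exists_ne (0 : V)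
  -- evaluation at `v`
  have hev : ∀ x, f x v = 0 → x = 0 := by
    intro x hx
    by_contra h0
    have h1 : f x ≠ 0 := fun h => h0 (hf (by rw [h, map_zero]))
    exact hv (hK (f x) ((hfK _).2 ⟨x, rfl⟩) h1 (by rw [hx, map_zero]))
  let ev : K →ₗ[ZMod p] V := (LinearMap.applyₗ v : (V →ₗ[ZMod p] V) →ₗ[ZMod p] V).comp f.toLinearMap
  have hev1 : ∀ x, ev x = f x v := fun x => rfl
  let U : Submodule (ZMod p) V := LinearMap.range ev
  have hU : ∀ u ∈ U, ∃ x, f x v = u := fun u hu => hu
  have hg : ∃ g : V → K, ∀ u ∈ U, f (g u) v = u := by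
    refine ⟨fun u => if h : ∃ x, f x v = u then h.choose else 0, fun u hu => ?_⟩
    simp only [dif_pos (hU u hu)]
    exact (hU u hu).choose_spec
  obtain ⟨g, hg⟩ := hg
  have hguniq : ∀ u ∈ U, ∀ x, f x v = u → g u = x := by
    intro u hu x hx
    refine sub_eq_zero.1 (hev _ ?_)
    rw [map_sub, LinearMap.sub_apply, hg u hu, hx, sub_self]
  -- the automorphisms
  have hτ : ∀ h : F, ∃ τ : K ≃ₐ[ZMod p] K, ∀ x, f (τ x) = σ h * f x * σ h⁻¹ := by
    intro h
    have hmem : ∀ x : K, ∃ y : K, f y = σ h * f x * σ h⁻¹ := by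
      intro x
      rw [← hfK]
      have hx : f x ∈ Algebra.adjoin (ZMod p) (σ '' (A : Set F)) := (hfK _).2 ⟨x, rfl⟩
      generalize f x = z at hx ⊢
      induction hx using Algebra.adjoin_induction with
      | mem x hx =>
        obtain ⟨a, ha, rfl⟩ := hx
        refine Algebra.subset_adjoin ⟨h * a * h⁻¹, (inferInstance : A.Normal).conj_mem a ha h, ?_⟩
        rw [map_mul, map_mul]
      | algebraMap r =>
        rw [← Algebra.commutes, mul_assoc, hinv, mul_one]
        exact Subalgebra.algebraMap_mem _ r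
      | add x y _ _ hx hy => rw [mul_add, add_mul]; exact Subalgebra.add_mem _ hx hy
      | mul x y _ _ hx hy =>
        have : σ h * (x * y) * σ h⁻¹ = (σ h * x * σ h⁻¹) * (σ h * y * σ h⁻¹) := by
          have e := hinv' h
          calc σ h * (x * y) * σ h⁻¹ = σ h * x * 1 * y * σ h⁻¹ := by noncomm_ring
            _ = σ h * x * (σ h⁻¹ * σ h) * y * σ h⁻¹ := by rw [e]
            _ = _ := by noncomm_ring
        rw [this]; exact Subalgebra.mul_mem _ hx hy
    choose t ht using hmem
    let τ : K →ₐ[ZMod p] K :=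
      { toFun := t
        map_one' := hf (by rw [ht, map_one, mul_one, hinv])
        map_mul' := fun x y => hf (by
          rw [ht, map_mul, map_mul, ht, ht]
          have e := hinv' h
          calc σ h * (f x * f y) * σ h⁻¹ = σ h * f x * 1 * f y * σ h⁻¹ := by noncomm_ring
            _ = σ h * f x * (σ h⁻¹ * σ h) * f y * σ h⁻¹ := by rw [e]
            _ = _ := by noncomm_ring)
        map_zero' := hf (by rw [ht, map_zero, mul_zero, zero_mul])
        map_add' := fun x y => hf (by rw [ht, map_add, map_add, ht, ht, mul_add, add_mul])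
        commutes' := fun r => hf (by
          rw [ht, AlgHom.commutes, ← Algebra.commutes, mul_assoc, hinv, mul_one]) }
    have hτi : Function.Injective τ := τ.toRingHom.injective
    refine ⟨AlgEquiv.ofBijective τ ⟨hτi, Finite.surjective_of_injective hτi⟩, fun x => ht x⟩
  choose τ hτ using hτ
  have hτv : ∀ h, σ h v = v → ∀ x, f (τ h x) v = σ h (f x v) := by
    intro h hh x
    rw [hτ]
    have h1 : σ h⁻¹ v = v := by
      have := LinearMap.congr_fun (hinv' h) v
      rw [Module.End.mul_apply, hh] at this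
      exact this
    rw [Module.End.mul_apply, Module.End.mul_apply, h1]
  have hUi : ∀ h, σ h v = v → ∀ u ∈ U, σ h u ∈ U := by
    intro h hh u hu
    obtain ⟨x, rfl⟩ := hU u hu
    exact ⟨τ h x, hτv h hh x⟩
  have hgτ : ∀ h, σ h v = v → ∀ u ∈ U, g (σ h u) = τ h (g u) := by
    intro h hh u hu
    refine hguniq _ (hUi h hh u hu) _ ?_
    rw [hτv h hh, hg u hu]
  refine ⟨v, Submodule.mem_top, U, le_top, fun u w => Algebra.trace (ZMod p) K (g u * g w),
    fun h _ hh => hUi h hh, ?_, ?_, ?_, ?_, ?_⟩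
  · intro h _ hh hfix x _
    -- `h` centralizes `A`
    have h1 : ∀ x, τ h x = x := by
      intro x
      have hx : f x v ∈ U := ⟨x, rfl⟩
      refine sub_eq_zero.1 (hev _ ?_)
      rw [map_sub, LinearMap.sub_apply, hτv h hh, hfix _ hx, sub_self]
    have h2 : ∀ a ∈ A, a * h = h * a := by
      intro a ha
      obtain ⟨x, hx⟩ := (hfK (σ a)).1 (Algebra.subset_adjoin ⟨a, ha, rfl⟩)
      have h3 := hτ h x
      rw [h1, hx, ← map_mul, ← map_mul] at h3
      have h4 := hσ h3
      rw [eq_mul_inv_iff_mul_eq] at h4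
      exact h4
    have h3 := hself h h2
    by_contra hne
    have h4 : σ h - 1 ∈ Algebra.adjoin (ZMod p) (σ '' (A : Set F)) :=
      Subalgebra.sub_mem _ (Algebra.subset_adjoin ⟨h, h3, rfl⟩) (Subalgebra.one_mem _)
    have h5 : σ h - 1 ≠ 0 := by
      intro h0
      apply hne
      rw [sub_eq_zero.1 h0]; rfl
    refine hv (hK _ h4 h5 ?_)
    rw [LinearMap.sub_apply, hh, map_zero]
    exact sub_self v
  · intro u hu u' hu' w _
    have : g (u + u') = g u + g u' := hguniq _ (U.add_mem hu hu') _ (by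
      rw [map_add, LinearMap.add_apply, hg u hu, hg u' hu'])
    show Algebra.trace (ZMod p) K (g (u + u') * g w) = _
    rw [this, add_mul, map_add]
  · intro u _ w hw w' hw'
    have : g (w + w') = g w + g w' := hguniq _ (U.add_mem hw hw') _ (by
      rw [map_add, LinearMap.add_apply, hg w hw, hg w' hw'])
    show Algebra.trace (ZMod p) K (g u * g (w + w')) = _
    rw [this, mul_add, map_add]
  · intro h _ hh u hu w hw
    show Algebra.trace (ZMod p) K (g (σ h u) * g (σ h w)) = _
    rw [hgτ h hh u hu, hgτ h hh w hw, ← map_mul]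
    exact Algebra.trace_eq_of_algEquiv (τ h) _
  · intro u hu h0
    have : g u = 0 := by
      refine K3b.trace_nd (p := p) fun b => ?_
      have hb : f b v ∈ U := ⟨b, rfl⟩
      have h1 : Algebra.trace (ZMod p) K (g u * g (f b v)) = 0 := h0 _ hb
      have e : g (f b v) = b := hguniq _ hb b rfl
      rwa [e] at h1
    rw [← hg u hu, this, map_zero, LinearMap.zero_apply]

end Cfsg.Agent.H97.SB
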