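import Mathlib

set_option autoImplicit false

/-!
(K3c) for S4990: a self-centralizing abelian normal subgroup of a finite nilpotent group.
-/

namespace Cfsg.Agent.H97.SB

/-- (K3c) A maximal among the abelian normal subgroups; if C = centralizer A > A then (C/A) meets the center of the nilpotent group F/A, giving x in C \ A with A<x> abelian normal. -/
theorem exists_selfcent (F : Type) [Group F] [Finite F] [Group.IsNilpotent F] :
    ∃ A : Subgroup F, A.Normal ∧ (∀ a ∈ A, ∀ b ∈ A, a * b = b * a) ∧ ∀ x, (∀ a ∈ A, a * x = x * a) → x ∈ A := by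
  classical
  obtain ⟨A, ⟨hAn, hAc⟩, hmax⟩ :=
    Set.Finite.exists_maximal (s := {A : Subgroup F | A.Normal ∧ ∀ a ∈ A, ∀ b ∈ A, a * b = b * a})
      (Set.toFinite _) ⟨⊥, inferInstance, by
        intro a ha b hb
        rw [Subgroup.mem_bot.1 ha, Subgroup.mem_bot.1 hb]⟩
  refine ⟨A, hAn, hAc, ?_⟩
  by_contra hcon
  push Not at hcon
  obtain ⟨x0, hx0, hx0A⟩ := hcon
  let C : Subgroup F := Subgroup.centralizer (A : Set F)
  have hCn : C.Normal := Subgroup.normal_centralizer
  let π : F →* F ⧸ A := QuotientGroup.mk' A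
  have hπs : Function.Surjective π := QuotientGroup.mk'_surjective A
  have hnil : Group.IsNilpotent (F ⧸ A) := inferInstance
  let N : Subgroup (F ⧸ A) := C.map π
  have hNn : N.Normal := Subgroup.Normal.map hCn π hπs
  have hN : N ≠ ⊥ := by
    intro hbot
    have hx : π x0 ∈ N := ⟨x0, Subgroup.mem_centralizer_iff.2 hx0, rfl⟩
    rw [hbot, Subgroup.mem_bot] at hx
    exact hx0A ((QuotientGroup.eq_one_iff x0).1 hx)
  -- the intersection with the centre
  have hmeet : ∃ z ∈ N, z ∈ Subgroup.center (F ⧸ A) ∧ z ≠ 1 := by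
    by_contra hno
    push Not at hno
    have hall : ∀ n : ℕ, ∀ z ∈ N, z ∈ Subgroup.upperCentralSeries (F ⧸ A) n → z = 1 := by
      intro n
      induction n with
      | zero =>
        intro z _ hz
        rw [Subgroup.upperCentralSeries_zero, Subgroup.mem_bot] at hz
        exact hz
      | succ n ih =>
        intro z hzN hz
        apply hno z hzN
        rw [Subgroup.mem_center_iff]
        intro g
        rw [Subgroup.mem_upperCentralSeries_succ_iff] at hz
        have h2 := hz g
        have h3 : z * g * z⁻¹ * g⁻¹ ∈ N := by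
          have h4 : z * (g * z⁻¹ * g⁻¹) ∈ N := N.mul_mem hzN (hNn.conj_mem _ (N.inv_mem hzN) g)
          have h5 : z * g * z⁻¹ * g⁻¹ = z * (g * z⁻¹ * g⁻¹) := by group
          rw [h5]; exact h4
        have h4 := ih _ h3 h2
        have h5 : z * g * z⁻¹ * g⁻¹ = 1 := h4
        have h6 : z * g = g * z := by
          have := congrArg (fun y => y * g * z) h5
          simpa [mul_assoc] using this
        exact h6.symm
    obtain ⟨n, hn⟩ := hnil.nilpotent (G := F ⧸ A)
    apply hN
    rw [eq_bot_iff]
    intro z hz
    exact Subgroup.mem_bot.2 (hall n z hz (by rw [hn]; exact Subgroup.mem_top z))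
  obtain ⟨z, ⟨x, hxC, rfl⟩, hzc, hz1⟩ := hmeet
  have hxA : x ∉ A := fun h => hz1 ((QuotientGroup.eq_one_iff x).2 h)
  have hxC' : ∀ a ∈ A, a * x = x * a := fun a ha => Subgroup.mem_centralizer_iff.1 hxC a ha
  let B : Subgroup F := A ⊔ Subgroup.zpowers x
  have hBmap : B = (Subgroup.zpowers (π x)).comap π := by
    have h1 : (Subgroup.zpowers (π x)) = B.map π := by
      show _ = (A ⊔ Subgroup.zpowers x).map π
      rw [Subgroup.map_sup, MonoidHom.map_zpowers]
      have h2 : A.map π = ⊥ := by
        rw [Subgroup.map_eq_bot_iff]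
        rw [QuotientGroup.ker_mk']
      rw [h2, bot_sup_eq]
    rw [h1, Subgroup.comap_map_eq, QuotientGroup.ker_mk']
    exact (sup_eq_left.2 le_sup_left).symm
  have hzn : (Subgroup.zpowers (π x)).Normal := by
    constructor
    intro y hy g
    obtain ⟨n, rfl⟩ := Subgroup.mem_zpowers_iff.1 hy
    have h2 : g * π x ^ n = π x ^ n * g :=
      (Subgroup.mem_center_iff.1 ((Subgroup.center (F ⧸ A)).zpow_mem hzc n) g)
    rw [h2, mul_inv_cancel_right]
    exact hy
  have hBn : B.Normal := by
    rw [hBmap]; exact hzn.comap π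
  have hBc : ∀ a ∈ B, ∀ b ∈ B, a * b = b * a := by
    have hle1 : B ≤ C := by
      apply sup_le
      · intro a ha
        exact Subgroup.mem_centralizer_iff.2 fun b hb => hAc b hb a ha
      · rw [Subgroup.zpowers_le]; exact hxC
    -- B centralizes A and x
    have hle2 : B ≤ Subgroup.centralizer (B : Set F) := by
      apply sup_le
      · intro a ha
        apply Subgroup.mem_centralizer_iff.2
        intro b hb
        exact ((Subgroup.mem_centralizer_iff.1 (hle1 hb)) a ha).symm
      · rw [Subgroup.zpowers_le]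
        apply Subgroup.mem_centralizer_iff.2
        intro b hb
        have hle3 : B ≤ Subgroup.centralizer {x} := by
          apply sup_le
          · intro a ha
            exact Subgroup.mem_centralizer_singleton_iff.2 (hxC' a ha)
          · rw [Subgroup.zpowers_le]
            exact Subgroup.mem_centralizer_singleton_iff.2 rfl
        exact Subgroup.mem_centralizer_singleton_iff.1 (hle3 hb)
    intro a ha b hb
    exact (Subgroup.mem_centralizer_iff.1 (hle2 hb)) a ha
  have hle : B ≤ A := hmax ⟨hBn, hBc⟩ le_sup_left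
  exact hxA (hle (Subgroup.mem_sup_right (Subgroup.mem_zpowers x)))

end Cfsg.Agent.H97.SB
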