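import Cfsg.Agent.H97.SBDef
import Cfsg.Agent.H97.SBK1
import Cfsg.Agent.H97.SBK2
import Cfsg.Agent.H97.SBK3a
import Cfsg.Agent.H97.SBK3b
import Cfsg.Agent.H97.SBK3c

set_option autoImplicit false

/-!
Nilpotent `p'`-groups of linear transformations have real vectors.
-/

namespace Cfsg.Agent.H97.SB

open Cfsg

section
variable {p : ℕ} [Fact p.Prime] {V : Type} [AddCommGroup V] [Module (ZMod p) V] {F : Type} [Group F]
  {σ : F →* (V →ₗ[ZMod p] V)} {S : Subgroup F}

theorem K0.maschke [Finite F] (hp : ¬ p ∣ Nat.card F) {W1 W : Submodule (ZMod p) V} (hle : W1 ≤ W)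
    (h1 : ∀ h ∈ S, ∀ w ∈ W1, σ h w ∈ W1) (h2 : ∀ h ∈ S, ∀ w ∈ W, σ h w ∈ W) :
    ∃ W2 : Submodule (ZMod p) V, Disjoint W1 W2 ∧ W1 ⊔ W2 = W ∧ ∀ h ∈ S, ∀ w ∈ W2, σ h w ∈ W2 := by
  classical
  have := Fintype.ofFinite S
  obtain ⟨π, hπ⟩ := W1.exists_isCompl
  let π0 : V →ₗ[ZMod p] V := W1.subtype ∘ₗ (W1.projectionOnto π hπ)
  have hπ1 : ∀ x, π0 x ∈ W1 := fun x => (W1.projectionOnto π hπ x).2
  have hπ2 : ∀ x ∈ W1, π0 x = x := by
    intro x hx
    have := Submodule.projectionOnto_apply_left hπ ⟨x, hx⟩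
    simp only [π0, LinearMap.comp_apply]
    exact congrArg Subtype.val this
  have hc : ((Nat.card S : ℕ) : ZMod p) ≠ 0 := by
    intro h0
    rw [ZMod.natCast_eq_zero_iff] at h0
    exact hp (h0.trans (Subgroup.card_subgroup_dvd_card S))
  let P : V →ₗ[ZMod p] V := ((Nat.card S : ℕ) : ZMod p)⁻¹ • ∑ s : S, (σ s) ∘ₗ π0 ∘ₗ (σ (s : F)⁻¹)
  have hP : ∀ x, P x = ((Nat.card S : ℕ) : ZMod p)⁻¹ • ∑ s : S, σ s (π0 (σ (s : F)⁻¹ x)) := by
    intro x
    simp [P, LinearMap.sum_apply]
  have hP1 : ∀ x, P x ∈ W1 := by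
    intro x
    rw [hP]
    exact W1.smul_mem _ (W1.sum_mem fun s _ => h1 s s.2 _ (hπ1 _))
  have hσ : ∀ (s : F) x, σ s (σ s⁻¹ x) = x := by
    intro s x
    have : (σ s * σ s⁻¹) x = x := by rw [← map_mul, mul_inv_cancel, map_one]; rfl
    exact this
  have hP2 : ∀ x ∈ W1, P x = x := by
    intro x hx
    rw [hP]
    have : ∀ s : S, σ s (π0 (σ (s : F)⁻¹ x)) = x := by
      intro s
      rw [hπ2 _ (h1 _ (inv_mem s.2) _ hx), hσ]
    rw [Finset.sum_congr rfl fun s _ => this s, Finset.sum_const, Finset.card_univ, ← Nat.card_eq_fintype_card]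
    rw [← Nat.cast_smul_eq_nsmul (ZMod p), smul_smul, inv_mul_cancel₀ hc, one_smul]
  have hP3 : ∀ h ∈ S, ∀ x, P (σ h x) = σ h (P x) := by
    intro h hh x
    rw [hP, hP, map_smul, map_sum]
    congr 1
    refine Fintype.sum_equiv (Equiv.mulLeft (⟨h, hh⟩⁻¹ : S)) _ _ fun s => ?_
    have e1 : ((Equiv.mulLeft (⟨h, hh⟩⁻¹ : S)) s : F) = h⁻¹ * s := rfl
    rw [e1]
    have e2 : σ (h⁻¹ * (s : F))⁻¹ x = σ (s : F)⁻¹ (σ h x) := by
      have : (h⁻¹ * (s : F))⁻¹ = (s : F)⁻¹ * h := by group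
      rw [this, map_mul]; rfl
    rw [e2]
    have e3 : ∀ y, σ h (σ (h⁻¹ * (s : F)) y) = σ s y := by
      intro y
      have : (σ h * σ (h⁻¹ * (s : F))) y = σ s y := by
        rw [← map_mul, mul_inv_cancel_left]
      exact this
    rw [e3]
  refine ⟨W ⊓ LinearMap.ker P, ?_, ?_, ?_⟩
  · rw [Submodule.disjoint_def]
    intro x hx hx2
    have := hP2 x hx
    rw [← this]
    exact hx2.2
  · apply le_antisymm
    · exact sup_le hle inf_le_left
    · intro x hx
      have e : x = P x + (x - P x) := by abel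
      rw [e]
      refine Submodule.add_mem_sup (hP1 x) ⟨W.sub_mem hx (hle (hP1 x)), ?_⟩
      show P (x - P x) = 0
      rw [map_sub, hP2 _ (hP1 x), sub_self]
  · intro h hh w hw
    refine ⟨h2 h hh w hw.1, ?_⟩
    show P (σ h w) = 0
    rw [hP3 h hh]
    have : P w = 0 := hw.2
    rw [this, map_zero]

end

theorem K0.map_bot {p : ℕ} {V : Type} [AddCommGroup V] [Module (ZMod p) V] {W : Submodule (ZMod p) V}
    {W1 : Submodule (ZMod p) W} (h : W1.map W.subtype = ⊥) : W1 = ⊥ := by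
  rw [eq_bot_iff]
  intro x hx
  have h1 : (x : V) ∈ W1.map W.subtype := ⟨x, hx, rfl⟩
  rw [h, Submodule.mem_bot] at h1
  rw [Submodule.mem_bot]
  exact Subtype.ext h1

theorem K0.transfer {p : ℕ} [Fact p.Prime] {V : Type} [AddCommGroup V] [Module (ZMod p) V] {F : Type} [Group F]
    {σ : F →* (V →ₗ[ZMod p] V)} {S : Subgroup F} {W : Submodule (ZMod p) V} {F' : Type} [Group F']
    {τ : F' →* (W →ₗ[ZMod p] W)} (φ : S → F')
    (hφ : ∀ (s : S) (w : W), ((τ (φ s) w : W) : V) = σ s w) (h : RealIn τ ⊤ ⊤) : RealIn σ S W := by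
  classical
  obtain ⟨v, -, U, -, β, h1, h2, h3, h4, h5, h6⟩ := h
  have hfix : ∀ h (hh : h ∈ S), σ h v = v → τ (φ ⟨h, hh⟩) v = v := by
    intro h hh hv
    apply Subtype.ext
    rw [hφ]; exact hv
  obtain ⟨r, hr⟩ : ∃ r : V → W, ∀ w : W, r (w : V) = w :=
    ⟨fun x => if hx : x ∈ W then ⟨x, hx⟩ else 0, fun w => by simp⟩
  refine ⟨v, v.2, U.map W.subtype, ?_, fun x y => β (r x) (r y),
    ?_, ?_, ?_, ?_, ?_, ?_⟩
  · rintro x ⟨y, -, rfl⟩
    exact y.2
  · rintro h hh hv x ⟨y, hy, rfl⟩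
    refine ⟨τ (φ ⟨h, hh⟩) y, h1 _ (Subgroup.mem_top _) (hfix h hh hv) y hy, ?_⟩
    exact hφ ⟨h, hh⟩ y
  · intro h hh hv hU x hx
    have := h2 (φ ⟨h, hh⟩) (Subgroup.mem_top _) (hfix h hh hv) (fun u hu => by
      apply Subtype.ext
      rw [hφ]
      exact hU _ ⟨u, hu, rfl⟩) ⟨x, hx⟩ Submodule.mem_top
    have h7 := congrArg Subtype.val this
    rw [hφ] at h7
    exact h7
  · rintro _ ⟨u, hu, rfl⟩ _ ⟨u', hu', rfl⟩ _ ⟨w, hw, rfl⟩
    show β (r ((u : V) + u')) (r w) = β (r u) (r w) + β (r u') (r w)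
    rw [← Submodule.coe_add, hr, hr, hr, hr]
    exact h3 u hu u' hu' w hw
  · rintro _ ⟨u, hu, rfl⟩ _ ⟨w, hw, rfl⟩ _ ⟨w', hw', rfl⟩
    show β (r u) (r ((w : V) + w')) = β (r u) (r w) + β (r u) (r w')
    rw [← Submodule.coe_add, hr, hr, hr, hr]
    exact h4 u hu w hw w' hw'
  · rintro h hh hv _ ⟨u, hu, rfl⟩ _ ⟨w, hw, rfl⟩
    show β (r (σ h u)) (r (σ h w)) = β (r u) (r w)
    have e1 := hφ ⟨h, hh⟩ u
    have e2 := hφ ⟨h, hh⟩ w
    simp only at e1 e2
    rw [← e1, ← e2, hr, hr, hr, hr]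
    exact h5 _ (Subgroup.mem_top _) (hfix h hh hv) u hu w hw
  · rintro _ ⟨u, hu, rfl⟩ hw
    have : u = 0 := by
      apply h6 u hu
      intro w hwU
      have := hw w ⟨w, hwU, rfl⟩
      simp only at this
      have h8 : β (r (u : V)) (r (w : V)) = 0 := this
      rw [hr, hr] at h8
      exact h8
    rw [this]; rfl

theorem K0.main {p : ℕ} [Fact p.Prime] (n : ℕ) : ∀ (V : Type) [AddCommGroup V] [Module (ZMod p) V] [Finite V]
    (F : Type) [Group F] [Finite F] [Group.IsNilpotent F] (σ : F →* (V →ₗ[ZMod p] V)) (_ : ¬ p ∣ Nat.card F)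
    (S : Subgroup F) (W : Submodule (ZMod p) V) (_ : ∀ h ∈ S, ∀ w ∈ W, σ h w ∈ W) (_ : Nat.card W ≤ n),
    RealIn σ S W := by
  induction n with
  | zero =>
    intro V _ _ _ F _ _ _ σ hp S W hW hn
    exact absurd hn (by have := Nat.card_pos (α := W); omega)
  | succ n ih =>
    intro V _ _ _ F _ _ _ σ hp S W hW hn
    by_cases hW0 : W = ⊥
    · refine ⟨0, W.zero_mem, ⊥, bot_le, fun _ _ => 0, ?_, ?_, ?_, ?_, ?_, ?_⟩
      · rintro h - - u hu
        rw [Submodule.mem_bot] at hu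
        rw [hu, map_zero]; exact Submodule.zero_mem _
      · rintro h - - - x hx
        rw [hW0, Submodule.mem_bot] at hx
        rw [hx, map_zero]
      · intros; simp
      · intros; simp
      · intros; rfl
      · intro u hu _
        simpa using hu
    by_cases hirr : ∀ W1 : Submodule (ZMod p) V, W1 ≤ W → (∀ h ∈ S, ∀ w ∈ W1, σ h w ∈ W1) → W1 = ⊥ ∨ W1 = W
    swap
    · push Not at hirr
      obtain ⟨W1, hle, h1, hne, hne'⟩ := hirr
      obtain ⟨W2, hd, hs, h2⟩ := K0.maschke hp hle h1 hW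
      have hlt : ∀ {A B : Submodule (ZMod p) V}, A ≤ B → A ≠ B → Nat.card A < Nat.card B := by
        intro A B hAB hne
        have hss : (A : Set V) ⊂ (B : Set V) := lt_of_le_of_ne hAB (fun h => hne (SetLike.coe_injective h))
        exact Set.ncard_lt_ncard hss (Set.toFinite _)
      have hW2 : W2 ≠ W := by
        intro h
        apply hne
        have := hd.eq_bot
        rw [h, inf_eq_left.mpr hle] at this
        exact this
      have c1 := hlt hle hne'
      have c2 := hlt (by rw [← hs]; exact le_sup_right) hW2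
      rw [← hs]
      exact RealIn.sup hd h1 h2 (ih V F σ hp S W1 h1 (by omega)) (ih V F σ hp S W2 h2 (by omega))
    -- irreducible case
    let τ : S →* (W →ₗ[ZMod p] W) :=
      { toFun := fun s => (σ s).restrict (fun w hw => hW s s.2 w hw)
        map_one' := by ext w; simp
        map_mul' := fun a b => by ext w; simp }
    have hτ : ∀ (s : S) (w : W), ((τ s w : W) : V) = σ s w := fun s w => rfl
    let F' := S ⧸ τ.ker
    let τ' : F' →* (W →ₗ[ZMod p] W) := QuotientGroup.lift τ.ker τ (fun x hx => hx)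
    have hτ' : ∀ s : S, τ' (QuotientGroup.mk s) = τ s := fun s => rfl
    have hinj : Function.Injective τ' := by
      intro x y hxy
      obtain ⟨a, rfl⟩ := QuotientGroup.mk_surjective x
      obtain ⟨b, rfl⟩ := QuotientGroup.mk_surjective y
      rw [hτ', hτ'] at hxy
      rw [QuotientGroup.eq, MonoidHom.mem_ker, map_mul, ← hxy, ← map_mul, inv_mul_cancel, map_one]
    have hNt : Nontrivial W := Submodule.nontrivial_iff_ne_bot.mpr hW0
    have hirr' : KR.Irr τ' := by
      intro W1 hW1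
      have h1 := hirr (W1.map W.subtype) (by rintro x ⟨y, -, rfl⟩; exact y.2) (by
        rintro h hh x ⟨y, hy, rfl⟩
        exact ⟨τ ⟨h, hh⟩ y, hW1 (QuotientGroup.mk ⟨h, hh⟩) y hy, rfl⟩)
      rcases h1 with h1 | h1
      · left
        exact K0.map_bot h1
      · right
        rw [eq_top_iff]
        intro x _
        have : (x : V) ∈ W1.map W.subtype := by rw [h1]; exact x.2
        obtain ⟨y, hy, hyx⟩ := this
        have : y = x := Subtype.ext hyx
        rwa [← this]
    by_cases hprim : ∃ (k : ℕ) (W' : Fin k → Submodule (ZMod p) W), 2 ≤ k ∧ DirectSum.IsInternal W' ∧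
        (∀ i, W' i ≠ ⊥) ∧ ∀ g : F', ∀ i, ∃ j, (W' i).map (τ' g) = W' j
    swap
    · -- primitive
      obtain ⟨A, hAn, hA, hAs⟩ := exists_selfcent F'
      have h1 := realIn_field (σ := τ') hinj A hA hAs (fun x hx hx0 => adjoin_inj hinj hirr' hprim A hA x hx hx0)
      exact K0.transfer (fun s => (QuotientGroup.mk s : F')) (fun s w => by rw [hτ', hτ]) h1
    · -- imprimitive
      obtain ⟨k, W', hk, hint, hne, hperm⟩ := hprim
      let W2 : Fin k → Submodule (ZMod p) V := fun i => (W' i).map W.subtype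
      have hle : ∀ i, W2 i ≤ W := by rintro i x ⟨y, -, rfl⟩; exact y.2
      have hind : iSupIndep W2 := by
        have h1 := hint.submodule_iSupIndep
        intro i
        rw [Submodule.disjoint_def]
        rintro _ ⟨y, hy, rfl⟩ hx
        have e : ⨆ j, ⨆ (_ : j ≠ i), W2 j = (⨆ j, ⨆ (_ : j ≠ i), W' j).map W.subtype := by
          simp only [Submodule.map_iSup, W2]
        rw [e] at hx
        obtain ⟨z, hz, hzy⟩ := hx
        have : z = y := Subtype.ext hzy
        rw [this] at hz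
        have h2 := Submodule.disjoint_def.mp (h1 i) y hy hz
        rw [h2]; rfl
      have hperm2 : ∀ h ∈ S, ∀ i, ∃ j, (W2 i).map (σ h) = W2 j := by
        intro h hh i
        obtain ⟨j, hj⟩ := hperm (QuotientGroup.mk ⟨h, hh⟩) i
        refine ⟨j, ?_⟩
        show ((W' i).map W.subtype).map (σ h) = (W' j).map W.subtype
        rw [← hj, ← Submodule.map_comp, ← Submodule.map_comp]
        congr 1
      have hsup : ⨆ i, W2 i = W := by
        show ⨆ i, (W' i).map W.subtype = W
        rw [← Submodule.map_iSup, hint.submodule_iSup_eq_top, Submodule.map_top, Submodule.range_subtype]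
      have htrans : ∀ i j, ∃ h ∈ S, (W2 i).map (σ h) = W2 j := by
        intro i j
        by_contra hj
        push Not at hj
        let W1 : Submodule (ZMod p) V := ⨆ l : {l : Fin k // ∃ h ∈ S, (W2 i).map (σ h) = W2 l}, W2 l
        have hi1 : W2 i ≤ W1 :=
          le_iSup (fun l : {l : Fin k // ∃ h ∈ S, (W2 i).map (σ h) = W2 l} => W2 l)
            ⟨i, 1, S.one_mem, by rw [map_one]; exact Submodule.map_id _⟩
        have h1 : W1 ≤ W := iSup_le fun l => hle l
        have h2 : ∀ h ∈ S, ∀ w ∈ W1, σ h w ∈ W1 := by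
          intro h hh w hw
          have h3 : W1.map (σ h) ≤ W1 := by
            show (⨆ l : {l : Fin k // ∃ h ∈ S, (W2 i).map (σ h) = W2 l}, W2 l).map (σ h) ≤ W1
            rw [Submodule.map_iSup]
            refine iSup_le fun l => ?_
            obtain ⟨l, g, hg, hgl⟩ := l
            obtain ⟨l', hl'⟩ := hperm2 h hh l
            show (W2 l).map (σ h) ≤ W1
            rw [hl']
            refine le_iSup (fun l : {l : Fin k // ∃ h ∈ S, (W2 i).map (σ h) = W2 l} => W2 l)
              ⟨l', h * g, S.mul_mem hh hg, ?_⟩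
            rw [map_mul]
            show (W2 i).map (σ h ∘ₗ σ g) = W2 l'
            rw [Submodule.map_comp, hgl, hl']
          exact h3 ⟨w, hw, rfl⟩
        rcases hirr W1 h1 h2 with h3 | h3
        · exact hne i (K0.map_bot (le_bot_iff.mp (h3 ▸ hi1)))
        · have h4 : W1 ≤ ⨆ l, ⨆ (_ : l ≠ j), W2 l := by
            refine iSup_le fun l => ?_
            obtain ⟨l, g, hg, hgl⟩ := l
            have hlj : l ≠ j := by rintro rfl; exact hj g hg hgl
            exact le_iSup_of_le l (le_iSup_of_le hlj le_rfl)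
          have h5 := (hind j).eq_bot_of_le ((hle j).trans (h3 ▸ h4))
          exact hne j (K0.map_bot h5)
      let i0 : Fin k := ⟨0, by omega⟩
      have h0 : W2 i0 ≠ ⊥ := by
        exact fun h => hne i0 (K0.map_bot h)
      let T : Subgroup F :=
        { carrier := {h | h ∈ S ∧ (W2 i0).map (σ h) = W2 i0}
          one_mem' := ⟨S.one_mem, by rw [map_one]; exact Submodule.map_id _⟩
          mul_mem' := by
            rintro a b ⟨ha, ha'⟩ ⟨hb, hb'⟩
            refine ⟨S.mul_mem ha hb, ?_⟩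
            rw [map_mul]
            show (W2 i0).map (σ a ∘ₗ σ b) = W2 i0
            rw [Submodule.map_comp, hb', ha']
          inv_mem' := by
            rintro a ⟨ha, ha'⟩
            refine ⟨S.inv_mem ha, ?_⟩
            have e : (W2 i0).map (σ a⁻¹ ∘ₗ σ a) = W2 i0 := by
              have : σ a⁻¹ ∘ₗ σ a = LinearMap.id := by
                have : σ a⁻¹ * σ a = 1 := by rw [← map_mul, inv_mul_cancel, map_one]
                exact this
              rw [this]; exact Submodule.map_id _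
            rw [Submodule.map_comp, ha'] at e
            exact e }
      have hTle : ∀ h ∈ T, ∀ w ∈ W2 i0, σ h w ∈ W2 i0 := by
        intro h hh w hw
        have : σ h w ∈ (W2 i0).map (σ h) := ⟨w, hw, rfl⟩
        rwa [hh.2] at this
      have hcard : Nat.card (W2 i0) < Nat.card W := by
        let i1 : Fin k := ⟨1, by omega⟩
        have h01 : i0 ≠ i1 := by simp [i0, i1, Fin.ext_iff]
        have hneW : W2 i0 ≠ W := by
          intro h
          have h2 : W2 i1 ≠ ⊥ := fun h => hne i1 (K0.map_bot h)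
          apply h2
          have h3 := hind.pairwiseDisjoint h01
          rw [Function.onFun, h] at h3
          exact (h3.symm.eq_bot_of_le (hle i1))
        have hss : ((W2 i0 : Submodule (ZMod p) V) : Set V) ⊂ (W : Set V) :=
          lt_of_le_of_ne (hle i0) (fun h => hneW (SetLike.coe_injective h))
        exact Set.ncard_lt_ncard hss (Set.toFinite _)
      have h1 := ih V F σ hp T (W2 i0) hTle (by omega)
      rw [← hsup]
      exact RealIn.ind hind hperm2 htrans i0 h0 T (fun h => Iff.rfl) h1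

theorem real_vec {p : ℕ} [Fact p.Prime] (V : Type) [AddCommGroup V] [Module (ZMod p) V] [Finite V] (F : Type)
    [Group F] [Finite F] [Group.IsNilpotent F] (σ : F →* (V →ₗ[ZMod p] V)) (hp : ¬ p ∣ Nat.card F) :
    RealIn σ ⊤ ⊤ :=
  K0.main _ V F σ hp ⊤ ⊤ (fun _ _ _ _ => Submodule.mem_top) le_rfl

end Cfsg.Agent.H97.SB
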