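import Cfsg.Agent.S4959
import Cfsg.Agent.H97.SBDef

set_option autoImplicit false

/-!
K9: the real vector criterion applied to a nilpotent complement.
-/

namespace Cfsg.Agent.H97.SB

open Cfsg

/-- (K9) with an additive copy of the normal subgroup -/
theorem knorr_aux {X : Type} [Group X] [Finite X] {p : ℕ} [Fact p.Prime] (V : Subgroup X) [hVn : V.Normal]
    {A : Type} [AddCommGroup A] [Module (ZMod p) A] [Finite A] (t : A → X) (ht0 : t 0 = 1)
    (ht : ∀ a b, t (a + b) = t a * t b) (hinj : Function.Injective t) (hV : ∀ x, x ∈ V ↔ ∃ a, t a = x)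
    (hreal : ∀ (V : Type) [AddCommGroup V] [Module (ZMod p) V] [Finite V] (F : Type) [Group F] [Finite F]
      [Group.IsNilpotent F] (σ : F →* (V →ₗ[ZMod p] V)), ¬ p ∣ Nat.card F → RealIn σ ⊤ ⊤)
    (hVexp : ∀ v ∈ V, v ^ p = 1) (hidx : ¬ p ∣ V.index) (hself : Subgroup.centralizer (V : Set X) = V)
    (G : Subgroup X) (hGV : Subgroup.IsComplement' V G) (hnil : Group.IsNilpotent G) :
    Nat.card (ConjClasses X) ≤ Nat.card V := by
  classical
  have hcG : ¬ p ∣ Nat.card G := by
    rw [← hGV.symm.index_eq_card]; exact hidx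
  have htV : ∀ a, t a ∈ V := fun a => (hV _).mpr ⟨a, rfl⟩
  have hex : ∀ (h : G) (a : A), ∃ b, t b = (h : X) * t a * (h : X)⁻¹ := fun h a =>
    (hV _).mp (hVn.conj_mem _ (htV a) _)
  choose c hc using hex
  let σ : G →* (A →ₗ[ZMod p] A) :=
    { toFun := fun h => AddMonoidHom.toZModLinearMap p
        { toFun := c h
          map_zero' := by
            apply hinj
            rw [hc, ht0, mul_one, mul_inv_cancel]
          map_add' := by
            intro x y
            apply hinj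
            rw [hc, ht, ht, hc, hc]
            group }
      map_one' := by
        refine LinearMap.ext (fun x => ?_)
        apply hinj
        change t (c 1 x) = t x
        rw [hc, Subgroup.coe_one]
        group
      map_mul' := by
        intro g h
        refine LinearMap.ext (fun x => ?_)
        apply hinj
        change t (c (g * h) x) = t (c g (c h x))
        rw [hc, hc, hc, Subgroup.coe_mul]
        group }
  have hσ : ∀ (h : G) (x : A), t (σ h x) = (h : X) * t x * (h : X)⁻¹ := fun h x => hc h x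
  haveI := hnil
  obtain ⟨v, -, U, -, β, h1, h2, h3, h4, h5, h6⟩ := hreal A G σ hcG
  have hex2 : ∀ x : X, ∃ a : A, x ∈ V → t a = x := by
    intro x
    by_cases hx : x ∈ V
    · obtain ⟨a, ha⟩ := (hV x).mp hx
      exact ⟨a, fun _ => ha⟩
    · exact ⟨0, fun h => absurd h hx⟩
  choose e he using hex2
  have het : ∀ a, e (t a) = a := fun a => hinj (he _ (htV a))
  have headd : ∀ x ∈ V, ∀ y ∈ V, e (x * y) = e x + e y := by
    intro x hx y hy
    apply hinj
    rw [he _ (V.mul_mem hx hy), ht, he _ hx, he _ hy]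
  have he1 : e 1 = 0 := by rw [← ht0, het]
  have heinv : ∀ x ∈ V, e x⁻¹ = - e x := by
    intro x hx
    rw [eq_neg_iff_add_eq_zero, ← headd _ (V.inv_mem hx) _ hx, inv_mul_cancel, he1]
  have heσ : ∀ h (hh : h ∈ G), ∀ x ∈ V, e (h * x * h⁻¹) = σ ⟨h, hh⟩ (e x) := by
    intro h hh x hx
    apply hinj
    rw [he _ (hVn.conj_mem _ hx _), hσ, he _ hx]
  let U' : Subgroup X :=
    { carrier := {x | x ∈ V ∧ e x ∈ U}
      mul_mem' := by
        rintro a b ⟨ha, ha'⟩ ⟨hb, hb'⟩
        exact ⟨V.mul_mem ha hb, by rw [headd _ ha _ hb]; exact U.add_mem ha' hb'⟩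
      one_mem' := ⟨V.one_mem, by rw [he1]; exact U.zero_mem⟩
      inv_mem' := by
        rintro a ⟨ha, ha'⟩
        exact ⟨V.inv_mem ha, by rw [heinv _ ha]; exact U.neg_mem ha'⟩ }
  have hU' : ∀ x, x ∈ U' ↔ x ∈ V ∧ e x ∈ U := fun x => Iff.rfl
  have hfix : ∀ h (hh : h ∈ G), h * t v * h⁻¹ = t v → σ ⟨h, hh⟩ v = v := by
    intro h hh hv
    apply hinj
    rw [hσ]
    exact hv
  refine Cfsg.Agent.S4959.result p V hVexp hidx hself G hGV (t v) (htV v)
    U' (fun x hx => hx.1) ?_ ?_ (fun x y => β (e x) (e y)) ?_ ?_ ?_ ?_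
  · rintro h hh hv u ⟨hu, hu'⟩
    refine ⟨hVn.conj_mem _ hu _, ?_⟩
    rw [heσ h hh u hu]
    exact h1 ⟨h, hh⟩ trivial (hfix h hh hv) _ hu'
  · intro h hh hv hu
    have h7 : ∀ x ∈ (⊤ : Submodule (ZMod p) A), σ ⟨h, hh⟩ x = x := by
      refine h2 ⟨h, hh⟩ trivial (hfix h hh hv) ?_
      intro u hu'
      apply hinj
      rw [hσ]
      exact hu (t u) ⟨htV u, by rw [het]; exact hu'⟩
    have h9 : h ∈ V := by
      rw [← hself, Subgroup.mem_centralizer_iff]
      intro x hx
      have h10 := congrArg t (h7 (e x) trivial)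
      rw [hσ, he _ hx, mul_inv_eq_iff_eq_mul] at h10
      exact h10.symm
    exact Subgroup.disjoint_def.mp hGV.disjoint h9 hh
  · rintro u ⟨hu, hu1⟩ u' ⟨hu', hu1'⟩ w ⟨hw, hw1⟩
    change β (e (u * u')) (e w) = _
    rw [headd _ hu _ hu']
    exact h3 _ hu1 _ hu1' _ hw1
  · rintro u ⟨hu, hu1⟩ w ⟨hw, hw1⟩ w' ⟨hw', hw1'⟩
    change β (e u) (e (w * w')) = _
    rw [headd _ hw _ hw']
    exact h4 _ hu1 _ hw1 _ hw1'
  · rintro h hh hv u ⟨hu, hu1⟩ w ⟨hw, hw1⟩
    change β (e (h * u * h⁻¹)) (e (h * w * h⁻¹)) = _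
    rw [heσ h hh u hu, heσ h hh w hw]
    exact h5 ⟨h, hh⟩ trivial (hfix h hh hv) _ hu1 _ hw1
  · rintro u ⟨hu, hu1⟩ h7
    have h8 := h6 _ hu1 (fun w hw => by
      have h9 := h7 (t w) ⟨htV w, by rw [het]; exact hw⟩
      change β (e u) (e (t w)) = 0 at h9
      rw [het] at h9
      exact h9)
    rw [← he _ hu, h8, ht0]

/-- (K9) Additive V as a ZMod p - module, σ = conjugation action of G, apply hreal, then S4959.result. -/
theorem knorr {X : Type} [Group X] [Finite X] {p : ℕ} [Fact p.Prime] (V : Subgroup X) [V.Normal]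
    (hreal : ∀ (V : Type) [AddCommGroup V] [Module (ZMod p) V] [Finite V] (F : Type) [Group F] [Finite F]
      [Group.IsNilpotent F] (σ : F →* (V →ₗ[ZMod p] V)), ¬ p ∣ Nat.card F → RealIn σ ⊤ ⊤)
    (hVexp : ∀ v ∈ V, v ^ p = 1) (hidx : ¬ p ∣ V.index) (hself : Subgroup.centralizer (V : Set X) = V)
    (G : Subgroup X) (hGV : Subgroup.IsComplement' V G) (hnil : Group.IsNilpotent G) :
    Nat.card (ConjClasses X) ≤ Nat.card V := by
  have hVc : ∀ a ∈ V, ∀ b ∈ V, a * b = b * a := by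
    intro a ha b hb
    have h1 : b ∈ Subgroup.centralizer (V : Set X) := by rw [hself]; exact hb
    exact Subgroup.mem_centralizer_iff.mp h1 a ha
  letI : CommGroup V := { (inferInstance : Group V) with
    mul_comm := fun a b => Subtype.ext (hVc a a.2 b b.2) }
  letI : Module (ZMod p) (Additive V) := AddCommGroup.zmodModule (n := p) (fun x => by
    have h : (Additive.toMul x) ^ p = 1 := Subtype.ext (hVexp _ (Additive.toMul x).2)
    exact congrArg Additive.ofMul h)
  exact knorr_aux V (A := Additive V) (fun x => ((Additive.toMul x : V) : X)) rfl (fun a b => rfl)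
    (fun a b h => Additive.toMul.injective (Subtype.ext h))
    (fun x => ⟨fun hx => ⟨Additive.ofMul ⟨x, hx⟩, rfl⟩, by rintro ⟨a, rfl⟩; exact (Additive.toMul a).2⟩)
    hreal hVexp hidx hself G hGV hnil

end Cfsg.Agent.H97.SB
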