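import Cfsg.Agent.Wiel.Lift
import Cfsg.Agent.H2.NC.Emb

set_option autoImplicit false

namespace Cfsg.Agent.H97.SB

theorem padic_ne {p : ℕ} [Fact p.Prime] (e : ℤ_[p] →+* ℂ) : Function.Injective e := by
  rw [injective_iff_map_eq_zero]
  intro x hx
  by_contra h0
  have h1 := PadicInt.unitCoeff_spec h0
  rw [h1, map_mul, map_pow, map_natCast] at hx
  rcases mul_eq_zero.1 hx with h | h
  · have h2 : IsUnit (e (PadicInt.unitCoeff h0 : ℤ_[p])) := (PadicInt.unitCoeff h0).isUnit.map e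
    exact h2.ne_zero h
  · have h3 : ((p : ℕ) : ℂ) = 0 := eq_zero_of_pow_eq_zero h
    exact (Fact.out : p.Prime).ne_zero (by exact_mod_cast h3)

variable {p : ℕ} [Fact p.Prime] {H : Type} [Group H] [Finite H] {m : ℕ}

/-- the approximate representations -/
def SS (ρ : H →* Matrix.GeneralLinearGroup (Fin m) (ZMod p)) (k : ℕ) :
    Set (H → Fin m → Fin m → ℤ_[p]) :=
  {f | (∀ g h i j, ‖f (g * h) i j - ∑ l, f g i l * f h l j‖ ≤ (p : ℝ) ^ (-(k + 1 : ℕ) : ℤ)) ∧
    (∀ g i j, PadicInt.toZMod (f g i j) = ρ g i j)}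

omit [Finite H] in
theorem SS_closed (ρ : H →* Matrix.GeneralLinearGroup (Fin m) (ZMod p)) (k : ℕ) : IsClosed (SS ρ k) := by
  have e : SS ρ k = (⋂ g, ⋂ h, ⋂ i, ⋂ j, {f : H → Fin m → Fin m → ℤ_[p] |
      ‖f (g * h) i j - ∑ l, f g i l * f h l j‖ ≤ (p : ℝ) ^ (-(k + 1 : ℕ) : ℤ)}) ∩
      (⋂ g, ⋂ i, ⋂ j, {f : H → Fin m → Fin m → ℤ_[p] | PadicInt.toZMod (f g i j) = ρ g i j}) := by
    ext f; simp [SS]
  rw [e]
  refine IsClosed.inter ?_ ?_
  · refine isClosed_iInter fun g => isClosed_iInter fun h => isClosed_iInter fun i => isClosed_iInter fun j => ?_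
    refine isClosed_le ?_ continuous_const
    fun_prop
  · refine isClosed_iInter fun g => isClosed_iInter fun i => isClosed_iInter fun j => ?_
    obtain ⟨c, hc⟩ : ∃ c : ℤ_[p], PadicInt.toZMod c = ρ g i j := ⟨((ρ g i j).val : ℤ_[p]), by simp⟩
    have e2 : {f : H → Fin m → Fin m → ℤ_[p] | PadicInt.toZMod (f g i j) = ρ g i j} =
        {f : H → Fin m → Fin m → ℤ_[p] | ‖f g i j - c‖ ≤ (p : ℝ) ^ (-(1 : ℕ) : ℤ)} := by
      ext f
      simp only [Set.mem_ofPred_eq]
      rw [PadicInt.norm_le_pow_iff_mem_span_pow, pow_one, ← PadicInt.maximalIdeal_eq_span_p,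
        ← PadicInt.ker_toZMod, RingHom.mem_ker, map_sub, hc, sub_eq_zero]
    rw [e2]
    refine isClosed_le ?_ continuous_const
    fun_prop

omit [Finite H] in
theorem SS_anti (ρ : H →* Matrix.GeneralLinearGroup (Fin m) (ZMod p)) (k : ℕ) : SS ρ (k + 1) ⊆ SS ρ k := by
  rintro f ⟨h1, h2⟩
  refine ⟨fun g h i j => (h1 g h i j).trans ?_, h2⟩
  apply zpow_le_zpow_right₀
  · exact_mod_cast (Fact.out : p.Prime).one_lt.le
  · push_cast; omega

theorem SS_nonempty (hp : ¬ p ∣ Nat.card H) (ρ : H →* Matrix.GeneralLinearGroup (Fin m) (ZMod p)) (k : ℕ) :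
    (SS ρ k).Nonempty := by
  obtain ⟨ρ', hρ'⟩ := Cfsg.Agent.Wiel.exists_lift_GL p (k + 1) (n := Fin m) (A := H) (by omega)
    ((Nat.Prime.coprime_iff_not_dvd Fact.out).2 hp).symm ρ
  have : NeZero (p ^ (k + 1)) := ⟨pow_ne_zero _ (Fact.out : p.Prime).ne_zero⟩
  refine ⟨fun g i j => (((ρ' g i j).val : ℕ) : ℤ_[p]), ?_, ?_⟩
  · intro g h i j
    rw [PadicInt.norm_le_pow_iff_mem_span_pow, ← PadicInt.ker_toZModPow, RingHom.mem_ker]
    rw [map_sub, map_sum, map_natCast, ZMod.natCast_zmod_val, map_mul ρ' g h, sub_eq_zero]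
    simp only [map_mul, map_natCast, ZMod.natCast_zmod_val]
    change ((ρ' g : Matrix (Fin m) (Fin m) (ZMod (p ^ (k + 1)))) * (ρ' h : Matrix (Fin m) (Fin m) (ZMod (p ^ (k + 1))))) i j = _
    rw [Matrix.mul_apply]
  · intro g i j
    have h2 := congrArg (fun g : Matrix.GeneralLinearGroup (Fin m) (ZMod p) => g i j) (hρ' g)
    change Cfsg.Agent.Wiel.red p (k + 1) (by omega) (ρ' g i j) = ρ g i j at h2
    rw [map_natCast, ← h2]
    conv_rhs => rw [← ZMod.natCast_zmod_val (ρ' g i j)]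
    rw [map_natCast]

theorem lift {p : ℕ} [Fact p.Prime] {H : Type} [Group H] [Finite H] (hp : ¬ p ∣ Nat.card H) {m : ℕ}
    (ρ : H →* Matrix.GeneralLinearGroup (Fin m) (ZMod p)) (hρ : Function.Injective ρ) :
    ∃ ρ' : H →* Matrix.GeneralLinearGroup (Fin m) ℂ, Function.Injective ρ' := by
  obtain ⟨f, hf⟩ := IsCompact.nonempty_iInter_of_sequence_nonempty_isCompact_isClosed (SS ρ) (SS_anti ρ)
    (SS_nonempty hp ρ) (SS_closed ρ 0).isCompact (SS_closed ρ)
  rw [Set.mem_iInter] at hf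
  obtain ⟨e⟩ := Cfsg.Agent.H2.NC.nonempty_emb p
  have hmul : ∀ g h i j, f (g * h) i j = ∑ l, f g i l * f h l j := by
    intro g h i j
    rw [← sub_eq_zero, ← norm_le_zero_iff]
    refine ge_of_tendsto' (x := Filter.atTop) (f := fun k : ℕ => (p : ℝ) ^ (-(k + 1 : ℕ) : ℤ)) ?_ (fun k => (hf k).1 g h i j)
    have h1 : Filter.Tendsto (fun n : ℕ => (((p : ℝ)⁻¹) ^ n)) Filter.atTop (nhds 0) := by
      apply tendsto_pow_atTop_nhds_zero_of_lt_one
      · positivity
      · exact inv_lt_one_of_one_lt₀ (by exact_mod_cast (Fact.out : p.Prime).one_lt)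
    have h2 := h1.comp (Filter.tendsto_add_atTop_nat 1)
    refine h2.congr fun k => ?_
    simp only [Function.comp, zpow_neg, zpow_natCast, inv_pow]
  let F : H → Matrix (Fin m) (Fin m) ℤ_[p] := fun g => Matrix.of (f g)
  have hF : ∀ g h, F (g * h) = F g * F h := by
    intro g h; ext i j
    rw [Matrix.mul_apply]; exact hmul g h i j
  have hFr : ∀ g, (F g).map PadicInt.toZMod = (ρ g : Matrix (Fin m) (Fin m) (ZMod p)) := by
    intro g; ext i j
    exact (hf 0).2 g i j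
  -- F 1 is an idempotent that is the identity mod p
  have hF1 : F 1 = 1 := by
    have h1 : F 1 * F 1 = F 1 := by rw [← hF, one_mul]
    have h2 : IsUnit (F 1) := by
      rw [Matrix.isUnit_iff_isUnit_det]
      by_contra h3
      have h4 : (F 1).det ∈ IsLocalRing.maximalIdeal ℤ_[p] := h3
      rw [← PadicInt.ker_toZMod, RingHom.mem_ker, RingHom.map_det] at h4
      have h5 : (PadicInt.toZMod.mapMatrix (F 1)) = (1 : Matrix (Fin m) (Fin m) (ZMod p)) := by
        have := hFr 1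
        rw [map_one] at this
        exact this
      rw [h5, Matrix.det_one] at h4
      exact one_ne_zero h4
    obtain ⟨u, hu⟩ := h2
    rw [← hu] at h1 ⊢
    calc (u : Matrix (Fin m) (Fin m) ℤ_[p]) = ((u⁻¹ : (Matrix (Fin m) (Fin m) ℤ_[p])ˣ) : Matrix (Fin m) (Fin m) ℤ_[p]) * (u * u) := by
          rw [← mul_assoc, Units.inv_mul, one_mul]
      _ = 1 := by rw [h1, Units.inv_mul]
  let Φ : H →* Matrix (Fin m) (Fin m) ℂ := (e.mapMatrix.toMonoidHom).comp ⟨⟨F, hF1⟩, hF⟩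
  refine ⟨Φ.toHomUnits, ?_⟩
  rw [injective_iff_map_eq_one]
  intro g hg
  have h1 : Φ g = 1 := by
    have := congrArg Units.val hg
    simpa using this
  have h2 : F g = 1 := by
    ext i j
    apply padic_ne e
    have h3 := congrFun (congrFun h1 i) j
    change e (F g i j) = _ at h3
    rw [h3, Matrix.one_apply, Matrix.one_apply]
    split_ifs <;> simp
  apply hρ
  rw [map_one]
  apply Units.ext
  rw [← hFr g, h2]
  ext i j
  simp [Matrix.one_apply]

end Cfsg.Agent.H97.SB
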