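import Cfsg.Agent.H97.SBK0
import Cfsg.Agent.H97.SBK9
import Cfsg.Agent.H97.SBL
import Cfsg.Agent.H97.SBG1
import Cfsg.Agent.H97.SBG2
import Cfsg.Agent.H97.SBG3
import Cfsg.Agent.H97.SBB1
import Cfsg.Agent.H97.SBB2
import Cfsg.Agent.H97.KRMain

set_option autoImplicit false

/-!
The number of characters in a block of a solvable group.
-/

universe u

namespace Cfsg.Agent.H97.SB

open Cfsg

theorem knorr_nil {p : ℕ} [Fact p.Prime] (X : Type) [Group X] [Finite X] (V : Subgroup X) [V.Normal]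
    (hVexp : ∀ v ∈ V, v ^ p = 1) (hidx : ¬ p ∣ V.index)
    (hself : Subgroup.centralizer (V : Set X) = V) (G : Subgroup X) (hGV : Subgroup.IsComplement' V G)
    (hnil : Group.IsNilpotent G) : Nat.card (ConjClasses X) ≤ Nat.card V :=
  knorr V (fun V _ _ _ F _ _ _ σ hp => real_vec V F σ hp) hVexp hidx hself G hGV hnil

theorem core_bound' {X : Type} [Group X] [Finite X] [Group.IsSolvable X] {p : ℕ} [Fact p.Prime]
    (hcore : pPrimeCore p X = ⊥) :
    Nat.card (ConjClasses X) ≤ 3 ^ ((Nat.card X).factorization p - 1) * p ^ ((Nat.card X).factorization p) := by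
  refine core_bound ?_ hcore
  intro X _ _ _ V _ hVp hidx hself m hm hm1
  refine norm_bound ?_ V hVp hidx hself hm hm1
  intro X _ _ _ V _ hVexp hidx hself m hm hm1
  exact elem_bound KR.main_bound (fun X _ _ V _ h1 h2 h3 G h4 h5 => knorr_nil X V h1 h2 h3 G h4 h5)
    V hVexp hidx hself hm hm1

theorem final {G : Type u} [Group G] [Finite G] (hsolv : Group.IsSolvable G) (p : ℕ) [Fact p.Prime]
    (M : Ideal AlgInt) (hM : IsPModular p M) (B : Set (IrrCharacter G)) (hB : IsPBlock M B) :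
    Set.ncard B ≤ 3 ^ (blockDefect p B - 1) * p ^ blockDefect p B := by
  obtain ⟨X, _, _, hs, hc, hd, hle⟩ := block_le hsolv p M hM B hB
  rw [← hd]
  exact hle.trans (core_bound' hc)

end Cfsg.Agent.H97.SB
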